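import Mathlib
import Cfsg.Prelude.Def_LieExceptional
import Cfsg.Agent.Lib.Helper6.SzS8

/-!
# Generic group lemmas for the solubilizer computation in the Suzuki groups
-/

set_option autoImplicit false

namespace Cfsg.Agent.Lib.Helper6.SzT1

open scoped Pointwise commutatorElement

section generic

variable {G : Type*} [Group G]

/-- a group whose commutators lie in an abelian subgroup is solvable -/
theorem solvable_of_comm_mem (N A : Subgroup G) (hA : ∀ a ∈ A, ∀ b ∈ A, a * b = b * a)
    (hc : ∀ g ∈ N, ∀ h ∈ N, g * h * g⁻¹ * h⁻¹ ∈ A) : Group.IsSolvable N := by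
  have hK : Group.IsSolvable (A.subgroupOf N) := by
    apply Group.isSolvable_of_comm
    intro a b
    apply Subtype.ext
    apply Subtype.ext
    exact hA a.1.1 a.2 b.1.1 b.2
  refine Group.isSolvable_of_ker_le_range (A.subgroupOf N).subtype
    (Abelianization.of : N →* Abelianization N) ?_
  rw [Abelianization.ker_of, commutator_def, Subgroup.commutator_le]
  intro g _ h _
  rw [Subgroup.range_subtype, Subgroup.mem_subgroupOf]
  exact hc g.1 g.2 h.1 h.2

/-- a subgroup of a solvable subgroup is solvable -/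
theorem solvable_of_le {M N : Subgroup G} (h : M ≤ N) (hN : Group.IsSolvable N) :
    Group.IsSolvable M :=
  Group.isSolvable_of_isSolvable_injective (Subgroup.inclusion_injective h)

theorem closure_pair_le {M : Subgroup G} {x y : G} (hx : x ∈ M) (hy : y ∈ M) :
    Subgroup.closure ({x, y} : Set G) ≤ M := by
  rw [Subgroup.closure_le]
  rintro g (rfl | rfl)
  · exact hx
  · exact hy

/-- solvability of a two-generated subgroup is preserved by isomorphisms -/
theorem solvable_map {G' : Type*} [Group G'] (φ : G ≃* G') (x y : G)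
    (h : Group.IsSolvable (Subgroup.closure ({x, y} : Set G))) :
    Group.IsSolvable (Subgroup.closure ({φ x, φ y} : Set G')) := by
  have e : Subgroup.closure ({φ x, φ y} : Set G') =
      (Subgroup.closure ({x, y} : Set G)).map φ.toMonoidHom := by
    rw [MonoidHom.map_closure]
    congr 1
    simp [Set.image_pair]
  rw [e]
  exact Group.isSolvable_of_surjective (f := (φ.toMonoidHom.subgroupMap _))
    (MonoidHom.subgroupMap_surjective _ _)

/-- the size of the solubilizer is preserved by isomorphisms -/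
theorem card_sol_map {G' : Type*} [Group G'] (φ : G ≃* G') (x : G) :
    Nat.card {y : G // Group.IsSolvable (Subgroup.closure ({x, y} : Set G))} =
      Nat.card {y : G' // Group.IsSolvable (Subgroup.closure ({φ x, y} : Set G'))} := by
  apply Nat.card_congr
  refine Equiv.subtypeEquiv φ.toEquiv ?_
  intro y
  constructor
  · exact solvable_map φ x y
  · intro h
    have := solvable_map φ.symm (φ x) (φ y) h
    rw [MulEquiv.symm_apply_apply, MulEquiv.symm_apply_apply] at this
    exact this

end generic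

section quot4

variable {G : Type*} [Group G] [Finite G] (T : Subgroup G)
  (hcard : Nat.card (Subgroup.normalizer (T : Set G)) = 4 * Nat.card T)

include hcard

theorem index_eq_four :
    (T.subgroupOf (Subgroup.normalizer (T : Set G))).index = 4 := by
  have h1 := Subgroup.card_mul_index (T.subgroupOf (Subgroup.normalizer (T : Set G)))
  have h2 : Nat.card (T.subgroupOf (Subgroup.normalizer (T : Set G))) = Nat.card T :=
    Nat.card_congr (Subgroup.subgroupOfEquivOfLe Subgroup.le_normalizer).toEquiv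
  rw [h2, hcard] at h1
  have hT : 0 < Nat.card T := Nat.card_pos
  nlinarith

theorem pow_four_mem {y : G} (hy : y ∈ Subgroup.normalizer (T : Set G)) : y ^ 4 ∈ T := by
  have hn : (T.subgroupOf (Subgroup.normalizer (T : Set G))).Normal :=
    Subgroup.normal_in_normalizer
  have := Subgroup.pow_index_mem (T.subgroupOf (Subgroup.normalizer (T : Set G)))
    (⟨y, hy⟩ : Subgroup.normalizer (T : Set G))
  rw [index_eq_four T hcard, Subgroup.mem_subgroupOf] at this
  simpa using this

theorem comm_mem {g h : G} (hg : g ∈ Subgroup.normalizer (T : Set G))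
    (hh : h ∈ Subgroup.normalizer (T : Set G)) : g * h * g⁻¹ * h⁻¹ ∈ T := by
  have hn : (T.subgroupOf (Subgroup.normalizer (T : Set G))).Normal :=
    Subgroup.normal_in_normalizer
  have hq : Nat.card ((Subgroup.normalizer (T : Set G)) ⧸
      (T.subgroupOf (Subgroup.normalizer (T : Set G)))) = 2 ^ 2 := by
    rw [← Subgroup.index_eq_card, index_eq_four T hcard]
    norm_num
  have : Fact (Nat.Prime 2) := ⟨Nat.prime_two⟩
  have hcomm := (isMulCommutative_iff.mp (IsPGroup.isMulCommutative_of_card_eq_prime_sq hq))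
  have h1 := hcomm (QuotientGroup.mk (⟨g, hg⟩ : Subgroup.normalizer (T : Set G)))
    (QuotientGroup.mk (⟨h, hh⟩ : Subgroup.normalizer (T : Set G)))
  have h2 : ((⟨g, hg⟩ * ⟨h, hh⟩ * ⟨g, hg⟩⁻¹ * ⟨h, hh⟩⁻¹ : Subgroup.normalizer (T : Set G)) :
      (Subgroup.normalizer (T : Set G)) ⧸ (T.subgroupOf (Subgroup.normalizer (T : Set G)))) = 1 := by
    rw [QuotientGroup.mk_mul, QuotientGroup.mk_mul, QuotientGroup.mk_mul, QuotientGroup.mk_inv,
      QuotientGroup.mk_inv, h1]
    group
  rw [QuotientGroup.eq_one_iff, Subgroup.mem_subgroupOf] at h2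
  simpa using h2

theorem odd_mem {y : G} (hy : y ∈ Subgroup.normalizer (T : Set G)) (ho : Odd (orderOf y)) :
    y ∈ T := by
  have h4 := pow_four_mem T hcard hy
  have hcop : Nat.Coprime 4 (orderOf y) :=
    Nat.Coprime.pow_left 2 (Nat.coprime_two_left.mpr ho)
  have hg := Nat.gcd_eq_gcd_ab 4 (orderOf y)
  rw [hcop] at hg
  have h1 : y ^ (1 : ℤ) = y ^ ((4 : ℤ) * Nat.gcdA 4 (orderOf y) +
      (orderOf y : ℤ) * Nat.gcdB 4 (orderOf y)) := by
    congr 1
  rw [zpow_one, zpow_add, zpow_mul, zpow_mul, zpow_natCast, pow_orderOf_eq_one, one_zpow,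
    mul_one] at h1
  rw [h1]
  have h5 : y ^ (4 : ℤ) ∈ T := by exact_mod_cast h4
  exact zpow_mem h5 _

theorem exists_pow_mul {x y : G} (hx : x ∈ Subgroup.normalizer (T : Set G))
    (hy : y ∈ Subgroup.normalizer (T : Set G)) (hx2 : x ^ 2 ∉ T) :
    ∃ (i : ℕ) (τ : G), τ ∈ T ∧ y = x ^ i * τ := by
  have hn : (T.subgroupOf (Subgroup.normalizer (T : Set G))).Normal :=
    Subgroup.normal_in_normalizer
  have hq : Nat.card ((Subgroup.normalizer (T : Set G)) ⧸
      (T.subgroupOf (Subgroup.normalizer (T : Set G)))) = 4 := by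
    rw [← Subgroup.index_eq_card, index_eq_four T hcard]
  obtain ⟨xb, hxb⟩ : ∃ xb : (Subgroup.normalizer (T : Set G)) ⧸
      (T.subgroupOf (Subgroup.normalizer (T : Set G))),
      xb = QuotientGroup.mk (⟨x, hx⟩ : Subgroup.normalizer (T : Set G)) := ⟨_, rfl⟩
  have ho : orderOf xb = 4 := by
    have hd : orderOf xb ∣ 4 := hq ▸ orderOf_dvd_natCard xb
    have h2 : xb ^ 2 ≠ 1 := by
      intro h
      rw [hxb, ← QuotientGroup.mk_pow, QuotientGroup.eq_one_iff, Subgroup.mem_subgroupOf] at h
      exact hx2 (by simpa using h)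
    have hmem : orderOf xb ∈ Nat.divisors 4 := Nat.mem_divisors.mpr ⟨hd, by norm_num⟩
    have hdiv : Nat.divisors 4 = {1, 2, 4} := by decide
    rw [hdiv] at hmem
    simp only [Finset.mem_insert, Finset.mem_singleton] at hmem
    rcases hmem with h | h | h
    · exfalso
      apply h2
      rw [orderOf_eq_one_iff] at h
      rw [h, one_pow]
    · exfalso
      apply h2
      rw [← h]
      exact pow_orderOf_eq_one xb
    · exact h
  have htop : Subgroup.zpowers xb = ⊤ := by
    apply Subgroup.eq_top_of_card_eq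
    rw [Nat.card_zpowers, ho, hq]
  have hmem : (QuotientGroup.mk (⟨y, hy⟩ : Subgroup.normalizer (T : Set G)) :
      (Subgroup.normalizer (T : Set G)) ⧸
      (T.subgroupOf (Subgroup.normalizer (T : Set G)))) ∈ Subgroup.zpowers xb := by
    rw [htop]
    trivial
  rw [← mem_powers_iff_mem_zpowers] at hmem
  obtain ⟨i, hi⟩ := hmem
  refine ⟨i, (x ^ i)⁻¹ * y, ?_, by group⟩
  have h3 : (QuotientGroup.mk ((⟨x, hx⟩ : Subgroup.normalizer (T : Set G)) ^ i) :
      (Subgroup.normalizer (T : Set G)) ⧸
      (T.subgroupOf (Subgroup.normalizer (T : Set G)))) = QuotientGroup.mk ⟨y, hy⟩ := by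
    rw [QuotientGroup.mk_pow, ← hxb]
    exact hi
  rw [QuotientGroup.eq, Subgroup.mem_subgroupOf] at h3
  simpa using h3

theorem exists_four {t : G} (hodd : Odd (Nat.card T))
    (ht : t ∈ Subgroup.normalizer (T : Set G)) (ht2 : t * t = 1) :
    ∃ Q : Subgroup G, Q ≤ Subgroup.normalizer (T : Set G) ∧ t ∈ Q ∧ Nat.card Q = 4 := by
  have : Fact (Nat.Prime 2) := ⟨Nat.prime_two⟩
  have hp : IsPGroup 2 (Subgroup.zpowers (⟨t, ht⟩ : Subgroup.normalizer (T : Set G))) := by
    rintro ⟨g, hg⟩
    obtain ⟨j, rfl⟩ := Subgroup.mem_zpowers_iff.mp hg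
    refine ⟨1, ?_⟩
    apply Subtype.ext
    apply Subtype.ext
    simp only [pow_one, Subgroup.coe_pow, Subgroup.coe_zpow, Subgroup.coe_one]
    rw [← zpow_natCast, ← zpow_mul, mul_comm, zpow_mul, zpow_natCast, pow_two, ht2, one_zpow]
  obtain ⟨Q, hQ⟩ := hp.exists_le_sylow
  have hQc : Nat.card Q = 4 := by
    rw [Sylow.card_eq_multiplicity, hcard]
    have hT0 : Nat.card T ≠ 0 := Nat.card_pos.ne'
    rw [Nat.factorization_mul (by norm_num) hT0]
    have h4 : (4 : ℕ).factorization 2 = 2 := by
      have : (4 : ℕ) = 2 ^ 2 := by norm_num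
      rw [this, Nat.factorization_pow]
      simp [Nat.Prime.factorization_self Nat.prime_two]
    have hT2 : (Nat.card T).factorization 2 = 0 := by
      apply Nat.factorization_eq_zero_of_not_dvd
      exact Nat.not_even_iff_odd.mpr hodd |> fun h => by rwa [even_iff_two_dvd] at h
    simp [h4, hT2]
  refine ⟨(Q : Subgroup (Subgroup.normalizer (T : Set G))).map
    (Subgroup.normalizer (T : Set G)).subtype, Subgroup.map_subtype_le _, ?_, ?_⟩
  · refine ⟨⟨t, ht⟩, hQ (Subgroup.mem_zpowers _), rfl⟩
  · rw [Subgroup.card_map_of_injective (Subgroup.subtype_injective _)]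
    exact hQc

end quot4

end Cfsg.Agent.Lib.Helper6.SzT1
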