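import Mathlib
import Cfsg.Agent.Lib.Helper6.DE6
import Cfsg.Agent.Lib.Helper6.SzT1

/-!
# Solvable subgroups of `SL(2, F)`, `|F| = 2 ^ p` with `p` prime (helper6)

`sol_iff`: two elements generate a solvable subgroup iff they are simultaneously conjugate into
the upper triangular group or into the normaliser of a torus.
-/

set_option autoImplicit false
set_option linter.unusedSimpArgs false
set_option linter.unusedVariables false
set_option linter.unusedSectionVars false

namespace Cfsg.Agent.Lib.Helper6.DE7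

open Matrix MatrixGroups Cfsg.Agent.Lib.Helper98.SL2Sub Cfsg.Agent.Lib.Helper98.ClassEq
  Cfsg.Agent.Lib.Helper6.DE1 Cfsg.Agent.Lib.Helper6.DE2 Cfsg.Agent.Lib.Helper6.DE3
  Cfsg.Agent.Lib.Helper6.DE4 Cfsg.Agent.Lib.Helper6.DE5 Cfsg.Agent.Lib.Helper6.DE6
  Cfsg.Agent.Lib.Helper6.SzT1
open scoped commutatorElement

section generic
variable {K : Type*} [Group K]

theorem Ng_exp {g y : K} (hy : y ∈ Ng g) :
    ∃ e : ℤ, e * e = 1 ∧ (∀ n : ℤ, y * g ^ n * y⁻¹ = g ^ (e * n)) ∧
      (∀ n : ℤ, y⁻¹ * g ^ n * y = g ^ (e * n)) := by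
  have key : ∃ e : ℤ, e * e = 1 ∧ (∀ n : ℤ, y * g ^ n * y⁻¹ = g ^ (e * n)) := by
    rcases hy with h | h
    · refine ⟨1, by norm_num, fun n => ?_⟩
      rw [← conj_zpow, h, one_mul]
    · refine ⟨-1, by norm_num, fun n => ?_⟩
      rw [← conj_zpow, h, _root_.inv_zpow', neg_one_mul]
  obtain ⟨e, he, h1⟩ := key
  refine ⟨e, he, h1, fun n => ?_⟩
  have h2 := h1 (e * n)
  rw [← mul_assoc, he, one_mul] at h2
  rw [← h2]
  group

/-- commutators of `Ng g` centralise `g` -/
theorem Ng_comm_mem {g a b : K} (ha : a ∈ Ng g) (hb : b ∈ Ng g) :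
    a * b * a⁻¹ * b⁻¹ ∈ Subgroup.centralizer ({g} : Set K) := by
  obtain ⟨ea, hea, ha1, ha2⟩ := Ng_exp ha
  obtain ⟨eb, heb, hb1, hb2⟩ := Ng_exp hb
  rw [Subgroup.mem_centralizer_singleton_iff]
  have h : a * b * a⁻¹ * b⁻¹ * g * (a * b * a⁻¹ * b⁻¹)⁻¹ = g := by
    have e1 : a * b * a⁻¹ * b⁻¹ * g * (a * b * a⁻¹ * b⁻¹)⁻¹ =
        a * (b * (a⁻¹ * (b⁻¹ * g ^ (1 : ℤ) * b) * a) * b⁻¹) * a⁻¹ := by group
    rw [e1, hb2, ha2, hb1, ha1]
    have : ea * (eb * (ea * (eb * 1))) = 1 := by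
      calc ea * (eb * (ea * (eb * 1))) = (ea * ea) * (eb * eb) := by ring
        _ = 1 := by rw [hea, heb]; norm_num
    rw [this, zpow_one]
  exact mul_inv_eq_iff_eq_mul.1 h

theorem solvable_of_conj_le {M N : Subgroup K} (g : K)
    (h : M.map (MulAut.conj g).toMonoidHom ≤ N) (hN : Group.IsSolvable N) :
    Group.IsSolvable M := by
  have h1 : Group.IsSolvable (M.map (MulAut.conj g).toMonoidHom) := solvable_of_le h hN
  exact Group.isSolvable_of_isSolvable_injective
    (f := (Subgroup.equivMapOfInjective M (MulAut.conj g).toMonoidHom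
      (MulAut.conj g).injective).toMonoidHom)
    (Subgroup.equivMapOfInjective M (MulAut.conj g).toMonoidHom
      (MulAut.conj g).injective).injective

theorem solvable_pair {N : Subgroup K} (g x y : K) (hx : g * x * g⁻¹ ∈ N) (hy : g * y * g⁻¹ ∈ N)
    (hN : Group.IsSolvable N) : Group.IsSolvable (Subgroup.closure ({x, y} : Set K)) := by
  refine solvable_of_conj_le g ?_ hN
  rw [Subgroup.map_le_iff_le_comap, Subgroup.closure_le]
  rintro z (rfl | rfl)
  · exact hx
  · exact hy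

theorem eq_top_of_map_conj {M : Subgroup K} (g : K)
    (h : M.map (MulAut.conj g).toMonoidHom = ⊤) : M = ⊤ := by
  rw [eq_top_iff]
  intro x _
  have h1 : g * x * g⁻¹ ∈ M.map (MulAut.conj g).toMonoidHom := by rw [h]; trivial
  rw [mem_conj] at h1
  have e : g⁻¹ * (g * x * g⁻¹) * g = x := by group
  rw [e] at h1
  exact h1

theorem Ng_conj_iff (g x y : K) : g * y * g⁻¹ ∈ Ng (g * x * g⁻¹) ↔ y ∈ Ng x := by
  rw [mem_Ng, mem_Ng]
  have e1 : g * y * g⁻¹ * (g * x * g⁻¹) * (g * y * g⁻¹)⁻¹ = g * (y * x * y⁻¹) * g⁻¹ := by group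
  have e2 : (g * x * g⁻¹)⁻¹ = g * x⁻¹ * g⁻¹ := by group
  rw [e1, e2]
  constructor
  · rintro (h | h)
    · left
      have := congrArg (fun z => g⁻¹ * z * g) h
      simpa [mul_assoc] using this
    · right
      have := congrArg (fun z => g⁻¹ * z * g) h
      simpa [mul_assoc] using this
  · rintro (h | h)
    · left; rw [h]
    · right; rw [h]

end generic

variable {F : Type*} [Field F] [Fintype F] [CharP F 2]

/-- centralisers of non-identity elements are abelian -/
theorem cent_comm {z : SL(2, F)} (hz : z ≠ 1) {a b : SL(2, F)} (ha : a * z = z * a)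
    (hb : b * z = z * b) : a * b = b * a := by
  obtain ⟨h, hh⟩ := exists_conj_cm z hz
  have ha' : (h * a * h⁻¹) * cm (z.1 0 0 + z.1 1 1) = cm (z.1 0 0 + z.1 1 1) * (h * a * h⁻¹) := by
    rw [← hh]
    calc h * a * h⁻¹ * (h * z * h⁻¹) = h * (a * z) * h⁻¹ := by group
      _ = h * (z * a) * h⁻¹ := by rw [ha]
      _ = h * z * h⁻¹ * (h * a * h⁻¹) := by group
  have hb' : (h * b * h⁻¹) * cm (z.1 0 0 + z.1 1 1) = cm (z.1 0 0 + z.1 1 1) * (h * b * h⁻¹) := by
    rw [← hh]
    calc h * b * h⁻¹ * (h * z * h⁻¹) = h * (b * z) * h⁻¹ := by group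
      _ = h * (z * b) * h⁻¹ := by rw [hb]
      _ = h * z * h⁻¹ * (h * b * h⁻¹) := by group
  have hc := cent_cm_comm ha' hb'
  calc a * b = h⁻¹ * ((h * a * h⁻¹) * (h * b * h⁻¹)) * h := by group
    _ = h⁻¹ * ((h * b * h⁻¹) * (h * a * h⁻¹)) * h := by rw [hc]
    _ = b * a := by group

theorem solvable_Ng {z : SL(2, F)} (hz : z ≠ 1) : Group.IsSolvable (Ng z) :=
  solvable_of_comm_mem (Ng z) (Subgroup.centralizer {z})
    (fun a ha b hb => cent_comm hz (Subgroup.mem_centralizer_singleton_iff.1 ha)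
      (Subgroup.mem_centralizer_singleton_iff.1 hb))
    (fun g hg h hh => Ng_comm_mem hg hh)

omit [Fintype F] in
theorem upper_unit {c : SL(2, F)} (h10 : c.1 1 0 = 0) (h00 : c.1 0 0 = 1) : c = u (c.1 0 1) := by
  have hd := detC c
  rw [h10, h00, mul_zero, add_zero, one_mul] at hd
  apply sl2_ext
  · rw [h00, u00]
  · rw [u01]
  · rw [h10, u10]
  · rw [hd, u11]

omit [Fintype F] in
theorem solvable_Bor : Group.IsSolvable (Bor F) := by
  refine solvable_of_comm_mem (Bor F) (Subgroup.centralizer {u (1 : F)}) ?_ ?_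
  · intro a ha b hb
    rw [Subgroup.mem_centralizer_singleton_iff] at ha hb
    rw [cent_u one_ne_zero ha, cent_u one_ne_zero hb, u_mul, u_mul, add_comm]
  · intro g hg h hh
    rw [mem_Bor] at hg hh
    rw [Subgroup.mem_centralizer_singleton_iff]
    have h10 : (g * h * g⁻¹ * h⁻¹).1 1 0 = 0 := by
      simp only [mul00, mul01, mul10, mul11, inv00, inv01, inv10, inv11, hg, hh]
      ring
    have h00 : (g * h * g⁻¹ * h⁻¹).1 0 0 = 1 := by
      simp only [mul00, mul01, mul10, mul11, inv00, inv01, inv10, inv11, hg, hh]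
      have h1 := detC g
      have h2 := detC h
      rw [hg, mul_zero, add_zero] at h1
      rw [hh, mul_zero, add_zero] at h2
      linear_combination (h.1 0 0 * h.1 1 1) * h1 + h2
    rw [upper_unit h10 h00, u_mul, u_mul, add_comm]

omit [CharP F 2] in
theorem exists_ne (h4 : 4 ≤ Fintype.card F) : ∃ a : F, a ≠ 0 ∧ a ≠ 1 := by
  classical
  by_contra hcon
  push_neg at hcon
  have hsub : (Finset.univ : Finset F) ⊆ {0, 1} := by
    intro a _
    by_cases ha : a = 0
    · simp [ha]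
    · simp [hcon a ha]
  have := Finset.card_le_card hsub
  rw [Finset.card_univ] at this
  have h2 : ({0, 1} : Finset F).card ≤ 2 := Finset.card_le_two
  omega

omit [Fintype F] [CharP F 2] in
theorem div_aux (s z : F) (hs : s ≠ 0) : (s + 1) * (z / s) + -(z / s) = z := by
  field_simp
  ring

theorem not_solvable (h4 : 4 ≤ Fintype.card F) : ¬ Group.IsSolvable SL(2, F) := by
  intro hs
  obtain ⟨a, ha0, ha1⟩ := exists_ne h4
  haveI : Nontrivial SL(2, F) := ⟨⟨u 1, 1, u_ne_one one_ne_zero⟩⟩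
  have hlt := Group.IsSolvable.commutator_lt_top_of_nontrivial (G := SL(2, F))
  apply hlt.ne
  have ha2 : a ^ 2 - 1 ≠ 0 := by
    intro h
    apply ha1
    apply eq_one_of_sq
    linear_combination h
  have hai2 : (a⁻¹) ^ 2 - 1 ≠ 0 := by
    intro h
    apply ha1
    have h1 : a⁻¹ = 1 := by
      apply eq_one_of_sq
      linear_combination h
    rw [← inv_inv a, h1, inv_one]
  apply eq_top_of_u_l
  · intro z
    have e : u z = ⁅d a ha0, u (z / (a ^ 2 - 1))⁆ := by
      rw [commutatorElement_def, d_u_d, Cfsg.Agent.Lib.Helper98.SL2Sub.u_inv, u_mul]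
      congr 1
      have h := div_aux (a ^ 2 - 1) z ha2
      rw [sub_add_cancel] at h
      exact h.symm
    rw [e, commutator_def]
    exact Subgroup.commutator_mem_commutator (Subgroup.mem_top _) (Subgroup.mem_top _)
  · intro z
    have e : l z = ⁅d a ha0, l (z / ((a⁻¹) ^ 2 - 1))⁆ := by
      rw [commutatorElement_def, d_l_d', Cfsg.Agent.Lib.Helper98.SL2Sub.l_inv, l_mul]
      congr 1
      have h := div_aux ((a⁻¹) ^ 2 - 1) z hai2
      rw [sub_add_cancel] at h
      exact h.symm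
    rw [e, commutator_def]
    exact Subgroup.commutator_mem_commutator (Subgroup.mem_top _) (Subgroup.mem_top _)

omit [CharP F 2] in
theorem subfield_top_of_card (k : Subfield F) (h : Fintype.card F ≤ Nat.card k) : k = ⊤ := by
  have hbij : Function.Bijective (k.subtype : k → F) :=
    Function.Injective.bijective_of_nat_card_le Subtype.val_injective
      (by rw [Nat.card_eq_fintype_card]; exact h)
  rw [eq_top_iff]
  intro x _
  obtain ⟨y, rfl⟩ := hbij.2 x
  exact y.2

omit [Fintype F] [CharP F 2] in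
theorem Sk_top : Sk (⊤ : Subfield F) = ⊤ := by
  rw [eq_top_iff]
  intro g _
  exact ⟨Subfield.mem_top _, Subfield.mem_top _, Subfield.mem_top _, Subfield.mem_top _⟩

omit [CharP F 2] in
theorem subfield_eq_top {p : ℕ} (hp : p.Prime) (hF : Fintype.card F = 2 ^ p) (k : Subfield F)
    (hk : ∃ b ∈ k, b ≠ 0 ∧ b ≠ 1) : k = ⊤ := by
  obtain ⟨b, hbk, hb0, hb1⟩ := hk
  have hc : Nat.card F = Nat.card k ^ Module.finrank k F := Module.natCard_eq_pow_finrank
  rw [Nat.card_eq_fintype_card, hF] at hc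
  have hd0 : Module.finrank k F ≠ 0 := Module.finrank_pos.ne'
  have hdvd : Nat.card k ∣ 2 ^ p := by
    rw [hc]
    exact dvd_pow_self _ hd0
  obtain ⟨n, -, hn⟩ := (Nat.dvd_prime_pow Nat.prime_two).1 hdvd
  have hk2 : Nat.card k ≠ 2 := by
    intro h2
    obtain ⟨y, -, hy⟩ := (Nat.card_eq_two_iff' (0 : k)).1 h2
    have e1 : (⟨b, hbk⟩ : k) = y := hy _ (fun h => hb0 (congrArg Subtype.val h))
    have e2 : (1 : k) = y := hy _ one_ne_zero
    exact hb1 (congrArg Subtype.val (e1.trans e2.symm))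
  rw [hn, ← pow_mul] at hc
  have hnp : p = n * Module.finrank k F := Nat.pow_right_injective (le_refl 2) hc
  have hndvd : n ∣ p := ⟨_, hnp⟩
  rcases (Nat.dvd_prime hp).1 hndvd with h1 | h1
  · exfalso
    rw [h1, pow_one] at hn
    exact hk2 hn
  · apply subfield_top_of_card
    rw [hF, hn, h1]

/-- a proper subgroup is conjugate into the upper triangular group or the normaliser of a torus -/
theorem proper_cases {p : ℕ} (hp : p.Prime) (hF : Fintype.card F = 2 ^ p)
    (M : Subgroup SL(2, F)) (hM : M ≠ ⊤) :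
    ∃ g : SL(2, F), M.map (MulAut.conj g).toMonoidHom ≤ Bor F ∨
      ∃ t : F, t ≠ 0 ∧ M.map (MulAut.conj g).toMonoidHom ≤ Ng (cm t) := by
  obtain ⟨g, hg⟩ := subgroups M
  refine ⟨g, ?_⟩
  rcases hg with h | h | ⟨k, hk, h⟩
  · exact Or.inl h
  · exact Or.inr h
  · exfalso
    rw [subfield_eq_top hp hF k hk, Sk_top] at h
    exact hM (eq_top_of_map_conj g h)

theorem four_le {p : ℕ} (hp : p.Prime) (hF : Fintype.card F = 2 ^ p) : 4 ≤ Fintype.card F := by
  rw [hF]
  calc 4 = 2 ^ 2 := by norm_num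
    _ ≤ 2 ^ p := Nat.pow_le_pow_right (by norm_num) hp.two_le

theorem sol_iff {p : ℕ} (hp : p.Prime) (hF : Fintype.card F = 2 ^ p) (x y : SL(2, F)) :
    Group.IsSolvable (Subgroup.closure ({x, y} : Set SL(2, F))) ↔
      ∃ g : SL(2, F), (g * x * g⁻¹ ∈ Bor F ∧ g * y * g⁻¹ ∈ Bor F) ∨
        ∃ t : F, t ≠ 0 ∧ g * x * g⁻¹ ∈ Ng (cm t) ∧ g * y * g⁻¹ ∈ Ng (cm t) := by
  have hxm : x ∈ Subgroup.closure ({x, y} : Set SL(2, F)) :=
    Subgroup.subset_closure (Set.mem_insert _ _)
  have hym : y ∈ Subgroup.closure ({x, y} : Set SL(2, F)) :=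
    Subgroup.subset_closure (Set.mem_insert_of_mem _ rfl)
  constructor
  · intro hs
    have hne : Subgroup.closure ({x, y} : Set SL(2, F)) ≠ ⊤ := by
      intro htop
      rw [htop] at hs
      apply not_solvable (four_le hp hF)
      exact Group.isSolvable_of_surjective (f := (Subgroup.topEquiv (G := SL(2, F))).toMonoidHom)
        (Subgroup.topEquiv (G := SL(2, F))).surjective
    obtain ⟨g, hg⟩ := proper_cases hp hF _ hne
    refine ⟨g, ?_⟩
    rcases hg with h | ⟨t, ht, h⟩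
    · left
      exact ⟨h (conj_mem_conj _ g x hxm), h (conj_mem_conj _ g y hym)⟩
    · right
      exact ⟨t, ht, h (conj_mem_conj _ g x hxm), h (conj_mem_conj _ g y hym)⟩
  · rintro ⟨g, ⟨hx, hy⟩ | ⟨t, ht, hx, hy⟩⟩
    · exact solvable_pair g x y hx hy solvable_Bor
    · exact solvable_pair g x y hx hy (solvable_Ng (cm_ne_one t))

end Cfsg.Agent.Lib.Helper6.DE7
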