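import Mathlib
import Cfsg.Agent.Lib.Helper6.DE7

/-!
# Solubilizers in `SL(2, F)`, `|F| = 2 ^ p` with `p` prime: characterisation (helper6)

For `x = u 1` (involution), `x = d r` (split torus element) and `x = cm t` (non-split torus
element) we determine the set of `y` with `⟨x, y⟩` solvable.
-/

set_option autoImplicit false
set_option linter.unusedSimpArgs false
set_option linter.unusedVariables false
set_option linter.unusedSectionVars false

namespace Cfsg.Agent.Lib.Helper6.DE8

open Matrix MatrixGroups Cfsg.Agent.Lib.Helper98.SL2Sub Cfsg.Agent.Lib.Helper98.ClassEq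
  Cfsg.Agent.Lib.Helper6.DE1 Cfsg.Agent.Lib.Helper6.DE2 Cfsg.Agent.Lib.Helper6.DE3
  Cfsg.Agent.Lib.Helper6.DE4 Cfsg.Agent.Lib.Helper6.DE5 Cfsg.Agent.Lib.Helper6.DE6
  Cfsg.Agent.Lib.Helper6.DE7 Cfsg.Agent.Lib.Helper6.SzT1

variable {F : Type*} [Field F] [Fintype F] [CharP F 2]

omit [Fintype F] in
/-- elements of `Ng (cm t)` outside the centraliser are involutions inverting the centraliser -/
theorem Ng_cm_outer {t : F} {y : SL(2, F)} (hy : y ∈ Ng (cm t))
    (hyc : ¬ (y * cm t = cm t * y)) :
    y * y = 1 ∧ ∀ x : SL(2, F), x * cm t = cm t * x → y * x * y⁻¹ = x⁻¹ := by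
  have hy' : y * cm t * y⁻¹ = (cm t)⁻¹ := by
    rcases hy with h | h
    · exact absurd (mul_inv_eq_iff_eq_mul.1 h) hyc
    · exact h
  have hl : l t * cm t * (l t)⁻¹ = (cm t)⁻¹ := l_conj_cent rfl
  have hc : (l t * y) * cm t = cm t * (l t * y) := by
    have : (l t * y) * cm t * (l t * y)⁻¹ = cm t := by
      calc (l t * y) * cm t * (l t * y)⁻¹ = l t * (y * cm t * y⁻¹) * (l t)⁻¹ := by group
        _ = (l t * cm t * (l t)⁻¹)⁻¹ := by rw [hy']; group
        _ = cm t := by rw [hl, inv_inv]
    exact mul_inv_eq_iff_eq_mul.1 this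
  have hyl : y = l t * (l t * y) := by rw [← mul_assoc, l_mul_self, one_mul]
  have hcl := l_conj_cent hc
  constructor
  · have h1 : l t * (l t * y) = (l t * y)⁻¹ * l t := by rw [← hcl]; group
    calc y * y = (l t * (l t * y)) * y := by rw [← hyl]
      _ = (l t * y)⁻¹ * l t * y := by rw [h1]
      _ = 1 := by group
  · intro x hx
    have hxc := cent_cm_comm hc hx
    have hxl := l_conj_cent hx
    rw [l_inv'] at hxl
    calc y * x * y⁻¹ = (l t)⁻¹ * ((l t * y) * x) * y⁻¹ := by group
      _ = (l t)⁻¹ * (x * (l t * y)) * y⁻¹ := by rw [hxc]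
      _ = (l t)⁻¹ * x * l t := by group
      _ = x⁻¹ := by rw [l_inv']; exact hxl

omit [Fintype F] in
/-- two elements of `Ng (cm t)`, the first not an involution: the second normalises the first -/
theorem mem_Ng_of_mem {t : F} {x y : SL(2, F)} (hx : x ∈ Ng (cm t)) (hy : y ∈ Ng (cm t))
    (hxx : x * x ≠ 1) : y ∈ Ng x := by
  have hxc : x * cm t = cm t * x := by
    by_contra h
    exact hxx (Ng_cm_outer hx h).1
  by_cases hyc : y * cm t = cm t * y
  · left
    rw [cent_cm_comm hyc hxc, mul_inv_cancel_right]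
  · right
    exact (Ng_cm_outer hy hyc).2 x hxc

theorem invol_mem_Ng {K : Type*} [Group K] {s t : K} (hs : s * s = 1) (ht : t * t = 1) :
    s ∈ Ng (s * t) ∧ t ∈ Ng (s * t) := by
  have hsi : s⁻¹ = s := inv_eq_of_mul_eq_one_right hs
  have hti : t⁻¹ = t := inv_eq_of_mul_eq_one_right ht
  constructor
  · right
    rw [_root_.mul_inv_rev, hsi, hti, ← mul_assoc, hs, one_mul]
  · right
    rw [_root_.mul_inv_rev, hsi, hti, mul_assoc, mul_assoc, ht, mul_one]

/-- two involutions generate a solvable subgroup -/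
theorem invol_pair {s t : SL(2, F)} (hs : s * s = 1) (ht : t * t = 1) :
    Group.IsSolvable (Subgroup.closure ({s, t} : Set SL(2, F))) := by
  by_cases hst : s * t = 1
  · have hti : t = s := by
      have h1 : s⁻¹ = s := inv_eq_of_mul_eq_one_right hs
      rw [← h1]
      exact (inv_eq_of_mul_eq_one_right hst).symm
    by_cases hs1 : s = 1
    · refine solvable_of_le (closure_pair_le (M := Ng (u (1 : F))) ?_ ?_)
        (solvable_Ng (u_ne_one one_ne_zero))
      · rw [hs1]; exact Subgroup.one_mem _
      · rw [hti, hs1]; exact Subgroup.one_mem _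
    · have hsN : s ∈ Ng s := by
        left
        rw [mul_inv_cancel_right]
      refine solvable_of_le (closure_pair_le (M := Ng s) hsN ?_) (solvable_Ng hs1)
      rw [hti]
      exact hsN
  · obtain ⟨h1, h2⟩ := invol_mem_Ng hs ht
    exact solvable_of_le (closure_pair_le h1 h2) (solvable_Ng hst)

omit [Fintype F] in
theorem conj_mul_self {g x : SL(2, F)} (h : (g * x * g⁻¹) * (g * x * g⁻¹) = 1) : x * x = 1 := by
  calc x * x = g⁻¹ * ((g * x * g⁻¹) * (g * x * g⁻¹)) * g := by group
    _ = 1 := by rw [h]; group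

omit [Fintype F] in
theorem mem_Bor_of_conj {g y : SL(2, F)} (hg : g ∈ Bor F) (hy : g * y * g⁻¹ ∈ Bor F) :
    y ∈ Bor F := by
  have e : y = g⁻¹ * (g * y * g⁻¹) * g := by group
  rw [e]
  exact (Bor F).mul_mem ((Bor F).mul_mem ((Bor F).inv_mem hg) hy) hg

/-- the solubilizer of the involution `u 1` -/
theorem sol_u_one {p : ℕ} (hp : p.Prime) (hF : Fintype.card F = 2 ^ p) (y : SL(2, F)) :
    Group.IsSolvable (Subgroup.closure ({u (1 : F), y} : Set SL(2, F))) ↔
      (y.1 1 0 = 0 ∨ y.1 0 0 = y.1 1 1 ∨ y.1 1 0 = y.1 0 0 + y.1 1 1) := by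
  constructor
  · intro hs
    obtain ⟨g, ⟨hx, hy⟩ | ⟨t, ht, hx, hy⟩⟩ := (sol_iff hp hF _ _).1 hs
    · left
      rw [mem_Bor] at hx
      have hg : g.1 1 0 = 0 := by
        simp only [mul00, mul01, mul10, mul11, inv00, inv01, inv10, inv11, u00, u01, u10,
          u11] at hx
        have h1 : g.1 1 0 * g.1 1 0 = 0 := by linear_combination (-1 : F) * hx
        exact mul_self_eq_zero.1 h1
      exact mem_Bor_of_conj hg hy
    · right
      have hxx : (g * u (1 : F) * g⁻¹) * (g * u 1 * g⁻¹) = 1 := by
        calc (g * u (1 : F) * g⁻¹) * (g * u 1 * g⁻¹) = g * (u 1 * u 1) * g⁻¹ := by group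
          _ = 1 := by rw [u_mul_self]; group
      have hx1 : g * u (1 : F) * g⁻¹ ≠ 1 := by
        intro h
        apply u_ne_one (one_ne_zero (α := F))
        calc u (1 : F) = g⁻¹ * (g * u 1 * g⁻¹) * g := by group
          _ = 1 := by rw [h]; group
      have hxc : ¬ ((g * u (1 : F) * g⁻¹) * cm t = cm t * (g * u 1 * g⁻¹)) := by
        intro hc
        obtain ⟨h1, h2⟩ := (comm_cm_iff t _).1 hc
        have h3 := (DE1.mul_self_eq_one_iff _).1 hxx
        have h4 := lower_ne_zero_of_cent hc hx1
        have h5 : t * (g * u (1 : F) * g⁻¹).1 1 0 = 0 := by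
          linear_combination (-1 : F) * h2 - h3
        rcases mul_eq_zero.1 h5 with h6 | h6
        · exact ht h6
        · exact h4 h6
      by_cases hyc : (g * y * g⁻¹) * cm t = cm t * (g * y * g⁻¹)
      · right
        have hprod : (g * u (1 : F) * g⁻¹) * (g * y * g⁻¹) ∈ Ng (cm t) :=
          (Ng (cm t)).mul_mem hx hy
        have hpc : ¬ ((g * u (1 : F) * g⁻¹) * (g * y * g⁻¹) * cm t =
            cm t * ((g * u (1 : F) * g⁻¹) * (g * y * g⁻¹))) := by
          intro hc
          apply hxc
          have e : g * u (1 : F) * g⁻¹ =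
              (g * u (1 : F) * g⁻¹) * (g * y * g⁻¹) * (g * y * g⁻¹)⁻¹ := by group
          have hyc' : (g * y * g⁻¹)⁻¹ * cm t = cm t * (g * y * g⁻¹)⁻¹ := by
            have : cm t = (g * y * g⁻¹)⁻¹ * cm t * (g * y * g⁻¹) := by
              rw [mul_assoc, ← hyc, ← mul_assoc, inv_mul_cancel, one_mul]
            calc (g * y * g⁻¹)⁻¹ * cm t
                = (g * y * g⁻¹)⁻¹ * cm t * (g * y * g⁻¹) * (g * y * g⁻¹)⁻¹ := by group
              _ = cm t * (g * y * g⁻¹)⁻¹ := by rw [← this]
          calc g * u (1 : F) * g⁻¹ * cm t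
              = (g * u (1 : F) * g⁻¹) * (g * y * g⁻¹) * ((g * y * g⁻¹)⁻¹ * cm t) := by group
            _ = ((g * u (1 : F) * g⁻¹) * (g * y * g⁻¹) * cm t) * (g * y * g⁻¹)⁻¹ := by
                rw [hyc']; group
            _ = cm t * (g * u (1 : F) * g⁻¹) := by rw [hc]; group
        have hsq := (Ng_cm_outer hprod hpc).1
        have e2 : (g * u (1 : F) * g⁻¹) * (g * y * g⁻¹) = g * (u 1 * y) * g⁻¹ := by group
        rw [e2] at hsq
        have hsq' := conj_mul_self hsq
        have h3 := (DE1.mul_self_eq_one_iff _).1 hsq'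
        simp only [mul00, mul01, mul10, mul11, u00, u01, u10, u11] at h3
        linear_combination h3 - y.1 0 0 * (two0 (F := F))
      · left
        have hsq := (Ng_cm_outer hy hyc).1
        exact (DE1.mul_self_eq_one_iff _).1 (conj_mul_self hsq)
  · rintro (h | h | h)
    · refine solvable_of_le (closure_pair_le (M := Bor F) ?_ ?_) solvable_Bor
      · rw [mem_Bor, u10]
      · exact h
    · exact invol_pair (u_mul_self 1) ((DE1.mul_self_eq_one_iff y).2 h)
    · have hinv : (u (1 : F) * y) * (u 1 * y) = 1 := by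
        rw [DE1.mul_self_eq_one_iff]
        simp only [mul00, mul01, mul10, mul11, u00, u01, u10, u11]
        linear_combination h + y.1 0 0 * (two0 (F := F))
      have hs := invol_pair (u_mul_self (1 : F)) hinv
      refine solvable_of_le (closure_pair_le ?_ ?_) hs
      · exact Subgroup.subset_closure (Set.mem_insert _ _)
      · have hmem : (u (1 : F))⁻¹ * (u 1 * y) ∈
            Subgroup.closure ({u (1 : F), u 1 * y} : Set SL(2, F)) :=
          Subgroup.mul_mem _
            (Subgroup.inv_mem _ (Subgroup.subset_closure (Set.mem_insert _ _)))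
            (Subgroup.subset_closure (Set.mem_insert_of_mem _ rfl))
        rwa [inv_mul_cancel_left] at hmem

/-- the solubilizer of the split torus element `d r` -/
theorem sol_d {p : ℕ} (hp : p.Prime) (hF : Fintype.card F = 2 ^ p) (r : F) (hr0 : r ≠ 0)
    (hr1 : r ≠ 1) (y : SL(2, F)) :
    Group.IsSolvable (Subgroup.closure ({d r hr0, y} : Set SL(2, F))) ↔
      (y.1 1 0 = 0 ∨ y.1 0 1 = 0 ∨ (y.1 0 0 = 0 ∧ y.1 1 1 = 0)) := by
  have hrr : r - r⁻¹ ≠ 0 := by
    intro h
    apply hr1
    apply eq_one_of_sq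
    have h1 : r = r⁻¹ := sub_eq_zero.1 h
    calc r * r = r * r⁻¹ := by rw [← h1]
      _ = 1 := mul_inv_cancel₀ hr0
  have hDD : d r hr0 * d r hr0 ≠ 1 := by
    intro h
    have h1 := (DE1.mul_self_eq_one_iff _).1 h
    rw [d00, d11] at h1
    exact hrr (sub_eq_zero.2 h1)
  have hD1 : d r hr0 ≠ 1 := by
    intro h
    have := congrArg (fun g : SL(2, F) => g.1 0 0) h
    simp only [d00, one00] at this
    exact hr1 this
  constructor
  · intro hs
    obtain ⟨g, ⟨hx, hy⟩ | ⟨t, ht, hx, hy⟩⟩ := (sol_iff hp hF _ _).1 hs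
    · rw [mem_Bor] at hx hy
      simp only [mul00, mul01, mul10, mul11, inv00, inv01, inv10, inv11, d00, d01, d10,
        d11] at hx
      have h1 : g.1 1 0 * g.1 1 1 * (r - r⁻¹) = 0 := by linear_combination hx
      rcases mul_eq_zero.1 h1 with h2 | h2
      · rcases mul_eq_zero.1 h2 with h3 | h3
        · left
          exact mem_Bor_of_conj h3 hy
        · right; left
          simp only [mul00, mul01, mul10, mul11, inv00, inv01, inv10, inv11, h3] at hy
          have hd := detC g
          rw [h3, mul_zero, zero_add] at hd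
          have hg10 : g.1 1 0 ≠ 0 := by
            intro h0
            rw [h0, mul_zero] at hd
            exact zero_ne_one hd
          have h4 : g.1 1 0 * g.1 1 0 * y.1 0 1 = 0 := by linear_combination (-1 : F) * hy
          rcases mul_eq_zero.1 h4 with h5 | h5
          · rcases mul_eq_zero.1 h5 with h6 | h6 <;> exact absurd h6 hg10
          · exact h5
      · exact absurd h2 hrr
    · have hxx : (g * d r hr0 * g⁻¹) * (g * d r hr0 * g⁻¹) ≠ 1 := fun h => hDD (conj_mul_self h)
      have hN := mem_Ng_of_mem hx hy hxx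
      rw [Ng_conj_iff] at hN
      rcases hN with h | h
      · right; left
        have h1 : y * d r hr0 = d r hr0 * y := mul_inv_eq_iff_eq_mul.1 h
        have h2 := congrArg (fun g : SL(2, F) => g.1 0 1) h1
        simp only [mul00, mul01, mul10, mul11, d00, d01, d10, d11] at h2
        have h3 : y.1 0 1 * (r - r⁻¹) = 0 := by linear_combination (-1 : F) * h2
        exact (mul_eq_zero.1 h3).resolve_right hrr
      · right; right
        have h1 : y * d r hr0 = (d r hr0)⁻¹ * y := mul_inv_eq_iff_eq_mul.1 h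
        have h2 := congrArg (fun g : SL(2, F) => g.1 0 0) h1
        have h3 := congrArg (fun g : SL(2, F) => g.1 1 1) h1
        simp only [mul00, mul01, mul10, mul11, inv00, inv01, inv10, inv11, d00, d01, d10,
          d11] at h2 h3
        constructor
        · have h4 : y.1 0 0 * (r - r⁻¹) = 0 := by linear_combination h2
          exact (mul_eq_zero.1 h4).resolve_right hrr
        · have h4 : y.1 1 1 * (r - r⁻¹) = 0 := by linear_combination (-1 : F) * h3
          exact (mul_eq_zero.1 h4).resolve_right hrr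
  · rintro (h | h | ⟨h, h'⟩)
    · refine solvable_of_le (closure_pair_le (M := Bor F) ?_ ?_) solvable_Bor
      · rw [mem_Bor, d10]
      · exact h
    · refine solvable_pair (N := Bor F) w _ _ ?_ ?_ solvable_Bor
      · rw [mem_Bor]
        simp only [mul00, mul01, mul10, mul11, inv00, inv01, inv10, inv11, d00, d01, d10,
          d11, w00, w01, w10, w11]
        ring
      · rw [mem_Bor]
        simp only [mul00, mul01, mul10, mul11, inv00, inv01, inv10, inv11, w00, w01, w10,
          w11, h]
        ring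
    · have hDN : d r hr0 ∈ Ng (d r hr0) := by
        left
        rw [mul_inv_cancel_right]
      have hyN : y ∈ Ng (d r hr0) := by
        right
        rw [mul_inv_eq_iff_eq_mul]
        apply sl2_ext <;> simp only [mul00, mul01, mul10, mul11, inv00, inv01, inv10, inv11,
          d00, d01, d10, d11, h, h'] <;> ring
      exact solvable_of_le (closure_pair_le hDN hyN) (solvable_Ng hD1)

/-- the solubilizer of the non-split torus element `cm t` -/
theorem sol_cm {p : ℕ} (hp : p.Prime) (hF : Fintype.card F = 2 ^ p) (t : F)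
    (hns : ∀ r : F, r ^ 2 + t * r + 1 ≠ 0) (y : SL(2, F)) :
    Group.IsSolvable (Subgroup.closure ({cm t, y} : Set SL(2, F))) ↔ y ∈ Ng (cm t) := by
  have ht : t ≠ 0 := by
    intro h
    apply hns 1
    rw [h]
    linear_combination (two0 (F := F))
  have hcc : cm t * cm t ≠ 1 := by
    intro h
    have h1 := (DE1.mul_self_eq_one_iff _).1 h
    rw [cm00, cm11] at h1
    exact ht h1.symm
  constructor
  · intro hs
    obtain ⟨g, ⟨hx, hy⟩ | ⟨t', ht', hx, hy⟩⟩ := (sol_iff hp hF _ _).1 hs
    · exfalso
      rw [mem_Bor] at hx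
      have htr := DE1.trace_conj g (cm t)
      rw [cm00, cm11, zero_add] at htr
      have hd := detC (g * cm t * g⁻¹)
      rw [hx, mul_zero, add_zero] at hd
      apply hns ((g * cm t * g⁻¹).1 0 0)
      linear_combination (-((g * cm t * g⁻¹).1 0 0)) * htr + hd +
        ((g * cm t * g⁻¹).1 0 0 ^ 2 + 1) * (two0 (F := F))
    · have hxx : (g * cm t * g⁻¹) * (g * cm t * g⁻¹) ≠ 1 := fun h => hcc (conj_mul_self h)
      have hN := mem_Ng_of_mem hx hy hxx
      rw [Ng_conj_iff] at hN
      exact hN
  · intro hy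
    have hcN : cm t ∈ Ng (cm t) := by
      left
      rw [mul_inv_cancel_right]
    exact solvable_of_le (closure_pair_le hcN hy) (solvable_Ng (cm_ne_one t))

end Cfsg.Agent.Lib.Helper6.DE8
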