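import Mathlib
import Cfsg.Agent.Lib.Helper6.DE8

/-!
# Solubilizers in `PSL(2, F)`, `|F| = 2 ^ p` with `p` prime: cardinalities (helper6)

`psl_sol`: the solubilizer of an involution has `3 q (q - 1)` elements, that of a split torus
element `2 q (q - 1)`, that of a non-split torus element `2 (q + 1)`.
-/

set_option autoImplicit false
set_option linter.unusedSimpArgs false
set_option linter.unusedVariables false
set_option linter.unusedSectionVars false

namespace Cfsg.Agent.Lib.Helper6.DE9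

open Matrix MatrixGroups Cfsg.Agent.Lib.Helper98.SL2Sub Cfsg.Agent.Lib.Helper98.ClassEq
  Cfsg.Agent.Lib.Helper6.DE1 Cfsg.Agent.Lib.Helper6.DE2 Cfsg.Agent.Lib.Helper6.DE3
  Cfsg.Agent.Lib.Helper6.DE4 Cfsg.Agent.Lib.Helper6.DE5 Cfsg.Agent.Lib.Helper6.DE6
  Cfsg.Agent.Lib.Helper6.DE7 Cfsg.Agent.Lib.Helper6.DE8 Cfsg.Agent.Lib.Helper6.SzT1

section generic

theorem card_or {α : Type*} [Finite α] (P Q : α → Prop) (hPQ : ∀ a, P a → ¬ Q a) :
    Nat.card {a // P a ∨ Q a} = Nat.card {a // P a} + Nat.card {a // Q a} := by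
  have h1 : Nat.card {a // P a ∨ Q a} = Set.ncard ({a | P a} ∪ {a | Q a}) :=
    Nat.card_coe_set_eq _
  have h2 : Nat.card {a // P a} = Set.ncard {a | P a} := Nat.card_coe_set_eq _
  have h3 : Nat.card {a // Q a} = Set.ncard {a | Q a} := Nat.card_coe_set_eq _
  rw [h1, h2, h3]
  exact Set.ncard_union_eq (Set.disjoint_left.2 (fun a ha hb => hPQ a ha hb)) (Set.toFinite _)
    (Set.toFinite _)

theorem card_or3 {α : Type*} [Finite α] (P Q R : α → Prop) (hPQ : ∀ a, P a → ¬ Q a)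
    (hPR : ∀ a, P a → ¬ R a) (hQR : ∀ a, Q a → ¬ R a) :
    Nat.card {a // P a ∨ Q a ∨ R a} =
      Nat.card {a // P a} + Nat.card {a // Q a} + Nat.card {a // R a} := by
  rw [card_or P (fun a => Q a ∨ R a) (fun a ha hb => hb.elim (hPQ a ha) (hPR a ha)),
    card_or Q R hQR, add_assoc]

theorem not_invol {G : Type*} [Group G] {x : G} (hx1 : x ≠ 1) {m : ℕ} (hd : orderOf x ∣ m)
    (hm : Odd m) : x * x ≠ 1 := by
  intro h
  apply hx1
  have h2 : orderOf x ∣ 2 := orderOf_dvd_of_pow_eq_one (by rw [pow_two]; exact h)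
  have h3 : orderOf x ∣ Nat.gcd 2 m := Nat.dvd_gcd h2 hd
  have h4 : Nat.gcd 2 m = 1 := Nat.coprime_two_left.2 hm
  rw [h4] at h3
  exact orderOf_eq_one_iff.1 (Nat.dvd_one.1 h3)

theorem mul_self_of_pows {G : Type*} [Group G] {z : G} {q : ℕ} (hq : 1 ≤ q)
    (h1 : z ^ (q - 1) = 1) (h2 : z ^ (q + 1) = 1) : z * z = 1 := by
  have e : q + 1 = (q - 1) + 2 := by omega
  rw [e, pow_add, h1, one_mul, pow_two] at h2
  exact h2

end generic

variable {F : Type*} [Field F] [Fintype F] [CharP F 2]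

/-- matrices with non-zero lower left entry and prescribed lower right entry -/
theorem card_lower (f : F → F → F) :
    Nat.card {y : SL(2, F) // y.1 1 0 ≠ 0 ∧ y.1 1 1 = f (y.1 0 0) (y.1 1 0)} =
      Fintype.card F * (Fintype.card F - 1) := by
  classical
  let e : {y : SL(2, F) // y.1 1 0 ≠ 0 ∧ y.1 1 1 = f (y.1 0 0) (y.1 1 0)} ≃ F × Fˣ :=
    { toFun := fun y => (y.1.1 0 0, Units.mk0 (y.1.1 1 0) y.2.1)
      invFun := fun q => ⟨mk4 q.1 ((q.1 * f q.1 (q.2 : F) + 1) / (q.2 : F)) (q.2 : F)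
        (f q.1 (q.2 : F)) (by
          rw [div_mul_cancel₀ _ q.2.ne_zero]
          linear_combination (q.1 * f q.1 (q.2 : F)) * two0 (F := F)), ⟨q.2.ne_zero, rfl⟩⟩
      left_inv := by
        rintro ⟨y, hy0, hy1⟩
        apply Subtype.ext
        apply sl2_ext
        · rfl
        · show (y.1 0 0 * f (y.1 0 0) (y.1 1 0) + 1) / y.1 1 0 = y.1 0 1
          have hd := detC y
          rw [← hy1, div_eq_iff hy0]
          linear_combination hd + (1 - y.1 0 1 * y.1 1 0) * two0 (F := F)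
        · rfl
        · exact hy1.symm
      right_inv := by
        rintro ⟨a, c⟩
        apply Prod.ext
        · rfl
        · apply Units.ext
          rfl }
  rw [Nat.card_congr e, Nat.card_prod, Nat.card_units, Nat.card_eq_fintype_card]

theorem card_lower_diag :
    Nat.card {y : SL(2, F) // y.1 1 0 ≠ 0 ∧ y.1 0 1 = 0} =
      (Fintype.card F - 1) * (Fintype.card F - 1) := by
  classical
  have h00 : ∀ y : {y : SL(2, F) // y.1 1 0 ≠ 0 ∧ y.1 0 1 = 0}, y.1.1 0 0 ≠ 0 := by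
    rintro ⟨y, hy0, hy1⟩ h0
    have hd := detC y
    rw [hy1, zero_mul, add_zero] at hd
    have h0' : y.1 0 0 = 0 := h0
    rw [h0', zero_mul] at hd
    exact zero_ne_one hd
  let e : {y : SL(2, F) // y.1 1 0 ≠ 0 ∧ y.1 0 1 = 0} ≃ Fˣ × Fˣ :=
    { toFun := fun y => (Units.mk0 (y.1.1 0 0) (h00 y), Units.mk0 (y.1.1 1 0) y.2.1)
      invFun := fun q => ⟨mk4 (q.1 : F) 0 (q.2 : F) ((q.1 : F)⁻¹) (by
          rw [zero_mul, add_zero, mul_inv_cancel₀ q.1.ne_zero]), ⟨q.2.ne_zero, rfl⟩⟩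
      left_inv := by
        rintro ⟨y, hy0, hy1⟩
        apply Subtype.ext
        apply sl2_ext
        · rfl
        · exact hy1.symm
        · rfl
        · show (y.1 0 0)⁻¹ = y.1 1 1
          have hd := detC y
          rw [hy1, zero_mul, add_zero] at hd
          exact inv_eq_of_mul_eq_one_right hd
      right_inv := by
        rintro ⟨a, c⟩
        apply Prod.ext
        · apply Units.ext
          rfl
        · apply Units.ext
          rfl }
  rw [Nat.card_congr e, Nat.card_prod, Nat.card_units, Nat.card_eq_fintype_card]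

theorem card_anti :
    Nat.card {y : SL(2, F) // y.1 0 0 = 0 ∧ y.1 1 1 = 0} = Fintype.card F - 1 := by
  classical
  have h10 : ∀ y : {y : SL(2, F) // y.1 0 0 = 0 ∧ y.1 1 1 = 0}, y.1.1 1 0 ≠ 0 := by
    rintro ⟨y, hy0, hy1⟩ h0
    have hd := detC y
    have h0' : y.1 1 0 = 0 := h0
    rw [hy0, h0', zero_mul, mul_zero, add_zero] at hd
    exact zero_ne_one hd
  let e : {y : SL(2, F) // y.1 0 0 = 0 ∧ y.1 1 1 = 0} ≃ Fˣ :=
    { toFun := fun y => Units.mk0 (y.1.1 1 0) (h10 y)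
      invFun := fun c => ⟨mk4 0 ((c : F)⁻¹) (c : F) 0 (by
          rw [zero_mul, zero_add, inv_mul_cancel₀ c.ne_zero]), ⟨rfl, rfl⟩⟩
      left_inv := by
        rintro ⟨y, hy0, hy1⟩
        apply Subtype.ext
        apply sl2_ext
        · exact hy0.symm
        · show (y.1 1 0)⁻¹ = y.1 0 1
          have hd := detC y
          rw [hy0, zero_mul, zero_add] at hd
          exact inv_eq_of_mul_eq_one_left hd
        · rfl
        · exact hy1.symm
      right_inv := by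
        intro c
        apply Units.ext
        rfl }
  rw [Nat.card_congr e, Nat.card_units, Nat.card_eq_fintype_card]

theorem count1 :
    Nat.card {y : SL(2, F) // y.1 1 0 = 0 ∨ y.1 0 0 = y.1 1 1 ∨ y.1 1 0 = y.1 0 0 + y.1 1 1} =
      3 * Fintype.card F * (Fintype.card F - 1) := by
  have hiff : ∀ y : SL(2, F),
      (y.1 1 0 = 0 ∨ y.1 0 0 = y.1 1 1 ∨ y.1 1 0 = y.1 0 0 + y.1 1 1) ↔
      (y.1 1 0 = 0 ∨ (y.1 1 0 ≠ 0 ∧ y.1 1 1 = (fun a c : F => a) (y.1 0 0) (y.1 1 0)) ∨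
        (y.1 1 0 ≠ 0 ∧ y.1 1 1 = (fun a c : F => a + c) (y.1 0 0) (y.1 1 0))) := by
    intro y
    by_cases h0 : y.1 1 0 = 0
    · simp [h0]
    · constructor
      · rintro (h | h | h)
        · exact absurd h h0
        · exact Or.inr (Or.inl ⟨h0, h.symm⟩)
        · refine Or.inr (Or.inr ⟨h0, ?_⟩)
          show y.1 1 1 = y.1 0 0 + y.1 1 0
          linear_combination (-1 : F) * h - y.1 0 0 * two0 (F := F)
      · rintro (h | ⟨-, h⟩ | ⟨-, h⟩)
        · exact absurd h h0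
        · exact Or.inr (Or.inl h.symm)
        · refine Or.inr (Or.inr ?_)
          have h' : y.1 1 1 = y.1 0 0 + y.1 1 0 := h
          linear_combination (-1 : F) * h' - y.1 0 0 * two0 (F := F)
  rw [Nat.card_congr (Equiv.subtypeEquivRight hiff)]
  rw [card_or3 (fun y : SL(2, F) => y.1 1 0 = 0)
    (fun y : SL(2, F) => y.1 1 0 ≠ 0 ∧ y.1 1 1 = (fun a c : F => a) (y.1 0 0) (y.1 1 0))
    (fun y : SL(2, F) => y.1 1 0 ≠ 0 ∧ y.1 1 1 = (fun a c : F => a + c) (y.1 0 0) (y.1 1 0))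
    (fun y h1 h2 => h2.1 h1) (fun y h1 h2 => h2.1 h1)
    (fun y h1 h2 => h1.1 (by
      have e1 : y.1 1 1 = y.1 0 0 := h1.2
      have e2 : y.1 1 1 = y.1 0 0 + y.1 1 0 := h2.2
      linear_combination e1 - e2))]
  rw [card_lower (fun a c : F => a), card_lower (fun a c : F => a + c)]
  have hB : Nat.card {y : SL(2, F) // y.1 1 0 = 0} = Nat.card (Bor F) := rfl
  rw [hB, card_Bor]
  ring

theorem count2 :
    Nat.card {y : SL(2, F) // y.1 1 0 = 0 ∨ y.1 0 1 = 0 ∨ (y.1 0 0 = 0 ∧ y.1 1 1 = 0)} =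
      2 * Fintype.card F * (Fintype.card F - 1) := by
  have hiff : ∀ y : SL(2, F),
      (y.1 1 0 = 0 ∨ y.1 0 1 = 0 ∨ (y.1 0 0 = 0 ∧ y.1 1 1 = 0)) ↔
      (y.1 1 0 = 0 ∨ (y.1 1 0 ≠ 0 ∧ y.1 0 1 = 0) ∨ (y.1 0 0 = 0 ∧ y.1 1 1 = 0)) := by
    intro y
    by_cases h0 : y.1 1 0 = 0
    · simp [h0]
    · simp [h0]
  rw [Nat.card_congr (Equiv.subtypeEquivRight hiff)]
  rw [card_or3 (fun y : SL(2, F) => y.1 1 0 = 0)
    (fun y : SL(2, F) => y.1 1 0 ≠ 0 ∧ y.1 0 1 = 0)
    (fun y : SL(2, F) => y.1 0 0 = 0 ∧ y.1 1 1 = 0)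
    (fun y h1 h2 => h2.1 h1)
    (fun y h1 h2 => by
      have hd := detC y
      have h1' : y.1 1 0 = 0 := h1
      rw [h1', h2.1, zero_mul, mul_zero, add_zero] at hd
      exact zero_ne_one hd)
    (fun y h1 h2 => by
      have hd := detC y
      rw [h1.2, h2.1, zero_mul, zero_mul, add_zero] at hd
      exact zero_ne_one hd)]
  rw [card_lower_diag, card_anti]
  have hB : Nat.card {y : SL(2, F) // y.1 1 0 = 0} = Nat.card (Bor F) := rfl
  rw [hB, card_Bor]
  have hq : 1 ≤ Fintype.card F := Fintype.card_pos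
  obtain ⟨m, hm⟩ : ∃ m, Fintype.card F = m + 1 := ⟨Fintype.card F - 1, by omega⟩
  rw [hm, Nat.add_sub_cancel]
  ring

theorem card_cent_nonsplit (t : F) (hns : ∀ r : F, r ^ 2 + t * r + 1 ≠ 0) :
    Nat.card (Subgroup.centralizer ({cm t} : Set SL(2, F))) = Fintype.card F + 1 := by
  have h := Cfsg.Agent.Lib.Helper42.SL2Even.card_centralizer (cm t) (cm_ne_one t)
  have h00 : (cm t) 0 0 + (cm t) 1 1 = t := by
    show (cm t).1 0 0 + (cm t).1 1 1 = t
    rw [cm00, cm11, zero_add]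
  rw [h00] at h
  rw [h]
  exact Cfsg.Agent.Lib.Helper42.SL2Even.card_sol_nonsplit t hns

theorem card_cent_split (t : F) (ht : t ≠ 0) (r : F) (hr : r ^ 2 + t * r + 1 = 0) :
    Nat.card (Subgroup.centralizer ({cm t} : Set SL(2, F))) = Fintype.card F - 1 := by
  have h := Cfsg.Agent.Lib.Helper42.SL2Even.card_centralizer (cm t) (cm_ne_one t)
  have h00 : (cm t) 0 0 + (cm t) 1 1 = t := by
    show (cm t).1 0 0 + (cm t).1 1 1 = t
    rw [cm00, cm11, zero_add]
  rw [h00] at h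
  rw [h]
  exact Cfsg.Agent.Lib.Helper42.SL2Even.card_sol_split t ht r hr

theorem cm_pow_card (t : F) :
    cm t ^ Nat.card (Subgroup.centralizer ({cm t} : Set SL(2, F))) = 1 := by
  have hmem : cm t ∈ Subgroup.centralizer ({cm t} : Set SL(2, F)) :=
    Subgroup.mem_centralizer_singleton_iff.2 rfl
  have h1 : (⟨cm t, hmem⟩ : Subgroup.centralizer ({cm t} : Set SL(2, F))) ^
      Nat.card (Subgroup.centralizer ({cm t} : Set SL(2, F))) = 1 := pow_card_eq_one'
  have h2 := congrArg Subtype.val h1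
  rw [Subgroup.coe_pow] at h2
  exact h2

theorem card_sol_conj (h x : SL(2, F)) :
    Nat.card {y : SL(2, F) //
        Group.IsSolvable (Subgroup.closure ({h * x * h⁻¹, y} : Set SL(2, F)))} =
      Nat.card {y : SL(2, F) // Group.IsSolvable (Subgroup.closure ({x, y} : Set SL(2, F)))} :=
  (card_sol_map (MulAut.conj h) x).symm

theorem card_sol_invol {p : ℕ} (hp : p.Prime) (hF : Fintype.card F = 2 ^ p) (x : SL(2, F))
    (hx1 : x ≠ 1) (hxx : x * x = 1) :
    Nat.card {y : SL(2, F) // Group.IsSolvable (Subgroup.closure ({x, y} : Set SL(2, F)))} =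
      3 * Fintype.card F * (Fintype.card F - 1) := by
  obtain ⟨h, hh⟩ := exists_conj_u_one x hx1 hxx
  rw [← card_sol_conj h x, hh, Nat.card_congr (Equiv.subtypeEquivRight (sol_u_one hp hF))]
  exact count1

/-- reduction of a non-involution to the companion matrix -/
theorem to_cm (x : SL(2, F)) (hx1 : x ≠ 1) (hxx : x * x ≠ 1) (n : ℕ) (hn : x ^ n = 1) :
    ∃ (h : SL(2, F)) (t : F), h * x * h⁻¹ = cm t ∧ t ≠ 0 ∧ cm t * cm t ≠ 1 ∧ cm t ^ n = 1 := by
  obtain ⟨h, hh⟩ := exists_conj_cm x hx1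
  refine ⟨h, _, hh, ?_, ?_, ?_⟩
  · intro h0
    apply hxx
    apply conj_mul_self (g := h)
    rw [hh, DE1.mul_self_eq_one_iff, cm00, cm11, h0]
  · rw [← hh]
    exact fun hc => hxx (conj_mul_self hc)
  · rw [← hh, conj_pow, hn, mul_one, mul_inv_cancel]

theorem card_sol_split {p : ℕ} (hp : p.Prime) (hF : Fintype.card F = 2 ^ p) (x : SL(2, F))
    (hx1 : x ≠ 1) (hd : orderOf x ∣ Fintype.card F - 1) :
    Nat.card {y : SL(2, F) // Group.IsSolvable (Subgroup.closure ({x, y} : Set SL(2, F)))} =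
      2 * Fintype.card F * (Fintype.card F - 1) := by
  have hq : 1 ≤ Fintype.card F := Fintype.card_pos
  have hodd : Odd (Fintype.card F - 1) := by
    rw [hF]
    exact Nat.Even.sub_odd (Nat.one_le_two_pow) ((Nat.even_pow).2 ⟨even_two, hp.ne_zero⟩) odd_one
  have hxx : x * x ≠ 1 := not_invol hx1 hd hodd
  obtain ⟨h, t, hh, ht, hcc, hpow⟩ := to_cm x hx1 hxx _ (orderOf_dvd_iff_pow_eq_one.1 hd)
  have hsplit : ∃ r : F, r ^ 2 + t * r + 1 = 0 := by
    by_contra hns
    push_neg at hns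
    have hpow2 := cm_pow_card t
    rw [card_cent_nonsplit t hns] at hpow2
    exact hcc (mul_self_of_pows hq hpow hpow2)
  obtain ⟨r, hr⟩ := hsplit
  have hr0 : r ≠ 0 := by
    rintro rfl
    simp at hr
  have hr1 : r ≠ 1 := by
    rintro rfl
    apply ht
    linear_combination hr - two0 (F := F)
  have hD1 : d r hr0 ≠ 1 := by
    intro h
    have := congrArg (fun g : SL(2, F) => g.1 0 0) h
    simp only [d00, one00] at this
    exact hr1 this
  obtain ⟨h', hh'⟩ := exists_conj_cm (d r hr0) hD1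
  have htr : (d r hr0).1 0 0 + (d r hr0).1 1 1 = t := by
    rw [d00, d11]
    have h1 : r * (r + r⁻¹) = r * t := by
      rw [mul_add, mul_inv_cancel₀ hr0]
      linear_combination hr - (t * r) * two0 (F := F)
    exact mul_left_cancel₀ hr0 h1
  rw [htr] at hh'
  have hx : x = (h⁻¹ * h') * d r hr0 * (h⁻¹ * h')⁻¹ := by
    calc x = h⁻¹ * (h * x * h⁻¹) * h := by group
      _ = h⁻¹ * (h' * d r hr0 * h'⁻¹) * h := by rw [hh, hh']
      _ = (h⁻¹ * h') * d r hr0 * (h⁻¹ * h')⁻¹ := by group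
  rw [hx, card_sol_conj, Nat.card_congr (Equiv.subtypeEquivRight (sol_d hp hF r hr0 hr1))]
  exact count2

theorem card_sol_nonsplit {p : ℕ} (hp : p.Prime) (hF : Fintype.card F = 2 ^ p) (x : SL(2, F))
    (hx1 : x ≠ 1) (hd : orderOf x ∣ Fintype.card F + 1) :
    Nat.card {y : SL(2, F) // Group.IsSolvable (Subgroup.closure ({x, y} : Set SL(2, F)))} =
      2 * (Fintype.card F + 1) := by
  have hq : 1 ≤ Fintype.card F := Fintype.card_pos
  have hodd : Odd (Fintype.card F + 1) := by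
    rw [hF]
    exact Even.add_one ((Nat.even_pow).2 ⟨even_two, hp.ne_zero⟩)
  have hxx : x * x ≠ 1 := not_invol hx1 hd hodd
  obtain ⟨h, t, hh, ht, hcc, hpow⟩ := to_cm x hx1 hxx _ (orderOf_dvd_iff_pow_eq_one.1 hd)
  have hns : ∀ r : F, r ^ 2 + t * r + 1 ≠ 0 := by
    intro r hr
    have hpow2 := cm_pow_card t
    rw [card_cent_split t ht r hr] at hpow2
    exact hcc (mul_self_of_pows hq hpow2 hpow)
  rw [← card_sol_conj h x, hh, Nat.card_congr (Equiv.subtypeEquivRight (sol_cm hp hF t hns))]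
  have hN : Nat.card {y : SL(2, F) // y ∈ Ng (cm t)} = Nat.card (Ng (cm t)) := rfl
  rw [hN, card_Ng_cm ht, card_cent_nonsplit t hns]

end Cfsg.Agent.Lib.Helper6.DE9
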