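import Mathlib
import Cfsg.Agent.Lib.Helper56.SmallSolvable
import Cfsg.Agent.Lib.Helper20.DihQuat
import Cfsg.Agent.S0494

/-!
# Abstract group theory for Dickson's list (helper6)

* `exists_normal_abelian`: a nontrivial solvable group has a nontrivial normal abelian subgroup;
* `dih_of`: recognition of dihedral groups;
* `abs_main`, `abs_orders`: groups of order 12, 24, 60 (and the divisors of 360 up to 60 that are
  multiples of 3) whose normal abelian subgroups are restricted are `A₄`, `S₄`, `A₅`.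
-/

set_option autoImplicit false
set_option linter.unusedSimpArgs false
set_option linter.unusedVariables false
set_option linter.unusedSectionVars false
set_option linter.style.haveILetI false
set_option linter.unnecessarySeqFocus false
set_option linter.unreachableTactic false
set_option linter.unusedTactic false

namespace Cfsg.Agent.Lib.Helper6.Dk1

open Cfsg.Agent.Lib.Helper56.SmallSolvable

/-- a nontrivial solvable group has a nontrivial normal abelian subgroup -/
theorem exists_normal_abelian {G : Type*} [Group G] [Nontrivial G] (hs : Group.IsSolvable G) :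
    ∃ A : Subgroup G, A.Normal ∧ A ≠ ⊥ ∧ ∀ a ∈ A, ∀ b ∈ A, a * b = b * a := by
  classical
  have hex : ∃ n, derivedSeries G n = ⊥ := hs.solvable
  have h0 : derivedSeries G (Nat.find hex) = ⊥ := Nat.find_spec hex
  have hn0 : Nat.find hex ≠ 0 := by
    intro h
    rw [h, derivedSeries_zero] at h0
    exact top_ne_bot h0
  obtain ⟨m, hm⟩ := Nat.exists_eq_succ_of_ne_zero hn0
  refine ⟨derivedSeries G m, derivedSeries_normal G m, ?_, ?_⟩
  · intro h
    exact Nat.find_min hex (m := m) (by omega) h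
  · intro a ha b hb
    have h1 := Subgroup.commutator_mem_commutator ha hb
    rw [← derivedSeries_succ, ← Nat.succ_eq_add_one, ← hm, h0, Subgroup.mem_bot] at h1
    exact commutatorElement_eq_one_iff_mul_comm.1 h1

/-- recognition of dihedral groups -/
theorem dih_of {M : Type*} [Group M] (C : Subgroup M) [Finite C] (hC : IsCyclic C) (b : M)
    (hbb : b * b = 1) (hbC : b ∉ C) (hinv : ∀ c ∈ C, b * c * b⁻¹ = c⁻¹)
    (hcover : ∀ y : M, y ∈ C ∨ b * y ∈ C) :
    Nonempty (M ≃* DihedralGroup (Nat.card C)) := by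
  obtain ⟨a₀, hgen⟩ := IsCyclic.exists_generator (α := C)
  obtain ⟨a, ha₀⟩ : ∃ a : M, a = (a₀ : M) := ⟨_, rfl⟩
  have haC : a ∈ C := by rw [ha₀]; exact a₀.2
  obtain ⟨k, hk⟩ : ∃ k : ℕ, Nat.card C = k := ⟨_, rfl⟩
  have hk0 : k ≠ 0 := by
    rw [← hk]
    exact Nat.card_pos.ne'
  haveI : NeZero k := ⟨hk0⟩
  have hord : orderOf a = k := by
    have h1 := orderOf_eq_card_of_forall_mem_zpowers hgen
    rw [ha₀, Subgroup.orderOf_coe, h1, hk]
  have hab : b * a * b⁻¹ = a⁻¹ := hinv a haC
  have hpowC : ∀ i : ZMod k, Cfsg.Agent.Lib.Helper20.ZP.zp a k i ∈ C := by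
    intro i
    show a ^ i.val ∈ C
    exact C.pow_mem haC _
  have hba : ∀ i : ZMod k, b ≠ Cfsg.Agent.Lib.Helper20.ZP.zp a k i := by
    intro i hbi
    apply hbC
    rw [hbi]
    exact hpowC i
  have hinj := Cfsg.Agent.Lib.Helper20.DihQuat.dihHom_injective hord hbb hab hba
  have hmemz : ∀ y : M, y ∈ C → ∃ i : ZMod k, y = Cfsg.Agent.Lib.Helper20.ZP.zp a k i := by
    intro y hy
    rw [← Cfsg.Agent.Lib.Helper20.ZP.mem_zpowers_iff hord]
    obtain ⟨j, hj⟩ := Subgroup.mem_zpowers_iff.1 (hgen ⟨y, hy⟩)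
    rw [Subgroup.mem_zpowers_iff]
    refine ⟨j, ?_⟩
    have h1 := congrArg Subtype.val hj
    rw [Subgroup.coe_zpow] at h1
    rw [ha₀]
    exact h1
  have hsurj : Function.Surjective (Cfsg.Agent.Lib.Helper20.DihQuat.dihHom hord hbb hab) := by
    intro y
    rcases hcover y with hy | hy
    · obtain ⟨i, hi⟩ := hmemz y hy
      exact ⟨DihedralGroup.r i, by rw [Cfsg.Agent.Lib.Helper20.DihQuat.dihHom_r, hi]⟩
    · obtain ⟨i, hi⟩ := hmemz (b * y) hy
      refine ⟨DihedralGroup.sr i, ?_⟩
      rw [Cfsg.Agent.Lib.Helper20.DihQuat.dihHom_sr, ← hi, ← mul_assoc, hbb, one_mul]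
  rw [hk]
  exact ⟨(MulEquiv.ofBijective _ ⟨hinj, hsurj⟩).symm⟩

section abs

variable {G : Type*} [Group G] [Finite G]

/-- the restriction on normal abelian subgroups -/
def Restr (G : Type*) [Group G] : Prop :=
  ∀ A : Subgroup G, A.Normal → A ≠ ⊥ → (∀ a ∈ A, ∀ b ∈ A, a * b = b * a) →
    ¬ IsCyclic A ∧ Nat.card A ≤ 4 ∧ ¬ 5 ∣ Nat.card G

theorem no_normal_prime (hA : Restr G) (N : Subgroup G) (hN : N.Normal) (p : ℕ)
    [Fact p.Prime] (hc : Nat.card N = p) : False := by
  haveI : IsCyclic N := isCyclic_of_prime_card hc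
  have hne : N ≠ ⊥ := by
    intro h
    rw [h, Subgroup.card_bot] at hc
    exact (Fact.out : p.Prime).one_lt.ne hc
  have hcomm : ∀ a ∈ N, ∀ b ∈ N, a * b = b * a := by
    intro a ha b hb
    have := (IsCyclic.commGroup (α := N)).mul_comm ⟨a, ha⟩ ⟨b, hb⟩
    exact congrArg Subtype.val this
  exact (hA N hN hne hcomm).1 inferInstance

theorem no_normal_nine (hA : Restr G) (N : Subgroup G) (hN : N.Normal)
    (hc : Nat.card N = 9) : False := by
  haveI : Fact (Nat.Prime 3) := ⟨Nat.prime_three⟩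
  have hne : N ≠ ⊥ := by
    intro h
    rw [h, Subgroup.card_bot] at hc
    omega
  have hcomm : ∀ a ∈ N, ∀ b ∈ N, a * b = b * a := by
    intro a ha b hb
    have := IsPGroup.commutative_of_card_eq_prime_sq (p := 3) (G := N) (by rw [hc]; norm_num)
      ⟨a, ha⟩ ⟨b, hb⟩
    exact congrArg Subtype.val this
  have := (hA N hN hne hcomm).2.1
  omega

theorem not_solvable_of_five (hA : Restr G) (h5 : 5 ∣ Nat.card G) : ¬ Group.IsSolvable G := by
  intro hs
  haveI : Nontrivial G := by
    rw [← Finite.one_lt_card_iff_nontrivial]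
    have := Nat.le_of_dvd Nat.card_pos h5
    omega
  obtain ⟨A, hAn, hAne, hAc⟩ := exists_normal_abelian hs
  exact (hA A hAn hAne hAc).2.2 h5

/-- the kernel of the action on the Sylow `3`-subgroups -/
theorem ker_le_normalizer [Fact (Nat.Prime 3)] (g : G)
    (hg : g ∈ (MulAction.toPermHom G (Sylow 3 G)).ker) (Q : Sylow 3 G) :
    g ∈ Subgroup.normalizer ((Q : Subgroup G) : Set G) := by
  have h0 : MulAction.toPermHom G (Sylow 3 G) g = 1 := hg
  have h1 : MulAction.toPermHom G (Sylow 3 G) g Q = Q := by rw [h0]; rfl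
  have h2 : g • Q = Q := h1
  exact Sylow.smul_eq_iff_mem_normalizer.1 h2

/-- an injective action on four points, for groups of order 12 or 24 -/
theorem exists_perm4 (hA : Restr G) (hcard : Nat.card G = 12 ∨ Nat.card G = 24) :
    ∃ f : G →* Equiv.Perm (Fin 4), Function.Injective f := by
  classical
  haveI : Fact (Nat.Prime 3) := ⟨Nat.prime_three⟩
  haveI : Fact (Nat.Prime 2) := ⟨Nat.prime_two⟩
  obtain ⟨m, hm, hGm⟩ : ∃ m, (m = 4 ∨ m = 8) ∧ Nat.card G = 3 ^ 1 * m := by
    rcases hcard with h | h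
    · exact ⟨4, Or.inl rfl, by rw [h]; norm_num⟩
    · exact ⟨8, Or.inr rfl, by rw [h]; norm_num⟩
  have hm3 : ¬ 3 ∣ m := by rcases hm with rfl | rfl <;> norm_num
  let P : Sylow 3 G := default
  have hPc : ∀ Q : Sylow 3 G, Nat.card Q = 3 := by
    intro Q
    have := sylow_card Q 1 m hGm hm3
    simpa using this
  obtain ⟨hdvd, hmod⟩ := sylow_count (G := G) (p := 3) 1 m hGm hm3
  have hn : Nat.card (Sylow 3 G) = 4 := by
    have hne1 : Nat.card (Sylow 3 G) ≠ 1 := by
      intro h1
      exact no_normal_prime hA _ (sylow_normal_of_card_one P h1) 3 (hPc P)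
    obtain ⟨n, hn'⟩ : ∃ n, Nat.card (Sylow 3 G) = n := ⟨_, rfl⟩
    rw [hn'] at hne1 hdvd hmod ⊢
    have hle : n ≤ 8 := by
      rcases hm with rfl | rfl
      · exact (Nat.le_of_dvd (by norm_num) hdvd).trans (by norm_num)
      · exact Nat.le_of_dvd (by norm_num) hdvd
    rcases hm with rfl | rfl <;> interval_cases n <;>
      first | rfl | (exfalso; revert hdvd hmod hne1; decide)
  let f0 : G →* Equiv.Perm (Sylow 3 G) := MulAction.toPermHom G (Sylow 3 G)
  have e : Sylow 3 G ≃ Fin 4 := Finite.equivFinOfCardEq hn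
  refine ⟨(e.permCongrHom).toMonoidHom.comp f0, (e.permCongrHom).injective.comp ?_⟩
  rw [← MonoidHom.ker_eq_bot_iff]
  have hKle : f0.ker ≤ Subgroup.normalizer ((P : Subgroup G) : Set G) :=
    fun g hg => ker_le_normalizer g hg P
  have hNcard : Nat.card (Subgroup.normalizer ((P : Subgroup G) : Set G)) * 4 = Nat.card G := by
    have h1 := Sylow.card_eq_index_normalizer P
    rw [hn] at h1
    rw [h1]
    exact Subgroup.card_mul_index _
  have hKdvd : Nat.card f0.ker ∣ Nat.card (Subgroup.normalizer ((P : Subgroup G) : Set G)) :=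
    Subgroup.card_dvd_of_le hKle
  have h3K : ¬ 3 ∣ Nat.card f0.ker := by
    intro h3d
    obtain ⟨k, hk⟩ := exists_prime_orderOf_dvd_card' 3 h3d
    have hkQ : ∀ Q : Sylow 3 G, (Q : Subgroup G) = Subgroup.zpowers (k : G) := by
      intro Q
      have hpg : IsPGroup 3 (Subgroup.zpowers (k : G)) := by
        apply IsPGroup.of_card (n := 1)
        rw [Nat.card_zpowers, Subgroup.orderOf_coe, hk]
        norm_num
      have h1 : Subgroup.zpowers (k : G) ⊓ Subgroup.normalizer ((Q : Subgroup G) : Set G) =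
          Subgroup.zpowers (k : G) ⊓ (Q : Subgroup G) := hpg.inf_normalizer_sylow Q
      have h2 : Subgroup.zpowers (k : G) ≤ Subgroup.normalizer ((Q : Subgroup G) : Set G) := by
        rw [Subgroup.zpowers_le]
        exact ker_le_normalizer k.1 k.2 Q
      rw [inf_eq_left.2 h2] at h1
      have h3 : Subgroup.zpowers (k : G) ≤ Q := by rw [h1]; exact inf_le_right
      symm
      apply Subgroup.eq_of_le_of_card_ge h3
      rw [Nat.card_zpowers, Subgroup.orderOf_coe, hk]
      exact (hPc Q).le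
    have hsub : ∀ Q1 Q2 : Sylow 3 G, Q1 = Q2 :=
      fun Q1 Q2 => Sylow.ext ((hkQ Q1).trans (hkQ Q2).symm)
    haveI : Subsingleton (Sylow 3 G) := ⟨hsub⟩
    have := Finite.card_le_one_iff_subsingleton.2 (inferInstance : Subsingleton (Sylow 3 G))
    omega
  have hK12 : Nat.card f0.ker = 1 ∨ Nat.card f0.ker = 2 := by
    obtain ⟨n, hn'⟩ : ∃ n, Nat.card f0.ker = n := ⟨_, rfl⟩
    obtain ⟨N, hN'⟩ : ∃ N, Nat.card (Subgroup.normalizer ((P : Subgroup G) : Set G)) = N :=
      ⟨_, rfl⟩
    rw [hn'] at h3K hKdvd ⊢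
    rw [hN'] at hKdvd hNcard
    have hN6 : N = 3 ∨ N = 6 := by rcases hcard with h | h <;> omega
    have hnle : n ≤ 6 := by
      rcases hN6 with rfl | rfl
      · exact (Nat.le_of_dvd (by norm_num) hKdvd).trans (by norm_num)
      · exact Nat.le_of_dvd (by norm_num) hKdvd
    rcases hN6 with rfl | rfl <;> interval_cases n <;>
      first | (left; rfl) | (right; rfl) | (exfalso; revert hKdvd h3K; decide)
  rcases hK12 with h | h
  · exact Subgroup.card_eq_one.1 h
  · exfalso
    exact no_normal_prime hA f0.ker (MonoidHom.normal_ker f0) 2 h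

theorem card_perm4 : Nat.card (Equiv.Perm (Fin 4)) = 24 := by
  rw [Nat.card_perm, Nat.card_fin]
  rfl

/-- groups of order 12, 24, 60 with restricted normal abelian subgroups -/
theorem abs_main (hA : Restr G)
    (hc : Nat.card G = 12 ∨ Nat.card G = 24 ∨ Nat.card G = 60) :
    Nonempty (G ≃* alternatingGroup (Fin 4)) ∨ Nonempty (G ≃* Equiv.Perm (Fin 4)) ∨
      Nonempty (G ≃* alternatingGroup (Fin 5)) := by
  classical
  rcases hc with h | h | h
  · left
    obtain ⟨f, hf⟩ := exists_perm4 hA (Or.inl h)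
    have hcard : Nat.card f.range = 12 := by
      rw [← h]
      exact (Nat.card_congr (MonoidHom.ofInjective hf).toEquiv).symm
    have hidx : f.range.index = 2 := by
      have h1 := f.range.index_mul_card
      rw [hcard, card_perm4] at h1
      omega
    have hr : f.range = alternatingGroup (Fin 4) :=
      Equiv.Perm.eq_alternatingGroup_of_index_eq_two hidx
    exact ⟨(MonoidHom.ofInjective hf).trans (MulEquiv.subgroupCongr hr)⟩
  · right; left
    obtain ⟨f, hf⟩ := exists_perm4 hA (Or.inr h)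
    have hb : Function.Bijective f := by
      rw [Nat.bijective_iff_injective_and_card]
      exact ⟨hf, by rw [h, card_perm4]⟩
    exact ⟨MulEquiv.ofBijective f hb⟩
  · right; right
    have hns := not_solvable_of_five hA (by rw [h]; norm_num)
    haveI := isSimpleGroup_of_card_60 h hns
    exact Cfsg.Agent.S0494.result h

theorem sylow3_not_normal (hA : Restr G) [Fact (Nat.Prime 3)] (k m : ℕ) (hk : k = 1 ∨ k = 2)
    (hG : Nat.card G = 3 ^ k * m) (hm : ¬ 3 ∣ m) : Nat.card (Sylow 3 G) ≠ 1 := by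
  intro h1
  let P : Sylow 3 G := default
  have hn := sylow_normal_of_card_one P h1
  have hc := sylow_card P k m hG hm
  rcases hk with rfl | rfl
  · exact no_normal_prime hA _ hn 3 (by rw [hc]; norm_num)
  · exact no_normal_nine hA _ hn (by rw [hc]; norm_num)

theorem excl (hA : Restr G) (k m : ℕ) (hk : k = 1 ∨ k = 2) (hm : m = 1 ∨ m = 2 ∨ m = 5)
    (hG : Nat.card G = 3 ^ k * m) : False := by
  haveI : Fact (Nat.Prime 3) := ⟨Nat.prime_three⟩
  have hm3 : ¬ 3 ∣ m := by rcases hm with rfl | rfl | rfl <;> norm_num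
  obtain ⟨hdvd, hmod⟩ := sylow_count (G := G) (p := 3) k m hG hm3
  apply sylow3_not_normal hA k m hk hG hm3
  obtain ⟨c, hc⟩ : ∃ c, Nat.card (Sylow 3 G) = c := ⟨_, rfl⟩
  rw [hc] at hdvd hmod ⊢
  have hcle : c ≤ 5 := by
    rcases hm with rfl | rfl | rfl <;>
      exact (Nat.le_of_dvd (by norm_num) hdvd).trans (by norm_num)
  rcases hm with rfl | rfl | rfl <;> interval_cases c <;>
    first | rfl | (exfalso; revert hdvd hmod; decide)

theorem excl36 (hA : Restr G) (hG : Nat.card G = 36) : False := by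
  classical
  haveI : Fact (Nat.Prime 3) := ⟨Nat.prime_three⟩
  have hG' : Nat.card G = 3 ^ 2 * 4 := by rw [hG]; norm_num
  have hm3 : ¬ 3 ∣ 4 := by norm_num
  obtain ⟨hdvd, hmod⟩ := sylow_count (G := G) (p := 3) 2 4 hG' hm3
  have hne1 := sylow3_not_normal hA 2 4 (Or.inr rfl) hG' hm3
  have hn : Nat.card (Sylow 3 G) = 4 := by
    obtain ⟨c, hc⟩ : ∃ c, Nat.card (Sylow 3 G) = c := ⟨_, rfl⟩
    rw [hc] at hdvd hmod hne1 ⊢
    have hcle : c ≤ 4 := Nat.le_of_dvd (by norm_num) hdvd
    interval_cases c <;> first | rfl | (exfalso; revert hdvd hmod hne1; decide)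
  let P : Sylow 3 G := default
  have hPc : Nat.card P = 9 := by
    have := sylow_card P 2 4 hG' hm3
    rw [this]
    norm_num
  let f0 : G →* Equiv.Perm (Sylow 3 G) := MulAction.toPermHom G (Sylow 3 G)
  have hNcard : Nat.card (Subgroup.normalizer ((P : Subgroup G) : Set G)) * 4 = Nat.card G := by
    have h1 := Sylow.card_eq_index_normalizer P
    rw [hn] at h1
    rw [h1]
    exact Subgroup.card_mul_index _
  have hNP : Subgroup.normalizer ((P : Subgroup G) : Set G) = (P : Subgroup G) := by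
    symm
    apply Subgroup.eq_of_le_of_card_ge Subgroup.le_normalizer
    rw [hPc]
    omega
  have hKle : f0.ker ≤ (P : Subgroup G) := by
    intro g hg
    rw [← hNP]
    exact ker_le_normalizer g hg P
  have hKne : f0.ker ≠ ⊥ := by
    intro hbot
    have hinj : Function.Injective f0 := (MonoidHom.ker_eq_bot_iff f0).1 hbot
    have h1 : Nat.card G = Nat.card f0.range :=
      Nat.card_congr (MonoidHom.ofInjective hinj).toEquiv
    have h2 : Nat.card f0.range ∣ Nat.card (Equiv.Perm (Sylow 3 G)) :=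
      Subgroup.card_subgroup_dvd_card _
    rw [Nat.card_perm, hn, ← h1, hG] at h2
    revert h2
    decide
  have hPcomm : ∀ a ∈ (P : Subgroup G), ∀ b ∈ (P : Subgroup G), a * b = b * a := by
    intro a ha b hb
    have := IsPGroup.commutative_of_card_eq_prime_sq (p := 3) (G := (P : Subgroup G))
      (by rw [hPc]; norm_num) ⟨a, ha⟩ ⟨b, hb⟩
    exact congrArg Subtype.val this
  have hKcomm : ∀ a ∈ f0.ker, ∀ b ∈ f0.ker, a * b = b * a :=
    fun a ha b hb => hPcomm a (hKle ha) b (hKle hb)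
  obtain ⟨hncyc, hle4, -⟩ := hA f0.ker (MonoidHom.normal_ker f0) hKne hKcomm
  have hKdvd : Nat.card f0.ker ∣ 9 := by
    rw [← hPc]
    exact Subgroup.card_dvd_of_le hKle
  have hK1 : Nat.card f0.ker ≠ 1 := fun h => hKne (Subgroup.card_eq_one.1 h)
  have hK3 : Nat.card f0.ker = 3 := by
    obtain ⟨c, hc⟩ : ∃ c, Nat.card f0.ker = c := ⟨_, rfl⟩
    rw [hc] at hKdvd hK1 hle4 ⊢
    interval_cases c <;> first | rfl | (exfalso; revert hKdvd hK1; decide)
  exact hncyc (isCyclic_of_prime_card hK3)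

/-- the orders that can occur for a group of order dividing 360, at most 60, divisible by 3 -/
theorem abs_orders (hA : Restr G) (hd : Nat.card G ∣ 360) (hle : Nat.card G ≤ 60)
    (h3 : 3 ∣ Nat.card G) : Nat.card G = 12 ∨ Nat.card G = 24 ∨ Nat.card G = 60 := by
  obtain ⟨n, hn⟩ : ∃ n, Nat.card G = n := ⟨_, rfl⟩
  have hpos : 0 < n := by rw [← hn]; exact Nat.card_pos
  have key : n = 3 ∨ n = 6 ∨ n = 9 ∨ n = 12 ∨ n = 15 ∨ n = 18 ∨ n = 24 ∨ n = 30 ∨ n = 36 ∨
      n = 45 ∨ n = 60 := by
    rw [hn] at hd hle h3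
    clear hn
    interval_cases n <;> first | decide | (exfalso; revert hd h3; decide)
  rcases key with rfl | rfl | rfl | rfl | rfl | rfl | rfl | rfl | rfl | rfl | rfl
  · exact (excl hA 1 1 (Or.inl rfl) (Or.inl rfl) (by rw [hn]; norm_num)).elim
  · exact (excl hA 1 2 (Or.inl rfl) (Or.inr (Or.inl rfl)) (by rw [hn]; norm_num)).elim
  · exact (excl hA 2 1 (Or.inr rfl) (Or.inl rfl) (by rw [hn]; norm_num)).elim
  · exact Or.inl hn
  · exact (excl hA 1 5 (Or.inl rfl) (Or.inr (Or.inr rfl)) (by rw [hn]; norm_num)).elim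
  · exact (excl hA 2 2 (Or.inr rfl) (Or.inr (Or.inl rfl)) (by rw [hn]; norm_num)).elim
  · exact Or.inr (Or.inl hn)
  · exact (not_solvable_of_five hA (by rw [hn]; norm_num) (solvable_of_card_30 hn)).elim
  · exact (excl36 hA hn).elim
  · exact (excl hA 2 5 (Or.inr rfl) (Or.inr (Or.inr rfl)) (by rw [hn]; norm_num)).elim
  · exact Or.inr (Or.inr hn)

end abs

end Cfsg.Agent.Lib.Helper6.Dk1
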