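import Mathlib
import Cfsg.Agent.Lib.Helper6.Sb2
import Cfsg.Agent.Lib.Helper6.Dk1

/-!
# Normal abelian subgroups of subgroups of `PSL(2, q)`, `q` odd (helper6)

* `q8_structure`: a normal subgroup of `X ≤ SL(2, F)` that is abelian modulo `±1`, consists of
  semisimple elements and is not `{±1}` is a quaternion group, unless `X` normalises a torus;
* `restr`: the resulting restriction `Dk1.Restr` on the normal abelian subgroups of the image
  of `X` in `PSL(2, F)`.
-/

set_option autoImplicit false
set_option linter.unusedSimpArgs false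
set_option linter.unusedVariables false
set_option linter.unusedSectionVars false
set_option linter.style.haveILetI false
set_option linter.unnecessarySeqFocus false
set_option linter.unreachableTactic false
set_option linter.unusedTactic false

namespace Cfsg.Agent.Lib.Helper6.Dk2

open Matrix MatrixGroups
open Cfsg.Agent.Lib.Helper53.SL2Inv Cfsg.Agent.Lib.Helper53.SL2Unip
open Cfsg.Agent.Lib.Helper98.SL2Sub Cfsg.Agent.Lib.Helper98.SL2Core
open Cfsg.Agent.Lib.Helper98.SL2Tor Cfsg.Agent.Lib.Helper98.PSL2Max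
open Cfsg.Agent.Lib.Helper6.Sb2

section word

variable {G : Type*} [Group G] (z : G)

lemma sign_mul (hz : ∀ g : G, g * z = z * g) (hzz : z * z = 1) (a c e : G)
    (h1 : a * c = z * (c * a)) (h2 : a * e = z * (e * a)) :
    a * (c * e) = (c * e) * a := by
  calc a * (c * e) = (a * c) * e := by group
    _ = z * (c * a) * e := by rw [h1]
    _ = z * (c * (a * e)) := by group
    _ = z * (c * (z * (e * a))) := by rw [h2]
    _ = z * ((c * z) * (e * a)) := by group
    _ = z * ((z * c) * (e * a)) := by rw [hz c]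
    _ = (z * z) * (c * e * a) := by group
    _ = c * e * a := by rw [hzz, one_mul]

lemma inv_of_sq (hz : ∀ g : G, g * z = z * g) (hzz : z * z = 1) (e : G) (he : e * e = z) :
    e⁻¹ = z * e := by
  apply inv_eq_of_mul_eq_one_right
  calc e * (z * e) = (e * z) * e := by group
    _ = (z * e) * e := by rw [hz e]
    _ = z * (e * e) := by group
    _ = 1 := by rw [he, hzz]

lemma from_prod (hz : ∀ g : G, g * z = z * g) (hzz : z * z = 1) (c e : G) (he : e * e = z)
    (h : c * e = 1 ∨ c * e = z) : c = z * e ∨ c = e := by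
  rcases h with h | h
  · left
    rw [← inv_of_sq z hz hzz e he]
    exact eq_inv_of_mul_eq_one_left h
  · right
    calc c = (c * e) * e⁻¹ := by group
      _ = z * (z * e) := by rw [h, inv_of_sq z hz hzz e he]
      _ = (z * z) * e := by group
      _ = e := by rw [hzz, one_mul]

theorem q8_abs (hz : ∀ g : G, g * z = z * g) (hzz : z * z = 1) (a b : G) (haa : a * a = z)
    (hbb : b * b = z) (hab : a * b = z * (b * a))
    (hK : ∀ g : G, g * a = a * g → g * b = b * g → g = 1 ∨ g = z) (c : G)
    (hca : a * c = c * a ∨ a * c = z * (c * a)) (hcb : b * c = c * b ∨ b * c = z * (c * b)) :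
    c = 1 ∨ c = z ∨ c = a ∨ c = z * a ∨ c = b ∨ c = z * b ∨ c = a * b ∨ c = z * (a * b) := by
  have hba : b * a = z * (a * b) := by rw [hab, ← mul_assoc, hzz, one_mul]
  rcases hca with hca | hca <;> rcases hcb with hcb | hcb
  · rcases hK c hca.symm hcb.symm with h | h
    · exact Or.inl h
    · exact Or.inr (Or.inl h)
  · have g1 : (c * a) * a = a * (c * a) := by rw [← mul_assoc, hca]
    have g2 : (c * a) * b = b * (c * a) := (sign_mul z hz hzz b c a hcb hba).symm
    rcases from_prod z hz hzz c a haa (hK _ g1 g2) with h | h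
    · exact Or.inr (Or.inr (Or.inr (Or.inl h)))
    · exact Or.inr (Or.inr (Or.inl h))
  · have g1 : (c * b) * b = b * (c * b) := by rw [← mul_assoc, hcb]
    have g2 : (c * b) * a = a * (c * b) := (sign_mul z hz hzz a c b hca hab).symm
    rcases from_prod z hz hzz c b hbb (hK _ g2 g1) with h | h
    · exact Or.inr (Or.inr (Or.inr (Or.inr (Or.inr (Or.inl h)))))
    · exact Or.inr (Or.inr (Or.inr (Or.inr (Or.inl h))))
  · have e1 : (a * b) * a = b := by
      calc (a * b) * a = a * (b * a) := by group
        _ = a * (z * (a * b)) := by rw [hba]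
        _ = (a * z) * (a * b) := by group
        _ = (z * a) * (a * b) := by rw [hz a]
        _ = z * ((a * a) * b) := by group
        _ = z * (z * b) := by rw [haa]
        _ = (z * z) * b := by group
        _ = b := by rw [hzz, one_mul]
    have e2 : a * (a * b) = z * ((a * b) * a) := by rw [e1, ← mul_assoc, haa]
    have e4 : b * (a * b) = z * ((a * b) * b) := by
      calc b * (a * b) = (b * a) * b := by group
        _ = (z * (a * b)) * b := by rw [hba]
        _ = z * ((a * b) * b) := by group
    have he : (a * b) * (a * b) = z := by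
      calc (a * b) * (a * b) = ((a * b) * a) * b := by group
        _ = z := by rw [e1, hbb]
    have g1 : (c * (a * b)) * a = a * (c * (a * b)) := (sign_mul z hz hzz a c (a * b) hca e2).symm
    have g2 : (c * (a * b)) * b = b * (c * (a * b)) := (sign_mul z hz hzz b c (a * b) hcb e4).symm
    rcases from_prod z hz hzz c (a * b) he (hK _ g1 g2) with h | h
    · exact Or.inr (Or.inr (Or.inr (Or.inr (Or.inr (Or.inr (Or.inr h))))))
    · exact Or.inr (Or.inr (Or.inr (Or.inr (Or.inr (Or.inr (Or.inl h))))))

end word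

variable {F : Type*} [Field F]

lemma proj_eq_one_iff (z : SL(2, F)) : proj z = 1 ↔ z = 1 ∨ z = negOne := by
  rw [QuotientGroup.mk'_apply, QuotientGroup.eq_one_iff, center_eq]
  exact Iff.rfl

lemma proj_negOne : proj (negOne : SL(2, F)) = 1 := (proj_eq_one_iff _).2 (Or.inr rfl)

lemma proj_eq_iff (x y : SL(2, F)) : proj x = proj y ↔ x = y ∨ x = negOne * y := by
  constructor
  · intro h
    have h1 : proj (x * y⁻¹) = 1 := by rw [map_mul, map_inv, h, mul_inv_cancel]
    rcases (proj_eq_one_iff _).1 h1 with h2 | h2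
    · left; exact mul_inv_eq_one.1 h2
    · right; rw [← h2]; group
  · rintro (rfl | rfl)
    · rfl
    · rw [map_mul, proj_negOne, one_mul]

lemma hz (g : SL(2, F)) : g * negOne = negOne * g := (negOne_comm g).symm

lemma tr_negOne_mul (x : SL(2, F)) : tr (negOne * x) = - tr x := by
  rw [tr_def, tr_def, mul00, mul11, n00, n01, n10, n11]
  ring

lemma tr_zero_of_anti (h2 : (2 : F) ≠ 0) (a c : SL(2, F)) (h : a * c = negOne * (c * a)) :
    tr a = 0 := by
  have e : a = negOne * (c * a * c⁻¹) := by
    calc a = (a * c) * c⁻¹ := by group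
      _ = negOne * (c * a) * c⁻¹ := by rw [h]
      _ = negOne * (c * a * c⁻¹) := by group
  have h1 := congrArg tr e
  rw [tr_negOne_mul, tr_conj] at h1
  have h3 : (2 : F) * tr a = 0 := by linear_combination h1
  rcases mul_eq_zero.1 h3 with h4 | h4
  · exact absurd h4 h2
  · exact h4

lemma comm_both (a b g : SL(2, F)) (hab : a * b ≠ b * a) (ga : g * a = a * g)
    (gb : g * b = b * g) : g = 1 ∨ g = negOne := by
  by_contra hcon
  rw [not_or] at hcon
  exact hab (comm_trans a g b hcon.1 hcon.2 ga.symm gb)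

lemma sq_comm_of (x a : SL(2, F)) (h : x * a * x⁻¹ = a ∨ x * a * x⁻¹ = negOne * a) :
    (x * x) * a = a * (x * x) := by
  rcases h with h | h
  · have h1 : x * a = a * x := mul_inv_eq_iff_eq_mul.1 h
    calc x * x * a = x * (x * a) := by group
      _ = x * (a * x) := by rw [h1]
      _ = (x * a) * x := by group
      _ = a * x * x := by rw [h1]
      _ = a * (x * x) := by group
  · have h1 : x * a = negOne * a * x := mul_inv_eq_iff_eq_mul.1 h
    calc x * x * a = x * (x * a) := by group
      _ = x * (negOne * a * x) := by rw [h1]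
      _ = (x * negOne) * a * x := by group
      _ = (negOne * x) * a * x := by rw [hz x]
      _ = negOne * (x * a) * x := by group
      _ = negOne * (negOne * a * x) * x := by rw [h1]
      _ = (negOne * negOne) * a * (x * x) := by group
      _ = a * (x * x) := by rw [negOne_mul_negOne, one_mul]

/-- **Quaternion structure** of normal subgroups that are abelian modulo `±1`. -/
theorem q8_structure (p : ℕ) [Fact p.Prime] [CharP F p] (h2 : (2 : F) ≠ 0)
    (X At : Subgroup SL(2, F)) (hAX : At ≤ X)
    (hnorm : ∀ x ∈ X, ∀ a ∈ At, x * a * x⁻¹ ∈ At)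
    (hab : ∀ a ∈ At, ∀ c ∈ At, a * c = c * a ∨ a * c = negOne * (c * a))
    (hne : ∃ a ∈ At, a ≠ 1 ∧ a ≠ negOne)
    (hss : ∀ a ∈ At, (orderOf a).Coprime p)
    (hnor : ∀ a ∈ X, (orderOf a).Coprime p → a ≠ 1 → a ≠ negOne → ¬ X ≤ NorInv a) :
    ∃ a ∈ At, ∃ b ∈ At, a * a = negOne ∧ b * b = negOne ∧ a * b = negOne * (b * a) ∧
      ∀ c ∈ At, c = 1 ∨ c = negOne ∨ c = a ∨ c = negOne * a ∨ c = b ∨ c = negOne * b ∨
        c = a * b ∨ c = negOne * (a * b) := by
  have hn1 : (negOne : SL(2, F)) ≠ 1 := negOne_ne_one h2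
  have htr0 : ∀ a ∈ At, a ≠ 1 → a ≠ negOne → tr a = 0 := by
    intro a ha ha1 ha2
    by_contra htr
    apply hnor a (hAX ha) (hss a ha) ha1 ha2
    intro y hy
    have hc := hnorm y hy a ha
    rcases hab a ha _ hc with h | h
    · exact conj_eq_or p h2 a y (hss a ha) ha1 ha2 h.symm
    · exact absurd (tr_zero_of_anti h2 a _ h) htr
  obtain ⟨a, ha, ha1, ha2⟩ := hne
  have haa : a * a = negOne := sq_of_tr_zero a (htr0 a ha ha1 ha2)
  have hainv : a⁻¹ = negOne * a := inv_of_sq negOne hz negOne_mul_negOne a haa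
  have hex : ∃ y ∈ X, y * a * y⁻¹ ≠ a ∧ y * a * y⁻¹ ≠ a⁻¹ := by
    by_contra hall
    push Not at hall
    apply hnor a (hAX ha) (hss a ha) ha1 ha2
    intro y hy
    by_cases h : y * a * y⁻¹ = a
    · exact Or.inl h
    · exact Or.inr (hall y hy h)
  obtain ⟨y, hy, hb1, hb2⟩ := hex
  obtain ⟨b, hbdef⟩ : ∃ b, b = y * a * y⁻¹ := ⟨_, rfl⟩
  rw [← hbdef] at hb1 hb2
  have hb : b ∈ At := by rw [hbdef]; exact hnorm y hy a ha
  have hbne1 : b ≠ 1 := by
    intro h
    apply ha1
    have : a = y⁻¹ * b * y := by rw [hbdef]; group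
    rw [this, h]; group
  have hbne2 : b ≠ negOne := by
    intro h
    apply ha2
    have : a = y⁻¹ * b * y := by rw [hbdef]; group
    rw [this, h, mul_assoc, ← hz y, ← mul_assoc, inv_mul_cancel, one_mul]
  have hbb : b * b = negOne := sq_of_tr_zero b (htr0 b hb hbne1 hbne2)
  have habm : a * b ∈ At := At.mul_mem ha hb
  have hab1 : a * b ≠ 1 := by
    intro h
    exact hb2 (eq_inv_of_mul_eq_one_right h)
  have hab2 : a * b ≠ negOne := by
    intro h
    apply hb1
    calc b = a⁻¹ * (a * b) := by group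
      _ = negOne * a * negOne := by rw [h, hainv]
      _ = (negOne * negOne) * a := by rw [mul_assoc, hz a, ← mul_assoc]
      _ = a := by rw [negOne_mul_negOne, one_mul]
  have habsq : (a * b) * (a * b) = negOne := sq_of_tr_zero _ (htr0 _ habm hab1 hab2)
  have hanti : a * b = negOne * (b * a) := by
    rcases hab a ha b hb with h | h
    · exfalso
      apply hn1
      have e : (a * b) * (a * b) = 1 := by
        calc (a * b) * (a * b) = a * (b * a) * b := by group
          _ = a * (a * b) * b := by rw [h]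
          _ = (a * a) * (b * b) := by group
          _ = 1 := by rw [haa, hbb, negOne_mul_negOne]
      rw [← habsq, e]
    · exact h
  have hnc : a * b ≠ b * a := by
    intro h
    apply hn1
    have e : b * a = negOne * (b * a) := by rw [← hanti, h]
    have e2 : negOne * (b * a) * (b * a)⁻¹ = (b * a) * (b * a)⁻¹ := by rw [← e]
    rw [mul_inv_cancel_right, mul_inv_cancel] at e2
    exact e2
  refine ⟨a, ha, b, hb, haa, hbb, hanti, ?_⟩
  intro c hc
  exact q8_abs negOne hz negOne_mul_negOne a b haa hbb hanti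
    (fun g ga gb => comm_both a b g hnc ga gb) c (hab a ha c hc) (hab b hb c hc)

lemma comm_of_pow (c a b : SL(2, F)) (i j : ℤ) (ha : a = c ^ i ∨ a = negOne * c ^ i)
    (hb : b = c ^ j ∨ b = negOne * c ^ j) : a * b = b * a := by
  have hzc : ∀ g : SL(2, F), Commute negOne g := fun g => (hz g).symm
  have h1 : Commute a c := by
    rcases ha with rfl | rfl
    · exact (Commute.refl c).zpow_left i
    · exact (hzc c).mul_left ((Commute.refl c).zpow_left i)
  have h2 : Commute a b := by
    rcases hb with rfl | rfl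
    · exact h1.zpow_right j
    · exact (hzc a).symm.mul_right (h1.zpow_right j)
  exact h2.eq

section hlevel

variable [Fintype F]

/-- the restriction on normal abelian subgroups of a subgroup of `PSL(2, F)` -/
theorem restr (p : ℕ) [Fact p.Prime] [CharP F p] (h2 : (2 : F) ≠ 0)
    (H : Subgroup (Matrix.ProjectiveSpecialLinearGroup (Fin 2) F))
    (hss : ∀ A : Subgroup H, A.Normal → (∀ a ∈ A, ∀ b ∈ A, a * b = b * a) →
      ∀ x : SL(2, F), ∀ hx : proj x ∈ H, (⟨proj x, hx⟩ : H) ∈ A → (orderOf x).Coprime p)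
    (hnor : ∀ a ∈ H.comap proj, (orderOf a).Coprime p → a ≠ 1 → a ≠ negOne →
      ¬ H.comap proj ≤ NorInv a) :
    Cfsg.Agent.Lib.Helper6.Dk1.Restr H := by
  classical
  haveI : Finite SL(2, F) := finite_SL
  haveI : Finite (Matrix.ProjectiveSpecialLinearGroup (Fin 2) F) :=
    Finite.of_surjective _ proj_surj
  intro A hAn hAne hAc
  obtain ⟨At, hAt⟩ : ∃ At : Subgroup SL(2, F), At = (A.map H.subtype).comap proj := ⟨_, rfl⟩
  have memAt : ∀ x : SL(2, F), x ∈ At ↔ ∃ hx : proj x ∈ H, (⟨proj x, hx⟩ : H) ∈ A := by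
    intro x
    rw [hAt]
    constructor
    · rintro ⟨h, hh, hhx⟩
      have hhx' : (h : Matrix.ProjectiveSpecialLinearGroup (Fin 2) F) = proj x := hhx
      have hx : proj x ∈ H := by rw [← hhx']; exact h.2
      refine ⟨hx, ?_⟩
      have : (⟨proj x, hx⟩ : H) = h := Subtype.ext hhx'.symm
      rw [this]; exact hh
    · rintro ⟨hx, hh⟩
      exact ⟨⟨proj x, hx⟩, hh, rfl⟩
  have memAt' : ∀ (h : H), h ∈ A → ∀ x : SL(2, F), proj x = h.1 → x ∈ At := by
    intro h hh x hx
    rw [memAt]
    have hx' : proj x ∈ H := by rw [hx]; exact h.2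
    refine ⟨hx', ?_⟩
    have : (⟨proj x, hx'⟩ : H) = h := Subtype.ext hx
    rw [this]; exact hh
  have hAX : At ≤ H.comap proj := by
    intro x hx
    obtain ⟨hx', -⟩ := (memAt x).1 hx
    exact hx'
  have hnorm : ∀ x ∈ H.comap proj, ∀ a ∈ At, x * a * x⁻¹ ∈ At := by
    intro x hx a ha
    obtain ⟨ha', haA⟩ := (memAt a).1 ha
    have hx' : proj x ∈ H := hx
    have h1 := hAn.conj_mem ⟨proj a, ha'⟩ haA ⟨proj x, hx'⟩
    refine memAt' _ h1 _ ?_
    rw [map_mul, map_mul, map_inv]
    rfl
  have hab : ∀ a ∈ At, ∀ c ∈ At, a * c = c * a ∨ a * c = negOne * (c * a) := by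
    intro a ha c hc
    obtain ⟨ha', haA⟩ := (memAt a).1 ha
    obtain ⟨hc', hcA⟩ := (memAt c).1 hc
    have h1 := hAc _ haA _ hcA
    have e : proj (a * c) = proj (c * a) := by
      rw [map_mul, map_mul]
      exact congrArg Subtype.val h1
    exact (proj_eq_iff _ _).1 e
  have hne : ∃ a ∈ At, a ≠ 1 ∧ a ≠ negOne := by
    obtain ⟨⟨h, hh⟩, hne⟩ := (Subgroup.ne_bot_iff_exists_ne_one).1 hAne
    obtain ⟨x, hx⟩ := proj_surj h.1
    refine ⟨x, memAt' h hh x hx, ?_, ?_⟩
    · rintro rfl
      apply hne
      apply Subtype.ext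
      apply Subtype.ext
      rw [← hx, map_one]
      rfl
    · rintro rfl
      apply hne
      apply Subtype.ext
      apply Subtype.ext
      rw [← hx, proj_negOne]
      rfl
  have hssA : ∀ a ∈ At, (orderOf a).Coprime p := by
    intro a ha
    obtain ⟨ha', haA⟩ := (memAt a).1 ha
    exact hss A hAn hAc a ha' haA
  obtain ⟨a, ha, b, hb, haa, hbb, hanti, hall⟩ :=
    q8_structure p h2 (H.comap proj) At hAX hnorm hab hne hssA hnor
  obtain ⟨ha', haA⟩ := (memAt a).1 ha
  obtain ⟨hb', hbA⟩ := (memAt b).1 hb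
  have hn1 : (negOne : SL(2, F)) ≠ 1 := negOne_ne_one h2
  have hnc : a * b ≠ b * a := by
    intro h
    apply hn1
    have e : b * a = negOne * (b * a) := by rw [← hanti, h]
    have e2 : negOne * (b * a) * (b * a)⁻¹ = (b * a) * (b * a)⁻¹ := by rw [← e]
    rw [mul_inv_cancel_right, mul_inv_cancel] at e2
    exact e2
  refine ⟨?_, ?_, ?_⟩
  · -- not cyclic
    intro hcyc
    obtain ⟨g₀, hg₀⟩ := hcyc.exists_generator
    obtain ⟨c, hc⟩ := proj_surj ((g₀ : H) : Matrix.ProjectiveSpecialLinearGroup (Fin 2) F)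
    have key : ∀ x ∈ At, ∃ i : ℤ, x = c ^ i ∨ x = negOne * c ^ i := by
      intro x hx
      obtain ⟨hx', hxA⟩ := (memAt x).1 hx
      obtain ⟨i, hi⟩ := Subgroup.mem_zpowers_iff.1 (hg₀ ⟨⟨proj x, hx'⟩, hxA⟩)
      refine ⟨i, ?_⟩
      have e : proj x = proj (c ^ i) := by
        rw [map_zpow, hc]
        have h1 := congrArg (fun t : A => ((t : H) : Matrix.ProjectiveSpecialLinearGroup (Fin 2) F)) hi
        simp only [Subgroup.coe_zpow] at h1
        exact h1.symm
      exact (proj_eq_iff _ _).1 e
    obtain ⟨i, hi⟩ := key a ha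
    obtain ⟨j, hj⟩ := key b hb
    exact hnc (comm_of_pow c a b i j hi hj)
  · -- at most four elements
    have habm : proj (a * b) ∈ H := by rw [map_mul]; exact H.mul_mem ha' hb'
    obtain ⟨S, hS⟩ : ∃ S : Finset H, S = {1, ⟨proj a, ha'⟩, ⟨proj b, hb'⟩, ⟨proj (a * b), habm⟩} :=
      ⟨_, rfl⟩
    have hsub : (A : Set H) ⊆ (S : Set H) := by
      intro h hh
      obtain ⟨x, hx⟩ := proj_surj h.1
      have hxA : x ∈ At := memAt' h hh x hx
      have hcases := hall x hxA
      rw [hS]
      simp only [Finset.coe_insert, Finset.coe_singleton, Set.mem_insert_iff,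
        Set.mem_singleton_iff]
      rcases hcases with h' | h' | h' | h' | h' | h' | h' | h'
      · left; apply Subtype.ext; rw [← hx, h', map_one]; rfl
      · left; apply Subtype.ext; rw [← hx, h', proj_negOne]; rfl
      · right; left; apply Subtype.ext; rw [← hx, h']
      · right; left; apply Subtype.ext; rw [← hx, h', map_mul, proj_negOne, one_mul]
      · right; right; left; apply Subtype.ext; rw [← hx, h']
      · right; right; left; apply Subtype.ext; rw [← hx, h', map_mul, proj_negOne, one_mul]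
      · right; right; right; apply Subtype.ext; rw [← hx, h']
      · right; right; right; apply Subtype.ext; rw [← hx, h', map_mul, proj_negOne, one_mul]
    have h1 := Nat.card_mono (Set.toFinite (S : Set H)) hsub
    have h3 : Nat.card ((S : Set H) : Type _) = S.card := by
      rw [Nat.card_coe_set_eq, Set.ncard_coe_finset]
    have h4 : S.card ≤ 4 := by rw [hS]; exact Finset.card_le_four
    have h5 : Nat.card A = Nat.card ((A : Set H) : Type _) := rfl
    omega
  · -- no elements of order five
    intro h5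
    haveI : Fact (Nat.Prime 5) := ⟨by norm_num⟩
    obtain ⟨h, hh⟩ := exists_prime_orderOf_dvd_card' 5 h5
    have hle4 : Nat.card A ≤ 4 := by
      have habm : proj (a * b) ∈ H := by rw [map_mul]; exact H.mul_mem ha' hb'
      obtain ⟨S, hS⟩ : ∃ S : Finset H,
          S = {1, ⟨proj a, ha'⟩, ⟨proj b, hb'⟩, ⟨proj (a * b), habm⟩} := ⟨_, rfl⟩
      have hsub : (A : Set H) ⊆ (S : Set H) := by
        intro h hh
        obtain ⟨x, hx⟩ := proj_surj h.1
        have hxA : x ∈ At := memAt' h hh x hx
        have hcases := hall x hxA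
        rw [hS]
        simp only [Finset.coe_insert, Finset.coe_singleton, Set.mem_insert_iff,
          Set.mem_singleton_iff]
        rcases hcases with h' | h' | h' | h' | h' | h' | h' | h'
        · left; apply Subtype.ext; rw [← hx, h', map_one]; rfl
        · left; apply Subtype.ext; rw [← hx, h', proj_negOne]; rfl
        · right; left; apply Subtype.ext; rw [← hx, h']
        · right; left; apply Subtype.ext; rw [← hx, h', map_mul, proj_negOne, one_mul]
        · right; right; left; apply Subtype.ext; rw [← hx, h']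
        · right; right; left; apply Subtype.ext; rw [← hx, h', map_mul, proj_negOne, one_mul]
        · right; right; right; apply Subtype.ext; rw [← hx, h']
        · right; right; right; apply Subtype.ext; rw [← hx, h', map_mul, proj_negOne, one_mul]
      have h1 := Nat.card_mono (Set.toFinite (S : Set H)) hsub
      have h3 : Nat.card ((S : Set H) : Type _) = S.card := by
        rw [Nat.card_coe_set_eq, Set.ncard_coe_finset]
      have h4 : S.card ≤ 4 := by rw [hS]; exact Finset.card_le_four
      have h5 : Nat.card A = Nat.card ((A : Set H) : Type _) := rfl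
      omega
    let ψ : H →* Equiv.Perm A := (MulAut.toPerm A).comp (MulAut.conjNormal (H := A))
    have e5 : ψ h ^ 5 = 1 := by rw [← map_pow, ← hh, pow_orderOf_eq_one, map_one]
    have e24 : ψ h ^ 24 = 1 := by
      have hc : Nat.card (Equiv.Perm A) ∣ 24 := by
        rw [Nat.card_perm]
        have hpos : 0 < Nat.card A := Nat.card_pos
        obtain ⟨n, hn⟩ : ∃ n, Nat.card A = n := ⟨_, rfl⟩
        rw [hn] at hle4 hpos ⊢
        interval_cases n <;> decide
      obtain ⟨k, hk⟩ := hc
      rw [hk, pow_mul, pow_card_eq_one', one_pow]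
    have e1 : ψ h = 1 := by
      have hd : orderOf (ψ h) ∣ Nat.gcd 5 24 :=
        Nat.dvd_gcd (orderOf_dvd_of_pow_eq_one e5) (orderOf_dvd_of_pow_eq_one e24)
      have h1 : orderOf (ψ h) = 1 := Nat.dvd_one.1 (by simpa using hd)
      exact orderOf_eq_one_iff.1 h1
    have hfix : ∀ a' : A, h * (a' : H) * h⁻¹ = a' := by
      intro a'
      have e2 : ψ h a' = a' := by rw [e1]; rfl
      have e3 : ((ψ h a' : A) : H) = h * a' * h⁻¹ := MulAut.conjNormal_apply h a'
      rw [← e3, e2]
    obtain ⟨x, hx⟩ := proj_surj h.1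
    have hcj : ∀ t : SL(2, F), ∀ ht : proj t ∈ H, (⟨proj t, ht⟩ : H) ∈ A →
        x * t * x⁻¹ = t ∨ x * t * x⁻¹ = negOne * t := by
      intro t ht htA
      have h1 := hfix ⟨⟨proj t, ht⟩, htA⟩
      have h1' := congrArg Subtype.val h1
      have e : proj (x * t * x⁻¹) = proj t := by
        rw [map_mul, map_mul, map_inv, hx]
        exact h1'
      exact (proj_eq_iff _ _).1 e
    have hxa := sq_comm_of x a (hcj a ha' haA)
    have hxb := sq_comm_of x b (hcj b hb' hbA)
    have hxx : proj (x * x) = 1 := (proj_eq_one_iff _).2 (comm_both a b (x * x) hnc hxa hxb)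
    have hhh : h * h = 1 := by
      apply Subtype.ext
      rw [Subgroup.coe_mul, ← hx, ← map_mul, hxx]
      rfl
    have hd : orderOf h ∣ 2 := orderOf_dvd_of_pow_eq_one (by rw [pow_two]; exact hhh)
    rw [hh] at hd
    revert hd
    decide

end hlevel

end Cfsg.Agent.Lib.Helper6.Dk2
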