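import Mathlib
import Cfsg.Agent.Lib.Helper6.Dk2

/-!
# The exceptional subgroups `A₄`, `S₄`, `A₅` of `PSL(2, q)`, `q` odd (helper6)

* `case_pprime`: subgroups whose preimage in `SL(2, F)` has order 24, 48, 120 prime to `p`
  and non-commuting squares;
* `case_unip`: (characteristic 3) non-triangularisable subgroups of order divisible by 3 that
  divides 360 and is at most 60.
-/

set_option autoImplicit false
set_option linter.unusedSimpArgs false
set_option linter.unusedVariables false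
set_option linter.unusedSectionVars false
set_option linter.style.haveILetI false
set_option linter.unnecessarySeqFocus false
set_option linter.unreachableTactic false
set_option linter.unusedTactic false

namespace Cfsg.Agent.Lib.Helper6.Dk3

open Matrix MatrixGroups
open Cfsg.Agent.Lib.Helper53.SL2Inv Cfsg.Agent.Lib.Helper53.SL2Unip
open Cfsg.Agent.Lib.Helper98.SL2Sub Cfsg.Agent.Lib.Helper98.SL2Core
open Cfsg.Agent.Lib.Helper98.SL2Tor Cfsg.Agent.Lib.Helper98.PSL2Max
open Cfsg.Agent.Lib.Helper6.Sb2 Cfsg.Agent.Lib.Helper6.Dk2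

variable {F : Type*} [Field F] [Fintype F]

/-- in a subgroup that cannot be triangularised, the lifts of the elements of a normal abelian
subgroup are semisimple -/
theorem coprime_of_nonBorel (p : ℕ) [Fact p.Prime] [CharP F p] (h2 : (2 : F) ≠ 0)
    (H : Subgroup (Matrix.ProjectiveSpecialLinearGroup (Fin 2) F))
    (hnb : ¬ ∃ g : SL(2, F), ∀ y ∈ H.comap proj, (g * y * g⁻¹).1 1 0 = 0)
    (A : Subgroup H) (hAn : A.Normal) (hAc : ∀ a ∈ A, ∀ b ∈ A, a * b = b * a)
    (x : SL(2, F)) (hx : proj x ∈ H) (hxA : (⟨proj x, hx⟩ : H) ∈ A) :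
    (orderOf x).Coprime p := by
  haveI : Finite SL(2, F) := finite_SL
  have hpp : p.Prime := Fact.out
  by_contra hnc
  have hdvd : p ∣ orderOf x := by
    by_contra h
    exact hnc ((Nat.Prime.coprime_iff_not_dvd hpp).2 h).symm
  obtain ⟨m, hm⟩ := hdvd
  have hopos : 0 < orderOf x := orderOf_pos x
  have hmpos : 0 < m := by
    rcases Nat.eq_zero_or_pos m with h | h
    · rw [h, mul_zero] at hm; omega
    · exact h
  have hmlt : m < orderOf x := by
    rw [hm]
    have := hpp.two_le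
    nlinarith
  obtain ⟨x₀, hx₀⟩ : ∃ x₀, x₀ = x ^ m := ⟨_, rfl⟩
  have hx₀p : x₀ ^ p = 1 := by
    rw [hx₀, ← pow_mul, mul_comm, ← hm, pow_orderOf_eq_one]
  have hx₀1 : x₀ ≠ 1 := by
    rw [hx₀]
    exact pow_ne_one_of_lt_orderOf hmpos.ne' hmlt
  have htr : tr x₀ = 2 := tr_eq_two_of_pow p x₀ 1 (by rw [pow_one]; exact hx₀p)
  obtain ⟨g, s, hs, hg⟩ := exists_conj_u x₀ htr hx₀1
  apply hnb
  refine ⟨g, fun y hy => ?_⟩
  have hy' : proj y ∈ H := hy
  have hx₀H : proj x₀ ∈ H := by rw [hx₀, map_pow]; exact H.pow_mem hx m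
  have hx₀A : (⟨proj x₀, hx₀H⟩ : H) ∈ A := by
    have h1 := A.pow_mem hxA m
    have e : (⟨proj x₀, hx₀H⟩ : H) = ⟨proj x, hx⟩ ^ m := by
      apply Subtype.ext
      rw [Subgroup.coe_pow]
      show proj x₀ = proj x ^ m
      rw [hx₀, map_pow]
    rw [e]; exact h1
  obtain ⟨z, hz'⟩ : ∃ z, z = y * x₀ * y⁻¹ := ⟨_, rfl⟩
  have hzH : proj z ∈ H := by
    rw [hz', map_mul, map_mul, map_inv]
    exact H.mul_mem (H.mul_mem hy' hx₀H) (H.inv_mem hy')
  have hzA : (⟨proj z, hzH⟩ : H) ∈ A := by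
    have h1 := hAn.conj_mem _ hx₀A ⟨proj y, hy'⟩
    have e : (⟨proj z, hzH⟩ : H) =
        ⟨proj y, hy'⟩ * ⟨proj x₀, hx₀H⟩ * (⟨proj y, hy'⟩ : H)⁻¹ := by
      apply Subtype.ext
      show proj z = proj y * proj x₀ * (proj y)⁻¹
      rw [hz', map_mul, map_mul, map_inv]
    rw [e]; exact h1
  have hcomm : x₀ * z = z * x₀ := by
    have h1 := hAc _ hx₀A _ hzA
    have e : proj (x₀ * z) = proj (z * x₀) := by
      rw [map_mul, map_mul]
      exact congrArg Subtype.val h1
    rcases (proj_eq_iff _ _).1 e with h | h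
    · exact h
    · exfalso
      have h0 := tr_zero_of_anti h2 x₀ z h
      rw [htr] at h0
      exact h2 h0
  obtain ⟨w', hw'⟩ : ∃ w', w' = g * y * g⁻¹ := ⟨_, rfl⟩
  obtain ⟨v, hvdef⟩ : ∃ v, v = w' * u s * w'⁻¹ := ⟨_, rfl⟩
  have hv : g * z * g⁻¹ = v := by
    rw [hvdef, hw', hz', ← hg]; group
  have hcv : u s * v = v * u s := by
    rw [← hv, ← hg]
    have e1 : g * x₀ * g⁻¹ * (g * z * g⁻¹) = g * (x₀ * z) * g⁻¹ := by group
    have e2 : g * z * g⁻¹ * (g * x₀ * g⁻¹) = g * (z * x₀) * g⁻¹ := by group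
    rw [e1, e2, hcomm]
  have h00 : (u s * v).1 0 0 = (v * u s).1 0 0 := by rw [hcv]
  rw [mul00, mul00, u00, u01, u10] at h00
  have hv10 : v.1 1 0 = 0 := by
    have : s * v.1 1 0 = 0 := by linear_combination h00
    rcases mul_eq_zero.1 this with h | h
    · exact absurd h hs
    · exact h
  rw [hvdef, conj10, u00, u01, u10, u11] at hv10
  have hfin : s * (w'.1 1 0) ^ 2 = 0 := by linear_combination -hv10
  rcases mul_eq_zero.1 hfin with h | h
  · exact absurd h hs
  · rw [← hw']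
    exact (pow_eq_zero_iff (two_ne_zero)).1 h

omit [Fintype F] in
theorem not_le_norInv_of_sq (X : Subgroup SL(2, F))
    (hsq : ¬ ∀ x ∈ X, ∀ y ∈ X, x ^ 2 * y ^ 2 = y ^ 2 * x ^ 2) (a : SL(2, F)) (ha1 : a ≠ 1)
    (ha2 : a ≠ negOne) : ¬ X ≤ NorInv a := by
  intro hle
  apply hsq
  have key : ∀ x ∈ X, x ^ 2 ∈ Subgroup.centralizer {a} := by
    intro x hx
    rw [Subgroup.mem_centralizer_singleton_iff]
    rcases mem_norInv.1 (hle hx) with h | h
    · have h1 : x * a = a * x := mul_inv_eq_iff_eq_mul.1 h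
      calc x ^ 2 * a = x * (x * a) := by rw [pow_two]; group
        _ = x * (a * x) := by rw [h1]
        _ = (x * a) * x := by group
        _ = a * x * x := by rw [h1]
        _ = a * x ^ 2 := by rw [pow_two]; group
    · have h1 : x * a = a⁻¹ * x := mul_inv_eq_iff_eq_mul.1 h
      have h2 : x * a⁻¹ = a * x := by
        have : x * a⁻¹ * x⁻¹ = a := by
          have e : x * a⁻¹ * x⁻¹ = (x * a * x⁻¹)⁻¹ := by group
          rw [e, h, inv_inv]
        exact mul_inv_eq_iff_eq_mul.1 this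
      calc x ^ 2 * a = x * (x * a) := by rw [pow_two]; group
        _ = x * (a⁻¹ * x) := by rw [h1]
        _ = (x * a⁻¹) * x := by group
        _ = a * x * x := by rw [h2]
        _ = a * x ^ 2 := by rw [pow_two]; group
  intro x hx y hy
  exact abelian_centralizer a ha1 ha2 _ (key x hx) _ (key y hy)

theorem not_le_norInv_of_dvd (p : ℕ) [Fact p.Prime] [CharP F p] (h2 : (2 : F) ≠ 0)
    (X : Subgroup SL(2, F)) (hp : p ∣ Nat.card X) (a : SL(2, F)) (ha : (orderOf a).Coprime p)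
    (ha1 : a ≠ 1) (ha2 : a ≠ negOne) : ¬ X ≤ NorInv a := by
  haveI : Finite SL(2, F) := finite_SL
  intro hle
  have hpp : p.Prime := Fact.out
  have h1 : p ∣ Nat.card (NorInv a) := hp.trans (Subgroup.card_dvd_of_le hle)
  obtain ⟨n, -, hn⟩ := FiniteField.card F p
  have hq : p ∣ Fintype.card F := by rw [hn]; exact dvd_pow_self p n.ne_zero
  have hp2 : p ≠ 2 := by
    rintro rfl
    apply h2
    have := CharP.cast_eq_zero F 2
    exact_mod_cast this
  have hcop : Nat.Coprime p 2 := (Nat.coprime_primes hpp Nat.prime_two).2 hp2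
  have hq1 : 1 < Fintype.card F := Fintype.one_lt_card
  rcases card_norInv_dvd_cases p h2 a ha ha1 ha2 with h | h
  · have h3 : p ∣ Fintype.card F - 1 := (hcop.dvd_mul_left).1 (h1.trans h)
    have h4 : p ∣ 1 := by
      have := Nat.dvd_sub hq h3
      have e : Fintype.card F - (Fintype.card F - 1) = 1 := by omega
      rwa [e] at this
    exact hpp.one_lt.ne' (Nat.dvd_one.1 h4)
  · have h3 : p ∣ Fintype.card F + 1 := (hcop.dvd_mul_left).1 (h1.trans h)
    have h4 : p ∣ 1 := by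
      have := Nat.dvd_sub h3 hq
      have e : Fintype.card F + 1 - Fintype.card F = 1 := by omega
      rwa [e] at this
    exact hpp.one_lt.ne' (Nat.dvd_one.1 h4)

/-- preimage of order 24, 48, 120 prime to `p`, squares not commuting -/
theorem case_pprime (p : ℕ) [Fact p.Prime] [CharP F p] (h2 : (2 : F) ≠ 0)
    (H : Subgroup (Matrix.ProjectiveSpecialLinearGroup (Fin 2) F))
    (hp : ¬ p ∣ Nat.card (H.comap proj))
    (hsq : ¬ ∀ x ∈ H.comap proj, ∀ y ∈ H.comap proj, x ^ 2 * y ^ 2 = y ^ 2 * x ^ 2)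
    (hc : Nat.card (H.comap proj) = 24 ∨ Nat.card (H.comap proj) = 48 ∨
      Nat.card (H.comap proj) = 120) :
    Nonempty (H ≃* alternatingGroup (Fin 4)) ∨ Nonempty (H ≃* Equiv.Perm (Fin 4)) ∨
      Nonempty (H ≃* alternatingGroup (Fin 5)) := by
  haveI : Finite SL(2, F) := finite_SL
  haveI : Finite (Matrix.ProjectiveSpecialLinearGroup (Fin 2) F) :=
    Finite.of_surjective _ proj_surj
  have hpp : p.Prime := Fact.out
  have hR : Cfsg.Agent.Lib.Helper6.Dk1.Restr H := by
    apply restr p h2 H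
    · intro A _ _ x hx _
      have hxX : x ∈ H.comap proj := hx
      have hdvd : orderOf (⟨x, hxX⟩ : H.comap proj) ∣ Nat.card (H.comap proj) :=
        orderOf_dvd_natCard _
      rw [Subgroup.orderOf_mk] at hdvd
      exact Nat.Coprime.coprime_dvd_left hdvd ((Nat.Prime.coprime_iff_not_dvd hpp).2 hp).symm
    · intro a _ _ ha1 ha2
      exact not_le_norInv_of_sq _ hsq a ha1 ha2
  have hcard := card_comap h2 H
  exact Cfsg.Agent.Lib.Helper6.Dk1.abs_main hR (by omega)

/-- characteristic 3: non-triangularisable, order divisible by 3, dividing 360, at most 60 -/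
theorem case_unip (p : ℕ) [Fact p.Prime] [CharP F p] (h2 : (2 : F) ≠ 0) (h3 : p = 3)
    (H : Subgroup (Matrix.ProjectiveSpecialLinearGroup (Fin 2) F))
    (hp : p ∣ Nat.card (H.comap proj))
    (hnb : ¬ ∃ g : SL(2, F), ∀ y ∈ H.comap proj, (g * y * g⁻¹).1 1 0 = 0)
    (hd : Nat.card H ∣ 360) (hle : Nat.card H ≤ 60) :
    Nonempty (H ≃* alternatingGroup (Fin 4)) ∨ Nonempty (H ≃* Equiv.Perm (Fin 4)) ∨
      Nonempty (H ≃* alternatingGroup (Fin 5)) := by
  haveI : Finite SL(2, F) := finite_SL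
  haveI : Finite (Matrix.ProjectiveSpecialLinearGroup (Fin 2) F) :=
    Finite.of_surjective _ proj_surj
  have hR : Cfsg.Agent.Lib.Helper6.Dk1.Restr H := by
    apply restr p h2 H
    · intro A hAn hAc x hx hxA
      exact coprime_of_nonBorel p h2 H hnb A hAn hAc x hx hxA
    · intro a _ ha ha1 ha2
      exact not_le_norInv_of_dvd p h2 _ hp a ha ha1 ha2
  have hcard := card_comap h2 H
  have h3' : 3 ∣ Nat.card H := by
    subst h3
    rw [hcard] at hp
    exact (Nat.Coprime.dvd_mul_left (by norm_num)).1 hp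
  exact Cfsg.Agent.Lib.Helper6.Dk1.abs_main hR
    (Cfsg.Agent.Lib.Helper6.Dk1.abs_orders hR hd hle h3')

end Cfsg.Agent.Lib.Helper6.Dk3
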