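import Mathlib
import Cfsg.Agent.Lib.Helper6.Dk3

/-!
# Tori of `SL(2, q)` are cyclic; cyclic and dihedral subgroups of `PSL(2, q)`, `q` odd (helper6)

* `isCyclic_centralizer`: the centraliser of an element `a` with `tr a ^ 2 ≠ 4` is cyclic;
* `case_sqcomm`: subgroups of `PSL(2, F)` whose preimage has order prime to `p` and commuting
  squares are cyclic or dihedral.
-/

set_option autoImplicit false
set_option linter.unusedSimpArgs false
set_option linter.unusedVariables false
set_option linter.unusedSectionVars false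
set_option linter.style.haveILetI false
set_option linter.unnecessarySeqFocus false
set_option linter.unreachableTactic false
set_option linter.unusedTactic false

namespace Cfsg.Agent.Lib.Helper6.Dk4

open Matrix MatrixGroups
open Cfsg.Agent.Lib.Helper53.SL2Inv Cfsg.Agent.Lib.Helper53.SL2Unip
open Cfsg.Agent.Lib.Helper98.SL2Sub Cfsg.Agent.Lib.Helper98.SL2Core
open Cfsg.Agent.Lib.Helper98.SL2Tor Cfsg.Agent.Lib.Helper98.PSL2Max
open Cfsg.Agent.Lib.Helper6.Sb2 Cfsg.Agent.Lib.Helper6.Dk2 Cfsg.Agent.Lib.Helper6.Dk3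

variable {F : Type*} [Field F]

lemma cent_rel (a t : SL(2, F)) (ht : t * a = a * t) :
    t.1 0 1 * a.1 1 0 = a.1 0 1 * t.1 1 0 ∧
      (t.1 0 0 - t.1 1 1) * a.1 1 0 = (a.1 0 0 - a.1 1 1) * t.1 1 0 := by
  have e00 : (t * a).1 0 0 = (a * t).1 0 0 := by rw [ht]
  have e10 : (t * a).1 1 0 = (a * t).1 1 0 := by rw [ht]
  rw [mul00, mul00] at e00
  rw [mul10, mul10] at e10
  constructor
  · linear_combination e00
  · linear_combination -e10

/-- the eigenvalue character of the centraliser -/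
noncomputable def mu (a : SL(2, F)) {Ω : Type*} [Field Ω] (ι : F →+* Ω) (lam : Ω)
    (ha10 : a.1 1 0 ≠ 0) (hlam : lam ^ 2 - ι (a.1 0 0 + a.1 1 1) * lam + 1 = 0) :
    Subgroup.centralizer ({a} : Set SL(2, F)) →* Ω where
  toFun t := ι (t.1.1 1 1) + ι (t.1.1 1 0) / ι (a.1 1 0) * (lam - ι (a.1 1 1))
  map_one' := by
    show ι ((1 : SL(2, F)).1 1 1) + ι ((1 : SL(2, F)).1 1 0) / ι (a.1 1 0) *
      (lam - ι (a.1 1 1)) = 1
    rw [one11, one10, map_one, map_zero, zero_div, zero_mul, add_zero]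
  map_mul' := by
    rintro ⟨t, ht⟩ ⟨t', ht'⟩
    show ι ((t * t').1 1 1) + ι ((t * t').1 1 0) / ι (a.1 1 0) * (lam - ι (a.1 1 1)) =
      (ι (t.1 1 1) + ι (t.1 1 0) / ι (a.1 1 0) * (lam - ι (a.1 1 1))) *
        (ι (t'.1 1 1) + ι (t'.1 1 0) / ι (a.1 1 0) * (lam - ι (a.1 1 1)))
    rw [Subgroup.mem_centralizer_singleton_iff] at ht'
    obtain ⟨R1, R2⟩ := cent_rel a t' ht'
    have R1' := congrArg ι R1
    have R2' := congrArg ι R2
    have Da' := congrArg ι (det_eq a)
    have hA : ι (a.1 1 0) ≠ 0 := fun h => ha10 (ι.injective (by rw [h, map_zero]))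
    rw [mul11, mul10]
    simp only [map_add, map_mul, map_sub, map_one] at R1' R2' Da' hlam ⊢
    field_simp
    linear_combination (ι (t.1 1 0) * ι (a.1 1 0)) * R1' +
      (ι (t.1 1 0) * (lam - ι (a.1 1 1))) * R2' - (ι (t.1 1 0) * ι (t'.1 1 0)) * Da' -
      (ι (t.1 1 0) * ι (t'.1 1 0)) * hlam

lemma mu_apply (a : SL(2, F)) {Ω : Type*} [Field Ω] (ι : F →+* Ω) (lam : Ω)
    (ha10 : a.1 1 0 ≠ 0) (hlam : lam ^ 2 - ι (a.1 0 0 + a.1 1 1) * lam + 1 = 0)
    (t : SL(2, F)) (ht : t ∈ Subgroup.centralizer ({a} : Set SL(2, F))) :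
    mu a ι lam ha10 hlam ⟨t, ht⟩ =
      ι (t.1 1 1) + ι (t.1 1 0) / ι (a.1 1 0) * (lam - ι (a.1 1 1)) := rfl

theorem mu_injective (a : SL(2, F)) {Ω : Type*} [Field Ω] (ι : F →+* Ω) (lam : Ω)
    (ha10 : a.1 1 0 ≠ 0) (hlam : lam ^ 2 - ι (a.1 0 0 + a.1 1 1) * lam + 1 = 0)
    (htr : (a.1 0 0 + a.1 1 1) ^ 2 ≠ 4) : Function.Injective (mu a ι lam ha10 hlam) := by
  rw [injective_iff_map_eq_one]
  rintro ⟨t, ht⟩ hmu
  rw [mu_apply] at hmu
  have ht' := Subgroup.mem_centralizer_singleton_iff.1 ht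
  obtain ⟨R1, R2⟩ := cent_rel a t ht'
  have hA : ι (a.1 1 0) ≠ 0 := fun h => ha10 (ι.injective (by rw [h, map_zero]))
  have Dt := det_eq t
  have Da := det_eq a
  apply Subtype.ext
  show t = 1
  by_cases h10 : t.1 1 0 = 0
  · rw [h10, map_zero, zero_div, zero_mul, add_zero] at hmu
    have h11 : t.1 1 1 = 1 := ι.injective (by rw [hmu, map_one])
    have h01 : t.1 0 1 = 0 := by
      rw [h10, mul_zero] at R1
      rcases mul_eq_zero.1 R1 with h | h
      · exact h
      · exact absurd h ha10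
    have h00 : t.1 0 0 = 1 := by
      rw [h10, mul_zero, h11] at R2
      rcases mul_eq_zero.1 R2 with h | h
      · exact sub_eq_zero.1 h
      · exact absurd h ha10
    apply sl2_ext
    · rw [h00, one00]
    · rw [h01, one01]
    · rw [h10, one10]
    · rw [h11, one11]
  · exfalso
    obtain ⟨y, hy⟩ : ∃ y, y = t.1 1 0 / a.1 1 0 := ⟨_, rfl⟩
    have hy0 : y ≠ 0 := by rw [hy]; exact div_ne_zero h10 ha10
    have hyι : ι y ≠ 0 := fun h => hy0 (ι.injective (by rw [h, map_zero]))
    obtain ⟨r, hr⟩ : ∃ r, r = a.1 1 1 + (1 - t.1 1 1) / y := ⟨_, rfl⟩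
    have hmu' : ι (t.1 1 1) + ι y * (lam - ι (a.1 1 1)) = 1 := by
      rw [hy, map_div₀]; exact hmu
    have hlamr : lam = ι r := by
      rw [hr, map_add, map_div₀, map_sub, map_one]
      field_simp
      linear_combination hmu'
    have hrr : r ^ 2 - (a.1 0 0 + a.1 1 1) * r + 1 = 0 := by
      apply ι.injective
      rw [map_add, map_sub, map_mul, map_pow, map_one, map_zero, ← hlamr]
      exact hlam
    have e11 : t.1 1 1 = 1 - y * (r - a.1 1 1) := by
      rw [hr]; field_simp; ring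
    have e10 : t.1 1 0 = y * a.1 1 0 := by
      rw [hy]; field_simp
    have e01 : t.1 0 1 = y * a.1 0 1 := by
      have : t.1 0 1 * a.1 1 0 = (y * a.1 0 1) * a.1 1 0 := by rw [R1, e10]; ring
      exact mul_right_cancel₀ ha10 this
    have e00 : t.1 0 0 = 1 + y * (a.1 0 0 - r) := by
      have : (t.1 0 0) * a.1 1 0 = (1 + y * (a.1 0 0 - r)) * a.1 1 0 := by
        have R2' := R2
        rw [e10, e11] at R2'
        linear_combination R2'
      exact mul_right_cancel₀ ha10 this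
    rw [e00, e11, e01, e10] at Dt
    have hy2 : y * (a.1 0 0 + a.1 1 1 - 2 * r) = 0 := by
      linear_combination Dt - y ^ 2 * hrr - y ^ 2 * Da
    have h2r : a.1 0 0 + a.1 1 1 - 2 * r = 0 := by
      rcases mul_eq_zero.1 hy2 with h | h
      · exact absurd h hy0
      · exact h
    apply htr
    linear_combination (-4 : F) * hrr + (a.1 0 0 + a.1 1 1 - 2 * r) * h2r

section fin

variable [Finite F]

theorem isCyclic_centralizer_of_ne (h2 : (2 : F) ≠ 0) (a : SL(2, F)) (ha10 : a.1 1 0 ≠ 0)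
    (htr : (a.1 0 0 + a.1 1 1) ^ 2 ≠ 4) :
    IsCyclic (Subgroup.centralizer ({a} : Set SL(2, F))) := by
  haveI : Finite SL(2, F) := finite_SL
  have hι : Function.Injective (algebraMap F (AlgebraicClosure F)) :=
    (algebraMap F (AlgebraicClosure F)).injective
  have h2Ω : (2 : AlgebraicClosure F) ≠ 0 := by
    intro h
    apply h2
    apply hι
    rw [map_ofNat, map_zero]
    exact h
  obtain ⟨z, hz⟩ := IsAlgClosed.exists_pow_nat_eq
    ((algebraMap F (AlgebraicClosure F)) (a.1 0 0 + a.1 1 1) ^ 2 - 4) (n := 2) (by norm_num)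
  obtain ⟨lam, hlamdef⟩ : ∃ lam : AlgebraicClosure F,
      lam = ((algebraMap F (AlgebraicClosure F)) (a.1 0 0 + a.1 1 1) + z) / 2 := ⟨_, rfl⟩
  have hlam : lam ^ 2 - (algebraMap F (AlgebraicClosure F)) (a.1 0 0 + a.1 1 1) * lam + 1 = 0 := by
    rw [hlamdef]
    field_simp
    linear_combination hz
  exact isCyclic_of_subgroup_isDomain (mu a (algebraMap F (AlgebraicClosure F)) lam ha10 hlam)
    (mu_injective a _ lam ha10 hlam htr)

omit [Finite F] in
lemma isCyclic_centralizer_conj (g a : SL(2, F))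
    (h : IsCyclic (Subgroup.centralizer ({g * a * g⁻¹} : Set SL(2, F)))) :
    IsCyclic (Subgroup.centralizer ({a} : Set SL(2, F))) := by
  haveI := h
  let f : Subgroup.centralizer ({a} : Set SL(2, F)) →*
      Subgroup.centralizer ({g * a * g⁻¹} : Set SL(2, F)) :=
    ((MulAut.conj g).toMonoidHom.comp (Subgroup.centralizer ({a} : Set SL(2, F))).subtype).codRestrict
      _ (by
        intro t
        have ht := Subgroup.mem_centralizer_singleton_iff.1 t.2
        rw [Subgroup.mem_centralizer_singleton_iff]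
        show g * t.1 * g⁻¹ * (g * a * g⁻¹) = g * a * g⁻¹ * (g * t.1 * g⁻¹)
        have e1 : g * t.1 * g⁻¹ * (g * a * g⁻¹) = g * (t.1 * a) * g⁻¹ := by group
        have e2 : g * a * g⁻¹ * (g * t.1 * g⁻¹) = g * (a * t.1) * g⁻¹ := by group
        rw [e1, e2, ht])
  have hf : Function.Injective f := by
    intro t t' htt
    have h1 : g * t.1 * g⁻¹ = g * t'.1 * g⁻¹ := congrArg Subtype.val htt
    apply Subtype.ext
    have h2 : g⁻¹ * (g * t.1 * g⁻¹) * g = g⁻¹ * (g * t'.1 * g⁻¹) * g := by rw [h1]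
    have e1 : g⁻¹ * (g * t.1 * g⁻¹) * g = t.1 := by group
    have e2 : g⁻¹ * (g * t'.1 * g⁻¹) * g = t'.1 := by group
    rw [e1, e2] at h2
    exact h2
  exact isCyclic_of_injective f hf

/-- tori are cyclic -/
theorem isCyclic_centralizer (h2 : (2 : F) ≠ 0) (a : SL(2, F))
    (htr : (a.1 0 0 + a.1 1 1) ^ 2 ≠ 4) :
    IsCyclic (Subgroup.centralizer ({a} : Set SL(2, F))) := by
  have htrc : ∀ g : SL(2, F), ((g * a * g⁻¹).1 0 0 + (g * a * g⁻¹).1 1 1) ^ 2 ≠ 4 := by
    intro g
    have := tr_conj g a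
    rw [tr_def, tr_def] at this
    rw [this]
    exact htr
  by_cases h10 : a.1 1 0 = 0
  · by_cases h01 : a.1 0 1 = 0
    · apply isCyclic_centralizer_conj (l 1) a
      apply isCyclic_centralizer_of_ne h2 _ _ (htrc _)
      rw [conj10, l10, l11, h10, h01]
      intro h
      apply htr
      have hd := det_eq a
      rw [h10, h01] at hd
      have e : a.1 0 0 = a.1 1 1 := by linear_combination h
      rw [e] at hd ⊢
      linear_combination (4 : F) * hd
    · apply isCyclic_centralizer_conj w a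
      apply isCyclic_centralizer_of_ne h2 _ _ (htrc _)
      rw [conj10, w10, w11, h10]
      intro h
      apply h01
      linear_combination -h
  · exact isCyclic_centralizer_of_ne h2 a h10 htr

end fin

/-- an element inverting a non-central element has trace zero -/
lemma tr_zero_of_invert (a b : SL(2, F)) (ha1 : a ≠ 1) (ha2 : a ≠ negOne)
    (h : b * a * b⁻¹ = a⁻¹) : tr b = 0 := by
  have h' : b * a = a⁻¹ * b := mul_inv_eq_iff_eq_mul.1 h
  have e00 : (b * a).1 0 0 = (a⁻¹ * b).1 0 0 := by rw [h']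
  have e01 : (b * a).1 0 1 = (a⁻¹ * b).1 0 1 := by rw [h']
  have e10 : (b * a).1 1 0 = (a⁻¹ * b).1 1 0 := by rw [h']
  have e11 : (b * a).1 1 1 = (a⁻¹ * b).1 1 1 := by rw [h']
  rw [mul00, mul00, inv00, inv01] at e00
  rw [mul01, mul01, inv00, inv01] at e01
  rw [mul10, mul10, inv10, inv11] at e10
  rw [mul11, mul11, inv10, inv11] at e11
  rw [tr_def]
  by_contra htr
  have h01 : a.1 0 1 = 0 := by
    have : a.1 0 1 * (b.1 0 0 + b.1 1 1) = 0 := by linear_combination e01
    rcases mul_eq_zero.1 this with h | h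
    · exact h
    · exact absurd h htr
  have h10 : a.1 1 0 = 0 := by
    have : a.1 1 0 * (b.1 0 0 + b.1 1 1) = 0 := by linear_combination e10
    rcases mul_eq_zero.1 this with h | h
    · exact h
    · exact absurd h htr
  have h0011 : a.1 0 0 = a.1 1 1 := by
    have : (a.1 0 0 - a.1 1 1) * (b.1 0 0 + b.1 1 1) = 0 := by linear_combination e00 - e11
    rcases mul_eq_zero.1 this with h | h
    · exact sub_eq_zero.1 h
    · exact absurd h htr
  have hd := det_eq a
  rw [h01, h10, h0011] at hd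
  have hd' : a.1 1 1 * a.1 1 1 = 1 := by linear_combination hd
  rcases mul_self_eq_one_iff.1 hd' with h | h
  · apply ha1
    apply sl2_ext
    · rw [h0011, h, one00]
    · rw [h01, one01]
    · rw [h10, one10]
    · rw [h, one11]
  · apply ha2
    apply sl2_ext
    · rw [h0011, h, n00]
    · rw [h01, n01]
    · rw [h10, n10]
    · rw [h, n11]

section sqcomm

variable [Fintype F]

/-- **Cyclic and dihedral subgroups.** -/
theorem case_sqcomm (p : ℕ) [Fact p.Prime] [CharP F p] (h2 : (2 : F) ≠ 0) {q : ℕ}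
    (hF : Fintype.card F = q)
    (H : Subgroup (Matrix.ProjectiveSpecialLinearGroup (Fin 2) F))
    (hp : ¬ p ∣ Nat.card (H.comap proj))
    (hsq : ∀ x ∈ H.comap proj, ∀ y ∈ H.comap proj, x ^ 2 * y ^ 2 = y ^ 2 * x ^ 2) :
    ∃ k : ℕ, (k ∣ (q + 1) / 2 ∨ k ∣ (q - 1) / 2) ∧
      ((IsCyclic H ∧ Nat.card H = k) ∨ Nonempty (H ≃* DihedralGroup k)) := by
  haveI : Finite SL(2, F) := finite_SL
  haveI : Finite (Matrix.ProjectiveSpecialLinearGroup (Fin 2) F) :=
    Finite.of_surjective _ proj_surj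
  have hpp : p.Prime := Fact.out
  obtain ⟨X, hX⟩ : ∃ X, X = H.comap proj := ⟨_, rfl⟩
  rw [← hX] at hp hsq
  have hmemX : ∀ x, x ∈ X ↔ proj x ∈ H := by intro x; rw [hX]; exact Iff.rfl
  have hcardX : Nat.card X = 2 * Nat.card H := by rw [hX]; exact card_comap h2 H
  rcases sq_comm_le_norInv p h2 X hp hsq with hZ | ⟨a, haX, hao, ha1, ha2, hle⟩
  · refine ⟨1, Or.inl (one_dvd _), Or.inl ?_⟩
    have key : ∀ h : H, h = 1 := by
      intro h
      obtain ⟨x, hx⟩ := proj_surj h.1
      have hxX : x ∈ X := by rw [hmemX, hx]; exact h.2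
      apply Subtype.ext
      rw [← hx]
      exact (proj_eq_one_iff x).2 (hZ hxX)
    haveI hsub : Subsingleton H := ⟨fun h1 h2' => by rw [key h1, key h2']⟩
    exact ⟨inferInstance, Nat.card_eq_one_iff_unique.2 ⟨hsub, ⟨1⟩⟩⟩
  · have htr := tr_sq_ne_four p h2 a hao ha1 ha2
    have hTc : IsCyclic (Subgroup.centralizer ({a} : Set SL(2, F))) :=
      isCyclic_centralizer h2 a htr
    have hTcard : Nat.card (Subgroup.centralizer ({a} : Set SL(2, F))) = q - 1 ∨
        Nat.card (Subgroup.centralizer ({a} : Set SL(2, F))) = q + 1 := by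
      rw [← hF]; exact card_centralizer_cases h2 a htr
    obtain ⟨T, hT⟩ : ∃ T, T = Subgroup.centralizer ({a} : Set SL(2, F)) := ⟨_, rfl⟩
    rw [← hT] at hTcard
    have hmemT : ∀ t, t ∈ T ↔ t * a = a * t := by
      intro t; rw [hT]; exact Subgroup.mem_centralizer_singleton_iff
    have hnegT : negOne ∈ T := by rw [hmemT]; exact negOne_comm a
    have hnegX : negOne ∈ X := by rw [hX]; exact negOne_mem_comap H
    obtain ⟨XT, hXT⟩ : ∃ XT, XT = X ⊓ T := ⟨_, rfl⟩
    have hXTT : XT ≤ T := by rw [hXT]; exact inf_le_right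
    have hXTX : XT ≤ X := by rw [hXT]; exact inf_le_left
    haveI : IsCyclic XT := by
      have hle' : XT ≤ Subgroup.centralizer ({a} : Set SL(2, F)) := by rw [← hT]; exact hXTT
      haveI := hTc
      exact isCyclic_of_injective (Subgroup.inclusion hle') (Subgroup.inclusion_injective hle')
    obtain ⟨C', hC'⟩ : ∃ C', C' = XT.map proj := ⟨_, rfl⟩
    haveI hC'c : IsCyclic C' := by
      rw [hC']
      exact isCyclic_of_surjective (proj.subgroupMap XT) (MonoidHom.subgroupMap_surjective proj XT)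
    have hC'H : C' ≤ H := by
      rw [hC']
      rintro _ ⟨x, hx, rfl⟩
      exact (hmemX x).1 (hXTX hx)
    have hcomap : C'.comap proj = XT := by
      rw [hC']
      apply Subgroup.comap_map_eq_self
      intro x hx
      rw [MonoidHom.mem_ker] at hx
      rcases (proj_eq_one_iff x).1 hx with rfl | rfl
      · exact XT.one_mem
      · rw [hXT]; exact ⟨hnegX, hnegT⟩
    have hcardC' : Nat.card XT = 2 * Nat.card C' := by rw [← hcomap]; exact card_comap h2 C'
    have hdvdC' : Nat.card C' ∣ (q + 1) / 2 ∨ Nat.card C' ∣ (q - 1) / 2 := by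
      have h1 : Nat.card XT ∣ Nat.card T := Subgroup.card_dvd_of_le hXTT
      rw [hcardC'] at h1
      rcases hTcard with h | h
      · right; rw [h] at h1; exact Nat.dvd_div_of_mul_dvd h1
      · left; rw [h] at h1; exact Nat.dvd_div_of_mul_dvd h1
    by_cases hXle : X ≤ T
    · have hXTX' : XT = X := by rw [hXT]; exact inf_eq_left.2 hXle
      have hC'eq : C' = H := by
        rw [hC', hXTX', hX]; exact Subgroup.map_comap_eq_self_of_surjective proj_surj H
      refine ⟨Nat.card C', hdvdC', Or.inl ⟨?_, by rw [hC'eq]⟩⟩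
      rw [← hC'eq]; exact hC'c
    · obtain ⟨b₀, hb₀X, hb₀T⟩ := SetLike.not_le_iff_exists.1 hXle
      have hb₀c : ¬ (b₀ * a = a * b₀) := fun h => hb₀T ((hmemT b₀).2 h)
      have hb₀inv : b₀ * a * b₀⁻¹ = a⁻¹ := by
        rcases mem_norInv.1 (hle hb₀X) with h | h
        · exact absurd (mul_inv_eq_iff_eq_mul.1 h) hb₀c
        · exact h
      have hb₀sq : b₀ * b₀ = negOne := sq_of_tr_zero b₀ (tr_zero_of_invert a b₀ ha1 ha2 hb₀inv)
      have hord : ∀ g ∈ X, (orderOf g).Coprime p := by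
        intro g hg
        have hdvd : orderOf (⟨g, hg⟩ : X) ∣ Nat.card X := orderOf_dvd_natCard _
        rw [Subgroup.orderOf_mk] at hdvd
        exact Nat.Coprime.coprime_dvd_left hdvd ((Nat.Prime.coprime_iff_not_dvd hpp).2 hp).symm
      have hninv : (negOne : SL(2, F))⁻¹ = negOne := inv_eq_of_mul_eq_one_right negOne_mul_negOne
      have hf2 : ∀ t ∈ XT, b₀ * t * b₀⁻¹ = t⁻¹ := by
        intro t ht
        have htX : t ∈ X := hXTX ht
        have htT : t * a = a * t := (hmemT t).1 (hXTT ht)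
        by_cases ht1 : t = 1
        · rw [ht1]; group
        by_cases ht2 : t = negOne
        · rw [ht2, hninv, hz b₀, mul_inv_cancel_right]
        have hca : (b₀ * t * b₀⁻¹) * a = a * (b₀ * t * b₀⁻¹) := by
          have e1 : b₀ * t * b₀⁻¹ * a⁻¹ = a⁻¹ * (b₀ * t * b₀⁻¹) := by
            rw [← hb₀inv]
            have e2 : b₀ * t * b₀⁻¹ * (b₀ * a * b₀⁻¹) = b₀ * (t * a) * b₀⁻¹ := by group
            have e3 : b₀ * a * b₀⁻¹ * (b₀ * t * b₀⁻¹) = b₀ * (a * t) * b₀⁻¹ := by group
            rw [e2, e3, htT]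
          have e4 : a * (b₀ * t * b₀⁻¹ * a⁻¹) * a = a * (a⁻¹ * (b₀ * t * b₀⁻¹)) * a := by rw [e1]
          have e5 : a * (b₀ * t * b₀⁻¹ * a⁻¹) * a = a * (b₀ * t * b₀⁻¹) := by group
          have e6 : a * (a⁻¹ * (b₀ * t * b₀⁻¹)) * a = (b₀ * t * b₀⁻¹) * a := by group
          rw [e5, e6] at e4
          exact e4.symm
        have hct : (b₀ * t * b₀⁻¹) * t = t * (b₀ * t * b₀⁻¹) :=
          comm_trans _ a t ha1 ha2 hca htT.symm
        rcases conj_eq_or p h2 t b₀ (hord t htX) ht1 ht2 hct with h | h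
        · exfalso
          exact hb₀c (comm_trans b₀ t a ht1 ht2 (mul_inv_eq_iff_eq_mul.1 h) htT)
        · exact h
      have hb₀H : proj b₀ ∈ H := (hmemX b₀).1 hb₀X
      obtain ⟨bb, hbb⟩ : ∃ bb : H, bb = ⟨proj b₀, hb₀H⟩ := ⟨_, rfl⟩
      obtain ⟨C, hC⟩ : ∃ C : Subgroup H, C = C'.subgroupOf H := ⟨_, rfl⟩
      have hCcyc : IsCyclic C := by
        rw [hC]
        exact isCyclic_of_surjective (Subgroup.subgroupOfEquivOfLe hC'H).symm
          (Subgroup.subgroupOfEquivOfLe hC'H).symm.surjective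
      have hCcard : Nat.card C = Nat.card C' := by
        rw [hC]
        exact Nat.card_congr (Subgroup.subgroupOfEquivOfLe hC'H).toEquiv
      have hmemC : ∀ h : H, h ∈ C ↔ ∃ t ∈ XT, proj t = h.1 := by
        intro h
        rw [hC, Subgroup.mem_subgroupOf, hC']
        exact Subgroup.mem_map
      have e1 : bb * bb = 1 := by
        rw [hbb]
        apply Subtype.ext
        show proj b₀ * proj b₀ = 1
        rw [← map_mul, hb₀sq, proj_negOne]
      have e2 : bb ∉ C := by
        intro h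
        obtain ⟨t, ht, hteq⟩ := (hmemC bb).1 h
        rw [hbb] at hteq
        apply hb₀T
        rcases (proj_eq_iff t b₀).1 hteq with h' | h'
        · rw [← h']; exact hXTT ht
        · have : b₀ = negOne * t := by rw [h', ← mul_assoc, negOne_mul_negOne, one_mul]
          rw [this]; exact T.mul_mem hnegT (hXTT ht)
      have e3 : ∀ c ∈ C, bb * c * bb⁻¹ = c⁻¹ := by
        intro c hc
        obtain ⟨t, ht, hteq⟩ := (hmemC c).1 hc
        rw [hbb]
        apply Subtype.ext
        show proj b₀ * c.1 * (proj b₀)⁻¹ = (c.1)⁻¹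
        rw [← hteq, ← map_inv, ← map_mul, ← map_mul, ← map_inv, hf2 t ht]
      have e4 : ∀ y : H, y ∈ C ∨ bb * y ∈ C := by
        intro y
        obtain ⟨x, hx⟩ := proj_surj y.1
        have hxX : x ∈ X := by rw [hmemX, hx]; exact y.2
        rcases mem_norInv.1 (hle hxX) with h | h
        · left
          rw [hmemC]
          refine ⟨x, ?_, hx⟩
          rw [hXT]
          exact ⟨hxX, (hmemT x).2 (mul_inv_eq_iff_eq_mul.1 h)⟩
        · right
          rw [hmemC]
          refine ⟨b₀ * x, ?_, ?_⟩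
          · rw [hXT]
            refine ⟨X.mul_mem hb₀X hxX, (hmemT _).2 ?_⟩
            have e : b₀ * x * a * (b₀ * x)⁻¹ = a := by
              calc b₀ * x * a * (b₀ * x)⁻¹ = b₀ * (x * a * x⁻¹) * b₀⁻¹ := by group
                _ = (b₀ * a * b₀⁻¹)⁻¹ := by rw [h]; group
                _ = a := by rw [hb₀inv, inv_inv]
            exact mul_inv_eq_iff_eq_mul.1 e
          · rw [map_mul, hx, hbb]
            rfl
      obtain ⟨φ⟩ := Cfsg.Agent.Lib.Helper6.Dk1.dih_of C hCcyc bb e1 e2 e3 e4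
      refine ⟨Nat.card C, ?_, Or.inr ⟨φ⟩⟩
      rw [hCcard]
      exact hdvdC'

end sqcomm

end Cfsg.Agent.Lib.Helper6.Dk4
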