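import Mathlib
import Cfsg.Agent.Lib.Helper6.Dk4
import Cfsg.Agent.Lib.Helper99.PSLCongr
import Cfsg.Agent.S5941

/-!
# Dickson's list for `PSL(2, q)`, `q` odd: triangular and subfield subgroups (helper6)

* `transport`: automorphisms of `SL(2, F)` induce isomorphisms of images in `PSL(2, F)`;
* `case_borel`: triangularisable subgroups lie in the normaliser of a Sylow `p`-subgroup;
* `case_subfield`: subgroups between `SL(2, k)` and its normaliser are `PSL(2, k)` or
  `PGL(2, k)`;
* `card_le_sixty`: proper subgroups of `SL(2, 9)`.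
-/

set_option autoImplicit false
set_option linter.unusedSimpArgs false
set_option linter.unusedVariables false
set_option linter.unusedSectionVars false
set_option linter.style.haveILetI false
set_option linter.unnecessarySeqFocus false
set_option linter.unreachableTactic false
set_option linter.unusedTactic false

namespace Cfsg.Agent.Lib.Helper6.Dk5

open Matrix MatrixGroups
open Cfsg.Agent.Lib.Helper53.SL2Inv Cfsg.Agent.Lib.Helper53.SL2Unip
open Cfsg.Agent.Lib.Helper98.SL2Sub Cfsg.Agent.Lib.Helper98.SL2Core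
open Cfsg.Agent.Lib.Helper98.SL2Tor Cfsg.Agent.Lib.Helper98.PSL2Max
open Cfsg.Agent.Lib.Helper98.DicksonB Cfsg.Agent.Lib.Helper98.DicksonOdd
open Cfsg.Agent.Lib.Helper98.SL2Field
open Cfsg.Agent.S5941 (Pk Sk_le_Pk)
open Cfsg.Agent.Lib.Helper6.Sb2 Cfsg.Agent.Lib.Helper6.Dk2 Cfsg.Agent.Lib.Helper6.Dk3
  Cfsg.Agent.Lib.Helper6.Dk4

variable {F : Type*} [Field F]

/-- automorphisms of `SL(2, F)` induce isomorphisms between images in `PSL(2, F)` -/
theorem transport (φ : SL(2, F) ≃* SL(2, F)) (X : Subgroup SL(2, F)) :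
    Nonempty (X.map proj ≃* (X.map φ.toMonoidHom).map proj) := by
  have hc : (Subgroup.center SL(2, F)).map φ.toMonoidHom = Subgroup.center SL(2, F) :=
    Subgroup.characteristic_iff_map_eq.1 inferInstance φ
  let φb : Matrix.ProjectiveSpecialLinearGroup (Fin 2) F ≃*
      Matrix.ProjectiveSpecialLinearGroup (Fin 2) F :=
    QuotientGroup.congr (Subgroup.center SL(2, F)) (Subgroup.center SL(2, F)) φ hc
  have hcomm : ∀ x : SL(2, F), φb (proj x) = proj (φ x) := fun x =>
    QuotientGroup.congr_mk (Subgroup.center SL(2, F)) (Subgroup.center SL(2, F)) φ hc x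
  have heq : (X.map proj).map φb.toMonoidHom = (X.map φ.toMonoidHom).map proj := by
    ext y
    constructor
    · rintro ⟨_, ⟨x, hx, rfl⟩, rfl⟩
      exact ⟨φ x, ⟨x, hx, rfl⟩, (hcomm x).symm⟩
    · rintro ⟨_, ⟨x, hx, rfl⟩, rfl⟩
      exact ⟨proj x, ⟨x, hx, rfl⟩, hcomm x⟩
  exact ⟨(φb.subgroupMap (X.map proj)).trans (MulEquiv.subgroupCongr heq)⟩

/-- the upper unitriangular subgroup -/
def Uu (F : Type*) [Field F] : Subgroup SL(2, F) where
  carrier := Set.range u
  mul_mem' := by
    rintro _ _ ⟨b, rfl⟩ ⟨b', rfl⟩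
    exact ⟨b + b', (u_mul b b').symm⟩
  one_mem' := ⟨0, u_zero⟩
  inv_mem' := by
    rintro _ ⟨b, rfl⟩
    exact ⟨-b, (u_inv b).symm⟩

lemma mem_Uu (g : SL(2, F)) : g ∈ Uu F ↔ ∃ b, u b = g := Iff.rfl

lemma card_Uu [Finite F] : Nat.card (Uu F) = Nat.card F := by
  symm
  apply Nat.card_congr
  refine Equiv.ofBijective (fun b => ⟨u b, b, rfl⟩) ⟨?_, ?_⟩
  · intro b b' h
    exact u_injective (congrArg Subtype.val h)
  · rintro ⟨_, b, rfl⟩
    exact ⟨b, rfl⟩

lemma conj_u_upper (g : SL(2, F)) (hg : g.1 1 0 = 0) (b : F) :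
    g * u b * g⁻¹ = u (g.1 0 0 ^ 2 * b) := by
  have hd := det_eq g
  rw [hg] at hd
  apply sl2_ext <;>
    simp only [mul00, mul01, mul10, mul11, inv00, inv01, inv10, inv11, u00, u01, u10, u11, hg] <;>
    first | linear_combination hd | ring1

lemma Bo_le_normalizer :
    Bo F ≤ Subgroup.normalizer ((Uu F : Subgroup SL(2, F)) : Set SL(2, F)) := by
  intro g hg
  rw [mem_Bo] at hg
  rw [Subgroup.mem_normalizer_iff]
  intro h
  constructor
  · rintro ⟨b, rfl⟩
    exact ⟨_, (conj_u_upper g hg b).symm⟩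
  · rintro ⟨b, hb⟩
    have hgi : (g⁻¹).1 1 0 = 0 := by rw [inv10, hg, neg_zero]
    have e : h = g⁻¹ * (g * h * g⁻¹) * g⁻¹⁻¹ := by group
    rw [e, ← hb]
    exact ⟨_, (conj_u_upper g⁻¹ hgi b).symm⟩

section fin

variable [Fintype F]

theorem card_sylow_odd (p : ℕ) [Fact p.Prime] [CharP F p] (h2 : (2 : F) ≠ 0) :
    Nat.card ((Uu F).map proj) =
      p ^ (Nat.card (Matrix.ProjectiveSpecialLinearGroup (Fin 2) F)).factorization p := by
  have hpp : p.Prime := Fact.out
  obtain ⟨n, -, hn⟩ := FiniteField.card F p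
  have hp2 : p ≠ 2 := by
    rintro rfl
    apply h2
    have := CharP.cast_eq_zero F 2
    exact_mod_cast this
  have hodd : Odd (Fintype.card F) := by
    rw [hn]
    exact (hpp.odd_of_ne_two hp2).pow
  have hcard := Cfsg.Agent.Lib.Helper98.DOdd10.card_psl_odd (K := F) rfl hodd
  have hinj : Function.Injective (proj.subgroupMap (Uu F)) := by
    rintro ⟨x, b, rfl⟩ ⟨y, b', rfl⟩ hxy
    have h1 : proj (u b) = proj (u b') := congrArg Subtype.val hxy
    apply Subtype.ext
    show u b = u b'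
    rcases (proj_eq_iff _ _).1 h1 with h | h
    · exact h
    · exfalso
      have h00 : (u b).1 0 0 = (negOne * u b').1 0 0 := by rw [← h]
      rw [mul00, u00, u00, u10, n00, n01] at h00
      apply h2
      linear_combination h00
  have hc1 : Nat.card ((Uu F).map proj) = Fintype.card F := by
    rw [← Nat.card_congr (Equiv.ofBijective _
      ⟨hinj, MonoidHom.subgroupMap_surjective proj (Uu F)⟩), card_Uu, Nat.card_eq_fintype_card]
  rw [hc1]
  obtain ⟨q, hq⟩ : ∃ q, q = Fintype.card F := ⟨_, rfl⟩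
  rw [← hq] at hcard hodd hn ⊢
  obtain ⟨j, hj⟩ := hodd
  have hq2 : q ^ 2 - 1 = 2 * (2 * j * (j + 1)) := by
    rw [hj]
    have : (2 * j + 1) ^ 2 = 2 * (2 * j * (j + 1)) + 1 := by ring
    rw [this]
    omega
  have hcard' : Nat.card (Matrix.ProjectiveSpecialLinearGroup (Fin 2) F) =
      p ^ (n : ℕ) * (2 * j * (j + 1)) := by
    rw [hq2] at hcard
    rw [← hn]
    have : 2 * Nat.card (Matrix.ProjectiveSpecialLinearGroup (Fin 2) F) =
        2 * (q * (2 * j * (j + 1))) := by rw [hcard]; ring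
    exact Nat.eq_of_mul_eq_mul_left (by norm_num) this
  have hm : ¬ p ∣ 2 * j * (j + 1) := by
    intro hd
    have h1 : p ∣ q ^ 2 - 1 := by rw [hq2]; exact Dvd.dvd.mul_left hd 2
    have h3 : p ∣ q ^ 2 := by rw [hn, ← pow_mul]; exact dvd_pow_self p (by positivity)
    have hq1 : 1 ≤ q ^ 2 := Nat.one_le_pow 2 q (by omega)
    have h4 : p ∣ 1 := by
      have := Nat.dvd_sub h3 h1
      have e : q ^ 2 - (q ^ 2 - 1) = 1 := by omega
      rwa [e] at this
    exact hpp.one_lt.ne' (Nat.dvd_one.1 h4)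
  rw [hcard', Cfsg.Agent.Lib.Helper56.SmallSolvable.factorization_pow_mul p n _ hpp hm, hn]

/-- triangularisable subgroups -/
theorem case_borel (p : ℕ) [Fact p.Prime] [CharP F p] (h2 : (2 : F) ≠ 0)
    (X : Subgroup SL(2, F)) (g : SL(2, F)) (hg : ∀ y ∈ X, (g * y * g⁻¹).1 1 0 = 0) :
    ∃ (P : Sylow p (Matrix.ProjectiveSpecialLinearGroup (Fin 2) F))
      (K : Subgroup (Matrix.ProjectiveSpecialLinearGroup (Fin 2) F)),
      K ≤ Subgroup.normalizer ((P : Subgroup (Matrix.ProjectiveSpecialLinearGroup (Fin 2) F)) :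
        Set (Matrix.ProjectiveSpecialLinearGroup (Fin 2) F)) ∧ Nonempty (X.map proj ≃* K) := by
  haveI : Finite SL(2, F) := finite_SL
  haveI : Finite (Matrix.ProjectiveSpecialLinearGroup (Fin 2) F) :=
    Finite.of_surjective _ proj_surj
  obtain ⟨φ0⟩ := transport (MulAut.conj g) X
  refine ⟨Sylow.ofCard _ (card_sylow_odd p h2), (X.map (MulAut.conj g).toMonoidHom).map proj,
    ?_, ⟨φ0⟩⟩
  rw [Sylow.coe_ofCard]
  have hle : X.map (MulAut.conj g).toMonoidHom ≤ Bo F := map_conj_le_Bo X g hg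
  exact (Subgroup.map_mono (hle.trans Bo_le_normalizer)).trans (Subgroup.le_normalizer_map _)

end fin

/-- if `Pk k ≠ Sk k`, every element of `k` is a square in `F` -/
lemma sqrt_of_Pk_ne [Finite F] (h2 : (2 : F) ≠ 0) (k : Subfield F) (hne : Pk k ≠ Sk k) :
    ∀ s ∈ k, ∃ σ : F, σ ^ 2 = s := by
  classical
  haveI : Fintype k := Fintype.ofFinite k
  have hex : ∃ g₀ ∈ Pk k, g₀ ∉ Sk k := by
    by_contra hcon
    push Not at hcon
    exact hne (le_antisymm hcon (Sk_le_Pk k))
  obtain ⟨g₀, hg₀, hn₀⟩ := hex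
  obtain ⟨c, hc, a00, a01, a10, a11⟩ := hg₀
  have hc2 : c ^ 2 ∈ k := by
    have : c ^ 2 = (c * g₀.1 0 0) * (c * g₀.1 1 1) - (c * g₀.1 0 1) * (c * g₀.1 1 0) := by
      linear_combination (-c ^ 2) * det_eq g₀
    rw [this]; exact k.sub_mem (k.mul_mem a00 a11) (k.mul_mem a01 a10)
  have hck : c ∉ k := by
    intro h
    have aux : ∀ x : F, c * x ∈ k → x ∈ k := by
      intro x hx
      have := k.mul_mem (k.inv_mem h) hx
      rwa [inv_mul_cancel_left₀ hc] at this
    exact hn₀ ⟨aux _ a00, aux _ a01, aux _ a10, aux _ a11⟩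
  have hch : ringChar k ≠ 2 := by
    intro h
    have h' : ((ringChar k : ℕ) : k) = 0 := ringChar.Nat.cast_ringChar
    rw [h] at h'
    have h'' : (2 : k) = 0 := by
      have e : ((2 : ℕ) : k) = (2 : k) := by norm_num
      rw [← e, h']
    have h3 := congrArg k.subtype h''
    rw [map_ofNat, map_zero] at h3
    exact h2 h3
  have hδ : ¬ IsSquare (⟨c ^ 2, hc2⟩ : k) := by
    rintro ⟨e, he⟩
    have he' : c ^ 2 = (e : F) * e := congrArg Subtype.val he
    have : (c - e) * (c + e) = 0 := by linear_combination he'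
    rcases mul_eq_zero.1 this with h | h
    · exact hck (by rw [sub_eq_zero.1 h]; exact e.2)
    · exact hck (by rw [eq_neg_of_add_eq_zero_left h]; exact k.neg_mem e.2)
  have hδ0 : (⟨c ^ 2, hc2⟩ : k) ≠ 0 := by
    intro h
    have := congrArg Subtype.val h
    exact pow_ne_zero 2 hc this
  intro s hs
  by_cases hs0 : s = 0
  · exact ⟨0, by rw [hs0]; ring⟩
  have hs0' : (⟨s, hs⟩ : k) ≠ 0 := fun h => hs0 (congrArg Subtype.val h)
  by_cases hsq : IsSquare (⟨s, hs⟩ : k)
  · obtain ⟨e, he⟩ := hsq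
    exact ⟨e, by rw [pow_two]; exact (congrArg Subtype.val he).symm⟩
  · have hp1 : (⟨s, hs⟩ : k) ^ (Fintype.card k / 2) = -1 := by
      rcases FiniteField.pow_dichotomy hch hs0' with h | h
      · exact absurd ((FiniteField.isSquare_iff hch hs0').2 h) hsq
      · exact h
    have hp2 : (⟨c ^ 2, hc2⟩ : k) ^ (Fintype.card k / 2) = -1 := by
      rcases FiniteField.pow_dichotomy hch hδ0 with h | h
      · exact absurd ((FiniteField.isSquare_iff hch hδ0).2 h) hδ
      · exact h
    have hprod : IsSquare ((⟨s, hs⟩ : k) * ⟨c ^ 2, hc2⟩) := by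
      rw [FiniteField.isSquare_iff hch (mul_ne_zero hs0' hδ0), mul_pow, hp1, hp2]
      simp
    obtain ⟨e, he⟩ := hprod
    have he' : s * c ^ 2 = (e : F) * e := congrArg Subtype.val he
    refine ⟨e / c, ?_⟩
    field_simp
    linear_combination -he'

section fin2

variable [Fintype F]

/-- subgroups between `SL(2, k)` and its normaliser -/
theorem case_subfield (p : ℕ) [Fact p.Prime] [CharP F p] (h2 : (2 : F) ≠ 0) {q : ℕ}
    (hF : Fintype.card F = q) (X : Subgroup SL(2, F)) (φ : SL(2, F) ≃* SL(2, F))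
    (k : Subfield F) (h1 : Sk k ≤ X.map φ.toMonoidHom) (h2' : X.map φ.toMonoidHom ≤ Pk k) :
    ∃ (K : Type) (_ : Field K) (_ : Fintype K) (m : ℕ), Fintype.card K ^ m = q ∧
      (Nonempty (X.map proj ≃* Matrix.ProjectiveSpecialLinearGroup (Fin 2) K) ∨
        Nonempty (X.map proj ≃* Matrix.ProjGenLinGroup (Fin 2) K)) := by
  classical
  haveI : Finite SL(2, F) := finite_SL
  haveI : Fintype k := Fintype.ofFinite k
  have hpp : p.Prime := Fact.out
  obtain ⟨N, -, hN⟩ := FiniteField.card F p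
  obtain ⟨m, hm⟩ := exists_pow k
  have hk2 : 2 ≤ Nat.card k := card_subfield_two_le k
  have hm0 : m ≠ 0 := by
    rintro rfl
    rw [pow_zero, Nat.card_eq_fintype_card] at hm
    have := Fintype.one_lt_card (α := F)
    omega
  have hdvd : Nat.card k ∣ p ^ (N : ℕ) := by
    rw [← hN, ← Nat.card_eq_fintype_card, hm]
    exact dvd_pow_self _ hm0
  obtain ⟨n, -, hn⟩ := (Nat.dvd_prime_pow hpp).1 hdvd
  have hn0 : n ≠ 0 := by
    rintro rfl
    rw [pow_zero] at hn
    omega
  letI : Fintype (GaloisField p n) := Fintype.ofFinite _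
  have hc0 : Fintype.card (GaloisField p n) = Fintype.card k := by
    rw [← Nat.card_eq_fintype_card, ← Nat.card_eq_fintype_card, GaloisField.card p n hn0, hn]
  obtain ⟨e⟩ : Nonempty (GaloisField p n ≃+* k) := ⟨FiniteField.ringEquivOfCardEq hc0⟩
  obtain ⟨ι, hιdef⟩ : ∃ ι : GaloisField p n →+* F, ι = k.subtype.comp e.toRingHom := ⟨_, rfl⟩
  have hι : ι.fieldRange = k := by
    ext x
    rw [RingHom.mem_fieldRange]
    constructor
    · rintro ⟨y, rfl⟩
      rw [hιdef]
      exact (e y).2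
    · intro hx
      refine ⟨e.symm ⟨x, hx⟩, ?_⟩
      rw [hιdef]
      show ((e (e.symm ⟨x, hx⟩) : k) : F) = x
      rw [RingEquiv.apply_symm_apply]
  obtain ⟨φ0⟩ := transport φ X
  obtain ⟨X', hX'⟩ : ∃ X', X' = X.map φ.toMonoidHom := ⟨_, rfl⟩
  rw [← hX'] at h1 h2' φ0
  refine ⟨GaloisField p n, inferInstance, inferInstance, m, ?_, ?_⟩
  · rw [hc0, ← Nat.card_eq_fintype_card, ← hm, Nat.card_eq_fintype_card, hF]
  · have hle := card_Pk_le h2 k
    by_cases hS : X' = Sk k
    · left
      have iso4 := pslIso ι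
      rw [hι] at iso4
      rw [hS] at φ0
      exact ⟨φ0.trans iso4⟩
    · right
      have hP : X' = Pk k := by
        apply Subgroup.eq_of_le_of_card_ge h2'
        have hd : Nat.card (Sk k) ∣ Nat.card X' := Subgroup.card_dvd_of_le h1
        obtain ⟨j, hj⟩ := hd
        have hSpos : 0 < Nat.card (Sk k) := Nat.card_pos
        have hj1 : j ≠ 1 := by
          rintro rfl
          apply hS
          symm
          exact Subgroup.eq_of_le_of_card_ge h1 (by rw [hj]; omega)
        have hj0 : j ≠ 0 := by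
          rintro rfl
          have : 0 < Nat.card X' := Nat.card_pos
          rw [hj] at this
          omega
        have hj2 : 2 ≤ j := by omega
        have : 2 * Nat.card (Sk k) ≤ Nat.card X' := by
          rw [hj]
          nlinarith
        omega
      have hne : Pk k ≠ Sk k := fun h => hS (hP.trans h)
      have hsqrt : ∀ s ∈ ι.fieldRange, ∃ σ : F, σ ^ 2 = s := by
        rw [hι]
        exact sqrt_of_Pk_ne h2 k hne
      have iso4 := Cfsg.Agent.S5941.pglIso ι hsqrt
      rw [hι] at iso4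
      rw [hP] at φ0
      exact ⟨φ0.trans iso4⟩

omit [Fintype F] in
lemma map_negOne (h2 : (2 : F) ≠ 0) (φ : SL(2, F) ≃* SL(2, F)) : φ negOne = negOne := by
  have h1 : φ negOne * φ negOne = 1 := by rw [← map_mul, negOne_mul_negOne, map_one]
  rcases sq_eq_one h2 _ h1 with h | h
  · exfalso
    apply negOne_ne_one h2
    apply φ.injective
    rw [h, map_one]
  · exact h

/-- proper subgroups of `SL(2, 9)` containing `-1` have image of order at most 60 -/
theorem card_le_sixty (h2 : (2 : F) ≠ 0) (h3 : (3 : F) = 0) (i : F) (hi : i ^ 2 = -1)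
    (X' : Subgroup SL(2, F)) (hneg : negOne ∈ X') (hle : X' ≤ Sk (k9 i hi))
    (hne : X' ≠ Sk (k9 i hi)) :
    Nat.card X' ∣ 720 ∧ Nat.card (X'.map proj) ≤ 60 := by
  classical
  haveI : Finite SL(2, F) := finite_SL
  haveI : Finite (Matrix.ProjectiveSpecialLinearGroup (Fin 2) F) :=
    Finite.of_surjective _ proj_surj
  obtain ⟨k, hk⟩ : ∃ k, k = k9 i hi := ⟨_, rfl⟩
  rw [← hk] at hle hne
  have hk9 : Nat.card k = 9 := by rw [hk]; exact card_k9 h2 h3 i hi
  haveI : Fintype k := Fintype.ofFinite k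
  have hk9' : Fintype.card k = 9 := by rw [← Nat.card_eq_fintype_card]; exact hk9
  have hSk : Nat.card (Sk k) = 720 := by rw [card_Sk k, hk9]; norm_num
  constructor
  · rw [← hSk]
    exact Subgroup.card_dvd_of_le hle
  · obtain ⟨G9, hG9⟩ : ∃ G9, G9 = (Sk k).map proj := ⟨_, rfl⟩
    have e9 : G9 ≃* Matrix.ProjectiveSpecialLinearGroup (Fin 2) k := by
      have := pslIso k.subtype
      rw [Subfield.fieldRange_subtype] at this
      rw [hG9]
      exact this
    haveI hsimple : IsSimpleGroup (Matrix.ProjectiveSpecialLinearGroup (Fin 2) k) :=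
      Matrix.ProjectiveSpecialLinearGroup.rank_two_simple (by rw [hk9]; norm_num)
    haveI : IsSimpleGroup G9 := e9.isSimpleGroup
    have hcard9 : Nat.card G9 = 360 := by
      rw [Nat.card_congr e9.toEquiv]
      have := Cfsg.Agent.Lib.Helper98.DOdd10.card_psl_odd (K := k) hk9' (by decide)
      omega
    obtain ⟨H', hH'⟩ : ∃ H', H' = X'.map proj := ⟨_, rfl⟩
    rw [← hH']
    have hH'le : H' ≤ G9 := by rw [hH', hG9]; exact Subgroup.map_mono hle
    have hkerX : (proj (F := F)).ker ≤ X' := by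
      intro x hx
      rw [MonoidHom.mem_ker] at hx
      rcases (proj_eq_one_iff x).1 hx with rfl | rfl
      · exact X'.one_mem
      · exact hneg
    have hkerS : (proj (F := F)).ker ≤ Sk k := by
      intro x hx
      rw [MonoidHom.mem_ker] at hx
      rcases (proj_eq_one_iff x).1 hx with rfl | rfl
      · exact (Sk k).one_mem
      · refine ⟨?_, ?_, ?_, ?_⟩
        · rw [n00]; exact k.neg_mem k.one_mem
        · rw [n01]; exact k.zero_mem
        · rw [n10]; exact k.zero_mem
        · rw [n11]; exact k.neg_mem k.one_mem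
    have hne'' : H'.subgroupOf G9 ≠ ⊤ := by
      intro htop
      rw [Subgroup.subgroupOf_eq_top] at htop
      have heq : H' = G9 := le_antisymm hH'le htop
      apply hne
      have h1 : (X'.map proj).comap proj = ((Sk k).map proj).comap proj := by
        rw [← hH', ← hG9, heq]
      rw [Subgroup.comap_map_eq_self hkerX, Subgroup.comap_map_eq_self hkerS] at h1
      exact h1
    have hfac := Cfsg.Agent.S0494.card_dvd_factorial_index (H'.subgroupOf G9) hne''
    rw [hcard9] at hfac
    have hidx := (H'.subgroupOf G9).index_mul_card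
    rw [hcard9, Nat.card_congr (Subgroup.subgroupOfEquivOfLe hH'le).toEquiv] at hidx
    obtain ⟨idx, hidx'⟩ : ∃ idx, idx = (H'.subgroupOf G9).index := ⟨_, rfl⟩
    rw [← hidx'] at hfac hidx
    have h6 : 6 ≤ idx := by
      by_contra hlt
      have hlt' : idx ≤ 5 := by omega
      interval_cases idx <;> revert hfac <;> decide
    nlinarith

end fin2

end Cfsg.Agent.Lib.Helper6.Dk5
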