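import Mathlib
import Cfsg.Agent.Lib.Helper60.HJStmt

/-!
# S3313, piece AZCNT

Pure counting: `120 * (10 - 2) = 960`.
-/

set_option autoImplicit false

namespace Cfsg.Agent.Lib.Helper6.HJAZCNT

universe u

theorem card_sub {X : Type u} [Fintype X] (P : X → Prop) [DecidablePred P] :
    Nat.card {x : X // P x} = (Finset.univ.filter P).card := by
  rw [Nat.card_eq_fintype_card, Fintype.card_subtype]

theorem main : Cfsg.Agent.Lib.Helper60.HJStmt.AZCnt.{u} := by
  intro G _ _ z Q hzQ hz h11 h120 h2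
  classical
  haveI : Fintype G := Fintype.ofFinite G
  rw [card_sub] at h11 h120 ⊢
  have h2' : ∀ y : G, y * z = z * y → orderOf y = 2 → y ∉ Q →
      (Finset.univ.filter (fun x : G => x ∈ Q ∧ orderOf x = 2 ∧ x ≠ z ∧ x * y = y * x)).card = 2 := by
    intro y h1 h2a h3
    rw [← card_sub]
    exact h2 y h1 h2a h3
  -- the involutions of `Q` other than `z`
  have h10 : (Finset.univ.filter (fun x : G => x ∈ Q ∧ orderOf x = 2 ∧ x ≠ z)).card = 10 := by
    have he : Finset.univ.filter (fun x : G => x ∈ Q ∧ orderOf x = 2 ∧ x ≠ z) =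
        (Finset.univ.filter (fun x : G => x ∈ Q ∧ orderOf x = 2)).erase z := by
      ext x
      simp only [Finset.mem_filter, Finset.mem_univ, true_and, Finset.mem_erase]
      tauto
    rw [he, Finset.card_erase_of_mem (by simp [hzQ, hz]), h11]
  -- fibres
  have hfib : ∀ y : G,
      (Finset.univ.filter (fun x : G => x ∈ Q ∧ orderOf x = 2 ∧ x ≠ z ∧ y * z = z * y ∧
        orderOf y = 2 ∧ y ∉ Q ∧ x * y ≠ y * x)).card =
      if (y * z = z * y ∧ orderOf y = 2 ∧ y ∉ Q) then 8 else 0 := by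
    intro y
    split_ifs with hy
    · have hsplit := Finset.card_filter_add_card_filter_not
        (s := Finset.univ.filter (fun x : G => x ∈ Q ∧ orderOf x = 2 ∧ x ≠ z))
        (p := fun x : G => x * y = y * x)
      rw [Finset.filter_filter, Finset.filter_filter, h10] at hsplit
      have e1 : Finset.univ.filter (fun x : G => (x ∈ Q ∧ orderOf x = 2 ∧ x ≠ z) ∧ x * y = y * x) =
          Finset.univ.filter (fun x : G => x ∈ Q ∧ orderOf x = 2 ∧ x ≠ z ∧ x * y = y * x) := by
        ext x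
        simp only [Finset.mem_filter, Finset.mem_univ, true_and]
        tauto
      have e2 : Finset.univ.filter (fun x : G => (x ∈ Q ∧ orderOf x = 2 ∧ x ≠ z) ∧ ¬ x * y = y * x) =
          Finset.univ.filter (fun x : G => x ∈ Q ∧ orderOf x = 2 ∧ x ≠ z ∧ y * z = z * y ∧
            orderOf y = 2 ∧ y ∉ Q ∧ x * y ≠ y * x) := by
        ext x
        simp only [Finset.mem_filter, Finset.mem_univ, true_and]
        tauto
      rw [e1, e2, h2' y hy.1 hy.2.1 hy.2.2] at hsplit
      omega
    · rw [Finset.card_eq_zero, Finset.filter_eq_empty_iff]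
      intro x _ hx
      exact hy ⟨hx.2.2.2.1, hx.2.2.2.2.1, hx.2.2.2.2.2.1⟩
  rw [Finset.card_filter, Fintype.sum_prod_type_right]
  have hrw : ∀ y : G, (∑ x : G, if ((x, y).1 ∈ Q ∧ orderOf (x, y).1 = 2 ∧ (x, y).1 ≠ z ∧
      (x, y).2 * z = z * (x, y).2 ∧ orderOf (x, y).2 = 2 ∧ (x, y).2 ∉ Q ∧
      (x, y).1 * (x, y).2 ≠ (x, y).2 * (x, y).1) then 1 else 0) =
      if (y * z = z * y ∧ orderOf y = 2 ∧ y ∉ Q) then 8 else 0 := by
    intro y
    rw [← hfib y, Finset.card_filter]
  rw [Finset.sum_congr rfl (fun y _ => hrw y), ← Finset.sum_filter, Finset.sum_const, h120]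
  rfl

end Cfsg.Agent.Lib.Helper6.HJAZCNT
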