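import Mathlib
import Cfsg.Agent.Lib.Helper60.HJStmt

/-!
# S3313, piece ESB

A group of order 32 with centre `{1, z}` and a nontrivial automorphism `α` with `α ^ 5 = 1`: the
number of elements of square 1 is `2` mod `5`.
-/

set_option autoImplicit false

namespace Cfsg.Agent.Lib.Helper6.HJESB

universe u

/-- A self-map with fifth power the identity: the cardinality is congruent mod 5 to the number of
fixed points. -/
theorem card_modEq_fixed {X : Type u} [Finite X] (f : X → X)
    (h5 : ∀ x : X, f (f (f (f (f x)))) = x) :
    Nat.card X ≡ Nat.card {x : X // f x = x} [MOD 5] := by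
  classical
  haveI : Fintype X := Fintype.ofFinite X
  have : Fact (Nat.Prime 5) := ⟨by norm_num⟩
  let g : Function.End X := f
  have hf : g ^ 5 ^ 1 = 1 := by
    funext x
    exact h5 x
  have h := Equiv.Perm.card_fixedPoints_modEq (f := g) (p := 5) (n := 1) hf
  rw [← Nat.card_eq_fintype_card, ← Nat.card_eq_fintype_card] at h
  exact h

theorem main : Cfsg.Agent.Lib.Helper60.HJStmt.ESB.{u} := by
  intro E _ _ z α hcard hz hcen h5 hne
  classical
  -- `α z = z`
  have hαz : α z = z := by
    have hzc : ∀ q : E, z * q = q * z := (hcen z).2 (Or.inr rfl)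
    have hc : ∀ q : E, α z * q = q * α z := by
      intro q
      obtain ⟨q', rfl⟩ := α.surjective q
      rw [← map_mul, ← map_mul, hzc]
    rcases (hcen (α z)).1 hc with h | h
    · exact absurd ((map_eq_one_iff α α.injective).1 h) hz
    · exact h
  -- the fixed subgroup
  let F : Subgroup E :=
    { carrier := {q | α q = q}
      mul_mem' := by
        intro a b ha hb
        show α (a * b) = a * b
        have ha' : α a = a := ha
        have hb' : α b = b := hb
        rw [map_mul, ha', hb']
      one_mem' := map_one α
      inv_mem' := by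
        intro a ha
        show α a⁻¹ = a⁻¹
        have ha' : α a = a := ha
        rw [map_inv, ha'] }
  have hFmem : ∀ q : E, q ∈ F ↔ α q = q := fun q => Iff.rfl
  have hFmod : Nat.card E ≡ Nat.card {q : E // α q = q} [MOD 5] :=
    card_modEq_fixed (fun q => α q) h5
  have hFeq : Nat.card {q : E // α q = q} = Nat.card F := rfl
  have hFdvd : Nat.card F ∣ 32 := hcard ▸ Subgroup.card_subgroup_dvd_card F
  have hFcard : Nat.card F = 2 := by
    have hle : Nat.card F ≤ 32 := Nat.le_of_dvd (by norm_num) hFdvd
    have hmod : 32 % 5 = Nat.card F % 5 := by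
      have := hFmod
      rw [hcard, hFeq] at this
      exact this
    have hne32 : Nat.card F ≠ 32 := by
      intro h32
      obtain ⟨q, hq⟩ := hne
      have htop : F = ⊤ := Subgroup.eq_top_of_card_eq F (h32.trans hcard.symm)
      exact hq ((hFmem q).1 (htop ▸ Subgroup.mem_top q))
    generalize Nat.card F = n at *
    interval_cases n <;> simp_all
  have hFz : ∀ q : E, α q = q → q = 1 ∨ q = z := by
    intro q hq
    by_contra hcon
    push Not at hcon
    have h3 : 3 ≤ Nat.card F := by
      have hinj : Function.Injective (fun i : Fin 3 =>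
          (if i = 0 then (⟨1, map_one α⟩ : F) else if i = 1 then ⟨z, hαz⟩ else ⟨q, hq⟩)) := by
        intro i j hij
        fin_cases i <;> fin_cases j <;> simp_all [Subtype.ext_iff]
      have := Nat.card_le_card_of_injective _ hinj
      simpa using this
    omega
  have hzz : z * z = 1 := by
    have : α (z * z) = z * z := by rw [map_mul, hαz]
    rcases hFz _ this with h | h
    · exact h
    · exact absurd (mul_left_cancel (a := z) (by rw [h, mul_one])) hz
  -- the count
  have hS : Nat.card {q : E // q * q = 1} ≡
      Nat.card {x : {q : E // q * q = 1} //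
        (fun q : {q : E // q * q = 1} =>
          (⟨α q.1, by rw [← map_mul, q.2, map_one]⟩ : {q : E // q * q = 1})) x = x} [MOD 5] :=
    card_modEq_fixed _ (fun x => Subtype.ext (h5 x.1))
  have hfix : Nat.card {x : {q : E // q * q = 1} //
        (fun q : {q : E // q * q = 1} =>
          (⟨α q.1, by rw [← map_mul, q.2, map_one]⟩ : {q : E // q * q = 1})) x = x} = 2 := by
    have he : {x : {q : E // q * q = 1} //
        (fun q : {q : E // q * q = 1} =>
          (⟨α q.1, by rw [← map_mul, q.2, map_one]⟩ : {q : E // q * q = 1})) x = x} ≃ Fin 2 :=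
      { toFun := fun x => if x.1.1 = 1 then 0 else 1
        invFun := fun i => if i = 0 then ⟨⟨1, mul_one 1⟩, Subtype.ext (map_one α)⟩
          else ⟨⟨z, hzz⟩, Subtype.ext hαz⟩
        left_inv := by
          rintro ⟨⟨q, hq⟩, hx⟩
          have hx' : α q = q := congrArg Subtype.val hx
          rcases hFz q hx' with h | h
          · subst h; simp
          · subst h; simp [hz]
        right_inv := by
          intro i
          fin_cases i <;> simp [hz] }
    rw [Nat.card_congr he]
    simp
  rw [hfix] at hS
  exact hS

end Cfsg.Agent.Lib.Helper6.HJESB
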