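import Mathlib
import Cfsg.Agent.Lib.Helper60.HJStmt

/-!
# S3313, piece N2

`C(z)` has 120 involutions outside `Q`.
-/

set_option autoImplicit false

namespace Cfsg.Agent.Lib.Helper6.HJN2

universe u

theorem main : Cfsg.Agent.Lib.Helper60.HJStmt.N2.{u} := by
  intro hDC G _ _ z t Q K V B H hCz hCt h15
  have hdc := hDC G z t
  rw [hCz, hCt, h15] at hdc
  have hiff : ∀ y : G, (IsConj y t ∧ y * z = z * y) ↔ (y * z = z * y ∧ orderOf y = 2 ∧ y ∉ Q) := by
    intro y
    constructor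
    · rintro ⟨hy, hyz⟩
      have ho : orderOf y = 2 := by
        obtain ⟨c, hc⟩ := isConj_iff.1 hy
        rw [← H.ht, ← hc]
        exact ((MulAut.conj c).orderOf_eq y).symm
      refine ⟨hyz, ho, fun hyQ => H.hzt ?_⟩
      exact (H.hQz y hyQ ho).symm.trans hy
    · rintro ⟨hyz, ho, hyQ⟩
      exact ⟨H.hCz y hyz ho hyQ, hyz⟩
  have hcard : Nat.card {y : G // IsConj y t ∧ y * z = z * y} =
      Nat.card {y : G // y * z = z * y ∧ orderOf y = 2 ∧ y ∉ Q} :=
    Nat.card_congr (Equiv.subtypeEquivRight hiff)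
  rw [← hcard]
  omega

end Cfsg.Agent.Lib.Helper6.HJN2
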