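import Mathlib
import Cfsg.Agent.S0494
import Cfsg.Agent.Lib.Helper98.SL2Field
import Cfsg.Agent.Lib.Helper56.SmallSolvable

/-!
# Abstract lemmas on maximal subgroups (helper6)

Coatoms under surjections and automorphisms, a Sylow "anchor" criterion for non-maximality,
and structural facts on `A₄`, `S₄`, `A₅`.
-/

set_option autoImplicit false
set_option linter.unusedSimpArgs false
set_option linter.unusedVariables false
set_option linter.unusedSectionVars false
set_option linter.style.haveILetI false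
set_option linter.unnecessarySeqFocus false
set_option linter.unreachableTactic false
set_option linter.unusedTactic false

namespace Cfsg.Agent.Lib.Helper6.Mx1

section abs

variable {G : Type*} [Group G]

/-- coatoms pull back along surjections -/
theorem isCoatom_comap {Q : Type*} [Group Q] (f : G →* Q) (hf : Function.Surjective f)
    (M : Subgroup Q) (hM : IsCoatom M) : IsCoatom (M.comap f) := by
  have hkerM : f.ker ≤ M.comap f := by
    intro x hx
    rw [MonoidHom.mem_ker] at hx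
    rw [Subgroup.mem_comap, hx]
    exact M.one_mem
  constructor
  · intro htop
    apply hM.1
    rw [← Subgroup.map_comap_eq_self_of_surjective hf M, htop, ← MonoidHom.range_eq_map]
    exact MonoidHom.range_eq_top.2 hf
  · intro K hK
    have hker : f.ker ≤ K := le_trans hkerM hK.le
    have h1 : M ≤ K.map f := by
      rw [← Subgroup.map_comap_eq_self_of_surjective hf M]
      exact Subgroup.map_mono hK.le
    have h2 : M ≠ K.map f := by
      intro h
      apply hK.ne
      rw [h, Subgroup.comap_map_eq_self hker]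
    have h3 := hM.2 _ (lt_of_le_of_ne h1 h2)
    rw [← Subgroup.comap_map_eq_self hker, h3, Subgroup.comap_top]

/-- coatoms under automorphisms -/
theorem isCoatom_map_equiv (φ : G ≃* G) (M : Subgroup G) (hM : IsCoatom M) :
    IsCoatom (M.map φ.toMonoidHom) := by
  apply Cfsg.Agent.Lib.Helper98.SL2Field.isCoatom_map φ.toMonoidHom φ.surjective M _ hM
  intro x hx
  rw [MonoidHom.mem_ker] at hx
  have : x = 1 := φ.injective (by rw [map_one]; exact hx)
  rw [this]
  exact M.one_mem

theorem normalizer_ne_top [Finite G] [IsSimpleGroup G] (P : Subgroup G) (h1 : Nat.card P ≠ 1)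
    (h2 : Nat.card P ≠ Nat.card G) : Subgroup.normalizer (P : Set G) ≠ ⊤ := by
  intro h
  have hn : P.Normal := Subgroup.normalizer_eq_top_iff.1 h
  rcases hn.eq_bot_or_eq_top with h' | h'
  · apply h1
    rw [h']
    exact Subgroup.card_bot
  · apply h2
    rw [h']
    exact Subgroup.card_top

/-- **Anchor criterion.** A maximal subgroup normalising a Sylow subgroup `P` of the whole group
contains, up to conjugacy, every subgroup of its own order normalising a subgroup of order `|P|`. -/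
theorem anchor [Finite G] (M : Subgroup G) (hM : IsCoatom M) (r : ℕ) [Fact r.Prime]
    (P : Subgroup G) (hnorm : M ≤ Subgroup.normalizer (P : Set G))
    (hNtop : Subgroup.normalizer (P : Set G) ≠ ⊤)
    (hPr : IsPGroup r P) (hSyl : ¬ r * Nat.card P ∣ Nat.card G)
    (S D P₁ : Subgroup G) (hD : D ≤ S) (hP₁D : D ≤ Subgroup.normalizer (P₁ : Set G))
    (hcD : Nat.card D = Nat.card M) (hP₁ : IsPGroup r P₁) (hcP₁ : Nat.card P₁ = Nat.card P) :
    Nat.card S = Nat.card M ∨ S = ⊤ := by
  have hr : r.Prime := Fact.out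
  have hMN : M = Subgroup.normalizer (P : Set G) := by
    by_contra hne
    exact hNtop (hM.2 _ (lt_of_le_of_ne hnorm hne))
  obtain ⟨Q, hQ⟩ := hPr.exists_le_sylow
  obtain ⟨Q₁, hQ₁⟩ := hP₁.exists_le_sylow
  obtain ⟨j, hj⟩ := IsPGroup.iff_card.1 hPr
  have hcard : ∀ (R : Sylow r G) (P' : Subgroup G), P' ≤ R → Nat.card P' = Nat.card P →
      P' = R := by
    intro R P' hle hc
    apply Subgroup.eq_of_le_of_card_ge hle
    obtain ⟨k, hk⟩ := IsPGroup.iff_card.1 R.2
    have hdvd : Nat.card (R : Subgroup G) ∣ Nat.card G := Subgroup.card_subgroup_dvd_card _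
    by_contra hlt
    push Not at hlt
    rw [hc, hj, hk] at hlt
    have hjk : j < k := (Nat.pow_lt_pow_iff_right hr.one_lt).1 hlt
    apply hSyl
    rw [hj]
    have e : r * r ^ j = r ^ (j + 1) := by ring
    rw [e]
    exact (Nat.pow_dvd_pow r hjk).trans (hk ▸ hdvd)
  have e1 : P = Q := hcard Q P hQ rfl
  have e2 : P₁ = Q₁ := hcard Q₁ P₁ hQ₁ hcP₁
  obtain ⟨g, hg⟩ := MulAction.exists_smul_eq G Q Q₁
  have hconj : ∀ x, x ∈ P₁ ↔ g⁻¹ * x * g ∈ P := by
    intro x
    rw [e1, e2, ← hg, Sylow.coe_subgroup_smul, Subgroup.mem_pointwise_smul_iff_inv_smul_mem,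
      MulAut.smul_def, MulAut.conj_inv_apply]
  obtain ⟨M', hM'⟩ : ∃ M', M' = M.map (MulAut.conj g).toMonoidHom := ⟨_, rfl⟩
  have hM'co : IsCoatom M' := by rw [hM']; exact isCoatom_map_equiv _ M hM
  have hcM' : Nat.card M' = Nat.card M := by
    rw [hM']
    exact Subgroup.card_map_of_injective (MulAut.conj g).injective
  have hDM' : D ≤ M' := by
    intro d hd
    have hdN := hP₁D hd
    rw [Subgroup.mem_normalizer_iff] at hdN
    rw [hM']
    have hmem : g⁻¹ * d * g ∈ M := by
      rw [hMN, Subgroup.mem_normalizer_iff]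
      intro h
      have e : g⁻¹ * d * g * h * (g⁻¹ * d * g)⁻¹ = g⁻¹ * (d * (g * h * g⁻¹) * d⁻¹) * g := by group
      rw [e, ← hconj, ← hdN (g * h * g⁻¹), hconj]
      have e' : g⁻¹ * (g * h * g⁻¹) * g = h := by group
      rw [e']
    refine ⟨g⁻¹ * d * g, hmem, ?_⟩
    show g * (g⁻¹ * d * g) * g⁻¹ = d
    group
  have hDeq : D = M' := Subgroup.eq_of_le_of_card_ge hDM' (by rw [hcM', hcD])
  have hM'S : M' ≤ S := hDeq ▸ hD
  by_cases hS : M' = S
  · left
    rw [← hS, hcM']
  · right
    exact hM'co.2 _ (lt_of_le_of_ne hM'S hS)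

/-- a subgroup of order `2r` has a normal subgroup of order `r` -/
theorem exists_normal_sub [Finite G] (M : Subgroup G) (r : ℕ) [Fact r.Prime]
    (h : Nat.card M = 2 * r) :
    ∃ P : Subgroup G, P ≤ M ∧ M ≤ Subgroup.normalizer (P : Set G) ∧ Nat.card P = r := by
  have hr : r.Prime := Fact.out
  obtain ⟨P', hP'⟩ := Sylow.exists_subgroup_card_pow_prime (G := M) r (n := 1)
    (by rw [pow_one, h]; exact dvd_mul_left r 2)
  rw [pow_one] at hP'
  have hidx : P'.index = 2 := by
    have := P'.index_mul_card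
    rw [hP', h] at this
    exact Nat.eq_of_mul_eq_mul_right hr.pos this
  have hn : P'.Normal := Subgroup.normal_of_index_eq_two hidx
  refine ⟨P'.map M.subtype, Subgroup.map_subtype_le P', ?_, ?_⟩
  · intro m hm
    rw [Subgroup.mem_normalizer_iff]
    intro x
    constructor
    · rintro ⟨y, hy, rfl⟩
      exact ⟨⟨m, hm⟩ * y * ⟨m, hm⟩⁻¹, hn.conj_mem y hy _, rfl⟩
    · rintro ⟨y, hy, hyx⟩
      refine ⟨⟨m, hm⟩⁻¹ * y * ⟨m, hm⟩, ?_, ?_⟩
      · have := hn.conj_mem y hy ⟨m, hm⟩⁻¹
        rwa [inv_inv] at this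
      · have hyx' : (y : G) = m * x * m⁻¹ := hyx
        show m⁻¹ * (y : G) * m = x
        rw [hyx']
        group
  · rw [Subgroup.card_map_of_injective M.subtype_injective]
    exact hP'

/-- a maximal subgroup normalising a four-group in a group of order divisible by `8` has order
divisible by `8` -/
theorem eight_dvd_of_normal_four [Finite G] (M : Subgroup G) (hM : IsCoatom M) (V : Subgroup G)
    (hnorm : M ≤ Subgroup.normalizer (V : Set G))
    (hNtop : Subgroup.normalizer (V : Set G) ≠ ⊤)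
    (hV : Nat.card V = 4) (h8 : 8 ∣ Nat.card G) : 8 ∣ Nat.card M := by
  haveI : Fact (Nat.Prime 2) := ⟨Nat.prime_two⟩
  have hMN : M = Subgroup.normalizer (V : Set G) := by
    by_contra hne
    exact hNtop (hM.2 _ (lt_of_le_of_ne hnorm hne))
  have hV2 : IsPGroup 2 V := IsPGroup.of_card (n := 2) (by rw [hV]; norm_num)
  obtain ⟨Q, hQ⟩ := hV2.exists_le_sylow
  have hQ8 : 8 ∣ Nat.card (Q : Subgroup G) := by
    obtain ⟨K, hK⟩ := Sylow.exists_subgroup_card_pow_prime (G := G) 2 (n := 3) (by norm_num; exact h8)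
    have hK2 : IsPGroup 2 K := IsPGroup.of_card (n := 3) hK
    obtain ⟨Q', hQ'⟩ := hK2.exists_le_sylow
    have h1 : Nat.card K ∣ Nat.card (Q' : Subgroup G) := Subgroup.card_dvd_of_le hQ'
    rw [hK] at h1
    have h2 : Nat.card (Q : Subgroup G) = Nat.card (Q' : Subgroup G) := by
      rw [Sylow.card_eq_multiplicity Q, Sylow.card_eq_multiplicity Q']
    rw [h2]
    exact h1
  have hlt : V.subgroupOf Q < ⊤ := by
    rw [lt_top_iff_ne_top]
    intro h
    rw [Subgroup.subgroupOf_eq_top] at h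
    have h1 := Subgroup.card_le_of_le h
    have h2 := Nat.le_of_dvd Nat.card_pos hQ8
    omega
  haveI : Group.IsNilpotent (Q : Subgroup G) := IsPGroup.isNilpotent Q.2
  have hnc := Group.normalizerCondition_of_isNilpotent (G := (Q : Subgroup G)) _ hlt
  obtain ⟨x, hxN, hxV⟩ := SetLike.exists_of_lt hnc
  rw [Subgroup.mem_normalizer_iff] at hxN
  have hxM : (x : G) ∈ M := by
    rw [hMN, Subgroup.mem_normalizer_iff]
    intro v
    constructor
    · intro hv
      have := (hxN ⟨v, hQ hv⟩).1 (by rw [Subgroup.mem_subgroupOf]; exact hv)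
      rw [Subgroup.mem_subgroupOf] at this
      exact this
    · intro hv
      have hvQ : v ∈ (Q : Subgroup G) := by
        have h1 : (x : G)⁻¹ * ((x : G) * v * (x : G)⁻¹) * (x : G) ∈ (Q : Subgroup G) :=
          (Q : Subgroup G).mul_mem ((Q : Subgroup G).mul_mem ((Q : Subgroup G).inv_mem x.2)
            (hQ hv)) x.2
        have e : (x : G)⁻¹ * ((x : G) * v * (x : G)⁻¹) * (x : G) = v := by group
        rwa [e] at h1
      have := (hxN ⟨v, hvQ⟩).2 (by rw [Subgroup.mem_subgroupOf]; exact hv)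
      rwa [Subgroup.mem_subgroupOf] at this
  have hW2 : IsPGroup 2 ((Q : Subgroup G) ⊓ M : Subgroup G) := Q.2.to_le inf_le_left
  obtain ⟨n, hn⟩ := IsPGroup.iff_card.1 hW2
  have hVM : V ≤ M := by rw [hMN]; exact Subgroup.le_normalizer
  have hVW : V ≤ (Q : Subgroup G) ⊓ M := le_inf hQ hVM
  have hne : V ≠ (Q : Subgroup G) ⊓ M := by
    intro h
    apply hxV
    rw [Subgroup.mem_subgroupOf, h]
    exact ⟨x.2, hxM⟩
  have hlt4 : 4 < 2 ^ n := by
    rw [← hn, ← hV]
    by_contra hle
    push Not at hle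
    exact hne (Subgroup.eq_of_le_of_card_ge hVW hle)
  have h3 : 3 ≤ n := by
    by_contra h
    push Not at h
    interval_cases n <;> omega
  have h8' : 8 ∣ Nat.card ((Q : Subgroup G) ⊓ M : Subgroup G) := by
    rw [hn]
    exact pow_dvd_pow 2 h3
  exact h8'.trans (Subgroup.card_dvd_of_le inf_le_right)

/-- transport of a normalising pair along an injective homomorphism -/
theorem map_le_normalizer {A : Type*} [Group A] (f : A →* G) (D P₁ : Subgroup A)
    (h : D ≤ Subgroup.normalizer (P₁ : Set A)) :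
    D.map f ≤ Subgroup.normalizer ((P₁.map f : Subgroup G) : Set G) := by
  rintro _ ⟨d, hd, rfl⟩
  have hdN := h hd
  rw [Subgroup.mem_normalizer_iff] at hdN
  have hdN' : d⁻¹ ∈ Subgroup.normalizer (P₁ : Set A) := (Subgroup.normalizer (P₁ : Set A)).inv_mem (h hd)
  rw [Subgroup.mem_normalizer_iff] at hdN'
  rw [Subgroup.mem_normalizer_iff]
  intro x
  constructor
  · rintro ⟨y, hy, rfl⟩
    exact ⟨d * y * d⁻¹, (hdN y).1 hy, by simp⟩
  · rintro ⟨y, hy, hyx⟩
    refine ⟨d⁻¹ * y * d, ?_, ?_⟩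
    · have := (hdN' y).1 hy
      rwa [inv_inv] at this
    · rw [map_mul, map_mul, hyx, map_inv]
      group

end abs

/-! ### Facts on `A₄`, `S₄`, `A₅` -/

set_option maxRecDepth 1000000 in
theorem a4_orders : ∀ g : Equiv.Perm (Fin 4), Equiv.Perm.sign g = 1 → g ^ 2 = 1 ∨ g ^ 3 = 1 := by
  decide

set_option maxRecDepth 1000000 in
theorem s4_odd : ∀ g : Equiv.Perm (Fin 4), Equiv.Perm.sign g ≠ 1 → g ^ 4 = 1 := by
  decide

set_option maxRecDepth 1000000 in
theorem a5_orders : ∀ g : Equiv.Perm (Fin 5), Equiv.Perm.sign g = 1 →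
    g ^ 2 = 1 ∨ g ^ 3 = 1 ∨ g ^ 5 = 1 := by
  decide

set_option maxRecDepth 1000000 in
theorem gens4 : ∃ a b : Equiv.Perm (Fin 4), Equiv.Perm.sign a = 1 ∧ Equiv.Perm.sign b = 1 ∧
    a ≠ 1 ∧ a ^ 2 = 1 ∧ b ≠ 1 ∧ b ^ 3 = 1 ∧ a * b ≠ 1 ∧ (a * b) ^ 3 = 1 := by
  refine ⟨Equiv.swap 0 1 * Equiv.swap 2 3, Equiv.swap 0 1 * Equiv.swap 1 2, ?_, ?_, ?_, ?_, ?_, ?_,
    ?_, ?_⟩ <;> decide

set_option maxRecDepth 1000000 in
theorem gens5 : ∃ a b : Equiv.Perm (Fin 5), Equiv.Perm.sign a = 1 ∧ Equiv.Perm.sign b = 1 ∧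
    a ≠ 1 ∧ a ^ 2 = 1 ∧ b ≠ 1 ∧ b ^ 3 = 1 ∧ a * b ≠ 1 ∧ (a * b) ^ 5 = 1 := by
  refine ⟨Equiv.swap 0 1 * Equiv.swap 2 3, Equiv.swap 0 2 * Equiv.swap 2 4, ?_, ?_, ?_, ?_, ?_, ?_,
    ?_, ?_⟩ <;> decide

section transfer

variable {M : Type*} [Group M]

theorem a4_facts (e : M ≃* alternatingGroup (Fin 4)) :
    (∀ g : M, g ^ 2 = 1 ∨ g ^ 3 = 1) ∧
    ∃ a b : M, a ≠ 1 ∧ a ^ 2 = 1 ∧ b ≠ 1 ∧ b ^ 3 = 1 ∧ a * b ≠ 1 ∧ (a * b) ^ 3 = 1 := by
  have key : ∀ (g : M) (k : ℕ), ((e g : alternatingGroup (Fin 4)) : Equiv.Perm (Fin 4)) ^ k = 1 →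
      g ^ k = 1 := by
    intro g k h
    apply e.injective
    rw [map_pow, map_one]
    exact Subtype.ext h
  constructor
  · intro g
    rcases a4_orders (e g).1 (Equiv.Perm.mem_alternatingGroup.1 (e g).2) with h | h
    · exact Or.inl (key g 2 h)
    · exact Or.inr (key g 3 h)
  · obtain ⟨a, b, sa, sb, ha1, ha2, hb1, hb3, hab1, hab3⟩ := gens4
    have ea : e (e.symm ⟨a, Equiv.Perm.mem_alternatingGroup.2 sa⟩) = ⟨a, _⟩ := e.apply_symm_apply _
    have eb : e (e.symm ⟨b, Equiv.Perm.mem_alternatingGroup.2 sb⟩) = ⟨b, _⟩ := e.apply_symm_apply _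
    refine ⟨e.symm ⟨a, Equiv.Perm.mem_alternatingGroup.2 sa⟩,
      e.symm ⟨b, Equiv.Perm.mem_alternatingGroup.2 sb⟩, ?_, ?_, ?_, ?_, ?_, ?_⟩
    · intro h
      apply ha1
      have := congrArg (fun x => ((e x : alternatingGroup (Fin 4)) : Equiv.Perm (Fin 4))) h
      simpa [ea] using this
    · exact key _ 2 (by rw [ea]; exact ha2)
    · intro h
      apply hb1
      have := congrArg (fun x => ((e x : alternatingGroup (Fin 4)) : Equiv.Perm (Fin 4))) h
      simpa [eb] using this
    · exact key _ 3 (by rw [eb]; exact hb3)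
    · intro h
      apply hab1
      have := congrArg (fun x => ((e x : alternatingGroup (Fin 4)) : Equiv.Perm (Fin 4))) h
      simpa [ea, eb] using this
    · exact key _ 3 (by rw [map_mul, ea, eb]; exact hab3)

theorem a5_facts (e : M ≃* alternatingGroup (Fin 5)) :
    (∀ g : M, g ^ 2 = 1 ∨ g ^ 3 = 1 ∨ g ^ 5 = 1) ∧
    ∃ a b : M, a ≠ 1 ∧ a ^ 2 = 1 ∧ b ≠ 1 ∧ b ^ 3 = 1 ∧ a * b ≠ 1 ∧ (a * b) ^ 5 = 1 := by
  have key : ∀ (g : M) (k : ℕ), ((e g : alternatingGroup (Fin 5)) : Equiv.Perm (Fin 5)) ^ k = 1 →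
      g ^ k = 1 := by
    intro g k h
    apply e.injective
    rw [map_pow, map_one]
    exact Subtype.ext h
  constructor
  · intro g
    rcases a5_orders (e g).1 (Equiv.Perm.mem_alternatingGroup.1 (e g).2) with h | h | h
    · exact Or.inl (key g 2 h)
    · exact Or.inr (Or.inl (key g 3 h))
    · exact Or.inr (Or.inr (key g 5 h))
  · obtain ⟨a, b, sa, sb, ha1, ha2, hb1, hb3, hab1, hab5⟩ := gens5
    have ea : e (e.symm ⟨a, Equiv.Perm.mem_alternatingGroup.2 sa⟩) = ⟨a, _⟩ := e.apply_symm_apply _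
    have eb : e (e.symm ⟨b, Equiv.Perm.mem_alternatingGroup.2 sb⟩) = ⟨b, _⟩ := e.apply_symm_apply _
    refine ⟨e.symm ⟨a, Equiv.Perm.mem_alternatingGroup.2 sa⟩,
      e.symm ⟨b, Equiv.Perm.mem_alternatingGroup.2 sb⟩, ?_, ?_, ?_, ?_, ?_, ?_⟩
    · intro h
      apply ha1
      have := congrArg (fun x => ((e x : alternatingGroup (Fin 5)) : Equiv.Perm (Fin 5))) h
      simpa [ea] using this
    · exact key _ 2 (by rw [ea]; exact ha2)
    · intro h
      apply hb1
      have := congrArg (fun x => ((e x : alternatingGroup (Fin 5)) : Equiv.Perm (Fin 5))) h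
      simpa [eb] using this
    · exact key _ 3 (by rw [eb]; exact hb3)
    · intro h
      apply hab1
      have := congrArg (fun x => ((e x : alternatingGroup (Fin 5)) : Equiv.Perm (Fin 5))) h
      simpa [ea, eb] using this
    · exact key _ 5 (by rw [map_mul, ea, eb]; exact hab5)

theorem s4_facts (e : M ≃* Equiv.Perm (Fin 4)) :
    ∃ T : Subgroup M, (∀ g ∈ T, g ^ 2 = 1 ∨ g ^ 3 = 1) ∧ (∀ g, g ∉ T → g ^ 4 = 1) ∧
    ∃ a ∈ T, ∃ b ∈ T, a ≠ 1 ∧ a ^ 2 = 1 ∧ b ≠ 1 ∧ b ^ 3 = 1 ∧ a * b ≠ 1 ∧ (a * b) ^ 3 = 1 := by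
  have key : ∀ (g : M) (k : ℕ), (e g) ^ k = 1 → g ^ k = 1 := by
    intro g k h
    apply e.injective
    rw [map_pow, map_one]
    exact h
  refine ⟨(alternatingGroup (Fin 4)).comap e.toMonoidHom, ?_, ?_, ?_⟩
  · intro g hg
    have hg' : e g ∈ alternatingGroup (Fin 4) := hg
    rcases a4_orders (e g) (Equiv.Perm.mem_alternatingGroup.1 hg') with h | h
    · exact Or.inl (key g 2 h)
    · exact Or.inr (key g 3 h)
  · intro g hg
    have hg' : ¬ e g ∈ alternatingGroup (Fin 4) := hg
    rw [Equiv.Perm.mem_alternatingGroup] at hg'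
    exact key g 4 (s4_odd (e g) hg')
  · obtain ⟨a, b, sa, sb, ha1, ha2, hb1, hb3, hab1, hab3⟩ := gens4
    have ea : e (e.symm a) = a := e.apply_symm_apply _
    have eb : e (e.symm b) = b := e.apply_symm_apply _
    refine ⟨e.symm a, ?_, e.symm b, ?_, ?_, ?_, ?_, ?_, ?_, ?_⟩
    · show e (e.symm a) ∈ alternatingGroup (Fin 4)
      rw [ea]; exact Equiv.Perm.mem_alternatingGroup.2 sa
    · show e (e.symm b) ∈ alternatingGroup (Fin 4)
      rw [eb]; exact Equiv.Perm.mem_alternatingGroup.2 sb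
    · intro h
      apply ha1
      rw [← ea, h, map_one]
    · exact key _ 2 (by rw [ea]; exact ha2)
    · intro h
      apply hb1
      rw [← eb, h, map_one]
    · exact key _ 3 (by rw [eb]; exact hb3)
    · intro h
      apply hab1
      rw [← ea, ← eb, ← map_mul, h, map_one]
    · exact key _ 3 (by rw [map_mul, ea, eb]; exact hab3)

end transfer

/-! ### Subgroups of `S₄` and `A₅` -/

theorem sylow_card {G : Type*} [Group G] [Finite G] (p : ℕ) [Fact p.Prime] (P : Sylow p G)
    (k m : ℕ) (h : Nat.card G = p ^ k * m) (hm : ¬ p ∣ m) :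
    Nat.card (P : Subgroup G) = p ^ k := by
  rw [Sylow.card_eq_multiplicity, h,
    Cfsg.Agent.Lib.Helper56.SmallSolvable.factorization_pow_mul p k m Fact.out hm]

/-- `S₄` has a subgroup of order 6 normalising a subgroup of order 3 -/
theorem s4_sub : ∃ D P₁ : Subgroup (Equiv.Perm (Fin 4)),
    D ≤ Subgroup.normalizer (P₁ : Set (Equiv.Perm (Fin 4))) ∧ Nat.card D = 6 ∧ Nat.card P₁ = 3 := by
  haveI : Fact (Nat.Prime 3) := ⟨Nat.prime_three⟩
  obtain ⟨f, hfd⟩ : ∃ f : Equiv.Perm (Fin 3) →* Equiv.Perm (Fin 4),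
      f = Equiv.Perm.viaEmbeddingHom (Fin.castSuccEmb) := ⟨_, rfl⟩
  have hf : Function.Injective f := by
    rw [hfd]
    exact Equiv.Perm.viaEmbeddingHom_injective _
  have hc : Nat.card f.range = 6 := by
    rw [← Nat.card_congr (MonoidHom.ofInjective hf).toEquiv, Nat.card_perm, Nat.card_fin]
    rfl
  obtain ⟨P, -, hPn, hP⟩ := exists_normal_sub f.range 3 (by rw [hc])
  exact ⟨f.range, P, hPn, hc, hP⟩

theorem card_A5 : Nat.card (alternatingGroup (Fin 5)) = 60 := by
  have h := two_mul_nat_card_alternatingGroup (α := Fin 5)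
  rw [Nat.card_eq_fintype_card (α := Equiv.Perm (Fin 5)), Fintype.card_perm, Fintype.card_fin] at h
  have : Nat.factorial 5 = 120 := by decide
  omega

/-- `A₅` has a subgroup of order 10 normalising a subgroup of order 5 -/
theorem a5_sub10 : ∃ D P₁ : Subgroup (alternatingGroup (Fin 5)),
    D ≤ Subgroup.normalizer (P₁ : Set (alternatingGroup (Fin 5))) ∧ Nat.card D = 10 ∧
      Nat.card P₁ = 5 := by
  haveI : Fact (Nat.Prime 5) := ⟨by norm_num⟩
  have h60 := card_A5
  obtain ⟨P⟩ : Nonempty (Sylow 5 (alternatingGroup (Fin 5))) := inferInstance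
  have hP : Nat.card (P : Subgroup (alternatingGroup (Fin 5))) = 5 := by
    have := sylow_card 5 P 1 12 (by rw [h60]; norm_num) (by norm_num)
    rwa [pow_one] at this
  have hidx : (P : Subgroup (alternatingGroup (Fin 5))).index = 12 := by
    have := (P : Subgroup (alternatingGroup (Fin 5))).index_mul_card
    rw [hP, h60] at this
    omega
  have h1 : Nat.card (Sylow 5 (alternatingGroup (Fin 5))) =
      (Subgroup.normalizer ((P : Subgroup (alternatingGroup (Fin 5))) :
        Set (alternatingGroup (Fin 5)))).index := Sylow.card_eq_index_normalizer P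
  have h2 := card_sylow_modEq_one 5 (alternatingGroup (Fin 5))
  have h3 := Sylow.card_dvd_index P
  rw [hidx] at h3
  obtain ⟨n, hn⟩ : ∃ n, n = Nat.card (Sylow 5 (alternatingGroup (Fin 5))) := ⟨_, rfl⟩
  rw [← hn] at h1 h2 h3
  have hn' : n = 1 ∨ n = 6 := by
    have hle : n ≤ 12 := Nat.le_of_dvd (by norm_num) h3
    unfold Nat.ModEq at h2
    interval_cases n <;> first | omega | (exfalso; revert h3; decide) | (exfalso; revert h2; decide)
  have hNtop := normalizer_ne_top (P : Subgroup (alternatingGroup (Fin 5)))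
    (by rw [hP]; norm_num) (by rw [hP, h60]; norm_num)
  have hmul := (Subgroup.normalizer ((P : Subgroup (alternatingGroup (Fin 5))) :
    Set (alternatingGroup (Fin 5)))).index_mul_card
  rw [← h1, h60] at hmul
  rcases hn' with rfl | rfl
  · exfalso
    apply hNtop
    exact Subgroup.index_eq_one.1 h1.symm
  · refine ⟨Subgroup.normalizer ((P : Subgroup (alternatingGroup (Fin 5))) :
      Set (alternatingGroup (Fin 5))), P, le_refl _, by omega, hP⟩

/-- `A₅` has a subgroup of order 12 normalising a subgroup of order 4 -/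
theorem a5_sub12 : ∃ D P₁ : Subgroup (alternatingGroup (Fin 5)),
    D ≤ Subgroup.normalizer (P₁ : Set (alternatingGroup (Fin 5))) ∧ Nat.card D = 12 ∧
      Nat.card P₁ = 4 := by
  haveI : Fact (Nat.Prime 2) := ⟨Nat.prime_two⟩
  have h60 := card_A5
  obtain ⟨P⟩ : Nonempty (Sylow 2 (alternatingGroup (Fin 5))) := inferInstance
  have hP : Nat.card (P : Subgroup (alternatingGroup (Fin 5))) = 4 := by
    have := sylow_card 2 P 2 15 (by rw [h60]; norm_num) (by norm_num)
    rw [this]; norm_num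
  have hidx : (P : Subgroup (alternatingGroup (Fin 5))).index = 15 := by
    have := (P : Subgroup (alternatingGroup (Fin 5))).index_mul_card
    rw [hP, h60] at this
    omega
  have h1 : Nat.card (Sylow 2 (alternatingGroup (Fin 5))) =
      (Subgroup.normalizer ((P : Subgroup (alternatingGroup (Fin 5))) :
        Set (alternatingGroup (Fin 5)))).index := Sylow.card_eq_index_normalizer P
  have h2 := card_sylow_modEq_one 2 (alternatingGroup (Fin 5))
  have h3 := Sylow.card_dvd_index P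
  rw [hidx] at h3
  obtain ⟨n, hn⟩ : ∃ n, n = Nat.card (Sylow 2 (alternatingGroup (Fin 5))) := ⟨_, rfl⟩
  rw [← hn] at h1 h2 h3
  have hn' : n = 1 ∨ n = 3 ∨ n = 5 ∨ n = 15 := by
    have hle : n ≤ 15 := Nat.le_of_dvd (by norm_num) h3
    unfold Nat.ModEq at h2
    interval_cases n <;> first | omega | (exfalso; revert h3; decide) | (exfalso; revert h2; decide)
  have hNtop := normalizer_ne_top (P : Subgroup (alternatingGroup (Fin 5)))
    (by rw [hP]; norm_num) (by rw [hP, h60]; norm_num)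
  obtain ⟨N, hN⟩ : ∃ N, N = Subgroup.normalizer ((P : Subgroup (alternatingGroup (Fin 5))) :
    Set (alternatingGroup (Fin 5))) := ⟨_, rfl⟩
  rw [← hN] at h1 hNtop
  have hmul := N.index_mul_card
  rw [← h1, h60] at hmul
  rcases hn' with rfl | rfl | rfl | rfl
  · exfalso
    apply hNtop
    exact Subgroup.index_eq_one.1 h1.symm
  · exfalso
    have := Cfsg.Agent.S0494.card_dvd_factorial_index N hNtop
    rw [h60, ← h1] at this
    revert this
    decide
  · refine ⟨N, P, by rw [hN], by omega, hP⟩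
  · exfalso
    have hN4 : Nat.card N = 4 := by omega
    have hPN : (P : Subgroup (alternatingGroup (Fin 5))) = N := by
      apply Subgroup.eq_of_le_of_card_ge
      · rw [hN]; exact Subgroup.le_normalizer
      · rw [hN4, hP]
    have hcomm : ∀ a b : (P : Subgroup (alternatingGroup (Fin 5))), a * b = b * a :=
      (IsPGroup.isMulCommutative_of_card_eq_prime_sq (p := 2)
        (G := (P : Subgroup (alternatingGroup (Fin 5)))) (by rw [hP]; norm_num)).is_comm.comm
    have hPc : Subgroup.normalizer ((P : Subgroup (alternatingGroup (Fin 5))) :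
        Set (alternatingGroup (Fin 5))) ≤
        Subgroup.centralizer ((P : Subgroup (alternatingGroup (Fin 5))) :
          Set (alternatingGroup (Fin 5))) := by
      rw [← hN, ← hPN]
      intro x hx
      rw [Subgroup.mem_centralizer_iff]
      intro y hy
      have := hcomm ⟨y, hy⟩ ⟨x, hx⟩
      exact congrArg Subtype.val this
    have hcompl := MonoidHom.ker_transferSylow_isComplement' P hPc
    have hcm := hcompl.card_mul_card
    rw [hP, h60] at hcm
    have hK : Nat.card (MonoidHom.transferSylow P hPc).ker = 15 := by omega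
    have hKn : (MonoidHom.transferSylow P hPc).ker.Normal := inferInstance
    rcases hKn.eq_bot_or_eq_top with h' | h'
    · rw [h', Subgroup.card_bot] at hK
      omega
    · rw [h', Subgroup.card_top, h60] at hK
      omega

end Cfsg.Agent.Lib.Helper6.Mx1
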