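import Mathlib
import Cfsg.Agent.Lib.Helper6.Dk5

/-!
# Linear algebra in `SL(2, F)` for the maximal subgroups of `PSL(2, q)` (helper6)

* `conjM`: conjugation by an invertible matrix as an automorphism of `SL(2, F)`;
* `entries_mem`: a subgroup with traces in a subfield `k` containing an irreducible pair `A, B`
  with `A² = -1` is conjugate into `SL(2, k)` (entrywise form, with a scaling factor `ρ`);
* trace values of lifts of elements of order 2, 3, 4, 5;
* `exists_inverter`: every regular semisimple element is inverted by some element.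
-/

set_option autoImplicit false
set_option linter.unusedSimpArgs false
set_option linter.unusedVariables false
set_option linter.unusedSectionVars false
set_option linter.style.haveILetI false
set_option linter.unnecessarySeqFocus false
set_option linter.unreachableTactic false
set_option linter.unusedTactic false

namespace Cfsg.Agent.Lib.Helper6.Mx2

open Matrix MatrixGroups
open Cfsg.Agent.Lib.Helper53.SL2Inv Cfsg.Agent.Lib.Helper53.SL2Unip
open Cfsg.Agent.Lib.Helper98.SL2Sub Cfsg.Agent.Lib.Helper98.SL2Core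
open Cfsg.Agent.Lib.Helper98.SL2Tor Cfsg.Agent.Lib.Helper98.PSL2Max
open Cfsg.Agent.Lib.Helper98.DicksonB
open Cfsg.Agent.Lib.Helper6.Sb2 Cfsg.Agent.Lib.Helper6.Dk2

variable {F : Type*} [Field F]

/-- conjugation by an invertible matrix -/
noncomputable def conjM (P : Matrix (Fin 2) (Fin 2) F) (hP : P.det ≠ 0) : SL(2, F) ≃* SL(2, F) where
  toFun x := ⟨P * x.1 * P⁻¹, by
    rw [Matrix.det_mul, Matrix.det_mul, x.2, mul_one, ← Matrix.det_mul,
      Matrix.mul_nonsing_inv _ (isUnit_iff_ne_zero.2 hP), Matrix.det_one]⟩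
  invFun x := ⟨P⁻¹ * x.1 * P, by
    rw [Matrix.det_mul, Matrix.det_mul, x.2, mul_one, ← Matrix.det_mul,
      Matrix.nonsing_inv_mul _ (isUnit_iff_ne_zero.2 hP), Matrix.det_one]⟩
  left_inv x := by
    apply Subtype.ext
    show P⁻¹ * (P * x.1 * P⁻¹) * P = x.1
    rw [Matrix.mul_assoc, Matrix.mul_assoc, Matrix.nonsing_inv_mul _ (isUnit_iff_ne_zero.2 hP),
      Matrix.mul_one, ← Matrix.mul_assoc, Matrix.nonsing_inv_mul _ (isUnit_iff_ne_zero.2 hP),
      Matrix.one_mul]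
  right_inv x := by
    apply Subtype.ext
    show P * (P⁻¹ * x.1 * P) * P⁻¹ = x.1
    rw [Matrix.mul_assoc, Matrix.mul_assoc, Matrix.mul_nonsing_inv _ (isUnit_iff_ne_zero.2 hP),
      Matrix.mul_one, ← Matrix.mul_assoc, Matrix.mul_nonsing_inv _ (isUnit_iff_ne_zero.2 hP),
      Matrix.one_mul]
  map_mul' x y := by
    apply Subtype.ext
    show P * (x.1 * y.1) * P⁻¹ = (P * x.1 * P⁻¹) * (P * y.1 * P⁻¹)
    have e : (P * x.1 * P⁻¹) * (P * y.1 * P⁻¹) = P * x.1 * (P⁻¹ * P) * y.1 * P⁻¹ := by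
      simp only [Matrix.mul_assoc]
    rw [e, Matrix.nonsing_inv_mul _ (isUnit_iff_ne_zero.2 hP), Matrix.mul_one]
    simp only [Matrix.mul_assoc]

lemma conjM_eq_of (P : Matrix (Fin 2) (Fin 2) F) (hP : P.det ≠ 0) (x y : SL(2, F))
    (h : P * x.1 = y.1 * P) : conjM P hP x = y := by
  apply Subtype.ext
  show P * x.1 * P⁻¹ = y.1
  rw [h, Matrix.mul_assoc, Matrix.mul_nonsing_inv _ (isUnit_iff_ne_zero.2 hP), Matrix.mul_one]

lemma tr_conjM (P : Matrix (Fin 2) (Fin 2) F) (hP : P.det ≠ 0) (x : SL(2, F)) :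
    tr (conjM P hP x) = tr x := by
  have h1 : tr (conjM P hP x) = Matrix.trace (P * x.1 * P⁻¹) := by
    rw [Matrix.trace_fin_two]; rfl
  have h2 : tr x = Matrix.trace x.1 := by
    rw [Matrix.trace_fin_two]; rfl
  rw [h1, h2, Matrix.trace_mul_comm, ← Matrix.mul_assoc,
    Matrix.nonsing_inv_mul _ (isUnit_iff_ne_zero.2 hP), Matrix.one_mul]

/-- rotation-type conjugators -/
lemma conjR_eq (α β : F) (h : (!![α, -β; β, α] : Matrix (Fin 2) (Fin 2) F).det ≠ 0)
    (x y : SL(2, F))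
    (e00 : α * x.1 0 0 - β * x.1 1 0 = y.1 0 0 * α + y.1 0 1 * β)
    (e01 : α * x.1 0 1 - β * x.1 1 1 = -(y.1 0 0 * β) + y.1 0 1 * α)
    (e10 : β * x.1 0 0 + α * x.1 1 0 = y.1 1 0 * α + y.1 1 1 * β)
    (e11 : β * x.1 0 1 + α * x.1 1 1 = -(y.1 1 0 * β) + y.1 1 1 * α) :
    conjM _ h x = y := by
  apply conjM_eq_of
  ext i j
  fin_cases i <;> fin_cases j
  · simp only [Matrix.mul_apply, Fin.sum_univ_two]
    simp
    linear_combination e00
  · simp only [Matrix.mul_apply, Fin.sum_univ_two]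
    simp
    linear_combination e01
  · simp only [Matrix.mul_apply, Fin.sum_univ_two]
    simp
    linear_combination e10
  · simp only [Matrix.mul_apply, Fin.sum_univ_two]
    simp
    linear_combination e11

/-- solving for the entries from four traces -/
lemma lin (k : Subfield F) (a b c d : F) (ha : a ∈ k) (hb : b ∈ k) (hc : c ∈ k) (hd : d ∈ k)
    (hden : (a - d) ^ 2 + (b + c) ^ 2 ≠ 0) (ρ x00 x01 x10 x11 : F)
    (h1 : ρ * (x00 + x11) ∈ k) (h2 : ρ * (x01 - x10) ∈ k)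
    (h3 : ρ * (a * x00 + b * x10 + c * x01 + d * x11) ∈ k)
    (h4 : ρ * (-c * x00 - d * x10 + a * x01 + b * x11) ∈ k) :
    ρ * x00 ∈ k ∧ ρ * x01 ∈ k ∧ ρ * x10 ∈ k ∧ ρ * x11 ∈ k := by
  have e00 : ρ * x00 = ((a - d) * (ρ * (a * x00 + b * x10 + c * x01 + d * x11)
      - d * (ρ * (x00 + x11)) - c * (ρ * (x01 - x10)))
      - (b + c) * (ρ * (-c * x00 - d * x10 + a * x01 + b * x11) - b * (ρ * (x00 + x11))
        - a * (ρ * (x01 - x10)))) / ((a - d) ^ 2 + (b + c) ^ 2) := by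
    rw [eq_div_iff hden]; ring
  have e10 : ρ * x10 = ((b + c) * (ρ * (a * x00 + b * x10 + c * x01 + d * x11)
      - d * (ρ * (x00 + x11)) - c * (ρ * (x01 - x10)))
      + (a - d) * (ρ * (-c * x00 - d * x10 + a * x01 + b * x11) - b * (ρ * (x00 + x11))
        - a * (ρ * (x01 - x10)))) / ((a - d) ^ 2 + (b + c) ^ 2) := by
    rw [eq_div_iff hden]; ring
  have hdk : (a - d) ^ 2 + (b + c) ^ 2 ∈ k :=
    k.add_mem (k.pow_mem (k.sub_mem ha hd) 2) (k.pow_mem (k.add_mem hb hc) 2)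
  have s3 : ρ * (a * x00 + b * x10 + c * x01 + d * x11)
      - d * (ρ * (x00 + x11)) - c * (ρ * (x01 - x10)) ∈ k :=
    k.sub_mem (k.sub_mem h3 (k.mul_mem hd h1)) (k.mul_mem hc h2)
  have s4 : ρ * (-c * x00 - d * x10 + a * x01 + b * x11) - b * (ρ * (x00 + x11))
        - a * (ρ * (x01 - x10)) ∈ k :=
    k.sub_mem (k.sub_mem h4 (k.mul_mem hb h1)) (k.mul_mem ha h2)
  have m00 : ρ * x00 ∈ k := by
    rw [e00]
    exact k.div_mem (k.sub_mem (k.mul_mem (k.sub_mem ha hd) s3) (k.mul_mem (k.add_mem hb hc) s4))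
      hdk
  have m10 : ρ * x10 ∈ k := by
    rw [e10]
    exact k.div_mem (k.add_mem (k.mul_mem (k.add_mem hb hc) s3) (k.mul_mem (k.sub_mem ha hd) s4))
      hdk
  refine ⟨m00, ?_, m10, ?_⟩
  · have : ρ * x01 = ρ * (x01 - x10) + ρ * x10 := by ring
    rw [this]; exact k.add_mem h2 m10
  · have : ρ * x11 = ρ * (x00 + x11) - ρ * x00 := by ring
    rw [this]; exact k.sub_mem h1 m00

lemma card_subfield_odd [Fintype F] (hodd : Odd (Fintype.card F)) (k : Subfield F)
    [Fintype k] : Fintype.card k % 2 = 1 := by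
  obtain ⟨m, hm⟩ := exists_pow k
  rw [Nat.card_eq_fintype_card, Nat.card_eq_fintype_card] at hm
  rw [hm] at hodd
  by_contra h
  have he : Even (Fintype.card k) := by rw [Nat.even_iff]; omega
  rcases Nat.eq_zero_or_pos m with rfl | hm0
  · rw [pow_zero] at hm
    have := Fintype.one_lt_card (α := F)
    omega
  · have : Even (Fintype.card k ^ m) := (Nat.even_pow.2 ⟨he, hm0.ne'⟩)
    exact (Nat.not_even_iff_odd.2 hodd) this

/-- **Conjugation into a subfield.** -/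
theorem entries_mem [Fintype F] (hodd : Odd (Fintype.card F)) (k : Subfield F)
    (A B : SL(2, F)) (hA : A * A = negOne) (hy : tr B ∈ k) (hz : tr (A * B) ∈ k)
    (hnd : tr B ^ 2 + tr (A * B) ^ 2 ≠ 4) :
    ∃ φ : SL(2, F) ≃* SL(2, F), ∀ (ρ : F) (x : SL(2, F)), ρ * tr x ∈ k → ρ * tr (A * x) ∈ k →
      ρ * tr (B * x) ∈ k → ρ * tr (A * B * x) ∈ k →
      ρ * (φ x).1 0 0 ∈ k ∧ ρ * (φ x).1 0 1 ∈ k ∧ ρ * (φ x).1 1 0 ∈ k ∧ ρ * (φ x).1 1 1 ∈ k := by
  classical
  haveI : Fintype k := Fintype.ofFinite k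
  obtain ⟨g, hg⟩ := conj_W_of_sq hodd A hA
  obtain ⟨B₁, hB₁⟩ : ∃ B₁, B₁ = g * B * g⁻¹ := ⟨_, rfl⟩
  obtain ⟨a, ha⟩ : ∃ a, a = B₁.1 0 0 := ⟨_, rfl⟩
  obtain ⟨b, hb⟩ : ∃ b, b = B₁.1 0 1 := ⟨_, rfl⟩
  obtain ⟨c, hc⟩ : ∃ c, c = B₁.1 1 0 := ⟨_, rfl⟩
  obtain ⟨d, hd⟩ : ∃ d, d = B₁.1 1 1 := ⟨_, rfl⟩
  have hdet : a * d - b * c = 1 := by rw [ha, hb, hc, hd]; exact det_eq B₁
  have htrB : tr B = a + d := by
    have : tr B₁ = tr B := by rw [hB₁]; exact tr_conj g B
    rw [← this, tr_def, ha, hd]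
  have htrAB : tr (A * B) = b - c := by
    have e : W * B₁ = g * (A * B) * g⁻¹ := by rw [hB₁, ← hg]; group
    have h1 : tr (W * B₁) = tr (A * B) := by rw [e]; exact tr_conj g (A * B)
    rw [← h1, tr_def, mul00, mul11, W00, W01, W10, W11, hb, hc]
    ring
  have hy' : a + d ∈ k := htrB ▸ hy
  have hz' : b - c ∈ k := htrAB ▸ hz
  have hD4 : (a + d) ^ 2 + (b - c) ^ 2 - 4 ≠ 0 := by
    rw [← htrB, ← htrAB]
    exact sub_ne_zero.2 hnd
  have hcardk := card_subfield_odd hodd k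
  obtain ⟨a₀, b₀, h0⟩ := FiniteField.exists_root_sum_quadratic
    (f := Polynomial.C (-1 : k) * Polynomial.X ^ 2 + Polynomial.C (⟨a + d, hy'⟩ : k) * Polynomial.X
      + Polynomial.C (-1 : k))
    (g := Polynomial.C (-1 : k) * Polynomial.X ^ 2 + Polynomial.C (⟨b - c, hz'⟩ : k) * Polynomial.X
      + Polynomial.C (0 : k))
    (Polynomial.degree_quadratic (by simp)) (Polynomial.degree_quadratic (by simp)) hcardk
  have hcon : (a₀ : F) * ((a + d) - a₀) - b₀ * (b₀ - (b - c)) = 1 := by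
    have h0' := congrArg (Subtype.val : k → F) h0
    simp only [Polynomial.eval_add, Polynomial.eval_mul, Polynomial.eval_C, Polynomial.eval_pow,
      Polynomial.eval_X] at h0'
    push_cast at h0'
    linear_combination h0'
  obtain ⟨B₀, hB₀⟩ : ∃ B₀, B₀ = mk4 (a₀ : F) b₀ (b₀ - (b - c)) ((a + d) - a₀) hcon := ⟨_, rfl⟩
  have hsum : ((a₀ : F) - d) ^ 2 + (b₀ - b) ^ 2 + (((b₀ : F) + c) ^ 2 + (a₀ - a) ^ 2) =
      (a + d) ^ 2 + (b - c) ^ 2 - 4 := by
    linear_combination (-2 : F) * hcon - 2 * hdet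
  -- the second conjugator
  have hψ : ∃ ψ : SL(2, F) ≃* SL(2, F), ψ W = W ∧ ψ B₁ = B₀ ∧ ∀ x, tr (ψ x) = tr x := by
    by_cases hP : ((a₀ : F) - d) ^ 2 + (b₀ - b) ^ 2 = 0
    · have hP' : ((b₀ : F) + c) ^ 2 + (a₀ - a) ^ 2 ≠ 0 := by
        intro h
        apply hD4
        rw [← hsum, hP, h]; ring
      have hdetP : (!![-((b₀ : F) + c), -((a₀ : F) - a); (a₀ : F) - a, -((b₀ : F) + c)] :
          Matrix (Fin 2) (Fin 2) F).det ≠ 0 := by
        rw [Matrix.det_fin_two_of]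
        intro h
        apply hP'
        linear_combination h
      refine ⟨conjM _ hdetP, ?_, ?_, fun x => tr_conjM _ hdetP x⟩
      · apply conjR_eq <;> simp only [W00, W01, W10, W11] <;> ring
      · apply conjR_eq <;> rw [hB₀] <;>
          simp only [mk4_00, mk4_01, mk4_10, mk4_11, ← ha, ← hb, ← hc, ← hd] <;>
          first | ring1 | linear_combination hcon - hdet | linear_combination hdet - hcon |
            linear_combination hcon + hdet | linear_combination -hcon - hdet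
    · have hdetP : (!![(a₀ : F) - d, -((b₀ : F) - b); (b₀ : F) - b, (a₀ : F) - d] :
          Matrix (Fin 2) (Fin 2) F).det ≠ 0 := by
        rw [Matrix.det_fin_two_of]
        intro h
        apply hP
        linear_combination h
      refine ⟨conjM _ hdetP, ?_, ?_, fun x => tr_conjM _ hdetP x⟩
      · apply conjR_eq <;> simp only [W00, W01, W10, W11] <;> ring
      · apply conjR_eq <;> rw [hB₀] <;>
          simp only [mk4_00, mk4_01, mk4_10, mk4_11, ← ha, ← hb, ← hc, ← hd] <;>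
          first | ring1 | linear_combination hcon - hdet | linear_combination hdet - hcon |
            linear_combination hcon + hdet | linear_combination -hcon - hdet
  obtain ⟨ψ, hψW, hψB, hψtr⟩ := hψ
  obtain ⟨φ, hφ⟩ : ∃ φ : SL(2, F) ≃* SL(2, F), φ = (MulAut.conj g).trans ψ := ⟨_, rfl⟩
  have hφx : ∀ x, φ x = ψ (g * x * g⁻¹) := by intro x; rw [hφ]; rfl
  have hφA : φ A = W := by rw [hφx, hg, hψW]
  have hφB : φ B = B₀ := by rw [hφx, ← hB₁, hψB]
  have hφtr : ∀ x, tr (φ x) = tr x := by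
    intro x; rw [hφx, hψtr, tr_conj]
  refine ⟨φ, ?_⟩
  intro ρ x h1 h2 h3 h4
  have e1 : tr x = (φ x).1 0 0 + (φ x).1 1 1 := by rw [← hφtr x, tr_def]
  have e2 : tr (A * x) = (φ x).1 0 1 - (φ x).1 1 0 := by
    rw [← hφtr (A * x), map_mul, hφA, tr_def, mul00, mul11, W00, W01, W10, W11]; ring
  have e3 : tr (B * x) = (a₀ : F) * (φ x).1 0 0 + b₀ * (φ x).1 1 0 + (b₀ - (b - c)) * (φ x).1 0 1
      + ((a + d) - a₀) * (φ x).1 1 1 := by
    rw [← hφtr (B * x), map_mul, hφB, hB₀, tr_def, mul00, mul11, mk4_00, mk4_01, mk4_10, mk4_11]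
    ring
  have e4 : tr (A * B * x) = -((b₀ : F) - (b - c)) * (φ x).1 0 0 - ((a + d) - a₀) * (φ x).1 1 0
      + a₀ * (φ x).1 0 1 + b₀ * (φ x).1 1 1 := by
    rw [← hφtr (A * B * x), map_mul, map_mul, hφA, hφB, hB₀, tr_def, mul00, mul11, mul00, mul01,
      mul10, mul11, W00, W01, W10, W11, mk4_00, mk4_01, mk4_10, mk4_11]
    ring
  rw [e1] at h1
  rw [e2] at h2
  rw [e3] at h3
  rw [e4] at h4
  have hden : ((a₀ : F) - ((a + d) - a₀)) ^ 2 + ((b₀ : F) + (b₀ - (b - c))) ^ 2 ≠ 0 := by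
    intro h
    apply hD4
    linear_combination h + 4 * hcon
  exact lin k (a₀ : F) b₀ (b₀ - (b - c)) ((a + d) - a₀) a₀.2 b₀.2 (k.sub_mem b₀.2 hz')
    (k.sub_mem hy' a₀.2) hden ρ _ _ _ _ h1 h2 h3 h4

/-! ### Traces of lifts of elements of small order -/

lemma tr_inv (x : SL(2, F)) : tr x⁻¹ = tr x := by
  rw [tr_def, tr_def, inv00, inv11]; ring

lemma tr_zero_of_sq (h2 : (2 : F) ≠ 0) (x : SL(2, F)) (h : x * x = negOne) : tr x = 0 := by
  have h1 := tr_sq x
  rw [h, tr_negOne] at h1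
  have : tr x ^ 2 = 0 := by linear_combination -h1
  exact pow_eq_zero_iff (by norm_num) |>.1 this

lemma tr_cube (x : SL(2, F)) : tr (x * x * x) = tr x ^ 3 - 3 * tr x := by
  rw [tr_def, tr_def, mul00, mul11, mul00, mul01, mul10, mul11]
  linear_combination (-3 * (x.1 0 0 + x.1 1 1)) * det_eq x

lemma negOne_inv : (negOne : SL(2, F))⁻¹ = negOne :=
  inv_eq_of_mul_eq_one_right negOne_mul_negOne

/-- lifts of involutions -/
lemma lift_two (h2 : (2 : F) ≠ 0) (x : SL(2, F)) (h : x ^ 2 = 1 ∨ x ^ 2 = negOne) :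
    x = 1 ∨ x = negOne ∨ tr x = 0 := by
  rw [pow_two] at h
  rcases h with h | h
  · rcases sq_eq_one h2 x h with h' | h'
    · exact Or.inl h'
    · exact Or.inr (Or.inl h')
  · exact Or.inr (Or.inr (tr_zero_of_sq h2 x h))

/-- lifts of elements of order 3 -/
lemma lift_three (p : ℕ) [Fact p.Prime] [CharP F p] (h2 : (2 : F) ≠ 0) (x : SL(2, F))
    (hx : (orderOf x).Coprime p) (h : x ^ 3 = 1 ∨ x ^ 3 = negOne) :
    x = 1 ∨ x = negOne ∨ tr x = 1 ∨ tr x = -1 := by
  have e3 : x ^ 3 = x * x * x := by rw [pow_succ, pow_two]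
  rw [e3] at h
  have hsq := tr_sq x
  have key : (tr x - 2) * (tr x + 1) = 0 ∨ (tr x + 2) * (tr x - 1) = 0 := by
    rcases h with h | h
    · left
      have h1 : x * x = x⁻¹ := eq_inv_of_mul_eq_one_left h
      rw [h1, tr_inv] at hsq
      linear_combination -hsq
    · right
      have h1 : x * x = negOne * x⁻¹ := by
        rw [← h, mul_inv_cancel_right]
      rw [h1, tr_negOne_mul, tr_inv] at hsq
      linear_combination -hsq
  have h4 : tr x ^ 2 = 4 → x = 1 ∨ x = negOne ∨ tr x = 1 ∨ tr x = -1 := by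
    intro ht
    rcases eq_one_or_negOne_of_tr p h2 x hx ht with h' | h'
    · exact Or.inl h'
    · exact Or.inr (Or.inl h')
  rcases key with key | key
  · rcases mul_eq_zero.1 key with h' | h'
    · exact h4 (by linear_combination (tr x + 2) * h')
    · exact Or.inr (Or.inr (Or.inr (by linear_combination h')))
  · rcases mul_eq_zero.1 key with h' | h'
    · exact h4 (by linear_combination (tr x - 2) * h')
    · exact Or.inr (Or.inr (Or.inl (by linear_combination h')))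

/-- lifts of elements of order dividing 4 -/
lemma lift_four (h2 : (2 : F) ≠ 0) (x : SL(2, F)) (h : x ^ 4 = 1 ∨ x ^ 4 = negOne) :
    x = 1 ∨ x = negOne ∨ tr x = 0 ∨ tr x ^ 2 = 2 := by
  have e4 : x ^ 4 = (x * x) * (x * x) := by
    rw [show (4 : ℕ) = 2 + 2 from rfl, pow_add, pow_two]
  rw [e4] at h
  rcases h with h | h
  · rcases sq_eq_one h2 (x * x) h with h' | h'
    · rcases sq_eq_one h2 x h' with h'' | h''
      · exact Or.inl h''
      · exact Or.inr (Or.inl h'')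
    · exact Or.inr (Or.inr (Or.inl (tr_zero_of_sq h2 x h')))
  · have h1 := tr_zero_of_sq h2 (x * x) h
    rw [tr_sq] at h1
    exact Or.inr (Or.inr (Or.inr (by linear_combination h1)))

/-- lifts of elements of order 5 -/
lemma lift_five (p : ℕ) [Fact p.Prime] [CharP F p] (h2 : (2 : F) ≠ 0) (x : SL(2, F))
    (hx : (orderOf x).Coprime p) (h : x ^ 5 = 1 ∨ x ^ 5 = negOne) :
    x = 1 ∨ x = negOne ∨ tr x ^ 2 + tr x - 1 = 0 ∨ tr x ^ 2 - tr x - 1 = 0 := by
  have e5 : x ^ 5 = (x * x * x) * (x * x) := by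
    rw [show (5 : ℕ) = 3 + 2 from rfl, pow_add, pow_two, pow_succ, pow_two]
  rw [e5] at h
  have hsq := tr_sq x
  have hcu := tr_cube x
  have key : (tr x - 2) * (tr x ^ 2 + tr x - 1) = 0 ∨ (tr x + 2) * (tr x ^ 2 - tr x - 1) = 0 := by
    rcases h with h | h
    · left
      have h1 : x * x * x = (x * x)⁻¹ := eq_inv_of_mul_eq_one_left h
      rw [h1, tr_inv, hsq] at hcu
      linear_combination -hcu
    · right
      have h1 : x * x * x = negOne * (x * x)⁻¹ := by
        rw [← h, mul_inv_cancel_right]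
      rw [h1, tr_negOne_mul, tr_inv, hsq] at hcu
      linear_combination -hcu
  have h4 : tr x ^ 2 = 4 → x = 1 ∨ x = negOne ∨ tr x ^ 2 + tr x - 1 = 0 ∨
      tr x ^ 2 - tr x - 1 = 0 := by
    intro ht
    rcases eq_one_or_negOne_of_tr p h2 x hx ht with h' | h'
    · exact Or.inl h'
    · exact Or.inr (Or.inl h')
  rcases key with key | key
  · rcases mul_eq_zero.1 key with h' | h'
    · exact h4 (by linear_combination (tr x + 2) * h')
    · exact Or.inr (Or.inr (Or.inl h'))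
  · rcases mul_eq_zero.1 key with h' | h'
    · exact h4 (by linear_combination (tr x - 2) * h')
    · exact Or.inr (Or.inr (Or.inr h'))

/-! ### Inverting elements -/

lemma inverter_of_tr (n a : SL(2, F)) (hn : tr n = 0) (hna : tr (n * a) = 0) :
    n * a * n⁻¹ = a⁻¹ := by
  have h1 : n * n = negOne := sq_of_tr_zero n hn
  have h2 : (n * a) * (n * a) = negOne := sq_of_tr_zero _ hna
  have h3 : n⁻¹ = negOne * n := by
    apply inv_eq_of_mul_eq_one_right
    rw [← mul_assoc, ← negOne_comm, mul_assoc, h1, negOne_mul_negOne]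
  apply eq_inv_of_mul_eq_one_left
  rw [h3]
  calc n * a * (negOne * n) * a = negOne * ((n * a) * (n * a)) := by
        rw [← mul_assoc (n * a) negOne n, ← negOne_comm (n * a)]; group
    _ = 1 := by rw [h2, negOne_mul_negOne]

theorem exists_inverter_of_ne [Fintype F] (hodd : Odd (Fintype.card F)) (a : SL(2, F))
    (hc : a.1 1 0 ≠ 0) (htr : (a.1 0 0 + a.1 1 1) ^ 2 ≠ 4) :
    ∃ n : SL(2, F), n * a * n⁻¹ = a⁻¹ := by
  have h2 : (2 : F) ≠ 0 := two_ne_zero_of_odd hodd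
  have hcard : Fintype.card F % 2 = 1 := Nat.odd_iff.1 hodd
  obtain ⟨Δ, hΔ⟩ : ∃ Δ, Δ = (a.1 0 0 - a.1 1 1) ^ 2 + 4 * a.1 0 1 * a.1 1 0 := ⟨_, rfl⟩
  have hΔ0 : Δ ≠ 0 := by
    intro h
    apply htr
    rw [hΔ] at h
    linear_combination h + 4 * det_eq a
  obtain ⟨U, z, hUz⟩ := FiniteField.exists_root_sum_quadratic
    (f := Polynomial.C (1 : F) * Polynomial.X ^ 2 + Polynomial.C (0 : F) * Polynomial.X
      + Polynomial.C (4 * a.1 1 0 ^ 2))
    (g := Polynomial.C (-Δ) * Polynomial.X ^ 2 + Polynomial.C (0 : F) * Polynomial.X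
      + Polynomial.C (0 : F))
    (Polynomial.degree_quadratic one_ne_zero) (Polynomial.degree_quadratic (neg_ne_zero.2 hΔ0))
    hcard
  simp only [Polynomial.eval_add, Polynomial.eval_mul, Polynomial.eval_C, Polynomial.eval_pow,
    Polynomial.eval_X] at hUz
  have hUz' : U ^ 2 + 4 * a.1 1 0 ^ 2 - Δ * z ^ 2 = 0 := by linear_combination hUz
  obtain ⟨x, hx⟩ : ∃ x, x = (U + (a.1 0 0 - a.1 1 1) * z) / (2 * a.1 1 0) := ⟨_, rfl⟩
  obtain ⟨y, hy⟩ : ∃ y, y = -(x * (a.1 0 0 - a.1 1 1) + z * a.1 0 1) / a.1 1 0 := ⟨_, rfl⟩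
  have h4 : (4 : F) ≠ 0 := by
    have e : (4 : F) = 2 * 2 := by norm_num
    rw [e]
    exact mul_ne_zero h2 h2
  have hdetn : x * (-x) - y * z = 1 := by
    have key : x * (-x) - y * z - 1 = -(U ^ 2 + 4 * a.1 1 0 ^ 2 - Δ * z ^ 2) / (4 * a.1 1 0 ^ 2) := by
      rw [hy, hx, hΔ]
      field_simp
      ring
    rw [hUz', neg_zero, zero_div] at key
    linear_combination key
  refine ⟨mk4 x y z (-x) hdetn, ?_⟩
  apply inverter_of_tr
  · rw [tr_def, mk4_00, mk4_11]; ring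
  · rw [tr_def, mul00, mul11, mk4_00, mk4_01, mk4_10, mk4_11, hy]
    field_simp
    ring

theorem exists_inverter [Fintype F] (hodd : Odd (Fintype.card F)) (a : SL(2, F))
    (htr : (a.1 0 0 + a.1 1 1) ^ 2 ≠ 4) : ∃ n : SL(2, F), n * a * n⁻¹ = a⁻¹ := by
  have htrc : ∀ g : SL(2, F), ((g * a * g⁻¹).1 0 0 + (g * a * g⁻¹).1 1 1) ^ 2 ≠ 4 := by
    intro g
    have := tr_conj g a
    rw [tr_def, tr_def] at this
    rw [this]
    exact htr
  have red : ∀ g : SL(2, F), (g * a * g⁻¹).1 1 0 ≠ 0 → ∃ n : SL(2, F), n * a * n⁻¹ = a⁻¹ := by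
    intro g hg
    obtain ⟨n', hn'⟩ := exists_inverter_of_ne hodd (g * a * g⁻¹) hg (htrc g)
    refine ⟨g⁻¹ * n' * g, ?_⟩
    have e : g⁻¹ * n' * g * a * (g⁻¹ * n' * g)⁻¹ = g⁻¹ * (n' * (g * a * g⁻¹) * n'⁻¹) * g := by
      group
    rw [e, hn']
    group
  by_cases h10 : a.1 1 0 = 0
  · by_cases h01 : a.1 0 1 = 0
    · apply red (l 1)
      rw [conj10, l10, l11, h10, h01]
      intro h
      apply htr
      have hd := det_eq a
      rw [h10, h01] at hd
      have e : a.1 0 0 = a.1 1 1 := by linear_combination h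
      rw [e] at hd ⊢
      linear_combination (4 : F) * hd
    · apply red w
      rw [conj10, w10, w11, h10]
      intro h
      apply h01
      linear_combination -h
  · have := red 1
    rw [one_mul, inv_one, mul_one] at this
    exact this h10

end Cfsg.Agent.Lib.Helper6.Mx2
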