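import Mathlib
import Cfsg.Agent.Lib.Helper6.Mx2

/-!
# Subfield subgroups that are maximal (helper6)

* `fixP`: the fixed field of a power of Frobenius;
* `mem_of_pow_card`, `exists_elt`, `card_le_of_fix`: finite field lemmas;
* `subfield_max`: a maximal subgroup between `SL(2, k)` and its normaliser is `PGL(2, k)` with
  `[F : k] = 2`, or `PSL(2, k)` with `[F : k]` an odd prime;
* `subfield_iso`: the isomorphism types.
-/

set_option autoImplicit false
set_option linter.unusedSimpArgs false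
set_option linter.unusedVariables false
set_option linter.unusedSectionVars false
set_option linter.style.haveILetI false
set_option linter.unnecessarySeqFocus false
set_option linter.unreachableTactic false
set_option linter.unusedTactic false

namespace Cfsg.Agent.Lib.Helper6.Mx3

open Matrix MatrixGroups
open Cfsg.Agent.Lib.Helper53.SL2Inv Cfsg.Agent.Lib.Helper53.SL2Unip
open Cfsg.Agent.Lib.Helper98.SL2Sub Cfsg.Agent.Lib.Helper98.SL2Core
open Cfsg.Agent.Lib.Helper98.SL2Tor Cfsg.Agent.Lib.Helper98.PSL2Max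
open Cfsg.Agent.Lib.Helper98.DicksonB Cfsg.Agent.Lib.Helper98.DicksonOdd
open Cfsg.Agent.Lib.Helper98.SL2Field
open Cfsg.Agent.S5941 (Pk Sk_le_Pk Pk_ne_top d_mem_Pk)
open Cfsg.Agent.Lib.Helper6.Sb2 Cfsg.Agent.Lib.Helper6.Dk2 Cfsg.Agent.Lib.Helper6.Dk5

variable {F : Type*} [Field F]

/-- the fixed field of the `j`-th power of Frobenius -/
def fixP (F : Type*) [Field F] (p : ℕ) [Fact p.Prime] [CharP F p] (hp2 : p ≠ 2) (j : ℕ) :
    Subfield F where
  carrier := {x | x ^ p ^ j = x}
  mul_mem' := by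
    intro a b ha hb
    have ha' : a ^ p ^ j = a := ha
    have hb' : b ^ p ^ j = b := hb
    show (a * b) ^ p ^ j = a * b
    rw [mul_pow, ha', hb']
  one_mem' := one_pow _
  add_mem' := by
    intro a b ha hb
    have ha' : a ^ p ^ j = a := ha
    have hb' : b ^ p ^ j = b := hb
    show (a + b) ^ p ^ j = a + b
    rw [add_pow_char_pow, ha', hb']
  zero_mem' := zero_pow (pow_ne_zero _ (Fact.out : p.Prime).ne_zero)
  neg_mem' := by
    intro a ha
    have ha' : a ^ p ^ j = a := ha
    show (-a) ^ p ^ j = -a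
    rw [Odd.neg_pow ((Fact.out : p.Prime).odd_of_ne_two hp2).pow, ha']
  inv_mem' := by
    intro a ha
    have ha' : a ^ p ^ j = a := ha
    show (a⁻¹) ^ p ^ j = a⁻¹
    rw [inv_pow, ha']

lemma mem_fixP (p : ℕ) [Fact p.Prime] [CharP F p] (hp2 : p ≠ 2) (j : ℕ) (x : F) :
    x ∈ fixP F p hp2 j ↔ x ^ p ^ j = x := Iff.rfl

section fin

variable [Finite F]

lemma pow_card_sub (k : Subfield F) (x : F) (hx : x ∈ k) : x ^ Nat.card k = x := by
  classical
  haveI : Fintype k := Fintype.ofFinite k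
  have h := FiniteField.pow_card (⟨x, hx⟩ : k)
  rw [Nat.card_eq_fintype_card]
  exact congrArg Subtype.val h

lemma mem_of_pow_card (k : Subfield F) (x : F) (h : x ^ Nat.card k = x) : x ∈ k := by
  classical
  haveI : Fintype F := Fintype.ofFinite F
  haveI : Fintype k := Fintype.ofFinite k
  obtain ⟨r, hr⟩ : ∃ r, r = Nat.card k := ⟨_, rfl⟩
  rw [← hr] at h
  have hr2 : 1 < r := by
    have := card_subfield_two_le k
    omega
  obtain ⟨f, hf⟩ : ∃ f : Polynomial F, f = Polynomial.X ^ r - Polynomial.X := ⟨_, rfl⟩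
  have hf0 : f ≠ 0 := by rw [hf]; exact FiniteField.X_pow_card_sub_X_ne_zero F hr2
  have hdeg : f.natDegree = r := by
    rw [hf]; exact FiniteField.X_pow_card_sub_X_natDegree_eq F hr2
  have hroot : ∀ y : F, y ^ r = y → y ∈ f.roots.toFinset := by
    intro y hy
    rw [Multiset.mem_toFinset, Polynomial.mem_roots hf0, hf]
    simp [hy]
  have hsub : (Finset.univ.image (fun a : k => (a : F))) ⊆ f.roots.toFinset := by
    intro y hy
    obtain ⟨a, -, rfl⟩ := Finset.mem_image.1 hy
    apply hroot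
    rw [hr]
    exact pow_card_sub k a.1 a.2
  have hcard1 : (Finset.univ.image (fun a : k => (a : F))).card = r := by
    rw [Finset.card_image_of_injective _ Subtype.val_injective, Finset.card_univ, hr,
      Nat.card_eq_fintype_card]
  have hcard2 : f.roots.toFinset.card ≤ r :=
    (Multiset.toFinset_card_le _).trans ((Polynomial.card_roots' f).trans hdeg.le)
  have heq := Finset.eq_of_subset_of_card_le hsub (by rw [hcard1]; exact hcard2)
  have hx := hroot x h
  rw [← heq] at hx
  obtain ⟨a, -, rfl⟩ := Finset.mem_image.1 hx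
  exact a.2

/-- an element of prescribed multiplicative order -/
lemma exists_elt (d : ℕ) (hd : d ∣ Nat.card F - 1) :
    ∃ c : F, c ≠ 0 ∧ ∀ e : ℕ, c ^ e = 1 ↔ d ∣ e := by
  classical
  haveI : Fintype F := Fintype.ofFinite F
  obtain ⟨g, hg⟩ := IsCyclic.exists_generator (α := Fˣ)
  have hord : orderOf g = Nat.card F - 1 := by
    rw [orderOf_eq_card_of_forall_mem_zpowers hg, Nat.card_units]
  have hN : Nat.card F - 1 ≠ 0 := by
    have := Finite.one_lt_card (α := F)
    omega
  obtain ⟨e', he'⟩ := hd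
  have hd0 : d ≠ 0 := by rintro rfl; rw [zero_mul] at he'; exact hN he'
  have he0 : e' ≠ 0 := by rintro rfl; rw [mul_zero] at he'; exact hN he'
  have hordc : orderOf (g ^ e') = d := by
    rw [orderOf_pow_of_dvd he0 (by rw [hord, he']; exact dvd_mul_left _ _), hord, he']
    exact Nat.mul_div_cancel _ (Nat.pos_of_ne_zero he0)
  refine ⟨((g ^ e' : Fˣ) : F), Units.ne_zero _, ?_⟩
  intro e
  rw [← hordc, orderOf_dvd_iff_pow_eq_one, ← Units.val_pow_eq_pow_val, Units.val_eq_one]

lemma card_le_of_fix (Q : ℕ) (hQ : 1 < Q) (h : ∀ x : F, x ^ Q = x) : Nat.card F ≤ Q := by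
  obtain ⟨c, hc0, hc⟩ := exists_elt (F := F) (Nat.card F - 1) dvd_rfl
  have h1 : c ^ (Q - 1) = 1 := by
    have h2 := h c
    have e : Q = (Q - 1) + 1 := by omega
    rw [e, pow_succ] at h2
    exact mul_right_cancel₀ hc0 (by rw [h2, one_mul])
  have h3 := (hc (Q - 1)).1 h1
  have := Nat.le_of_dvd (by omega) h3
  omega

end fin

lemma pow_pow_fix (x : F) (r : ℕ) (h : x ^ r = x) (i : ℕ) : x ^ r ^ i = x := by
  induction i with
  | zero => simp
  | succ i ih => rw [pow_succ, pow_mul, ih, h]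

lemma Sk_mono {k k' : Subfield F} (h : k ≤ k') : Sk k ≤ Sk k' := by
  rintro g ⟨h1, h2, h3, h4⟩
  exact ⟨h h1, h h2, h h3, h h4⟩

lemma mem_of_Sk_top (k : Subfield F) (h : Sk k = ⊤) (x : F) : x ∈ k := by
  have : u x ∈ Sk k := by rw [h]; trivial
  exact this.2.1

section main

variable [Fintype F]

/-- **Maximal subfield subgroups.** -/
theorem subfield_max (p : ℕ) [Fact p.Prime] [CharP F p] (h2 : (2 : F) ≠ 0) (k : Subfield F)
    (hk : ∃ t, t ∉ k) (X' : Subgroup SL(2, F)) (hco : IsCoatom X') (h1 : Sk k ≤ X')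
    (h2' : X' ≤ Pk k) :
    X' = Pk k ∧ ((Pk k ≠ Sk k ∧ Fintype.card F = Nat.card k ^ 2) ∨
      (Pk k = Sk k ∧ ∃ r : ℕ, r.Prime ∧ Odd r ∧ Fintype.card F = Nat.card k ^ r)) := by
  classical
  haveI : Finite SL(2, F) := finite_SL
  have hpp : p.Prime := Fact.out
  have hp2 : p ≠ 2 := by
    rintro rfl
    apply h2
    have := CharP.cast_eq_zero F 2
    exact_mod_cast this
  obtain ⟨t, ht⟩ := hk
  have hPtop : Pk k ≠ ⊤ := Pk_ne_top k t ht
  have hXP : X' = Pk k := by
    by_contra hne
    exact hPtop (hco.2 _ (lt_of_le_of_ne h2' hne))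
  refine ⟨hXP, ?_⟩
  obtain ⟨m, hm⟩ := exists_pow k
  rw [Nat.card_eq_fintype_card] at hm
  obtain ⟨r, hr⟩ : ∃ r, r = Nat.card k := ⟨_, rfl⟩
  rw [← hr] at hm ⊢
  have hr2 : 2 ≤ r := by rw [hr]; exact card_subfield_two_le k
  have hfix : ∀ x ∈ k, x ^ r = x := by
    intro x hx; rw [hr]; exact pow_card_sub k x hx
  have hmem : ∀ x : F, x ^ r = x → x ∈ k := by
    intro x hx; rw [hr] at hx; exact mem_of_pow_card k x hx
  have hq1 := Fintype.one_lt_card (α := F)
  have hm2 : 2 ≤ m := by
    by_contra hlt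
    push Not at hlt
    interval_cases m
    · rw [pow_zero] at hm; omega
    · rw [pow_one] at hm
      apply ht
      apply hmem
      rw [← hm]
      exact FiniteField.pow_card t
  -- `r` is a power of `p`
  obtain ⟨N, -, hN⟩ := FiniteField.card F p
  have hdvd : r ∣ p ^ (N : ℕ) := by
    rw [← hN, hm]
    exact dvd_pow_self _ (by omega)
  obtain ⟨n, -, hn⟩ := (Nat.dvd_prime_pow hpp).1 hdvd
  have hrodd : Odd r := by
    rw [hn]; exact (hpp.odd_of_ne_two hp2).pow
  have hcardN : Nat.card F - 1 = r ^ m - 1 := by rw [Nat.card_eq_fintype_card, hm]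
  -- the intermediate fields
  have hkk' : ∀ a : ℕ, k ≤ fixP F p hp2 (n * a) := by
    intro a x hx
    rw [mem_fixP, pow_mul, ← hn]
    exact pow_pow_fix x r (hfix x hx) a
  have hfixmem : ∀ (a : ℕ) (x : F), x ∈ fixP F p hp2 (n * a) ↔ x ^ r ^ a = x := by
    intro a x
    rw [mem_fixP, pow_mul, ← hn]
  have htop : ∀ a : ℕ, 1 ≤ a → a < m → Sk (fixP F p hp2 (n * a)) ≠ ⊤ := by
    intro a ha1 ham htop'
    have hall : ∀ x : F, x ^ r ^ a = x := fun x =>
      (hfixmem a x).1 (mem_of_Sk_top _ htop' x)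
    have h3 := card_le_of_fix (F := F) (r ^ a) (Nat.one_lt_pow (by omega) (by omega)) hall
    rw [Nat.card_eq_fintype_card, hm] at h3
    have h4 : r ^ a < r ^ m := Nat.pow_lt_pow_right (by omega) ham
    omega
  by_cases hPS : Pk k = Sk k
  · right
    refine ⟨hPS, m, ?_, ?_, hm⟩
    · -- primality
      by_contra hnp
      obtain ⟨a, hadvd, ha2, halt⟩ := Nat.exists_dvd_of_not_prime2 hm2 hnp
      obtain ⟨b, hb⟩ := hadvd
      have hdv : r ^ a - 1 ∣ Nat.card F - 1 := by
        rw [hcardN, hb, pow_mul]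
        exact Nat.sub_one_dvd_pow_sub_one (r ^ a) b
      obtain ⟨c, hc0, hc⟩ := exists_elt (F := F) (r ^ a - 1) hdv
      have hra : r < r ^ a := by
        calc r = r ^ 1 := (pow_one r).symm
          _ < r ^ a := Nat.pow_lt_pow_right (by omega) (by omega)
      have hck' : c ∈ fixP F p hp2 (n * a) := by
        rw [hfixmem]
        have e : r ^ a = (r ^ a - 1) + 1 := by omega
        rw [e, pow_succ, (hc _).2 dvd_rfl, one_mul]
      have hck : c ∉ k := by
        intro hcm
        have h3 := hfix c hcm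
        have h4 : c ^ (r - 1) = 1 := by
          have e : r = (r - 1) + 1 := by omega
          rw [e, pow_succ] at h3
          exact mul_right_cancel₀ hc0 (by rw [h3, one_mul])
        have h5 := (hc _).1 h4
        have := Nat.le_of_dvd (by omega) h5
        omega
      have hlt : X' < Sk (fixP F p hp2 (n * a)) := by
        rw [hXP, hPS]
        refine lt_of_le_of_ne (Sk_mono (hkk' a)) ?_
        intro heq
        have : u c ∈ Sk k := by rw [heq]; exact u_mem_Sk hck'
        exact hck this.2.1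
      exact htop a (by omega) halt (hco.2 _ hlt)
    · -- oddness
      by_contra hev
      rw [Nat.not_odd_iff_even] at hev
      obtain ⟨j, hj⟩ := hev
      have hdv : 2 * (r - 1) ∣ Nat.card F - 1 := by
        rw [hcardN, hj, ← two_mul, pow_mul]
        have h3 := Nat.sub_one_dvd_pow_sub_one (r ^ 2) j
        refine dvd_trans ?_ h3
        obtain ⟨i, hi⟩ := hrodd
        have e : r ^ 2 - 1 = 2 * (r - 1) * (i + 1) := by
          rw [hi]
          have e1 : (2 * i + 1) ^ 2 = 4 * i * (i + 1) + 1 := by ring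
          rw [e1]
          have e2 : 2 * i + 1 - 1 = 2 * i := by omega
          rw [e2]
          have e3 : 4 * i * (i + 1) + 1 - 1 = 4 * i * (i + 1) := by omega
          rw [e3]; ring
        rw [e]
        exact dvd_mul_right _ _
      obtain ⟨c, hc0, hc⟩ := exists_elt (F := F) (2 * (r - 1)) hdv
      have hc2 : c ^ 2 ∈ k := by
        apply hmem
        have e : (c ^ 2) ^ r = c ^ (2 * (r - 1)) * c ^ 2 := by
          rw [← pow_mul, ← pow_add]
          congr 1
          have : 1 ≤ r := by omega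
          obtain ⟨r', rfl⟩ : ∃ r', r = r' + 1 := ⟨r - 1, by omega⟩
          simp; ring
        rw [e, (hc _).2 dvd_rfl, one_mul]
      have hck : c ∉ k := by
        intro hcm
        have h3 := hfix c hcm
        have h4 : c ^ (r - 1) = 1 := by
          have e : r = (r - 1) + 1 := by omega
          rw [e, pow_succ] at h3
          exact mul_right_cancel₀ hc0 (by rw [h3, one_mul])
        have h5 := (hc _).1 h4
        have := Nat.le_of_dvd (by omega) h5
        omega
      have hd : d c hc0 ∈ Sk k := by rw [← hPS]; exact d_mem_Pk k c hc0 hc2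
      apply hck
      have := hd.1
      rwa [d00] at this
  · left
    refine ⟨hPS, ?_⟩
    have hex : ∃ g₀ ∈ Pk k, g₀ ∉ Sk k := by
      by_contra hcon
      push Not at hcon
      exact hPS (le_antisymm hcon (Sk_le_Pk k))
    obtain ⟨g₀, hg₀, hn₀⟩ := hex
    obtain ⟨c₀, hc₀, a00, a01, a10, a11⟩ := hg₀
    have sqmem : ∀ (g : SL(2, F)) (c : F), c * g.1 0 0 ∈ k → c * g.1 0 1 ∈ k → c * g.1 1 0 ∈ k →
        c * g.1 1 1 ∈ k → c ^ 2 ∈ k := by
      intro g c b00 b01 b10 b11
      have : c ^ 2 = (c * g.1 0 0) * (c * g.1 1 1) - (c * g.1 0 1) * (c * g.1 1 0) := by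
        linear_combination (-c ^ 2) * det_eq g
      rw [this]; exact k.sub_mem (k.mul_mem b00 b11) (k.mul_mem b01 b10)
    have hc₀k : c₀ ∉ k := by
      intro h
      have aux : ∀ x : F, c₀ * x ∈ k → x ∈ k := by
        intro x hx
        have := k.mul_mem (k.inv_mem h) hx
        rwa [inv_mul_cancel_left₀ hc₀] at this
      exact hn₀ ⟨aux _ a00, aux _ a01, aux _ a10, aux _ a11⟩
    have hsq2 : ∀ c : F, c ^ 2 ∈ k → c ∈ fixP F p hp2 (n * 2) := by
      intro c hc
      rw [hfixmem]
      have h3 := hfix _ hc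
      have h4 : (c ^ r - c) * (c ^ r + c) = 0 := by
        have : (c ^ r) ^ 2 = c ^ 2 := by rw [← pow_mul, mul_comm, pow_mul, h3]
        linear_combination this
      rw [pow_two, pow_mul]
      rcases mul_eq_zero.1 h4 with h5 | h5
      · have h6 : c ^ r = c := sub_eq_zero.1 h5
        rw [h6, h6]
      · have h6 : c ^ r = -c := eq_neg_of_add_eq_zero_left h5
        rw [h6, Odd.neg_pow hrodd, h6, neg_neg]
    have hPle : Pk k ≤ Sk (fixP F p hp2 (n * 2)) := by
      rintro g ⟨c, hc, b00, b01, b10, b11⟩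
      have hck2 := hsq2 c (sqmem g c b00 b01 b10 b11)
      have aux : ∀ x : F, c * x ∈ k → x ∈ fixP F p hp2 (n * 2) := by
        intro x hx
        have := (fixP F p hp2 (n * 2)).mul_mem ((fixP F p hp2 (n * 2)).inv_mem hck2)
          (hkk' 2 hx)
        rwa [inv_mul_cancel_left₀ hc] at this
      exact ⟨aux _ b00, aux _ b01, aux _ b10, aux _ b11⟩
    have hlt : X' < Sk (fixP F p hp2 (n * 2)) := by
      rw [hXP]
      refine lt_of_le_of_ne hPle ?_
      intro heq
      have hu : u c₀ ∈ Pk k := by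
        rw [heq]
        exact u_mem_Sk (hsq2 c₀ (sqmem g₀ c₀ a00 a01 a10 a11))
      obtain ⟨c', hc', b00, b01, -, -⟩ := hu
      rw [u00, mul_one] at b00
      rw [u01] at b01
      apply hc₀k
      have : c₀ = (c' * c₀) / c' := by field_simp
      rw [this]
      exact k.div_mem b01 b00
    have htop2 := hco.2 _ hlt
    by_contra hne
    have hm3 : 2 < m := by
      rcases Nat.lt_or_ge 2 m with h | h
      · exact h
      · exfalso
        apply hne
        have : m = 2 := by omega
        rw [hm, this]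
    exact htop 2 (by omega) hm3 htop2

/-- the isomorphism types of subfield subgroups -/
theorem subfield_iso (p : ℕ) [Fact p.Prime] [CharP F p] (h2 : (2 : F) ≠ 0)
    (X : Subgroup SL(2, F)) (φ : SL(2, F) ≃* SL(2, F))
    (k : Subfield F) (hX : X.map φ.toMonoidHom = Pk k) :
    ∃ (K : Type) (_ : Field K) (_ : Fintype K), Fintype.card K = Nat.card k ∧
      (Pk k = Sk k → Nonempty (X.map proj ≃* Matrix.ProjectiveSpecialLinearGroup (Fin 2) K)) ∧
      (Pk k ≠ Sk k → Nonempty (X.map proj ≃* Matrix.ProjGenLinGroup (Fin 2) K)) := by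
  classical
  haveI : Finite SL(2, F) := finite_SL
  haveI : Fintype k := Fintype.ofFinite k
  have hpp : p.Prime := Fact.out
  obtain ⟨N, -, hN⟩ := FiniteField.card F p
  obtain ⟨m, hm⟩ := exists_pow k
  have hk2 : 2 ≤ Nat.card k := card_subfield_two_le k
  have hm0 : m ≠ 0 := by
    rintro rfl
    rw [pow_zero, Nat.card_eq_fintype_card] at hm
    have := Fintype.one_lt_card (α := F)
    omega
  have hdvd : Nat.card k ∣ p ^ (N : ℕ) := by
    rw [← hN, ← Nat.card_eq_fintype_card, hm]
    exact dvd_pow_self _ hm0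
  obtain ⟨n, -, hn⟩ := (Nat.dvd_prime_pow hpp).1 hdvd
  have hn0 : n ≠ 0 := by
    rintro rfl
    rw [pow_zero] at hn
    omega
  letI : Fintype (GaloisField p n) := Fintype.ofFinite _
  have hc0 : Fintype.card (GaloisField p n) = Fintype.card k := by
    rw [← Nat.card_eq_fintype_card, ← Nat.card_eq_fintype_card, GaloisField.card p n hn0, hn]
  obtain ⟨e⟩ : Nonempty (GaloisField p n ≃+* k) := ⟨FiniteField.ringEquivOfCardEq hc0⟩
  obtain ⟨ι, hιdef⟩ : ∃ ι : GaloisField p n →+* F, ι = k.subtype.comp e.toRingHom := ⟨_, rfl⟩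
  have hι : ι.fieldRange = k := by
    ext x
    rw [RingHom.mem_fieldRange]
    constructor
    · rintro ⟨y, rfl⟩
      rw [hιdef]
      exact (e y).2
    · intro hx
      refine ⟨e.symm ⟨x, hx⟩, ?_⟩
      rw [hιdef]
      show ((e (e.symm ⟨x, hx⟩) : k) : F) = x
      rw [RingEquiv.apply_symm_apply]
  obtain ⟨φ0⟩ := transport φ X
  rw [hX] at φ0
  refine ⟨GaloisField p n, inferInstance, inferInstance, ?_, ?_, ?_⟩
  · rw [hc0, Nat.card_eq_fintype_card]
  · intro hPS
    have iso4 := pslIso ι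
    rw [hι] at iso4
    rw [hPS] at φ0
    exact ⟨φ0.trans iso4⟩
  · intro hne
    have hsqrt : ∀ s ∈ ι.fieldRange, ∃ σ : F, σ ^ 2 = s := by
      rw [hι]
      exact sqrt_of_Pk_ne h2 k hne
    have iso4 := Cfsg.Agent.S5941.pglIso ι hsqrt
    rw [hι] at iso4
    exact ⟨φ0.trans iso4⟩

end main

end Cfsg.Agent.Lib.Helper6.Mx3
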