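import Mathlib

/-!
# `M ∩ L` is maximal in `L` for maximal subgroups `M` of `PGL(2, q)`: shared definitions (helper6)

`MType q M₀`: the numerical/structural shadow of the list of maximal subgroups `M` of `PGL(2, q)`
not containing `L = PSL(2, q)` (statement S5891), for `M₀ = M ∩ L`.
`ZType q p Z`: the shadow of the list of maximal subgroups of `PSL(2, q)` (statement S5892).
-/

set_option autoImplicit false

namespace Cfsg.Agent.Lib.Helper6.Pq1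

variable {G : Type*} [Group G]

/-- shadow of the maximal subgroups of `PGL(2, q)` not containing `PSL(2, q)`, cut by `PSL(2, q)` -/
def MType (q : ℕ) (M₀ : Subgroup G) : Prop :=
  2 * Nat.card M₀ = q * (q - 1) ∨
  (q ≠ 5 ∧ Nat.card M₀ = q - 1 ∧ ∃ g ∈ M₀, 2 * orderOf g = q - 1) ∨
  (Nat.card M₀ = q + 1 ∧ ∃ g ∈ M₀, 2 * orderOf g = q + 1) ∨
  (q.Prime ∧ (q % 8 = 3 ∨ q % 8 = 5) ∧ Nat.card M₀ = 12 ∧
    ∃ a ∈ M₀, ∃ b ∈ M₀, a ^ 2 * b ^ 2 ≠ b ^ 2 * a ^ 2) ∨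
  (∃ q₀ r : ℕ, r.Prime ∧ Odd r ∧ q = q₀ ^ r ∧ 2 * Nat.card M₀ = q₀ * (q₀ ^ 2 - 1))

/-- shadow of the maximal subgroups of `PSL(2, q)`, `q` odd, of characteristic `p` -/
def ZType (q p : ℕ) (Z : Subgroup G) : Prop :=
  2 * Nat.card Z = q * (q - 1) ∨
  ((Nat.card Z = q - 1 ∨ (q ≠ 7 ∧ q ≠ 9 ∧ Nat.card Z = q + 1)) ∧
    ∀ x ∈ Z, ∀ y ∈ Z, x ^ 2 * y ^ 2 = y ^ 2 * x ^ 2) ∨
  (∃ q₁ : ℕ, q = q₁ ^ 2 ∧ Nat.card Z = q₁ * (q₁ ^ 2 - 1) ∧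
    ∀ g ∈ Z, g ^ (q₁ - 1) = 1 ∨ g ^ (q₁ + 1) = 1 ∨ g ^ p = 1) ∨
  (∃ q₁ s : ℕ, s.Prime ∧ Odd s ∧ q = q₁ ^ s ∧ 2 * Nat.card Z = q₁ * (q₁ ^ 2 - 1)) ∨
  ((q % 10 = 1 ∨ q % 10 = 9) ∧ (q = p ∨ q = p ^ 2) ∧ Nat.card Z = 60 ∧
    ∀ g ∈ Z, g ^ 2 = 1 ∨ g ^ 3 = 1 ∨ g ^ 5 = 1) ∨
  (q = p ∧ (p % 8 = 3 ∨ p % 8 = 5) ∧ ¬ (p % 10 = 1 ∨ p % 10 = 9) ∧ Nat.card Z = 12 ∧
    ∀ W : Subgroup G, W ≤ Z → Nat.card W ≠ 6) ∨
  (q = p ∧ (p % 8 = 1 ∨ p % 8 = 7) ∧ Nat.card Z = 24)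

/-- a proper subgroup has at most half the order -/
theorem card_facts [Finite G] (M₀ Z : Subgroup G) (hle : M₀ ≤ Z) (hne : Z ≠ M₀) :
    Nat.card M₀ ∣ Nat.card Z ∧ 2 * Nat.card M₀ ≤ Nat.card Z ∧ 0 < Nat.card M₀ := by
  have hdvd : Nat.card M₀ ∣ Nat.card Z := Subgroup.card_dvd_of_le hle
  have hpos : 0 < Nat.card M₀ := Nat.card_pos
  have hposZ : 0 < Nat.card Z := Nat.card_pos
  refine ⟨hdvd, ?_, hpos⟩
  obtain ⟨c, hc⟩ := hdvd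
  have hc1 : c ≠ 1 := by
    rintro rfl
    apply hne
    symm
    exact Subgroup.eq_of_le_of_card_ge hle (by rw [hc, mul_one])
  have hc0 : c ≠ 0 := by
    rintro rfl
    rw [mul_zero] at hc
    omega
  have hc2 : 2 ≤ c := by omega
  rw [hc]
  calc 2 * Nat.card M₀ = Nat.card M₀ * 2 := by ring
    _ ≤ Nat.card M₀ * c := Nat.mul_le_mul_left _ hc2

/-- coatom criterion: a proper subgroup of `L` lying in no other maximal subgroup of `L` -/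
theorem coatom_of_forall [Finite G] (L M₀ : Subgroup G) (hle : M₀ ≤ L) (hne : M₀ ≠ L)
    (h : ∀ Z : Subgroup G, Z ≤ L → IsCoatom (Z.subgroupOf L) → M₀ ≤ Z → Z = M₀) :
    IsCoatom (M₀.subgroupOf L) := by
  have hne' : M₀.subgroupOf L ≠ ⊤ := by
    intro htop
    rw [Subgroup.subgroupOf_eq_top] at htop
    exact hne (le_antisymm hle htop)
  obtain ⟨Z', hZ', hle'⟩ := (eq_top_or_exists_le_coatom (M₀.subgroupOf L)).resolve_left hne'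
  obtain ⟨Z, hZ⟩ : ∃ Z : Subgroup G, Z = Z'.map L.subtype := ⟨_, rfl⟩
  have hZL : Z ≤ L := by rw [hZ]; exact Subgroup.map_subtype_le Z'
  have hZsub : Z.subgroupOf L = Z' := by
    ext x
    rw [Subgroup.mem_subgroupOf, hZ]
    constructor
    · rintro ⟨y, hy, hyx⟩
      have : y = x := Subtype.ext hyx
      rwa [← this]
    · intro hx
      exact ⟨x, hx, rfl⟩
  have hM₀Z : M₀ ≤ Z := by
    intro x hx
    have hx' : (⟨x, hle hx⟩ : L) ∈ M₀.subgroupOf L := hx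
    have := hle' hx'
    rw [hZ]
    exact ⟨⟨x, hle hx⟩, this, rfl⟩
  have := h Z hZL (by rw [hZsub]; exact hZ') hM₀Z
  rw [← this, hZsub]
  exact hZ'

end Cfsg.Agent.Lib.Helper6.Pq1
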