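import Mathlib
import Cfsg.Agent.Lib.Helper45.S9Stmt
import Cfsg.Agent.Lib.Helper76.S8Glue

set_option autoImplicit false

/-! S3590 piece CONV: from an affine isometry (linear equivalence + translation) back to matrices. -/

namespace Cfsg.Agent.Lib.Helper6.S9CONV

open Cfsg.Agent.Lib.Helper45.S9Stmt Cfsg.Agent.Lib.Helper76.S8Glue Matrix

universe u

theorem main : CONV.{u} := by
  intro F _ ι _ _ Q N ε h
  obtain ⟨X, w, hQ, hA, hr⟩ := h
  have hmem : (glEquiv ι).symm X ∈ Cfsg.isometryGroup F Q := by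
    rw [mem_iso]
    intro u
    rw [← glEquiv_apply, MulEquiv.apply_symm_apply]
    exact hQ u
  have hpow : ∀ (i : ℕ) (v : ι → F),
      ((((glEquiv ι).symm X : GL ι F) : Matrix ι ι F) ^ i) *ᵥ v = (X ^ i) v := by
    intro i v
    rw [← Units.val_pow_eq_pow_val, ← glEquiv_apply, map_pow, MulEquiv.apply_symm_apply]
  have hone : ∀ j : ℕ, (((glEquiv ι).symm X : GL ι F) : Matrix ι ι F) ^ j = 1 ↔ X ^ j = 1 := by
    intro j
    constructor
    · intro h1
      apply LinearEquiv.ext
      intro v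
      rw [← hpow, h1]
      simp
    · intro h1
      rw [← Units.val_pow_eq_pow_val, ← map_pow, h1]
      simp
  refine ⟨⟨(glEquiv ι).symm X, hmem⟩, w, ?_, ?_⟩
  · intro j
    rw [← hA j]
    show ((((glEquiv ι).symm X : GL ι F) : Matrix ι ι F) ^ j = 1 ∧
      (∑ i ∈ Finset.range j, (((glEquiv ι).symm X : GL ι F) : Matrix ι ι F) ^ i) *ᵥ w = 0) ↔ _
    rw [hone j, Matrix.sum_mulVec]
    simp only [hpow]
  · rw [← hr]
    show ((((((glEquiv ι).symm X : GL ι F) : Matrix ι ι F) - 1).rank : ℕ) : ZMod 2) = _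
    have : ((((glEquiv ι).symm X : GL ι F) : Matrix ι ι F) - 1).mulVecLin
        = X.toLinearMap - LinearMap.id := by
      apply LinearMap.ext
      intro v
      have h1 := hpow 1 v
      rw [pow_one, pow_one] at h1
      simp [Matrix.sub_mulVec, h1]
    rw [Matrix.rank, this]

end Cfsg.Agent.Lib.Helper6.S9CONV
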