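import Mathlib
import Cfsg.Agent.Lib.Helper12.SNStmt

set_option autoImplicit false

/-! S4073 piece BNGLUE: the case of a normal Sylow 2-subgroup. -/

universe u

namespace Cfsg.Agent.Lib.Helper6.SNBNGLUE

open Cfsg.Agent.Lib.Helper12.SNDef Cfsg.Agent.Lib.Helper12.SNStmt

theorem main : Cfsg.Agent.Lib.Helper12.SNStmt.BNGlue.{u} := by
  intro hB2 hBH hBF hBN L _ _ hexp n hprime M hM H X hHX hXM hn hH Q hQ
  have hHM : H ≤ M := hHX.trans hXM
  have hdvd : Nat.card H ∣ 2 ^ n * (2 ^ n - 1) := by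
    rw [← hM]
    exact Subgroup.card_dvd_of_le hHM
  obtain ⟨h2H, hrH⟩ := hBH (fun T hT => (hB2 hexp T hT).2) n hprime H hdvd hH
  have hn1 : 1 ≤ n := by
    by_contra h0
    have hn0 : n = 0 := by omega
    subst hn0
    simp at hprime
    exact Nat.not_prime_zero hprime
  have hrodd : Odd (2 ^ n - 1) := by
    have h1 : Even (2 ^ n) := Nat.even_pow.mpr ⟨even_two, by omega⟩
    obtain ⟨k, hk⟩ := h1
    have h2 : 1 ≤ 2 ^ n := Nat.one_le_two_pow
    exact ⟨k - 1, by omega⟩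
  haveI : Fact (2 ^ n - 1).Prime := ⟨hprime⟩
  haveI : Fact (Nat.Prime 2) := ⟨Nat.prime_two⟩
  obtain ⟨e', he'⟩ := exists_prime_orderOf_dvd_card' (G := H) (2 ^ n - 1) hrH
  obtain ⟨u', hu'⟩ := exists_prime_orderOf_dvd_card' (G := H) 2 h2H
  have heo : orderOf (e' : L) = 2 ^ n - 1 := by
    rw [Subgroup.orderOf_coe]
    exact he'
  have huo : orderOf (u' : L) = 2 := by
    rw [Subgroup.orderOf_coe]
    exact hu'
  have hu1 : (u' : L) ≠ 1 := by
    intro h
    rw [h, orderOf_one] at huo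
    omega
  have hu2 : (u' : L) ^ 2 = 1 := by
    rw [← huo]
    exact pow_orderOf_eq_one _
  have huX : (u' : L) ∈ X := hHX u'.2
  have heX : (e' : L) ∈ X := hHX e'.2
  have huQ : (⟨(u' : L), huX⟩ : X) ∈ (Q : Subgroup X) :=
    hBN Q hQ ⟨_, huX⟩ (by apply Subtype.ext; exact hu2)
  have huQH : (u' : L) ∈ (Q : Subgroup X).map X.subtype ⊓ H := ⟨⟨⟨_, huX⟩, huQ, rfl⟩, u'.2⟩
  have hQHp : IsPGroup 2 ((Q : Subgroup X).map X.subtype ⊓ H : Subgroup L) := by
    have h1 : IsPGroup 2 ((Q : Subgroup X).map X.subtype) := Q.isPGroup'.map X.subtype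
    exact h1.to_le inf_le_left
  have heN : (e' : L) ∈ Subgroup.normalizer
      (((Q : Subgroup X).map X.subtype ⊓ H : Subgroup L) : Set L) := by
    rw [Subgroup.mem_normalizer_iff]
    intro y
    constructor
    · rintro ⟨⟨q, hq, rfl⟩, hyH⟩
      refine ⟨⟨⟨(e' : L), heX⟩ * q * ⟨(e' : L), heX⟩⁻¹, hQ.conj_mem q hq _, rfl⟩, ?_⟩
      exact H.mul_mem (H.mul_mem e'.2 hyH) (H.inv_mem e'.2)
    · rintro ⟨⟨q, hq, hqy⟩, hyH⟩
      have hqy' : (q : L) = (e' : L) * y * (e' : L)⁻¹ := hqy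
      have hy : y = (e' : L)⁻¹ * (q : L) * (e' : L) := by
        rw [hqy']
        group
      refine ⟨⟨(⟨(e' : L), heX⟩ : X)⁻¹ * q * (⟨(e' : L), heX⟩ : X)⁻¹⁻¹, hQ.conj_mem q hq _, ?_⟩, ?_⟩
      · rw [hy]
        simp
      · have h3 := H.mul_mem (H.mul_mem (H.inv_mem e'.2) hyH) e'.2
        have h4 : (e' : L)⁻¹ * ((e' : L) * y * (e' : L)⁻¹) * (e' : L) = y := by group
        rw [h4] at h3
        exact h3
  have hfree := hBF hexp (e' : L) (by rw [heo]; exact hprime) (by rw [heo]; exact hrodd)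
    ((Q : Subgroup X).map X.subtype ⊓ H) hQHp heN
  rw [heo] at hfree
  obtain ⟨a, ha⟩ := hQHp.exists_card_eq
  have hQHdH : Nat.card ((Q : Subgroup X).map X.subtype ⊓ H : Subgroup L) ∣ Nat.card H :=
    Subgroup.card_dvd_of_le inf_le_right
  have hcop : ∀ k : ℕ, Nat.Coprime (2 ^ k) (2 ^ n - 1) :=
    fun k => Nat.Coprime.pow_left k (Nat.coprime_two_left.mpr hrodd)
  have ha1 : 1 ≤ a := by
    by_contra h0
    have ha0 : a = 0 := by omega
    subst ha0
    rw [pow_zero] at ha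
    have hbot := Subgroup.card_eq_one.mp ha
    rw [hbot, Subgroup.mem_bot] at huQH
    exact hu1 huQH
  have han : a ≤ n := by
    have h1 : 2 ^ a ∣ 2 ^ n * (2 ^ n - 1) := by
      rw [← ha]
      exact hQHdH.trans hdvd
    have h2 : 2 ^ a ∣ 2 ^ n := (hcop a).dvd_of_dvd_mul_right h1
    exact (Nat.pow_dvd_pow_iff_le_right (by norm_num)).mp h2
  have hna : n ≤ a := by
    rw [ha] at hfree
    have h2a : 2 ^ 1 ≤ 2 ^ a := Nat.pow_le_pow_right (by norm_num) ha1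
    have hle := Nat.le_of_dvd (by omega) hfree
    have h3 : 2 ^ n ≤ 2 ^ a := by omega
    exact (Nat.pow_le_pow_iff_right (by norm_num)).mp h3
  have hae : a = n := le_antisymm han hna
  have hall : 2 ^ n * (2 ^ n - 1) ∣ Nat.card H :=
    (hcop n).mul_dvd_of_dvd_of_dvd (by rw [← hae, ← ha]; exact hQHdH) hrH
  have hcard : Nat.card H = Nat.card M := by
    rw [hM]
    exact Nat.dvd_antisymm hdvd hall
  have hHeqM : H = M := Subgroup.eq_of_le_of_card_ge hHM (by rw [hcard])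
  rw [hHeqM]
  exact hXM

end Cfsg.Agent.Lib.Helper6.SNBNGLUE
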