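import Mathlib
import Cfsg.Agent.Lib.Helper12.SNStmt

set_option autoImplicit false

/-! S4073 piece PRGLUE: `|C(t)| - 1` is prime. -/

universe u

namespace Cfsg.Agent.Lib.Helper6.SNPRGLUE

open Cfsg.Agent.Lib.Helper12.SNDef Cfsg.Agent.Lib.Helper12.SNStmt
open Cfsg.Agent.Lib.Helper39.CTGroup

theorem aux {G : Type u} [Group G] [Finite G] (hS : SN G) (C : Subgroup G)
    (h1 : Nat.card (Subgroup.normalizer (C : Set G)) = Nat.card C * (Nat.card C - 1))
    (h2 : Even (Nat.card C)) (h3 : 3 ≤ Nat.card C)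
    (hsimp : ¬ Subgroup.normalizer (C : Set G) ≤ C →
      IsSimpleGroup (↥(Subgroup.normalizer (C : Set G)) ⧸
        C.subgroupOf (Subgroup.normalizer (C : Set G))))
    (hOdd : PrOdd.{u})
    (hgen : ∀ (Q : Type u) [Group Q] [Finite Q] [IsSimpleGroup Q],
      (¬ ∀ a b : Q, a * b = b * a) → SN Q → CT Q) :
    (Nat.card C - 1).Prime := by
  have hCN : C ≤ Subgroup.normalizer (C : Set G) := Subgroup.le_normalizer
  have hpos : 0 < Nat.card C := by omega
  have hlt : ¬ Subgroup.normalizer (C : Set G) ≤ C := by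
    intro hle
    have heq : Subgroup.normalizer (C : Set G) = C := le_antisymm hle hCN
    rw [heq] at h1
    have h4 : Nat.card C * 1 = Nat.card C * (Nat.card C - 1) := by
      rw [mul_one]
      exact h1
    have h5 := Nat.eq_of_mul_eq_mul_left hpos h4
    omega
  haveI hsimple := hsimp hlt
  have hcardQ : Nat.card (↥(Subgroup.normalizer (C : Set G)) ⧸
        C.subgroupOf (Subgroup.normalizer (C : Set G))) = Nat.card C - 1 := by
    have e1 := Subgroup.card_eq_card_quotient_mul_card_subgroup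
      (C.subgroupOf (Subgroup.normalizer (C : Set G)))
    have e2 : Nat.card (C.subgroupOf (Subgroup.normalizer (C : Set G))) = Nat.card C :=
      Nat.card_congr (Subgroup.subgroupOfEquivOfLe hCN).toEquiv
    rw [e2, h1] at e1
    have e3 : Nat.card C * (Nat.card C - 1) = Nat.card C * Nat.card (↥(Subgroup.normalizer
      (C : Set G)) ⧸ C.subgroupOf (Subgroup.normalizer (C : Set G))) := by
      rw [e1, mul_comm]
    exact (Nat.eq_of_mul_eq_mul_left hpos e3).symm
  have hSQ : SN (↥(Subgroup.normalizer (C : Set G)) ⧸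
        C.subgroupOf (Subgroup.normalizer (C : Set G))) := (hS.subgroup _).quotient _
  have hodd : Odd (Nat.card (↥(Subgroup.normalizer (C : Set G)) ⧸
        C.subgroupOf (Subgroup.normalizer (C : Set G)))) := by
    rw [hcardQ]
    obtain ⟨k, hk⟩ := h2
    exact ⟨k - 1, by omega⟩
  have h6 := hOdd (Q := ↥(Subgroup.normalizer (C : Set G)) ⧸
        C.subgroupOf (Subgroup.normalizer (C : Set G))) hodd (fun h => hgen _ h hSQ)
  rw [hcardQ] at h6
  exact h6

theorem main : Cfsg.Agent.Lib.Helper12.SNStmt.PrGlue.{u} := by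
  intro hCard hSimple hOdd G _ _ _ hG hS hCT hgen t ht1 ht
  obtain ⟨h1, h2, h3⟩ := hCard hG hCT t ht1 ht
  exact aux hS _ h1 h2 h3 (fun hlt => hSimple hS t hlt) hOdd hgen

end Cfsg.Agent.Lib.Helper6.SNPRGLUE
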