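import Mathlib
import Cfsg.Agent.Lib.Helper12.SNStmt

set_option autoImplicit false

/-! S4073 piece PRSIMPLE: `N(C(t)) / C(t)` is simple in an `SN` group. -/

universe u

namespace Cfsg.Agent.Lib.Helper6.SNPRSIMPLE

open Cfsg.Agent.Lib.Helper12.SNDef Cfsg.Agent.Lib.Helper12.SNStmt

theorem aux {G : Type u} [Group G] (hS : SN G) (t : G) (C : Subgroup G)
    (hC : C = Subgroup.centralizer ({t} : Set G))
    (hlt : ¬ Subgroup.normalizer (C : Set G) ≤ C) :
    IsSimpleGroup (↥(Subgroup.normalizer (C : Set G)) ⧸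
      C.subgroupOf (Subgroup.normalizer (C : Set G))) := by
  have hCN : C ≤ Subgroup.normalizer (C : Set G) := Subgroup.le_normalizer
  have htC : t ∈ C := by
    rw [hC, Subgroup.mem_centralizer_iff]
    intro y hy
    rw [Set.mem_singleton_iff.mp hy]
  have hmem : ∀ x : G, x * t = t * x → x ∈ C := by
    intro x hx
    rw [hC, Subgroup.mem_centralizer_iff]
    intro y hy
    rw [Set.mem_singleton_iff.mp hy]
    exact hx.symm
  obtain ⟨g, hgN, hgC⟩ := SetLike.not_le_iff_exists.mp hlt
  refine { toNontrivial := ?_, eq_bot_or_eq_top_of_normal := ?_ }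
  · refine ⟨⟨(QuotientGroup.mk (⟨g, hgN⟩ : Subgroup.normalizer (C : Set G))), 1, ?_⟩⟩
    intro h
    rw [QuotientGroup.eq_one_iff] at h
    exact hgC h
  · intro M hM
    have hK'n : (M.comap (QuotientGroup.mk' (C.subgroupOf (Subgroup.normalizer (C : Set G))))).Normal :=
      Subgroup.Normal.comap hM _
    have hCK : C ≤ (M.comap (QuotientGroup.mk'
        (C.subgroupOf (Subgroup.normalizer (C : Set G))))).map
          (Subgroup.normalizer (C : Set G)).subtype := by
      intro c hc
      refine ⟨⟨c, hCN hc⟩, ?_, rfl⟩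
      show QuotientGroup.mk' (C.subgroupOf (Subgroup.normalizer (C : Set G))) ⟨c, hCN hc⟩ ∈ M
      have h1 : QuotientGroup.mk' (C.subgroupOf (Subgroup.normalizer (C : Set G))) ⟨c, hCN hc⟩
          = 1 := by
        rw [QuotientGroup.mk'_apply, QuotientGroup.eq_one_iff]
        exact hc
      rw [h1]
      exact M.one_mem
    by_cases hcomm : IsMulCommutative ((M.comap (QuotientGroup.mk'
        (C.subgroupOf (Subgroup.normalizer (C : Set G))))).map
          (Subgroup.normalizer (C : Set G)).subtype)
    · left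
      rw [eq_bot_iff]
      intro m hm
      obtain ⟨n, rfl⟩ := QuotientGroup.mk'_surjective
        (C.subgroupOf (Subgroup.normalizer (C : Set G))) m
      have hnK : (n : G) ∈ (M.comap (QuotientGroup.mk'
        (C.subgroupOf (Subgroup.normalizer (C : Set G))))).map
          (Subgroup.normalizer (C : Set G)).subtype := ⟨n, hm, rfl⟩
      have h1 := hcomm.is_comm.comm ⟨_, hnK⟩ ⟨t, hCK htC⟩
      have h2 : (n : G) * t = t * (n : G) := congrArg Subtype.val h1
      have hnC : (n : G) ∈ C := hmem _ h2
      rw [Subgroup.mem_bot, QuotientGroup.mk'_apply, QuotientGroup.eq_one_iff]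
      exact hnC
    · right
      have hnK := hS _ hcomm
      have hNK : Subgroup.normalizer (C : Set G) ≤ Subgroup.normalizer
          ((((M.comap (QuotientGroup.mk'
            (C.subgroupOf (Subgroup.normalizer (C : Set G))))).map
              (Subgroup.normalizer (C : Set G)).subtype : Subgroup G)) : Set G) := by
        intro n hn
        rw [Subgroup.mem_normalizer_iff]
        intro y
        constructor
        · rintro ⟨z, hz, rfl⟩
          exact ⟨⟨n, hn⟩ * z * ⟨n, hn⟩⁻¹, hK'n.conj_mem z hz ⟨n, hn⟩, rfl⟩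
        · rintro ⟨z, hz, hzy⟩
          have hz' := hK'n.conj_mem z hz (⟨n, hn⟩⁻¹ : Subgroup.normalizer (C : Set G))
          refine ⟨(⟨n, hn⟩⁻¹ : Subgroup.normalizer (C : Set G)) * z *
            (⟨n, hn⟩⁻¹ : Subgroup.normalizer (C : Set G))⁻¹, hz', ?_⟩
          have h3 : (z : G) = n * y * n⁻¹ := hzy
          simp [h3, mul_assoc]
      rw [hnK] at hNK
      rw [eq_top_iff]
      intro m _
      obtain ⟨n, rfl⟩ := QuotientGroup.mk'_surjective
        (C.subgroupOf (Subgroup.normalizer (C : Set G))) m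
      obtain ⟨n', hn', hnn⟩ := hNK n.2
      have h4 : n' = n := Subtype.ext hnn
      rw [← h4]
      exact hn'

theorem main : Cfsg.Agent.Lib.Helper12.SNStmt.PrSimple.{u} := by
  intro G _ _ hS t hlt
  exact aux hS t _ rfl hlt

end Cfsg.Agent.Lib.Helper6.SNPRSIMPLE
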