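import Mathlib
import Cfsg.Agent.Lib.Helper43.SPStmt

set_option autoImplicit false

/-! S2720 / SPIN sub-call, piece GLUE: from the irreducible case on `cyc s w` to the whole
space. -/

namespace Cfsg.Agent.Lib.Helper6.SPGLUE

open Module QuadraticMap
open Cfsg.Agent.Lib.Helper44.QSpace Cfsg.Agent.Lib.Helper44.OGroup
open Cfsg.Agent.Lib.Helper44.Parity Cfsg.Agent.Lib.Helper44.Spinor
open Cfsg.Agent.Lib.Helper44.OConj Cfsg.Agent.Lib.Helper44.Omega2
open Cfsg.Agent.Lib.Helper43.SPStmt

universe u

section

variable {F : Type u} [Field F] {V : Type u} [AddCommGroup V] [Module F V]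

/-- Decomposition of a vector along a nondegenerate subspace and its orthogonal complement. -/
theorem exists_decomp' [FiniteDimensional F V] {Q : QuadraticForm F V} (hS : Sep Q)
    (W : Submodule F V) (hW : Sep (res Q W)) (v : V) :
    ∃ z ∈ W, ∀ z' ∈ W, polar Q (v - z) z' = 0 := by
  set Zp := LinearMap.BilinForm.orthogonal (polarBilin Q) W with hZp
  have hinf : W ⊓ Zp = ⊥ := by
    rw [eq_bot_iff]
    rintro x ⟨hx1, hx2⟩
    rw [Submodule.mem_bot]
    have h0 := hW ⟨x, hx1⟩ (fun y => by
      rw [polar_res, polar_comm]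
      exact hx2 y y.2)
    exact congrArg Subtype.val h0
  have hfr := LinearMap.BilinForm.finrank_orthogonal (nondegenerate_of_sep hS) W
  have hsup : W ⊔ Zp = ⊤ := by
    apply Submodule.eq_top_of_finrank_eq
    have h1 := Submodule.finrank_sup_add_finrank_inf_eq W Zp
    rw [hinf, finrank_bot] at h1
    have h2 := Submodule.finrank_le W
    rw [← hZp] at hfr
    omega
  have hv : v ∈ W ⊔ Zp := by rw [hsup]; exact Submodule.mem_top
  obtain ⟨z, hz, y, hy, rfl⟩ := Submodule.mem_sup.mp hv
  refine ⟨z, hz, ?_⟩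
  intro z' hz'
  have : z + y - z = y := by abel
  rw [this, polar_comm]
  exact hy z' hz'

theorem cyc_stable (s : V ≃ₗ[F] V) (w : V) {x : V} (hx : x ∈ cyc s w) : s x ∈ cyc s w := by
  unfold cyc at hx ⊢
  induction hx using Submodule.span_induction with
  | mem y hy =>
    obtain ⟨i, rfl⟩ := hy
    apply Submodule.subset_span
    exact ⟨i + 1, by simp only [pow_succ', LinearEquiv.mul_apply]⟩
  | zero => rw [map_zero]; exact Submodule.zero_mem _
  | add a b _ _ ha hb => rw [map_add]; exact Submodule.add_mem _ ha hb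
  | smul c a _ ha => rw [map_smul]; exact Submodule.smul_mem _ c ha

theorem self_mem_cyc (s : V ≃ₗ[F] V) (w : V) : w ∈ cyc s w :=
  Submodule.subset_span ⟨0, by simp⟩

/-- The restriction of a linear automorphism to a stable finite-dimensional subspace. -/
noncomputable def resE (s : V ≃ₗ[F] V) (W : Submodule F V) [FiniteDimensional F W]
    (h : ∀ x ∈ W, s x ∈ W) : W ≃ₗ[F] W :=
  LinearEquiv.ofBijective ((s : V →ₗ[F] V).restrict h) (by
    have hinj : Function.Injective ((s : V →ₗ[F] V).restrict h) := by
      intro a b hab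
      apply Subtype.ext
      have h1 := congrArg Subtype.val hab
      simp only [LinearMap.coe_restrict_apply] at h1
      exact s.injective h1
    exact ⟨hinj, LinearMap.injective_iff_surjective.mp hinj⟩)

theorem resE_apply (s : V ≃ₗ[F] V) (W : Submodule F V) [FiniteDimensional F W]
    (h : ∀ x ∈ W, s x ∈ W) (x : W) : ((resE s W h x : W) : V) = s x := rfl

theorem resE_pow (s : V ≃ₗ[F] V) (W : Submodule F V) [FiniteDimensional F W]
    (h : ∀ x ∈ W, s x ∈ W) (k : ℕ) (x : W) : (((resE s W h ^ k) x : W) : V) = (s ^ k) x := by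
  induction k with
  | zero => simp
  | succ k ih => rw [pow_succ', pow_succ', LinearEquiv.mul_apply, LinearEquiv.mul_apply,
      resE_apply, ih]

/-- A reflection of the subspace is the restriction of the reflection of the space. -/
theorem reflE_res (Q : QuadraticForm F V) (W : Submodule F V) (a y : W) :
    reflE Q (a : V) (y : V) = ((reflE (res Q W) a y : W) : V) := by
  rw [reflE_apply, reflE_apply, polar_res]
  rfl

theorem prod_res (Q : QuadraticForm F V) (W : Submodule F V) (l : List W) (x : W) :
    ((l.map (fun v : W => (v : V))).map (reflE Q)).prod (x : V)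
      = (((l.map (reflE (res Q W))).prod x : W) : V) := by
  induction l with
  | nil => simp
  | cons a l ih =>
    rw [List.map_cons, List.map_cons, List.prod_cons, List.map_cons, List.prod_cons,
      LinearEquiv.mul_apply, LinearEquiv.mul_apply, ih, reflE_res]

theorem prod_orth (Q : QuadraticForm F V) (W : Submodule F V) (l : List W) (x : V)
    (hx : ∀ y ∈ W, polar Q x y = 0) :
    ((l.map (fun v : W => (v : V))).map (reflE Q)).prod x = x := by
  induction l with
  | nil => simp
  | cons a l ih =>
    rw [List.map_cons, List.map_cons, List.prod_cons, LinearEquiv.mul_apply, ih]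
    exact reflE_of_orth (hx a a.2)

end

theorem main : Irr.{u} → Glue.{u} := by
  intro hIrr F _ _ V _ _ _ Q h2 hS s r hsO hr hrF hsr hfix w hw hSW hmin
  have hstab : ∀ x ∈ cyc s w, s x ∈ cyc s w := fun x hx => cyc_stable s w hx
  have hwW : w ∈ cyc s w := self_mem_cyc s w
  have hw0 : w ≠ 0 := by
    rintro rfl
    exact hw (map_zero Q)
  have hyp : IrrHyp (res Q (cyc s w)) (resE s (cyc s w) hstab) r := by
    refine ⟨?_, hr, hrF, ?_, ?_, ⟨⟨w, hwW⟩, hw⟩, ?_⟩
    · intro x
      exact hsO x
    · ext x
      rw [resE_pow, hsr]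
      rfl
    · intro v hv
      apply Subtype.ext
      exact hfix v (congrArg Subtype.val hv)
    · intro w' hw'
      rw [eq_top_iff]
      intro x _
      have hle := hmin w' w'.2 hw'
      have hx : (x : V) ∈ cyc s (w' : V) := hle x.2
      have key : ∀ y ∈ cyc s (w' : V),
          ∃ z ∈ cyc (resE s (cyc s w) hstab) w', ((z : cyc s w) : V) = y := by
        intro y hy
        unfold cyc at hy
        induction hy using Submodule.span_induction with
        | mem y hy =>
          obtain ⟨i, rfl⟩ := hy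
          exact ⟨(resE s (cyc s w) hstab ^ i) w', Submodule.subset_span ⟨i, rfl⟩,
            resE_pow s (cyc s w) hstab i w'⟩
        | zero => exact ⟨0, Submodule.zero_mem _, rfl⟩
        | add a b _ _ ha hb =>
          obtain ⟨za, hza, rfl⟩ := ha
          obtain ⟨zb, hzb, rfl⟩ := hb
          exact ⟨za + zb, Submodule.add_mem _ hza hzb, rfl⟩
        | smul c a _ ha =>
          obtain ⟨za, hza, rfl⟩ := ha
          exact ⟨c • za, Submodule.smul_mem _ c hza, rfl⟩
      obtain ⟨z, hz, hzx⟩ := key _ hx
      have : z = x := Subtype.ext hzx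
      rw [← this]
      exact hz
  obtain ⟨g₁, hcomm, hdet, hsign⟩ :=
    hIrr F (cyc s w) (res Q (cyc s w)) h2 hSW (resE s (cyc s w) hstab) r hyp
  -- dimension at least two
  have hd : 2 ≤ finrank F (cyc s w) := by
    by_contra hlt
    have hle : finrank F (cyc s w) ≤ 1 := by omega
    obtain ⟨v, hv⟩ := finrank_le_one_iff.mp hle
    obtain ⟨a, ha⟩ := hv ⟨w, hwW⟩
    obtain ⟨b, hb⟩ := hv ⟨s w, hstab w hwW⟩
    have h1' : a • (v : V) = w := congrArg Subtype.val ha
    have h2'' : b • (v : V) = s w := congrArg Subtype.val hb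
    have ha0 : a ≠ 0 := by
      rintro rfl
      rw [zero_smul] at h1'
      exact hw0 h1'.symm
    have hsw : s w = (b * a⁻¹) • w := by
      have e0 : (b * a⁻¹) • w = (b * a⁻¹) • (a • (v : V)) := by rw [h1']
      rw [e0, smul_smul, mul_assoc, inv_mul_cancel₀ ha0, mul_one]
      exact h2''.symm
    have hc2 : (b * a⁻¹) * (b * a⁻¹) = 1 := by
      have h3 := hsO w
      rw [hsw, q_smul] at h3
      have h4 : ((b * a⁻¹) * (b * a⁻¹) - 1) * Q w = 0 := by linear_combination h3
      rcases mul_eq_zero.mp h4 with h | h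
      · linear_combination h
      · exact absurd h hw
    have hk : ∀ k : ℕ, (s ^ k) w = (b * a⁻¹) ^ k • w := by
      intro k
      induction k with
      | zero => simp
      | succ k ih =>
        rw [pow_succ', LinearEquiv.mul_apply, ih, map_smul, hsw, smul_smul, pow_succ]
    have hc : b * a⁻¹ = 1 ∨ b * a⁻¹ = -1 := by
      have h5 : (b * a⁻¹ - 1) * (b * a⁻¹ + 1) = 0 := by linear_combination hc2
      rcases mul_eq_zero.mp h5 with h | h
      · left; linear_combination h
      · right; linear_combination h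
    rcases hc with h | h
    · apply hw0
      apply hfix
      rw [hsw, h, one_smul]
    · have h6 := hk r
      rw [hsr, h, hr.neg_one_pow] at h6
      have h7 : w = -w := by simpa using h6
      have h8 : (2 : F) • w = 0 := by
        rw [two_smul]
        nth_rewrite 1 [h7]
        simp
      rcases smul_eq_zero.mp h8 with h9 | h9
      · exact h2 h9
      · exact hw0 h9
  obtain ⟨vs₁, hvs₁, hg₁⟩ := cdp_of_two_ne_zero h2 hSW (g₁ : cyc s w ≃ₗ[F] cyc s w) g₁.2
  have hg₁' : g₁ = (vs₁.map (refl (res Q (cyc s w)))).prod :=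
    Subtype.ext (by rw [coe_prod_refl]; exact hg₁)
  have heven : Even vs₁.length := by
    have h1 := detHom_prod (res Q (cyc s w)) vs₁ hvs₁
    rw [← hg₁'] at h1
    have h3 : detHom (res Q (cyc s w)) g₁ = 1 := hdet
    rw [h3] at h1
    by_contra hodd
    rw [Nat.not_even_iff_odd] at hodd
    rw [hodd.neg_one_pow] at h1
    have h4 := congrArg Units.val h1
    simp only [Units.val_neg, Units.val_one] at h4
    apply h2
    linear_combination h4
  have hnsq : ¬ IsSquare (vs₁.map (fun v => res Q (cyc s w) v)).prod := by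
    intro hsq
    have hmem : (vs₁.map (refl (res Q (cyc s w)))).prod ∈ commutator (O (res Q (cyc s w))) :=
      (mem_commutator_iff h2 hSW hd vs₁ hvs₁).mpr ⟨heven, hsq⟩
    rw [← hg₁'] at hmem
    have h1 := Abelianization.commutator_subset_ker (signChar (res Q (cyc s w))) hmem
    rw [MonoidHom.mem_ker, hsign] at h1
    exact absurd h1 (by decide)
  refine ⟨vs₁.map (fun v : cyc s w => (v : V)), ?_, ?_, ?_, ?_⟩
  · intro v hv
    rw [List.mem_map] at hv
    obtain ⟨v', hv', rfl⟩ := hv
    exact hvs₁ v' hv'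
  · rw [List.length_map]
    exact heven
  · rw [List.map_map]
    exact hnsq
  · -- commutation
    have hP1 : ∀ x : cyc s w,
        ((vs₁.map (fun v : cyc s w => (v : V))).map (reflE Q)).prod (x : V)
          = (((g₁ : cyc s w ≃ₗ[F] cyc s w) x : cyc s w) : V) := by
      intro x
      rw [prod_res, hg₁]
    have hP2 : ∀ x : V, (∀ y ∈ cyc s w, polar Q x y = 0) →
        ((vs₁.map (fun v : cyc s w => (v : V))).map (reflE Q)).prod x = x :=
      fun x hx => prod_orth Q (cyc s w) vs₁ x hx
    have hsurj : ∀ u ∈ cyc s w, ∃ u' ∈ cyc s w, s u' = u := by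
      intro u hu
      obtain ⟨u', hu'⟩ := (resE s (cyc s w) hstab).surjective ⟨u, hu⟩
      exact ⟨u', u'.2, congrArg Subtype.val hu'⟩
    ext v
    obtain ⟨z, hz, hzv⟩ := exists_decomp' hS (cyc s w) hSW v
    have hv : v = z + (v - z) := by abel
    rw [LinearEquiv.mul_apply, LinearEquiv.mul_apply]
    rw [hv, map_add, map_add, map_add, map_add]
    congr 1
    · have e1 : s z = ((resE s (cyc s w) hstab ⟨z, hz⟩ : cyc s w) : V) := rfl
      have e2 := hP1 (resE s (cyc s w) hstab ⟨z, hz⟩)
      have e3 := hP1 ⟨z, hz⟩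
      have e4 : (g₁ : cyc s w ≃ₗ[F] cyc s w) (resE s (cyc s w) hstab ⟨z, hz⟩)
          = resE s (cyc s w) hstab ((g₁ : cyc s w ≃ₗ[F] cyc s w) ⟨z, hz⟩) := by
        have := congrArg (fun f : cyc s w ≃ₗ[F] cyc s w => f ⟨z, hz⟩) hcomm
        simpa [LinearEquiv.mul_apply] using this
      rw [e1, e2, e4, resE_apply]
      congr 1
      exact e3.symm
    · have hs' : ∀ y ∈ cyc s w, polar Q (s (v - z)) y = 0 := by
        intro y hy
        obtain ⟨y', hy', rfl⟩ := hsurj y hy
        rw [polar_of_mem_O hsO]
        exact hzv y' hy'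
      rw [hP2 _ hs', hP2 _ hzv]

end Cfsg.Agent.Lib.Helper6.SPGLUE
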