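import Mathlib
import Cfsg.Agent.Lib.Helper6.Sb2

/-!
# Solubilizers in `PSL(2, 3 ^ p)`: the cardinalities (helper6)

Counting the `y` with `Pr x y` for the four types of `x`.
-/

set_option autoImplicit false
set_option linter.unusedSimpArgs false
set_option linter.unusedVariables false
set_option linter.unusedSectionVars false

namespace Cfsg.Agent.Lib.Helper6.Sb3

open Matrix MatrixGroups
open Cfsg.Agent.Lib.Helper53.SL2Inv Cfsg.Agent.Lib.Helper53.SL2Unip
open Cfsg.Agent.Lib.Helper98.SL2Sub Cfsg.Agent.Lib.Helper98.SL2Core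
open Cfsg.Agent.Lib.Helper98.SL2Tor Cfsg.Agent.Lib.Helper98.DicksonB
open Cfsg.Agent.Lib.Helper98.PSL2Max
open Cfsg.Agent.Lib.Helper6.Sb1 Cfsg.Agent.Lib.Helper6.Sb2

section generic

theorem card_or {α : Type*} [Finite α] (P Q : α → Prop) (hPQ : ∀ a, P a → ¬ Q a) :
    Nat.card {a // P a ∨ Q a} = Nat.card {a // P a} + Nat.card {a // Q a} := by
  have h1 : Nat.card {a // P a ∨ Q a} = Set.ncard ({a | P a} ∪ {a | Q a}) :=
    Nat.card_coe_set_eq _
  have h2 : Nat.card {a // P a} = Set.ncard {a | P a} := Nat.card_coe_set_eq _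
  have h3 : Nat.card {a // Q a} = Set.ncard {a | Q a} := Nat.card_coe_set_eq _
  rw [h1, h2, h3]
  exact Set.ncard_union_eq (Set.disjoint_left.2 (fun a ha hb => hPQ a ha hb)) (Set.toFinite _)
    (Set.toFinite _)

theorem card_or3 {α : Type*} [Finite α] (P Q R : α → Prop) (hPQ : ∀ a, P a → ¬ Q a)
    (hPR : ∀ a, P a → ¬ R a) (hQR : ∀ a, Q a → ¬ R a) :
    Nat.card {a // P a ∨ Q a ∨ R a} =
      Nat.card {a // P a} + Nat.card {a // Q a} + Nat.card {a // R a} := by
  rw [card_or P (fun a => Q a ∨ R a) (fun a ha hb => hb.elim (hPQ a ha) (hPR a ha)),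
    card_or Q R hQR, add_assoc]

theorem card_or_and {α : Type*} [Finite α] (P Q : α → Prop) :
    Nat.card {a // P a ∨ Q a} + Nat.card {a // P a ∧ Q a} =
      Nat.card {a // P a} + Nat.card {a // Q a} := by
  have h1 : Nat.card {a // P a ∨ Q a} = Set.ncard ({a | P a} ∪ {a | Q a}) :=
    Nat.card_coe_set_eq _
  have h2 : Nat.card {a // P a} = Set.ncard {a | P a} := Nat.card_coe_set_eq _
  have h3 : Nat.card {a // Q a} = Set.ncard {a | Q a} := Nat.card_coe_set_eq _
  have h4 : Nat.card {a // P a ∧ Q a} = Set.ncard ({a | P a} ∩ {a | Q a}) :=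
    Nat.card_coe_set_eq _
  rw [h1, h2, h3, h4]
  exact Set.ncard_union_add_ncard_inter _ _ (Set.toFinite _) (Set.toFinite _)

theorem card_split {α : Type*} [Finite α] (P Q : α → Prop) :
    Nat.card {a // P a} = Nat.card {a // P a ∧ Q a} + Nat.card {a // P a ∧ ¬ Q a} := by
  rw [← card_or (fun a => P a ∧ Q a) (fun a => P a ∧ ¬ Q a) (fun a h1 h2 => h2.2 h1.2)]
  apply Nat.card_congr
  apply Equiv.subtypeEquivRight
  intro a
  by_cases hQ : Q a
  · simp [hQ]
  · simp [hQ]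

theorem card_eq1 {α : Type*} (a : α) : Nat.card {y : α // y = a} = 1 :=
  Nat.card_eq_one_iff_exists.2 ⟨⟨a, rfl⟩, fun ⟨y, hy⟩ => Subtype.ext hy⟩

end generic

variable {F : Type*} [Field F] [Fintype F]

/-- matrices with non-zero lower left entry and prescribed lower right entry -/
theorem card_lower (f : F → F → F) :
    Nat.card {y : SL(2, F) // y.1 1 0 ≠ 0 ∧ y.1 1 1 = f (y.1 0 0) (y.1 1 0)} =
      Fintype.card F * (Fintype.card F - 1) := by
  classical
  let e : {y : SL(2, F) // y.1 1 0 ≠ 0 ∧ y.1 1 1 = f (y.1 0 0) (y.1 1 0)} ≃ F × Fˣ :=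
    { toFun := fun y => (y.1.1 0 0, Units.mk0 (y.1.1 1 0) y.2.1)
      invFun := fun q => ⟨mk4 q.1 ((q.1 * f q.1 (q.2 : F) - 1) / (q.2 : F)) (q.2 : F)
        (f q.1 (q.2 : F)) (by
          rw [div_mul_cancel₀ _ q.2.ne_zero]; ring), ⟨q.2.ne_zero, rfl⟩⟩
      left_inv := by
        rintro ⟨y, hy0, hy1⟩
        apply Subtype.ext
        apply sl2_ext
        · rfl
        · show (y.1 0 0 * f (y.1 0 0) (y.1 1 0) - 1) / y.1 1 0 = y.1 0 1
          have hd := det_eq y
          rw [← hy1, div_eq_iff hy0]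
          linear_combination hd
        · rfl
        · exact hy1.symm
      right_inv := by
        rintro ⟨a, c⟩
        apply Prod.ext
        · rfl
        · apply Units.ext
          rfl }
  rw [Nat.card_congr e, Nat.card_prod, Nat.card_units, Nat.card_eq_fintype_card]

theorem card_lower_diag :
    Nat.card {y : SL(2, F) // y.1 1 0 ≠ 0 ∧ y.1 0 1 = 0} =
      (Fintype.card F - 1) * (Fintype.card F - 1) := by
  classical
  have h00 : ∀ y : {y : SL(2, F) // y.1 1 0 ≠ 0 ∧ y.1 0 1 = 0}, y.1.1 0 0 ≠ 0 := by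
    rintro ⟨y, hy0, hy1⟩ h0
    have hd := det_eq y
    have h0' : y.1 0 0 = 0 := h0
    rw [hy1, h0'] at hd
    simp at hd
  let e : {y : SL(2, F) // y.1 1 0 ≠ 0 ∧ y.1 0 1 = 0} ≃ Fˣ × Fˣ :=
    { toFun := fun y => (Units.mk0 (y.1.1 0 0) (h00 y), Units.mk0 (y.1.1 1 0) y.2.1)
      invFun := fun q => ⟨mk4 (q.1 : F) 0 (q.2 : F) ((q.1 : F)⁻¹) (by
          rw [zero_mul, sub_zero, mul_inv_cancel₀ q.1.ne_zero]), ⟨q.2.ne_zero, rfl⟩⟩
      left_inv := by
        rintro ⟨y, hy0, hy1⟩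
        apply Subtype.ext
        apply sl2_ext
        · rfl
        · exact hy1.symm
        · rfl
        · show (y.1 0 0)⁻¹ = y.1 1 1
          have hd := det_eq y
          rw [hy1, zero_mul, sub_zero] at hd
          exact inv_eq_of_mul_eq_one_right hd
      right_inv := by
        rintro ⟨a, c⟩
        apply Prod.ext
        · apply Units.ext
          rfl
        · apply Units.ext
          rfl }
  rw [Nat.card_congr e, Nat.card_prod, Nat.card_units, Nat.card_eq_fintype_card]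

theorem card_anti :
    Nat.card {y : SL(2, F) // y.1 0 0 = 0 ∧ y.1 1 1 = 0} = Fintype.card F - 1 := by
  classical
  have h10 : ∀ y : {y : SL(2, F) // y.1 0 0 = 0 ∧ y.1 1 1 = 0}, y.1.1 1 0 ≠ 0 := by
    rintro ⟨y, hy0, hy1⟩ h0
    have hd := det_eq y
    have h0' : y.1 1 0 = 0 := h0
    rw [hy0, h0'] at hd
    simp at hd
  let e : {y : SL(2, F) // y.1 0 0 = 0 ∧ y.1 1 1 = 0} ≃ Fˣ :=
    { toFun := fun y => Units.mk0 (y.1.1 1 0) (h10 y)
      invFun := fun c => ⟨mk4 0 (-(c : F)⁻¹) (c : F) 0 (by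
          rw [zero_mul, zero_sub, neg_mul, neg_neg, inv_mul_cancel₀ c.ne_zero]), ⟨rfl, rfl⟩⟩
      left_inv := by
        rintro ⟨y, hy0, hy1⟩
        apply Subtype.ext
        apply sl2_ext
        · exact hy0.symm
        · show -(y.1 1 0)⁻¹ = y.1 0 1
          have hd := det_eq y
          rw [hy0, zero_mul, zero_sub] at hd
          have h10' : y.1 1 0 ≠ 0 := h10 ⟨y, hy0, hy1⟩
          field_simp
          linear_combination hd
        · rfl
        · exact hy1.symm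
      right_inv := by
        intro c
        apply Units.ext
        rfl }
  rw [Nat.card_congr e, Nat.card_units, Nat.card_eq_fintype_card]

theorem card_borel :
    Nat.card {y : SL(2, F) // y.1 1 0 = 0} = Fintype.card F * (Fintype.card F - 1) := by
  have hB : Nat.card {y : SL(2, F) // y.1 1 0 = 0} = Nat.card (Bo F) := rfl
  rw [hB, card_Bo]

/-- the count for a split semisimple element -/
theorem count_split :
    Nat.card {y : SL(2, F) // y.1 1 0 = 0 ∨ y.1 0 1 = 0 ∨ (y.1 0 0 = 0 ∧ y.1 1 1 = 0)} =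
      2 * (Fintype.card F * (Fintype.card F - 1)) := by
  have : Finite SL(2, F) := finite_SL
  have hiff : ∀ y : SL(2, F),
      (y.1 1 0 = 0 ∨ y.1 0 1 = 0 ∨ (y.1 0 0 = 0 ∧ y.1 1 1 = 0)) ↔
      (y.1 1 0 = 0 ∨ (y.1 1 0 ≠ 0 ∧ y.1 0 1 = 0) ∨ (y.1 0 0 = 0 ∧ y.1 1 1 = 0)) := by
    intro y
    by_cases h0 : y.1 1 0 = 0
    · simp [h0]
    · simp [h0]
  rw [Nat.card_congr (Equiv.subtypeEquivRight hiff)]
  rw [card_or3 (fun y : SL(2, F) => y.1 1 0 = 0)
    (fun y : SL(2, F) => y.1 1 0 ≠ 0 ∧ y.1 0 1 = 0)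
    (fun y : SL(2, F) => y.1 0 0 = 0 ∧ y.1 1 1 = 0)
    (fun y h1 h2 => h2.1 h1)
    (fun y h1 h2 => by
      have hd := det_eq y
      have h1' : y.1 1 0 = 0 := h1
      rw [h1', h2.1] at hd
      simp at hd)
    (fun y h1 h2 => by
      have hd := det_eq y
      rw [h1.2, h2.1] at hd
      simp at hd)]
  rw [card_lower_diag, card_anti, card_borel]
  have hq : 1 ≤ Fintype.card F := Fintype.card_pos
  obtain ⟨m, hm⟩ : ∃ m, Fintype.card F = m + 1 := ⟨Fintype.card F - 1, by omega⟩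
  rw [hm, Nat.add_sub_cancel]
  ring

/-- matrices with prescribed lower left entry and trace -/
theorem card_fix (c t : F) (hc : c ≠ 0) :
    Nat.card {y : SL(2, F) // y.1 1 0 = c ∧ tr y = t} = Fintype.card F := by
  let e : {y : SL(2, F) // y.1 1 0 = c ∧ tr y = t} ≃ F :=
    { toFun := fun y => y.1.1 0 0
      invFun := fun a => ⟨mk4 a ((a * (t - a) - 1) / c) c (t - a) (by
          rw [div_mul_cancel₀ _ hc]; ring), ⟨rfl, by rw [tr_def, mk4_00, mk4_11]; ring⟩⟩
      left_inv := by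
        rintro ⟨y, hy0, hy1⟩
        rw [tr_def] at hy1
        apply Subtype.ext
        apply sl2_ext
        · rfl
        · show (y.1 0 0 * (t - y.1 0 0) - 1) / c = y.1 0 1
          have hd := det_eq y
          rw [div_eq_iff hc, ← hy0, ← hy1]
          linear_combination hd
        · exact hy0.symm
        · show t - y.1 0 0 = y.1 1 1
          rw [← hy1]; ring
      right_inv := fun a => rfl }
  rw [Nat.card_congr e, Nat.card_eq_fintype_card]

omit [Fintype F] in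
lemma K3_iff (t : F) : K3 t ↔ t = 0 ∨ t = 1 ∨ t = -1 := by
  constructor
  · exact K3_cases
  · rintro (rfl | rfl | rfl)
    · exact K3_zero
    · exact K3_one
    · exact K3_neg K3_one

omit [Fintype F] in
lemma one_ne_neg (h2 : (2 : F) ≠ 0) : (1 : F) ≠ -1 := by
  intro h
  exact h2 (by linear_combination h)

omit [Fintype F] in
lemma zero_ne_neg : (0 : F) ≠ -1 := by
  intro h
  exact one_ne_zero (α := F) (by linear_combination h)

theorem card_c (h2 : (2 : F) ≠ 0) (c : F) (hc : c ≠ 0) :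
    Nat.card {y : SL(2, F) // y.1 1 0 = c ∧ K3 (tr y)} = 3 * Fintype.card F := by
  have : Finite SL(2, F) := finite_SL
  have hiff : ∀ y : SL(2, F), (y.1 1 0 = c ∧ K3 (tr y)) ↔
      ((y.1 1 0 = c ∧ tr y = 0) ∨ (y.1 1 0 = c ∧ tr y = 1) ∨ (y.1 1 0 = c ∧ tr y = -1)) := by
    intro y
    rw [K3_iff]
    tauto
  rw [Nat.card_congr (Equiv.subtypeEquivRight hiff)]
  rw [card_or3 (fun y : SL(2, F) => y.1 1 0 = c ∧ tr y = 0)
    (fun y : SL(2, F) => y.1 1 0 = c ∧ tr y = 1)
    (fun y : SL(2, F) => y.1 1 0 = c ∧ tr y = -1)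
    (fun y h1 h3 => zero_ne_one (α := F) (h1.2.symm.trans h3.2))
    (fun y h1 h3 => zero_ne_neg (h1.2.symm.trans h3.2))
    (fun y h1 h3 => one_ne_neg h2 (h1.2.symm.trans h3.2))]
  rw [card_fix c 0 hc, card_fix c 1 hc, card_fix c (-1) hc]
  ring

/-- the count for a unipotent element -/
theorem count_unip (h2 : (2 : F) ≠ 0) :
    Nat.card {y : SL(2, F) // y.1 1 0 = 0 ∨ (K3 (tr y) ∧ K3 (y.1 1 0))} =
      Fintype.card F * (Fintype.card F + 5) := by
  have : Finite SL(2, F) := finite_SL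
  have hiff : ∀ y : SL(2, F), (y.1 1 0 = 0 ∨ (K3 (tr y) ∧ K3 (y.1 1 0))) ↔
      (y.1 1 0 = 0 ∨ (y.1 1 0 = 1 ∧ K3 (tr y)) ∨ (y.1 1 0 = -1 ∧ K3 (tr y))) := by
    intro y
    rw [K3_iff (y.1 1 0)]
    tauto
  rw [Nat.card_congr (Equiv.subtypeEquivRight hiff)]
  rw [card_or3 (fun y : SL(2, F) => y.1 1 0 = 0)
    (fun y : SL(2, F) => y.1 1 0 = 1 ∧ K3 (tr y))
    (fun y : SL(2, F) => y.1 1 0 = -1 ∧ K3 (tr y))
    (fun y h1 h3 => zero_ne_one (α := F) (h1.symm.trans h3.1))
    (fun y h1 h3 => zero_ne_neg (h1.symm.trans h3.1))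
    (fun y h1 h3 => one_ne_neg h2 (h1.1.symm.trans h3.1))]
  rw [card_borel, card_c h2 1 one_ne_zero, card_c h2 (-1) (neg_ne_zero.2 one_ne_zero)]
  have hq : 1 ≤ Fintype.card F := Fintype.card_pos
  obtain ⟨m, hm⟩ : ∃ m, Fintype.card F = m + 1 := ⟨Fintype.card F - 1, by omega⟩
  rw [hm, Nat.add_sub_cancel]
  ring

/-! ### The count for an element of order four -/

theorem card_tr0 (hi : ∀ i : F, i ^ 2 ≠ -1) :
    Nat.card {y : SL(2, F) // tr y = 0} = Fintype.card F * (Fintype.card F - 1) := by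
  rw [← card_lower (fun a _ => -a)]
  apply Nat.card_congr
  apply Equiv.subtypeEquivRight
  intro y
  rw [tr_def]
  constructor
  · intro h
    have h11 : y.1 1 1 = -y.1 0 0 := by linear_combination h
    refine ⟨?_, h11⟩
    intro h10
    have hd := det_eq y
    rw [h10, h11] at hd
    apply hi (y.1 0 0)
    linear_combination -hd
  · rintro ⟨-, h⟩
    have h' : y.1 1 1 = -y.1 0 0 := h
    rw [h']; ring

theorem card_sym (hi : ∀ i : F, i ^ 2 ≠ -1) :
    Nat.card {y : SL(2, F) // y.1 0 1 = y.1 1 0} = Fintype.card F * (Fintype.card F - 1) := by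
  rw [← card_tr0 hi]
  apply Nat.card_congr
  exact Equiv.subtypeEquiv (Equiv.mulLeft W) (fun y => by
    show y.1 0 1 = y.1 1 0 ↔ tr (W * y) = 0
    rw [tr_W_mul, sub_eq_zero])

omit [Fintype F] in
lemma W_nonsplit (hi : ∀ i : F, i ^ 2 ≠ -1) :
    ∀ r : F, r ^ 2 - ((W : SL(2, F)).1 0 0 + (W : SL(2, F)).1 1 1) * r + 1 ≠ 0 := by
  intro r hr
  rw [W00, W11] at hr
  apply hi r
  linear_combination hr

theorem card_T (h2 : (2 : F) ≠ 0) (hi : ∀ i : F, i ^ 2 ≠ -1) :
    Nat.card {y : SL(2, F) // y.1 0 0 = y.1 1 1 ∧ y.1 0 1 + y.1 1 0 = 0} =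
      Fintype.card F + 1 := by
  rw [← card_centralizer_nonsplit h2 W (tr_W_sq h2) (W_nonsplit hi)]
  apply Nat.card_congr
  apply Equiv.subtypeEquivRight
  intro y
  rw [Subgroup.mem_centralizer_singleton_iff, ← W_comm_iff]

theorem card_inv (h2 : (2 : F) ≠ 0) (hodd : Fintype.card F % 2 = 1)
    (hi : ∀ i : F, i ^ 2 ≠ -1) :
    Nat.card {y : SL(2, F) // tr y = 0 ∧ y.1 0 1 = y.1 1 0} = Fintype.card F + 1 := by
  have : Finite SL(2, F) := finite_SL
  obtain ⟨n₀, hn₀⟩ := exists_inverting h2 hodd W (by rw [W10]; exact one_ne_zero) (tr_W_sq h2)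
  have hne : (W : SL(2, F)) ≠ W⁻¹ := by
    intro h
    have h1 : (W : SL(2, F)) * W = 1 := by
      calc (W : SL(2, F)) * W = W * W⁻¹ := by rw [← h]
        _ = 1 := mul_inv_cancel _
    rw [W_mul_W] at h1
    exact negOne_ne_one h2 h1
  have hN := card_norInv_eq W n₀ hn₀ hne
  rw [card_centralizer_nonsplit h2 W (tr_W_sq h2) (W_nonsplit hi)] at hN
  have hT := card_T h2 hi
  have hiff : ∀ y : SL(2, F), y ∈ NorInv (W : SL(2, F)) ↔
      ((y.1 0 0 = y.1 1 1 ∧ y.1 0 1 + y.1 1 0 = 0) ∨ (tr y = 0 ∧ y.1 0 1 = y.1 1 0)) := by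
    intro y
    rw [mem_norInv, conj_eq_iff, mul_inv_eq_iff_eq_mul, W_comm_iff, W_inv_iff]
  have h1 : Nat.card (NorInv (W : SL(2, F))) =
      Nat.card {y : SL(2, F) // (y.1 0 0 = y.1 1 1 ∧ y.1 0 1 + y.1 1 0 = 0) ∨
        (tr y = 0 ∧ y.1 0 1 = y.1 1 0)} :=
    Nat.card_congr (Equiv.subtypeEquivRight hiff)
  rw [card_or (fun y : SL(2, F) => y.1 0 0 = y.1 1 1 ∧ y.1 0 1 + y.1 1 0 = 0)
    (fun y : SL(2, F) => tr y = 0 ∧ y.1 0 1 = y.1 1 0) (fun y h3 h4 => by
      obtain ⟨h5, h6⟩ := h3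
      obtain ⟨h7, h8⟩ := h4
      rw [tr_def] at h7
      have hd := det_eq y
      have e1 : 2 * y.1 0 0 = 0 := by linear_combination h7 + h5
      have e2 : 2 * y.1 0 1 = 0 := by linear_combination h6 + h8
      have e3 : y.1 0 0 = 0 := by
        rcases mul_eq_zero.1 e1 with h | h
        · exact absurd h h2
        · exact h
      have e4 : y.1 0 1 = 0 := by
        rcases mul_eq_zero.1 e2 with h | h
        · exact absurd h h2
        · exact h
      rw [e3, e4] at hd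
      simp at hd), hT, hN] at h1
  omega

theorem card_T4 (h2 : (2 : F) ≠ 0) :
    Nat.card {y : SL(2, F) // (y.1 0 0 = y.1 1 1 ∧ y.1 0 1 + y.1 1 0 = 0) ∧
      (tr y = 0 ∨ y.1 0 1 = y.1 1 0)} = 4 := by
  have : Finite SL(2, F) := finite_SL
  obtain ⟨hW1, hW2⟩ := ne_of_tr (W : SL(2, F)) (tr_W_sq h2)
  have hiff : ∀ y : SL(2, F), ((y.1 0 0 = y.1 1 1 ∧ y.1 0 1 + y.1 1 0 = 0) ∧
      (tr y = 0 ∨ y.1 0 1 = y.1 1 0)) ↔ (y = 1 ∨ y = negOne ∨ y = W ∨ y = W⁻¹) := by
    intro y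
    constructor
    · rintro ⟨⟨h5, h6⟩, h | h⟩
      · rw [tr_def] at h
        have hd := det_eq y
        have e1 : 2 * y.1 0 0 = 0 := by linear_combination h + h5
        have e3 : y.1 0 0 = 0 := by
          rcases mul_eq_zero.1 e1 with h' | h'
          · exact absurd h' h2
          · exact h'
        have e4 : y.1 1 1 = 0 := by rw [← h5]; exact e3
        have e5 : y.1 0 1 = -y.1 1 0 := by linear_combination h6
        rw [e3, e4, e5] at hd
        have e6 : (y.1 1 0 - 1) * (y.1 1 0 + 1) = 0 := by linear_combination hd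
        rcases mul_eq_zero.1 e6 with h' | h'
        · right; right; left
          have e7 : y.1 1 0 = 1 := by linear_combination h'
          apply sl2_ext
          · rw [e3, W00]
          · rw [e5, e7, W01]
          · rw [e7, W10]
          · rw [e4, W11]
        · right; right; right
          have e7 : y.1 1 0 = -1 := by linear_combination h'
          apply sl2_ext
          · rw [e3, inv00, W11]
          · rw [e5, e7, inv01, W01]
          · rw [e7, inv10, W10]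
          · rw [e4, inv11, W00]
      · have hd := det_eq y
        have e1 : 2 * y.1 0 1 = 0 := by linear_combination h6 + h
        have e3 : y.1 0 1 = 0 := by
          rcases mul_eq_zero.1 e1 with h' | h'
          · exact absurd h' h2
          · exact h'
        have e4 : y.1 1 0 = 0 := by rw [← h]; exact e3
        rw [e3, e4, ← h5] at hd
        have e6 : (y.1 0 0 - 1) * (y.1 0 0 + 1) = 0 := by linear_combination hd
        rcases mul_eq_zero.1 e6 with h' | h'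
        · left
          have e7 : y.1 0 0 = 1 := by linear_combination h'
          apply sl2_ext
          · rw [e7, one00]
          · rw [e3, one01]
          · rw [e4, one10]
          · rw [← h5, e7, one11]
        · right; left
          have e7 : y.1 0 0 = -1 := by linear_combination h'
          apply sl2_ext
          · rw [e7, n00]
          · rw [e3, n01]
          · rw [e4, n10]
          · rw [← h5, e7, n11]
    · rintro (rfl | rfl | rfl | rfl)
      · refine ⟨⟨by rw [one00, one11], by rw [one01, one10, add_zero]⟩, Or.inr ?_⟩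
        rw [one01, one10]
      · refine ⟨⟨by rw [n00, n11], by rw [n01, n10, add_zero]⟩, Or.inr ?_⟩
        rw [n01, n10]
      · refine ⟨⟨by rw [W00, W11], by rw [W01, W10]; ring⟩, Or.inl ?_⟩
        exact tr_W
      · refine ⟨⟨by rw [inv00, inv11, W00, W11], by rw [inv01, inv10, W01, W10]; ring⟩,
          Or.inl ?_⟩
        rw [tr_def, inv00, inv11, W00, W11, add_zero]
  rw [Nat.card_congr (Equiv.subtypeEquivRight hiff)]
  have hinv1 : (W : SL(2, F))⁻¹ ≠ 1 := fun h => hW1 (inv_eq_one.1 h)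
  have hinv2 : (W : SL(2, F))⁻¹ ≠ negOne := by
    intro h
    have h' : ((W : SL(2, F))⁻¹).1 0 0 = (negOne : SL(2, F)).1 0 0 := by rw [h]
    rw [inv00, W11, n00] at h'
    exact zero_ne_neg h'
  have hinv3 : (W : SL(2, F)) ≠ W⁻¹ := by
    intro h
    have h' : (W : SL(2, F)).1 1 0 = ((W : SL(2, F))⁻¹).1 1 0 := by rw [← h]
    rw [inv10, W10] at h'
    exact one_ne_neg h2 h'
  rw [card_or (fun y : SL(2, F) => y = 1) (fun y : SL(2, F) => y = negOne ∨ y = W ∨ y = W⁻¹)
    (fun y h3 h4 => by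
      rw [h3] at h4
      rcases h4 with h | h | h
      · exact negOne_ne_one h2 h.symm
      · exact hW1 h.symm
      · exact hinv1 h.symm),
    card_or3 (fun y : SL(2, F) => y = negOne) (fun y : SL(2, F) => y = W)
      (fun y : SL(2, F) => y = W⁻¹)
      (fun y h3 h4 => hW2 (h4.symm.trans h3))
      (fun y h3 h4 => hinv2 (h4.symm.trans h3))
      (fun y h3 h4 => hinv3 (h3.symm.trans h4)),
    card_eq1, card_eq1, card_eq1, card_eq1]

section char3
variable [CharP F 3]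

theorem card_ts (h2 : (2 : F) ≠ 0) (hi : ∀ i : F, i ^ 2 ≠ -1) (t₀ s₀ : F) (ht : t₀ ^ 2 = 1)
    (hs : s₀ ^ 2 = 1) :
    Nat.card {y : SL(2, F) // tr y = t₀ ∧ y.1 0 1 - y.1 1 0 = s₀} = Fintype.card F + 1 := by
  rw [← card_T h2 hi]
  apply Nat.card_congr
  exact
    { toFun := fun y => ⟨mk4 (y.1.1 1 1 - y.1.1 0 0) (y.1.1 0 1 + y.1.1 1 0)
        (-(y.1.1 0 1 + y.1.1 1 0)) (y.1.1 1 1 - y.1.1 0 0) (by
          obtain ⟨y, h1, h3⟩ := y
          rw [tr_def] at h1
          have hd := det_eq y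
          show (y.1 1 1 - y.1 0 0) * (y.1 1 1 - y.1 0 0) -
            (y.1 0 1 + y.1 1 0) * (-(y.1 0 1 + y.1 1 0)) = 1
          linear_combination (y.1 0 0 + y.1 1 1 + t₀) * h1 + (y.1 0 1 - y.1 1 0 + s₀) * h3 +
            ht + hs - 4 * hd - three_zero (F := F)),
        ⟨rfl, by rw [mk4_01, mk4_10]; ring⟩⟩
      invFun := fun z => ⟨mk4 (z.1.1 0 0 - t₀) (z.1.1 1 0 - s₀) (z.1.1 1 0 + s₀)
        (-z.1.1 0 0 - t₀) (by
          obtain ⟨z, hz1, hz2⟩ := z
          have hd := det_eq z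
          show (z.1 0 0 - t₀) * (-z.1 0 0 - t₀) - (z.1 1 0 - s₀) * (z.1 1 0 + s₀) = 1
          linear_combination ht + hs - hd - z.1 0 0 * hz1 - z.1 1 0 * hz2),
        ⟨by rw [tr_def, mk4_00, mk4_11]; linear_combination (-t₀) * three_zero (F := F),
         by rw [mk4_01, mk4_10]; linear_combination (-s₀) * three_zero (F := F)⟩⟩
      left_inv := by
        rintro ⟨y, h1, h3⟩
        rw [tr_def] at h1
        apply Subtype.ext
        apply sl2_ext
        · show (y.1 1 1 - y.1 0 0) - t₀ = y.1 0 0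
          linear_combination h1 - y.1 0 0 * three_zero (F := F)
        · show -(y.1 0 1 + y.1 1 0) - s₀ = y.1 0 1
          linear_combination h3 - y.1 0 1 * three_zero (F := F)
        · show -(y.1 0 1 + y.1 1 0) + s₀ = y.1 1 0
          linear_combination -h3 - y.1 1 0 * three_zero (F := F)
        · show -(y.1 1 1 - y.1 0 0) - t₀ = y.1 1 1
          linear_combination h1 - y.1 1 1 * three_zero (F := F)
      right_inv := by
        rintro ⟨z, hz1, hz2⟩
        apply Subtype.ext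
        apply sl2_ext
        · show (-z.1 0 0 - t₀) - (z.1 0 0 - t₀) = z.1 0 0
          linear_combination (-z.1 0 0) * three_zero (F := F)
        · show (z.1 1 0 - s₀) + (z.1 1 0 + s₀) = z.1 0 1
          linear_combination z.1 1 0 * three_zero (F := F) - hz2
        · show -((z.1 1 0 - s₀) + (z.1 1 0 + s₀)) = z.1 1 0
          linear_combination (-z.1 1 0) * three_zero (F := F)
        · show (-z.1 0 0 - t₀) - (z.1 0 0 - t₀) = z.1 1 1
          linear_combination (-z.1 0 0) * three_zero (F := F) + hz1 }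

theorem card_tsK (h2 : (2 : F) ≠ 0) (hi : ∀ i : F, i ^ 2 ≠ -1) :
    Nat.card {y : SL(2, F) // (tr y = 1 ∨ tr y = -1) ∧
      (y.1 0 1 - y.1 1 0 = 1 ∨ y.1 0 1 - y.1 1 0 = -1)} = 4 * (Fintype.card F + 1) := by
  have : Finite SL(2, F) := finite_SL
  have hiff : ∀ y : SL(2, F), ((tr y = 1 ∨ tr y = -1) ∧
      (y.1 0 1 - y.1 1 0 = 1 ∨ y.1 0 1 - y.1 1 0 = -1)) ↔
      (((tr y = 1 ∧ y.1 0 1 - y.1 1 0 = 1) ∨ (tr y = 1 ∧ y.1 0 1 - y.1 1 0 = -1)) ∨
       ((tr y = -1 ∧ y.1 0 1 - y.1 1 0 = 1) ∨ (tr y = -1 ∧ y.1 0 1 - y.1 1 0 = -1))) := by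
    intro y; tauto
  rw [Nat.card_congr (Equiv.subtypeEquivRight hiff)]
  rw [card_or (fun y : SL(2, F) => (tr y = 1 ∧ y.1 0 1 - y.1 1 0 = 1) ∨
      (tr y = 1 ∧ y.1 0 1 - y.1 1 0 = -1))
    (fun y : SL(2, F) => (tr y = -1 ∧ y.1 0 1 - y.1 1 0 = 1) ∨
      (tr y = -1 ∧ y.1 0 1 - y.1 1 0 = -1))
    (fun y h3 h4 => by
      have e1 : tr y = 1 := by rcases h3 with h | h <;> exact h.1
      have e2 : tr y = -1 := by rcases h4 with h | h <;> exact h.1
      exact one_ne_neg h2 (e1.symm.trans e2)),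
    card_or (fun y : SL(2, F) => tr y = 1 ∧ y.1 0 1 - y.1 1 0 = 1)
      (fun y : SL(2, F) => tr y = 1 ∧ y.1 0 1 - y.1 1 0 = -1)
      (fun y h3 h4 => one_ne_neg h2 (h3.2.symm.trans h4.2)),
    card_or (fun y : SL(2, F) => tr y = -1 ∧ y.1 0 1 - y.1 1 0 = 1)
      (fun y : SL(2, F) => tr y = -1 ∧ y.1 0 1 - y.1 1 0 = -1)
      (fun y h3 h4 => one_ne_neg h2 (h3.2.symm.trans h4.2)),
    card_ts h2 hi 1 1 (by ring) (by ring), card_ts h2 hi 1 (-1) (by ring) (by ring),
    card_ts h2 hi (-1) 1 (by ring) (by ring), card_ts h2 hi (-1) (-1) (by ring) (by ring)]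
  ring

/-- the count for an element of order four -/
theorem count_W (h2 : (2 : F) ≠ 0) (hodd : Fintype.card F % 2 = 1)
    (hi : ∀ i : F, i ^ 2 ≠ -1) :
    Nat.card {y : SL(2, F) // (y.1 0 0 = y.1 1 1 ∧ y.1 0 1 + y.1 1 0 = 0) ∨ tr y = 0 ∨
      y.1 0 1 = y.1 1 0 ∨ (K3 (tr y) ∧ K3 (y.1 0 1 - y.1 1 0))} =
      2 * (Fintype.card F * (Fintype.card F + 1)) := by
  have : Finite SL(2, F) := finite_SL
  have hiff : ∀ y : SL(2, F), ((y.1 0 0 = y.1 1 1 ∧ y.1 0 1 + y.1 1 0 = 0) ∨ tr y = 0 ∨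
      y.1 0 1 = y.1 1 0 ∨ (K3 (tr y) ∧ K3 (y.1 0 1 - y.1 1 0))) ↔
      ((tr y = 0 ∨ y.1 0 1 = y.1 1 0) ∨
       ((y.1 0 0 = y.1 1 1 ∧ y.1 0 1 + y.1 1 0 = 0) ∧ ¬ (tr y = 0 ∨ y.1 0 1 = y.1 1 0)) ∨
       ((tr y = 1 ∨ tr y = -1) ∧ (y.1 0 1 - y.1 1 0 = 1 ∨ y.1 0 1 - y.1 1 0 = -1))) := by
    intro y
    have hs0 : y.1 0 1 - y.1 1 0 = 0 ↔ y.1 0 1 = y.1 1 0 := sub_eq_zero
    rw [K3_iff, K3_iff, hs0]
    by_cases hA : tr y = 0 ∨ y.1 0 1 = y.1 1 0
    · simp only [hA, true_or, not_true_eq_false, and_false, false_or, iff_true]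
      rcases hA with h | h
      · exact Or.inr (Or.inl h)
      · exact Or.inr (Or.inr (Or.inl h))
    · have hA1 : ¬ tr y = 0 := fun h => hA (Or.inl h)
      have hA2 : ¬ y.1 0 1 = y.1 1 0 := fun h => hA (Or.inr h)
      simp only [hA, hA1, hA2, false_or, not_false_eq_true, and_true]
  rw [Nat.card_congr (Equiv.subtypeEquivRight hiff)]
  rw [card_or3 (fun y : SL(2, F) => tr y = 0 ∨ y.1 0 1 = y.1 1 0)
    (fun y : SL(2, F) => (y.1 0 0 = y.1 1 1 ∧ y.1 0 1 + y.1 1 0 = 0) ∧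
      ¬ (tr y = 0 ∨ y.1 0 1 = y.1 1 0))
    (fun y : SL(2, F) => (tr y = 1 ∨ tr y = -1) ∧
      (y.1 0 1 - y.1 1 0 = 1 ∨ y.1 0 1 - y.1 1 0 = -1))
    (fun y h3 h4 => h4.2 h3)
    (fun y h3 h4 => by
      rcases h3 with h | h
      · rcases h4.1 with h' | h'
        · exact zero_ne_one (α := F) (h.symm.trans h')
        · exact zero_ne_neg (h.symm.trans h')
      · have h0 : y.1 0 1 - y.1 1 0 = 0 := sub_eq_zero.2 h
        rcases h4.2 with h' | h'
        · exact zero_ne_one (α := F) (h0.symm.trans h')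
        · exact zero_ne_neg (h0.symm.trans h'))
    (fun y h3 h4 => by
      obtain ⟨⟨h5, h6⟩, -⟩ := h3
      have ht2 : (y.1 0 0 + y.1 1 1) ^ 2 = 1 := by
        have e : tr y = y.1 0 0 + y.1 1 1 := tr_def y
        rw [← e]
        rcases h4.1 with h' | h' <;> rw [h'] <;> ring
      have hs2 : (y.1 0 1 - y.1 1 0) ^ 2 = 1 := by
        rcases h4.2 with h' | h' <;> rw [h'] <;> ring
      have hd := det_eq y
      apply h2
      linear_combination -4 * hd + ht2 + hs2 - (y.1 0 0 - y.1 1 1) * h5 -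
        (y.1 0 1 + y.1 1 0) * h6)]
  have hA := card_or_and (fun y : SL(2, F) => tr y = 0) (fun y : SL(2, F) => y.1 0 1 = y.1 1 0)
  rw [card_tr0 hi, card_sym hi, card_inv h2 hodd hi] at hA
  have hB := card_split (fun y : SL(2, F) => y.1 0 0 = y.1 1 1 ∧ y.1 0 1 + y.1 1 0 = 0)
    (fun y : SL(2, F) => tr y = 0 ∨ y.1 0 1 = y.1 1 0)
  rw [card_T h2 hi, card_T4 h2] at hB
  rw [card_tsK h2 hi]
  have hq : 1 ≤ Fintype.card F := Fintype.card_pos
  have e1 : Fintype.card F * (Fintype.card F - 1) + Fintype.card F =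
      Fintype.card F * Fintype.card F := by
    obtain ⟨m, hm⟩ : ∃ m, Fintype.card F = m + 1 := ⟨Fintype.card F - 1, by omega⟩
    rw [hm, Nat.add_sub_cancel]; ring
  have e2 : Fintype.card F * (Fintype.card F + 1) =
      Fintype.card F * Fintype.card F + Fintype.card F := by ring
  rw [e2]
  generalize Fintype.card F * Fintype.card F = Q at e1 ⊢
  generalize Fintype.card F * (Fintype.card F - 1) = R at e1 hA ⊢
  omega

end char3

end Cfsg.Agent.Lib.Helper6.Sb3
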