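import Mathlib
import Cfsg.Agent.Lib.Helper6.Sb3

/-!
# Solubilizers in `PSL(2, 3 ^ p)`: the four cases (helper6)

`psl_sol`: for `x` in `SL(2, F)`, `|F| = q = 3 ^ p` with `p` an odd prime, the solubilizer of the
image of `x` in `PSL(2, F)` has `q (q + 1)`, `q (q + 5) / 2`, `q (q - 1)` or `q + 1` elements
according to the order of that image.
-/

set_option autoImplicit false
set_option linter.unusedSimpArgs false
set_option linter.unusedVariables false
set_option linter.unusedSectionVars false

namespace Cfsg.Agent.Lib.Helper6.Sb4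

open Matrix MatrixGroups
open Cfsg.Agent.Lib.Helper53.SL2Inv Cfsg.Agent.Lib.Helper53.SL2Unip
open Cfsg.Agent.Lib.Helper98.SL2Sub Cfsg.Agent.Lib.Helper98.SL2Core
open Cfsg.Agent.Lib.Helper98.SL2Tor Cfsg.Agent.Lib.Helper98.DicksonB
open Cfsg.Agent.Lib.Helper98.PSL2Max
open Cfsg.Agent.Lib.Helper6.Sb1 Cfsg.Agent.Lib.Helper6.Sb2 Cfsg.Agent.Lib.Helper6.Sb3

variable {F : Type*} [Field F] [Fintype F] [CharP F 3] {p : ℕ}

theorem card_Pr_W (hp : p.Prime) (hodd : Odd p) (hF : Fintype.card F = 3 ^ p) :
    Nat.card {y : SL(2, F) // Pr W y} = 2 * (Fintype.card F * (Fintype.card F + 1)) := by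
  have hoddF : Fintype.card F % 2 = 1 := by
    rw [hF]; exact Nat.odd_iff.1 (Odd.pow (by decide))
  rw [Nat.card_congr (Equiv.subtypeEquivRight (fun y => Pr_W_iff hp hodd hF y))]
  exact count_W (two_ne hF) hoddF (not_sq_neg_one hodd hF)

theorem card_Pr_u (hp : p.Prime) (hodd : Odd p) (hF : Fintype.card F = 3 ^ p) :
    Nat.card {y : SL(2, F) // Pr (u 1) y} = Fintype.card F * (Fintype.card F + 5) := by
  rw [Nat.card_congr (Equiv.subtypeEquivRight (fun y => Pr_u_iff hp hodd hF y))]
  exact count_unip (two_ne hF)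

theorem card_Pr_d (hp : p.Prime) (hodd : Odd p) (hF : Fintype.card F = 3 ^ p) (lam : F)
    (h0 : lam ≠ 0) (h1 : lam ^ 2 ≠ 1) :
    Nat.card {y : SL(2, F) // Pr (d lam h0) y} =
      2 * (Fintype.card F * (Fintype.card F - 1)) := by
  rw [Nat.card_congr (Equiv.subtypeEquivRight (fun y => Pr_d_iff hp hodd hF lam h0 h1 y))]
  exact count_split

theorem card_Pr_order4 (hp : p.Prime) (hodd : Odd p) (hF : Fintype.card F = 3 ^ p)
    (x : SL(2, F)) (hx : x * x = negOne) :
    Nat.card {y : SL(2, F) // Pr x y} = 2 * (Fintype.card F * (Fintype.card F + 1)) := by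
  obtain ⟨g, hg⟩ := conj_W_of_sq (by rw [hF]; exact Odd.pow (by decide)) x hx
  rw [← card_Pr_conj g x, hg]
  exact card_Pr_W hp hodd hF

theorem card_Pr_unip (hp : p.Prime) (hodd : Odd p) (hF : Fintype.card F = 3 ^ p)
    (x : SL(2, F)) (htr : tr x = 2) (hx : x ≠ 1) :
    Nat.card {y : SL(2, F) // Pr x y} = Fintype.card F * (Fintype.card F + 5) := by
  obtain ⟨g, hg | hg⟩ := exists_conj_u1 hodd hF x htr hx
  · rw [← card_Pr_conj g x, hg]; exact card_Pr_u hp hodd hF
  · rw [← card_Pr_conj g x, hg, card_Pr_inv]; exact card_Pr_u hp hodd hF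

theorem card_Pr_split (hp : p.Prime) (hodd : Odd p) (hF : Fintype.card F = 3 ^ p)
    (x : SL(2, F)) (r : F) (hr : r ^ 2 - tr x * r + 1 = 0) (htr : tr x ^ 2 ≠ 4) :
    Nat.card {y : SL(2, F) // Pr x y} = 2 * (Fintype.card F * (Fintype.card F - 1)) := by
  obtain ⟨g, lam, h0, h1, hg⟩ := exists_conj_d x r hr htr
  rw [← card_Pr_conj g x, hg]
  exact card_Pr_d hp hodd hF lam h0 h1

omit [Fintype F] [CharP F 3] in
lemma proj_eq_one_iff (z : SL(2, F)) : proj z = 1 ↔ z = 1 ∨ z = negOne := by
  rw [QuotientGroup.mk'_apply, QuotientGroup.eq_one_iff, center_eq]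
  exact Iff.rfl

omit [Fintype F] [CharP F 3] in
lemma proj_pow_eq_one_iff (z : SL(2, F)) (n : ℕ) :
    proj z ^ n = 1 ↔ z ^ n = 1 ∨ z ^ n = negOne := by
  rw [← map_pow, proj_eq_one_iff]

lemma dvd_two_of (n m : ℕ) (h6 : n ∣ 6) (hm : n ∣ m) (h3 : ¬ 3 ∣ m) : n = 1 ∨ n = 2 := by
  have hle : n ≤ 6 := Nat.le_of_dvd (by norm_num) h6
  interval_cases n
  · exact absurd h6 (by decide)
  · exact Or.inl rfl
  · exact Or.inr rfl
  · exact absurd hm h3
  · exact absurd h6 (by decide)
  · exact absurd h6 (by decide)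
  · exact absurd (Dvd.dvd.trans (by norm_num : 3 ∣ 6) hm) h3

lemma dvd_two_of' (n q : ℕ) (hq : 1 ≤ q) (h1 : n ∣ q - 1) (h2 : n ∣ q + 1) : n = 1 ∨ n = 2 := by
  have h3 : n ∣ (q + 1) - (q - 1) := Nat.dvd_sub h2 h1
  have e : (q + 1) - (q - 1) = 2 := by omega
  rw [e] at h3
  have hle : n ≤ 2 := Nat.le_of_dvd (by norm_num) h3
  interval_cases n
  · exact absurd h3 (by decide)
  · exact Or.inl rfl
  · exact Or.inr rfl

/-- **Solubilizer sizes in `PSL(2, 3 ^ p)`.** -/
theorem psl_sol (hp : p.Prime) (hodd : Odd p) (hF : Fintype.card F = 3 ^ p) (x : SL(2, F)) :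
    (orderOf (proj x) = 2 →
      Nat.card {y : Matrix.ProjectiveSpecialLinearGroup (Fin 2) F //
        Group.IsSolvable (Subgroup.closure ({proj x, y} :
          Set (Matrix.ProjectiveSpecialLinearGroup (Fin 2) F)))} =
        Fintype.card F * (Fintype.card F + 1)) ∧
    (orderOf (proj x) = 3 →
      2 * Nat.card {y : Matrix.ProjectiveSpecialLinearGroup (Fin 2) F //
        Group.IsSolvable (Subgroup.closure ({proj x, y} :
          Set (Matrix.ProjectiveSpecialLinearGroup (Fin 2) F)))} =
        Fintype.card F * (Fintype.card F + 5)) ∧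
    (proj x ≠ 1 → orderOf (proj x) ≠ 2 → orderOf (proj x) ∣ Fintype.card F - 1 →
      Nat.card {y : Matrix.ProjectiveSpecialLinearGroup (Fin 2) F //
        Group.IsSolvable (Subgroup.closure ({proj x, y} :
          Set (Matrix.ProjectiveSpecialLinearGroup (Fin 2) F)))} =
        Fintype.card F * (Fintype.card F - 1)) ∧
    (proj x ≠ 1 → orderOf (proj x) ≠ 2 → orderOf (proj x) ∣ Fintype.card F + 1 →
      Nat.card {y : Matrix.ProjectiveSpecialLinearGroup (Fin 2) F //
        Group.IsSolvable (Subgroup.closure ({proj x, y} :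
          Set (Matrix.ProjectiveSpecialLinearGroup (Fin 2) F)))} =
        Fintype.card F + 1) := by
  have h2 : (2 : F) ≠ 0 := two_ne hF
  have hq1 : 1 ≤ Fintype.card F := Fintype.card_pos
  have hcs := card_sol hp hodd hF x
  obtain ⟨k, hk⟩ : ∃ k, Fintype.card F = 3 * k := by
    rw [hF]; exact dvd_pow_self 3 hp.ne_zero
  have h3a : ¬ 3 ∣ Fintype.card F - 1 := by omega
  have h3b : ¬ 3 ∣ Fintype.card F + 1 := by omega
  -- general facts for the last two cases
  have gen : proj x ≠ 1 → orderOf (proj x) ≠ 2 →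
      (orderOf (proj x) ∣ Fintype.card F - 1 ∨ orderOf (proj x) ∣ Fintype.card F + 1) →
      tr x ≠ 0 ∧ tr x ^ 2 ≠ 4 := by
    intro hx1 hx2 hdvd
    have hn1 : orderOf (proj x) ≠ 1 := fun h => hx1 (orderOf_eq_one_iff.1 h)
    constructor
    · intro h0
      have hxx := sq_of_tr_zero x h0
      have h1 : proj x ^ 2 = 1 := by
        rw [proj_pow_eq_one_iff, pow_two]; exact Or.inr hxx
      have h3 : orderOf (proj x) ∣ 2 := orderOf_dvd_of_pow_eq_one h1
      have hle : orderOf (proj x) ≤ 2 := Nat.le_of_dvd (by norm_num) h3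
      have hpos : 0 < orderOf (proj x) := Nat.pos_of_dvd_of_pos h3 (by norm_num)
      omega
    · intro h4
      have h' : (tr x - 2) * (tr x + 2) = 0 := by linear_combination h4
      have h6 : x ^ 6 = 1 := by
        apply pow_six_of_tr
        rcases mul_eq_zero.1 h' with h | h
        · left; linear_combination h
        · right; linear_combination h
      have h1 : proj x ^ 6 = 1 := by
        rw [proj_pow_eq_one_iff]; exact Or.inl h6
      have h3 : orderOf (proj x) ∣ 6 := orderOf_dvd_of_pow_eq_one h1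
      rcases hdvd with hd | hd
      · rcases dvd_two_of _ _ h3 hd h3a with h | h
        · exact hn1 h
        · exact hx2 h
      · rcases dvd_two_of _ _ h3 hd h3b with h | h
        · exact hn1 h
        · exact hx2 h
  have hself : x ∈ Subgroup.centralizer ({x} : Set SL(2, F)) :=
    Subgroup.mem_centralizer_singleton_iff.2 rfl
  refine ⟨fun h => ?_, fun h => ?_, fun hx1 hx2 hd => ?_, fun hx1 hx2 hd => ?_⟩
  · -- involutions
    have h1 : proj x ^ 2 = 1 := by
      have h' := pow_orderOf_eq_one (proj x)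
      rwa [h] at h'
    rw [proj_pow_eq_one_iff, pow_two] at h1
    have hxx : x * x = negOne := by
      rcases h1 with h1 | h1
      · exfalso
        have h3 : proj x = 1 := (proj_eq_one_iff x).2 (sq_eq_one h2 x h1)
        rw [h3, orderOf_one] at h
        omega
      · exact h1
    have hc := card_Pr_order4 hp hodd hF x hxx
    rw [hcs] at hc
    omega
  · -- elements of order three
    have hx1 : proj x ≠ 1 := by
      intro h'
      rw [h', orderOf_one] at h
      omega
    have h1 : proj x ^ 3 = 1 := by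
      have h' := pow_orderOf_eq_one (proj x)
      rwa [h] at h'
    rw [proj_pow_eq_one_iff] at h1
    rcases h1 with h1 | h1
    · have htr : tr x = 2 := tr_eq_two_of_pow 3 x 1 (by rw [pow_one]; exact h1)
      have hne : x ≠ 1 := fun h' => hx1 ((proj_eq_one_iff x).2 (Or.inl h'))
      have hc := card_Pr_unip hp hodd hF x htr hne
      rw [hcs] at hc
      exact hc
    · have hc3 : (negOne * x) ^ 3 = 1 := by
        have hcomm : Commute (negOne : SL(2, F)) x := negOne_comm x
        rw [hcomm.mul_pow, h1, show 3 = 2 + 1 by norm_num, pow_add, negOne_pow_two, one_mul,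
          pow_one, negOne_mul_negOne]
      have htr : tr (negOne * x) = 2 :=
        tr_eq_two_of_pow 3 (negOne * x) 1 (by rw [pow_one]; exact hc3)
      have hne : negOne * x ≠ 1 := by
        intro h'
        apply hx1
        have h3 : proj (negOne * x) = 1 := by rw [h', map_one]
        rw [map_mul, proj_negOne, one_mul] at h3
        exact h3
      have hc := card_Pr_unip hp hodd hF (negOne * x) htr hne
      rw [card_Pr_neg, hcs] at hc
      exact hc
  · -- order dividing q - 1
    obtain ⟨h0, h4⟩ := gen hx1 hx2 (Or.inl hd)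
    have hn1 : orderOf (proj x) ≠ 1 := fun h => hx1 (orderOf_eq_one_iff.1 h)
    by_cases hsp : ∃ r : F, r ^ 2 - tr x * r + 1 = 0
    · obtain ⟨r, hr⟩ := hsp
      have hc := card_Pr_split hp hodd hF x r hr h4
      rw [hcs] at hc
      omega
    · exfalso
      have hns : ∀ r : F, r ^ 2 - tr x * r + 1 ≠ 0 := fun r hr => hsp ⟨r, hr⟩
      have hC := card_centralizer_nonsplit h2 x h4 hns
      have ho : orderOf x ∣ Fintype.card F + 1 := by
        rw [← hC]; exact Subgroup.orderOf_dvd_natCard _ hself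
      have ho' : orderOf (proj x) ∣ Fintype.card F + 1 :=
        (orderOf_map_dvd proj x).trans ho
      rcases dvd_two_of' _ _ hq1 hd ho' with h | h
      · exact hn1 h
      · exact hx2 h
  · -- order dividing q + 1
    obtain ⟨h0, h4⟩ := gen hx1 hx2 (Or.inr hd)
    have hn1 : orderOf (proj x) ≠ 1 := fun h => hx1 (orderOf_eq_one_iff.1 h)
    by_cases hsp : ∃ r : F, r ^ 2 - tr x * r + 1 = 0
    · exfalso
      obtain ⟨r, hr⟩ := hsp
      have hC := card_centralizer_split x h4 r hr
      have ho : orderOf x ∣ Fintype.card F - 1 := by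
        rw [← hC]; exact Subgroup.orderOf_dvd_natCard _ hself
      have ho' : orderOf (proj x) ∣ Fintype.card F - 1 :=
        (orderOf_map_dvd proj x).trans ho
      rcases dvd_two_of' _ _ hq1 ho' hd with h | h
      · exact hn1 h
      · exact hx2 h
    · have hns : ∀ r : F, r ^ 2 - tr x * r + 1 ≠ 0 := fun r hr => hsp ⟨r, hr⟩
      have hc := card_Pr_nonsplit hp hodd hF x hns (not_K3_of_tr h4 h0)
      rw [hcs] at hc
      omega

end Cfsg.Agent.Lib.Helper6.Sb4
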