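import Mathlib
import Cfsg.Prelude.Def_LieExceptional
import Cfsg.Agent.Lib.Helper6.SzT1

/-!
# Solubilizers in the Suzuki groups: the three families of solvable subgroups
-/

set_option autoImplicit false
set_option linter.unusedSimpArgs false
set_option linter.unusedVariables false
set_option linter.unusedSectionVars false

namespace Cfsg.Agent.Lib.Helper6.SzT2

open Cfsg Cfsg.Agent.Lib.Helper6.Sz0 Cfsg.Agent.Lib.Helper6.Sz1 Cfsg.Agent.Lib.Helper6.Sz2
  Cfsg.Agent.Lib.Helper6.Sz3 Cfsg.Agent.Lib.Helper6.Sz4 Cfsg.Agent.Lib.Helper6.Sz5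
  Cfsg.Agent.Lib.Helper6.Sz6 Cfsg.Agent.Lib.Helper6.Sz7 Cfsg.Agent.Lib.Helper6.Sz8
  Cfsg.Agent.Lib.Helper6.Sz9 Cfsg.Agent.Lib.Helper6.Sz10 Cfsg.Agent.Lib.Helper6.Sz11
  Cfsg.Agent.Lib.Helper6.Sz12 Cfsg.Agent.Lib.Helper6.Sz13 Cfsg.Agent.Lib.Helper6.Sz14
  Cfsg.Agent.Lib.Helper6.Sz15 Cfsg.Agent.Lib.Helper6.Sz16 Cfsg.Agent.Lib.Helper6.Sz17
  Cfsg.Agent.Lib.Helper6.Sz18 Cfsg.Agent.Lib.Helper6.Sz19 Cfsg.Agent.Lib.Helper6.SzS1
  Cfsg.Agent.Lib.Helper6.SzS2 Cfsg.Agent.Lib.Helper6.SzS3 Cfsg.Agent.Lib.Helper6.SzS4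
  Cfsg.Agent.Lib.Helper6.SzS5 Cfsg.Agent.Lib.Helper6.SzS6 Cfsg.Agent.Lib.Helper6.SzS7
  Cfsg.Agent.Lib.Helper6.SzS8 Cfsg.Agent.Lib.Helper6.SzT1 Matrix
open scoped Pointwise

variable {F : Type*} [Field F] [Fintype F] {m : ℕ}

/-- the solubilizer of an element -/
def Sol (x : Cfsg.Sz F m) : Set (Cfsg.Sz F m) :=
  {y | Group.IsSolvable (Subgroup.closure ({x, y} : Set (Cfsg.Sz F m)))}

/-- standard position for a pair of distinct points -/
theorem exists_std (hF : Fintype.card F = 2 ^ (2 * m + 1)) {c d : Cfsg.suzukiOvoid F m}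
    (h : c ≠ d) : ∃ g : Cfsg.Sz F m, g • ainf F m = c ∧ g • apt m (0 : F) 0 = d := by
  have := two_trans hF (m := m)
  rw [MulAction.is_two_pretransitive_iff] at this
  exact this (apt_ne_ainf m 0 0).symm h

/-- an element fixing two distinct points is a conjugate of a torus element -/
theorem two_fix_form (hm : 1 ≤ m) (hF : Fintype.card F = 2 ^ (2 * m + 1))
    {c d : Cfsg.suzukiOvoid F m} {g : Cfsg.Sz F m} (hg : g • ainf F m = c)
    (hg' : g • apt m (0 : F) 0 = d) {h : Cfsg.Sz F m} (hc : h • c = c) (hd : h • d = d) :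
    ∃ k : Fˣ, h = g * hS hF k * g⁻¹ := by
  have h1 : (g⁻¹ * h * g) • ainf F m = ainf F m := by
    rw [mul_smul, mul_smul, hg, hc, ← hg, inv_smul_smul]
  have h2 : (g⁻¹ * h * g) • apt m (0 : F) 0 = apt m 0 0 := by
    rw [mul_smul, mul_smul, hg', hd, ← hg', inv_smul_smul]
  obtain ⟨k, hk⟩ := mem_torus_of_fix hm hF h1 h2
  refine ⟨k, ?_⟩
  have hk' : hS hF k = g⁻¹ * h * g := hk
  rw [hk']
  group

/-- elements fixing two distinct points commute -/
theorem pair_comm (hm : 1 ≤ m) (hF : Fintype.card F = 2 ^ (2 * m + 1))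
    {c d : Cfsg.suzukiOvoid F m} (hcd : c ≠ d) {a b : Cfsg.Sz F m} (ac : a • c = c)
    (ad : a • d = d) (bc : b • c = c) (bd : b • d = d) : a * b = b * a := by
  obtain ⟨g, hg, hg'⟩ := exists_std hF hcd
  obtain ⟨k, rfl⟩ := two_fix_form hm hF hg hg' ac ad
  obtain ⟨k', rfl⟩ := two_fix_form hm hF hg hg' bc bd
  have h1 : hS hF k * hS hF k' = hS hF k' * hS hF k := by rw [hS_mul, hS_mul, mul_comm]
  calc g * hS hF k * g⁻¹ * (g * hS hF k' * g⁻¹) = g * (hS hF k * hS hF k') * g⁻¹ := by group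
    _ = g * (hS hF k' * hS hF k) * g⁻¹ := by rw [h1]
    _ = _ := by group

/-- the stabiliser of an unordered pair of points -/
def Npair (c d : Cfsg.suzukiOvoid F m) : Subgroup (Cfsg.Sz F m) :=
  MulAction.stabilizer (Cfsg.Sz F m) ({c, d} : Set (Cfsg.suzukiOvoid F m))

omit [Fintype F] in
theorem mem_Npair {c d : Cfsg.suzukiOvoid F m} {g : Cfsg.Sz F m} :
    g ∈ Npair c d ↔ (g • c = c ∧ g • d = d) ∨ (g • c = d ∧ g • d = c) := by
  unfold Npair
  rw [MulAction.mem_stabilizer_iff, Set.smul_set_insert, Set.smul_set_singleton,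
    Set.pair_eq_pair_iff]

/-- an element swapping two points, in standard position -/
theorem swap_form (hm : 1 ≤ m) (hF : Fintype.card F = 2 ^ (2 * m + 1))
    {c d : Cfsg.suzukiOvoid F m} {g : Cfsg.Sz F m} (hg : g • ainf F m = c)
    (hg' : g • apt m (0 : F) 0 = d) {x : Cfsg.Sz F m} (xc : x • c = d) (xd : x • d = c) :
    ∃ l : Fˣ, x = g * (wS hF * hS hF l) * g⁻¹ := by
  have h1 : (wS hF * (g⁻¹ * x * g)) • ainf F m = ainf F m := by
    rw [mul_smul, mul_smul, mul_smul, hg, xc, ← hg', inv_smul_smul, wS_apt_zero]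
  have h2 : (wS hF * (g⁻¹ * x * g)) • apt m (0 : F) 0 = apt m 0 0 := by
    rw [mul_smul, mul_smul, mul_smul, hg', xd, ← hg, inv_smul_smul, wS_ainf]
  obtain ⟨l, hl⟩ := mem_torus_of_fix hm hF h1 h2
  refine ⟨l, ?_⟩
  have hl' : hS hF l = wS hF * (g⁻¹ * x * g) := hl
  rw [hl', ← mul_assoc (wS hF), wS_mul_self, one_mul]
  group

theorem wh_sq (hF : Fintype.card F = 2 ^ (2 * m + 1)) (l : Fˣ) :
    (wS (m := m) hF * hS hF l) * (wS hF * hS hF l) = 1 := by
  calc (wS (m := m) hF * hS hF l) * (wS hF * hS hF l)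
      = wS hF * (hS hF l * wS hF) * hS hF l := by group
    _ = wS hF * (wS hF * hS hF l⁻¹) * hS hF l := by rw [hS_mul_wS]
    _ = (wS hF * wS hF) * (hS hF l⁻¹ * hS hF l) := by group
    _ = 1 := by rw [wS_mul_self, hS_mul, inv_mul_cancel, hS_one, one_mul]

/-- an element swapping two points is an involution -/
theorem swap_sq (hm : 1 ≤ m) (hF : Fintype.card F = 2 ^ (2 * m + 1))
    {c d : Cfsg.suzukiOvoid F m} (hcd : c ≠ d) {x : Cfsg.Sz F m} (xc : x • c = d)
    (xd : x • d = c) : x * x = 1 := by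
  obtain ⟨g, hg, hg'⟩ := exists_std hF hcd
  obtain ⟨l, rfl⟩ := swap_form hm hF hg hg' xc xd
  calc g * (wS hF * hS hF l) * g⁻¹ * (g * (wS hF * hS hF l) * g⁻¹)
      = g * ((wS hF * hS hF l) * (wS hF * hS hF l)) * g⁻¹ := by group
    _ = 1 := by rw [wh_sq]; group

/-- an element swapping two points inverts the elements fixing both -/
theorem swap_inv (hm : 1 ≤ m) (hF : Fintype.card F = 2 ^ (2 * m + 1))
    {c d : Cfsg.suzukiOvoid F m} (hcd : c ≠ d) {x : Cfsg.Sz F m} (xc : x • c = d)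
    (xd : x • d = c) {h : Cfsg.Sz F m} (hc : h • c = c) (hd : h • d = d) :
    x * h * x⁻¹ = h⁻¹ := by
  obtain ⟨g, hg, hg'⟩ := exists_std hF hcd
  obtain ⟨l, rfl⟩ := swap_form hm hF hg hg' xc xd
  obtain ⟨k, rfl⟩ := two_fix_form hm hF hg hg' hc hd
  have h1 : wS (m := m) hF * hS hF l * hS hF k * (wS hF * hS hF l)⁻¹ = (hS hF k)⁻¹ := by
    have h2 : (wS (m := m) hF * hS hF l)⁻¹ = wS hF * hS hF l :=
      inv_eq_of_mul_eq_one_right (wh_sq hF l)
    rw [h2]
    calc wS (m := m) hF * hS hF l * hS hF k * (wS hF * hS hF l)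
        = wS hF * (hS hF l * hS hF k) * wS hF * hS hF l := by group
      _ = wS hF * (hS hF (l * k) * wS hF) * hS hF l := by rw [hS_mul]; group
      _ = wS hF * (wS hF * hS hF (l * k)⁻¹) * hS hF l := by rw [hS_mul_wS]
      _ = (wS hF * wS hF) * (hS hF (l * k)⁻¹ * hS hF l) := by group
      _ = (hS hF k)⁻¹ := by
        rw [wS_mul_self, hS_mul, one_mul, hS_inv]
        congr 1
        rw [_root_.mul_inv_rev, inv_mul_cancel_right]
  calc g * (wS hF * hS hF l) * g⁻¹ * (g * hS hF k * g⁻¹) * (g * (wS hF * hS hF l) * g⁻¹)⁻¹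
      = g * (wS hF * hS hF l * hS hF k * (wS hF * hS hF l)⁻¹) * g⁻¹ := by group
    _ = g * (hS hF k)⁻¹ * g⁻¹ := by rw [h1]
    _ = _ := by group

/-- point stabilisers are solvable -/
theorem sol_stab (hm : 1 ≤ m) (hF : Fintype.card F = 2 ^ (2 * m + 1))
    (c : Cfsg.suzukiOvoid F m) :
    Group.IsSolvable (MulAction.stabilizer (Cfsg.Sz F m) c) := by
  have := pretransitive hF (m := m)
  obtain ⟨g, hg⟩ := MulAction.exists_smul_eq (Cfsg.Sz F m) (ainf F m) c
  have := solvable_Bt hm hF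
  exact Group.isSolvable_of_isSolvable_injective
    (f := (MulAction.stabilizerEquivStabilizer (hg.symm)).symm.toMonoidHom) (MulEquiv.injective _)

/-- stabilisers of unordered pairs are solvable -/
theorem sol_Npair (hm : 1 ≤ m) (hF : Fintype.card F = 2 ^ (2 * m + 1))
    {c d : Cfsg.suzukiOvoid F m} (hcd : c ≠ d) : Group.IsSolvable (Npair c d) := by
  apply solvable_of_comm_mem (Npair c d)
    (MulAction.stabilizer (Cfsg.Sz F m) c ⊓ MulAction.stabilizer (Cfsg.Sz F m) d)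
  · intro a ha b hb
    exact pair_comm hm hF hcd ha.1 ha.2 hb.1 hb.2
  · intro g hg h hh
    rw [mem_Npair] at hg hh
    rw [Subgroup.mem_inf, MulAction.mem_stabilizer_iff, MulAction.mem_stabilizer_iff]
    rcases hg with ⟨g1, g2⟩ | ⟨g1, g2⟩ <;> rcases hh with ⟨h1, h2⟩ | ⟨h1, h2⟩
    · have g3 : g⁻¹ • c = c := inv_smul_eq_iff.mpr g1.symm
      have g4 : g⁻¹ • d = d := inv_smul_eq_iff.mpr g2.symm
      have h3 : h⁻¹ • c = c := inv_smul_eq_iff.mpr h1.symm
      have h4 : h⁻¹ • d = d := inv_smul_eq_iff.mpr h2.symm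
      simp [mul_smul, *]
    · have g3 : g⁻¹ • c = c := inv_smul_eq_iff.mpr g1.symm
      have g4 : g⁻¹ • d = d := inv_smul_eq_iff.mpr g2.symm
      have h3 : h⁻¹ • d = c := inv_smul_eq_iff.mpr h1.symm
      have h4 : h⁻¹ • c = d := inv_smul_eq_iff.mpr h2.symm
      simp [mul_smul, *]
    · have g3 : g⁻¹ • d = c := inv_smul_eq_iff.mpr g1.symm
      have g4 : g⁻¹ • c = d := inv_smul_eq_iff.mpr g2.symm
      have h3 : h⁻¹ • c = c := inv_smul_eq_iff.mpr h1.symm
      have h4 : h⁻¹ • d = d := inv_smul_eq_iff.mpr h2.symm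
      simp [mul_smul, *]
    · have g3 : g⁻¹ • d = c := inv_smul_eq_iff.mpr g1.symm
      have g4 : g⁻¹ • c = d := inv_smul_eq_iff.mpr g2.symm
      have h3 : h⁻¹ • d = c := inv_smul_eq_iff.mpr h1.symm
      have h4 : h⁻¹ • c = d := inv_smul_eq_iff.mpr h2.symm
      simp [mul_smul, *]

/-- the normaliser of a torus has four times its order -/
theorem isT_card_norm (hm : 1 ≤ m) (hF : Fintype.card F = 2 ^ (2 * m + 1))
    {T : Subgroup (Cfsg.Sz F m)} (hT : IsT T) :
    Nat.card (Subgroup.normalizer (T : Set (Cfsg.Sz F m))) = 4 * Nat.card T := by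
  obtain ⟨A, B, hA, hB, cA, cB, nA, nB, hconj⟩ := tori hm hF
  have key : ∀ A : Subgroup (Cfsg.Sz F m),
      Nat.card (Subgroup.normalizer (A : Set (Cfsg.Sz F m))) = 4 * Nat.card A → Conj A T →
      Nat.card (Subgroup.normalizer (T : Set (Cfsg.Sz F m))) = 4 * Nat.card T := by
    rintro A nA ⟨g, hg⟩
    have e : T = A.map (MulAut.conj g).toMonoidHom := by
      ext x
      rw [mem_conj]
      exact hg x
    rw [e, ← Subgroup.map_equiv_normalizer_eq,
      Subgroup.card_map_of_injective (MulAut.conj g).injective,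
      Subgroup.card_map_of_injective (MulAut.conj g).injective]
    exact nA
  rcases hconj T hT with h | h
  · exact key A nA h
  · exact key B nB h

theorem isT_card_odd (hm : 1 ≤ m) (hF : Fintype.card F = 2 ^ (2 * m + 1))
    {T : Subgroup (Cfsg.Sz F m)} (hT : IsT T) : Odd (Nat.card T) := by
  have := (hT.card_ge hm hF).2
  rw [← Nat.not_even_iff_odd, even_iff_two_dvd]
  exact this

/-- tori are commutative -/
theorem isT_comm (hm : 1 ≤ m) (hF : Fintype.card F = 2 ^ (2 * m + 1))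
    {T : Subgroup (Cfsg.Sz F m)} (hT : IsT T) {a b : Cfsg.Sz F m} (ha : a ∈ T) (hb : b ∈ T) :
    a * b = b * a := by
  have := hT.cyclic hm hF
  exact congrArg Subtype.val (comm_of_cyclic (⟨a, ha⟩ : T) ⟨b, hb⟩)

/-- normalisers of tori are solvable -/
theorem sol_normT (hm : 1 ≤ m) (hF : Fintype.card F = 2 ^ (2 * m + 1))
    {T : Subgroup (Cfsg.Sz F m)} (hT : IsT T) :
    Group.IsSolvable (Subgroup.normalizer (T : Set (Cfsg.Sz F m))) := by
  apply solvable_of_comm_mem _ T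
  · intro a ha b hb
    exact isT_comm hm hF hT ha hb
  · intro g hg h hh
    exact comm_mem T (isT_card_norm hm hF hT) hg hh

/-- the Suzuki group is not solvable -/
theorem not_solvable (hm : 1 ≤ m) (hF : Fintype.card F = 2 ^ (2 * m + 1)) :
    ¬ Group.IsSolvable (Cfsg.Sz F m) := by
  intro h
  have := nontrivial_Sz hm hF
  have := Group.IsSolvable.commutator_lt_top_of_nontrivial (Cfsg.Sz F m)
  rw [perfect hm hF] at this
  exact lt_irrefl _ this

/-- a 2-element is not fixed-point-free -/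
theorem not_fpf_of_sq (hF : Fintype.card F = 2 ^ (2 * m + 1)) {t : Cfsg.Sz F m}
    (h2 : t * t = 1) : ¬ Fpf t := by
  intro h
  obtain ⟨a, ha⟩ := exists_fix_of_two_pow hF (y := t) (j := 1) (by rw [pow_one, pow_two, h2])
  exact h a ha

/-- an involution normalising a torus inverts it -/
theorem invol_inverts (hm : 1 ≤ m) (hF : Fintype.card F = 2 ^ (2 * m + 1))
    {T : Subgroup (Cfsg.Sz F m)} (hT : IsT T) {t : Cfsg.Sz F m}
    (ht : t ∈ Subgroup.normalizer (T : Set (Cfsg.Sz F m))) (h1 : t ≠ 1) (h2 : t * t = 1)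
    {τ : Cfsg.Sz F m} (hτ : τ ∈ T) : t * τ * t⁻¹ = τ⁻¹ := by
  have hti : t⁻¹ = t := inv_eq_of_mul_eq_one_right h2
  have hconj : t * τ * t⁻¹ ∈ T := (Subgroup.mem_normalizer_iff.mp ht τ).mp hτ
  by_cases hu1 : τ * (t * τ * t⁻¹) = 1
  · exact eq_inv_of_mul_eq_one_right hu1
  · exfalso
    have huT : τ * (t * τ * t⁻¹) ∈ T := mul_mem hτ hconj
    obtain ⟨hfpf, hcent⟩ := hT.fpf hm hF huT hu1
    have h3 : (t * τ * t⁻¹) * τ = τ * (t * τ * t⁻¹) := isT_comm hm hF hT hconj hτ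
    rw [hti] at h3 hcent huT
    have hcomm : (τ * (t * τ * t)) * t = t * (τ * (t * τ * t)) := by
      calc (τ * (t * τ * t)) * t = τ * t * τ * (t * t) := by group
        _ = (t * t) * τ * t * τ := by rw [h2]; group
        _ = t * ((t * τ * t) * τ) := by group
        _ = t * (τ * (t * τ * t)) := by rw [h3]
    have htT : t ∈ T := by
      rw [← hcent, Subgroup.mem_centralizer_iff]
      intro z hz
      rw [Set.mem_singleton_iff] at hz
      subst hz
      exact hcomm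
    exact not_fpf_of_sq hF h2 (hT.fpf hm hF htT h1).1

/-- the product of two involutions normalising a torus lies in the torus -/
theorem invol_prod_mem (hm : 1 ≤ m) (hF : Fintype.card F = 2 ^ (2 * m + 1))
    {T : Subgroup (Cfsg.Sz F m)} (hT : IsT T) {t t' : Cfsg.Sz F m}
    (ht : t ∈ Subgroup.normalizer (T : Set (Cfsg.Sz F m))) (h1 : t ≠ 1) (h2 : t * t = 1)
    (ht' : t' ∈ Subgroup.normalizer (T : Set (Cfsg.Sz F m))) (h1' : t' ≠ 1) (h2' : t' * t' = 1) :
    t * t' ∈ T := by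
  obtain ⟨x, hx, hTx⟩ := id hT
  have hxT : x ∈ T := by
    rw [hTx]
    exact Subgroup.mem_centralizer_iff.mpr (fun z hz => by rw [Set.mem_singleton_iff.mp hz])
  have e1 := invol_inverts hm hF hT ht h1 h2 (inv_mem hxT)
  have e2 := invol_inverts hm hF hT ht' h1' h2' hxT
  rw [inv_inv] at e1
  rw [hTx, Subgroup.mem_centralizer_iff]
  intro z hz
  rw [Set.mem_singleton_iff] at hz
  subst hz
  calc z * (t * t') = (t * (t' * z * t'⁻¹) * t⁻¹)  * (t * t') := by rw [e2, e1]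
    _ = t * t' * z := by group

end Cfsg.Agent.Lib.Helper6.SzT2
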