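import Mathlib
import Cfsg.Prelude.Def_LieExceptional
import Cfsg.Agent.Lib.Helper6.SzT2

/-!
# Solubilizers in the Suzuki groups: characterisation of the solubilizer when `2m+1` is prime
-/

set_option autoImplicit false
set_option linter.unusedSimpArgs false
set_option linter.unusedVariables false
set_option linter.unusedSectionVars false

namespace Cfsg.Agent.Lib.Helper6.SzT3

open Cfsg Cfsg.Agent.Lib.Helper6.Sz0 Cfsg.Agent.Lib.Helper6.Sz1 Cfsg.Agent.Lib.Helper6.Sz2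
  Cfsg.Agent.Lib.Helper6.Sz3 Cfsg.Agent.Lib.Helper6.Sz4 Cfsg.Agent.Lib.Helper6.Sz5
  Cfsg.Agent.Lib.Helper6.Sz6 Cfsg.Agent.Lib.Helper6.Sz7 Cfsg.Agent.Lib.Helper6.Sz8
  Cfsg.Agent.Lib.Helper6.Sz9 Cfsg.Agent.Lib.Helper6.Sz10 Cfsg.Agent.Lib.Helper6.Sz11
  Cfsg.Agent.Lib.Helper6.Sz12 Cfsg.Agent.Lib.Helper6.Sz13 Cfsg.Agent.Lib.Helper6.Sz14
  Cfsg.Agent.Lib.Helper6.Sz15 Cfsg.Agent.Lib.Helper6.Sz16 Cfsg.Agent.Lib.Helper6.Sz17
  Cfsg.Agent.Lib.Helper6.Sz18 Cfsg.Agent.Lib.Helper6.Sz19 Cfsg.Agent.Lib.Helper6.SzS1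
  Cfsg.Agent.Lib.Helper6.SzS2 Cfsg.Agent.Lib.Helper6.SzS3 Cfsg.Agent.Lib.Helper6.SzS4
  Cfsg.Agent.Lib.Helper6.SzS5 Cfsg.Agent.Lib.Helper6.SzS6 Cfsg.Agent.Lib.Helper6.SzS7
  Cfsg.Agent.Lib.Helper6.SzS8 Cfsg.Agent.Lib.Helper6.SzT1 Cfsg.Agent.Lib.Helper6.SzT2 Matrix
open scoped Pointwise

variable {F : Type*} [Field F] [Fintype F] {m : ℕ}

theorem q_ge_eight (hm : 1 ≤ m) : 8 ≤ 2 ^ (2 * m + 1) := by
  calc 8 = 2 ^ 3 := by norm_num
    _ ≤ 2 ^ (2 * m + 1) := Nat.pow_le_pow_right (by norm_num) (by omega)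

theorem pow_eq_one_of_conj {G : Type*} [Group G] {t z : G} {n : ℕ}
    (h : (t⁻¹ * z * t) ^ n = 1) : z ^ n = 1 := by
  have h6 : z = t * (t⁻¹ * z * t) * t⁻¹ := by group
  rw [h6, conj_pow, h]
  group

omit [Fintype F] in
theorem self_mem_centralizer (z : Cfsg.Sz F m) :
    z ∈ Subgroup.centralizer ({z} : Set (Cfsg.Sz F m)) :=
  Subgroup.mem_centralizer_iff.mpr (fun y hy => by rw [Set.mem_singleton_iff.mp hy])

omit [Fintype F] in
theorem mem_centralizer_single {z g : Cfsg.Sz F m} :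
    g ∈ Subgroup.centralizer ({z} : Set (Cfsg.Sz F m)) ↔ z * g = g * z := by
  rw [Subgroup.mem_centralizer_iff]
  constructor
  · intro h
    exact h z rfl
  · intro h y hy
    rw [Set.mem_singleton_iff.mp hy]
    exact h

omit [Fintype F] in
theorem fpf_or_fix (x : Cfsg.Sz F m) : Fpf x ∨ ∃ a : Cfsg.suzukiOvoid F m, x • a = a := by
  by_cases h : Fpf x
  · exact Or.inl h
  · right
    unfold Fpf at h
    push Not at h
    exact h

/-- the normaliser of a Sylow 2-subgroup fixes a point -/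
theorem fix_of_sylow (hm : 1 ≤ m) (hF : Fintype.card F = 2 ^ (2 * m + 1))
    (P : Sylow 2 (Cfsg.Sz F m)) :
    ∃ c : Cfsg.suzukiOvoid F m, ∀ g ∈ Subgroup.normalizer
      ((P : Subgroup (Cfsg.Sz F m)) : Set (Cfsg.Sz F m)), g • c = c := by
  obtain ⟨t, ht⟩ := sylow_conj hm hF P
  refine ⟨t⁻¹ • ainf F m, fun g hg => ?_⟩
  have h1 : t * g * t⁻¹ ∈ Subgroup.normalizer
      ((Usub hF : Subgroup (Cfsg.Sz F m)) : Set (Cfsg.Sz F m)) := by
    rw [Subgroup.mem_normalizer_iff] at hg ⊢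
    intro h
    have e1 : h ∈ Usub hF ↔ t⁻¹ * h * t ∈ (P : Subgroup (Cfsg.Sz F m)) := by
      rw [ht]
      have : t * (t⁻¹ * h * t) * t⁻¹ = h := by group
      rw [this]
    have e2 : t * g * t⁻¹ * h * (t * g * t⁻¹)⁻¹ ∈ Usub hF ↔
        g * (t⁻¹ * h * t) * g⁻¹ ∈ (P : Subgroup (Cfsg.Sz F m)) := by
      rw [ht]
      have : t * (g * (t⁻¹ * h * t) * g⁻¹) * t⁻¹ = t * g * t⁻¹ * h * (t * g * t⁻¹)⁻¹ := by group
      rw [this]
    rw [e1, e2]
    exact hg _
  rw [normalizer_Usub hm hF] at h1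
  have h2 : (t * g * t⁻¹) • ainf F m = ainf F m := h1
  rw [mul_smul, mul_smul, smul_eq_iff_eq_inv_smul] at h2
  exact h2

/-- the normaliser of a cyclic subgroup of order `q - 1` stabilises a pair of points -/
theorem pair_of_cyclic (hm : 1 ≤ m) (hF : Fintype.card F = 2 ^ (2 * m + 1))
    (U : Subgroup (Cfsg.Sz F m)) (hc : IsCyclic U) (hcard : Nat.card U = 2 ^ (2 * m + 1) - 1) :
    ∃ c d : Cfsg.suzukiOvoid F m, c ≠ d ∧
      Subgroup.normalizer (U : Set (Cfsg.Sz F m)) ≤ Npair c d := by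
  obtain ⟨⟨z, hzU⟩, hz⟩ := hc.exists_generator
  have hq := q_ge_eight hm
  have hord : orderOf z = 2 ^ (2 * m + 1) - 1 := by
    rw [← hcard, ← orderOf_eq_card_of_forall_mem_zpowers hz]
    exact (Subgroup.orderOf_mk z hzU).symm
  have hz1 : z ≠ 1 := by
    intro h
    rw [h, orderOf_one] at hord
    omega
  have hnf : ¬ Fpf z := by
    intro hf
    have h1 := hf.card_dvd hm hF
    have h2 : orderOf z ∣ Nat.card (Subgroup.centralizer ({z} : Set (Cfsg.Sz F m))) :=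
      Subgroup.orderOf_dvd_natCard _ (self_mem_centralizer z)
    have h3 : orderOf z ∣ 2 :=
      dvd_two_of_dvd (q := 2 ^ (2 * m + 1)) (by omega) (hord ▸ dvd_refl _) (h2.trans h1)
    have := Nat.le_of_dvd (by norm_num) h3
    omega
  obtain ⟨a, ha⟩ := (fpf_or_fix z).resolve_left hnf
  obtain ⟨t, hta, hcase⟩ := conj_cases hm hF hz1 a ha
  rcases hcase with ⟨c, d, hcd, e⟩ | ⟨k, hk, e⟩
  · exfalso
    have h4 : z ^ 4 = 1 := by
      have h5 : (t⁻¹ * z * t) ^ 4 = 1 := by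
        rw [e]
        exact uS_pow_four hF c d
      exact pow_eq_one_of_conj h5
    have h6 := orderOf_dvd_of_pow_eq_one h4
    rw [hord] at h6
    have := Nat.le_of_dvd (by norm_num) h6
    omega
  · have hzt : z = t * hS hF k * t⁻¹ := by
      rw [← e]
      group
    have hne : t • ainf F m ≠ t • apt m (0 : F) 0 := by
      intro h
      exact (apt_ne_ainf m 0 0) (smul_left_cancel t h).symm
    refine ⟨t • ainf F m, t • apt m 0 0, hne, ?_⟩
    intro g hg
    rw [Subgroup.mem_normalizer_iff] at hg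
    have h1 : g * z * g⁻¹ ∈ U := (hg z).mp hzU
    have h2 : (⟨g * z * g⁻¹, h1⟩ : U) ∈ Subgroup.zpowers (⟨z, hzU⟩ : U) := hz _
    rw [← mem_powers_iff_mem_zpowers] at h2
    obtain ⟨n, hn⟩ := h2
    have hn' : z ^ n = g * z * g⁻¹ := congrArg Subtype.val hn
    have hzn : z ^ n = t * hS hF (k ^ n) * t⁻¹ := by
      rw [hzt, ← hS_pow, conj_pow]
    have hkn : k ^ n ≠ 1 := by
      intro h
      rw [h, hS_one, mul_one, mul_inv_cancel] at hzn
      rw [hzn] at hn'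
      apply hz1
      calc z = g⁻¹ * (g * z * g⁻¹) * g := by group
        _ = 1 := by rw [← hn']; group
    have hfix : ∀ p : Cfsg.suzukiOvoid F m, (g * z * g⁻¹) • p = p →
        p = t • ainf F m ∨ p = t • apt m 0 0 := by
      intro p hp
      rw [← hn', hzn, mul_smul, mul_smul, smul_eq_iff_eq_inv_smul] at hp
      rcases hS_fix hF hkn hp with h | h
      · left
        rw [← h, smul_inv_smul]
      · right
        rw [← h, smul_inv_smul]
    have hzc : z • (t • ainf F m) = t • ainf F m := by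
      rw [hzt, mul_smul, mul_smul, inv_smul_smul, hS_ainf]
    have hzd : z • (t • apt m (0 : F) 0) = t • apt m (0 : F) 0 := by
      rw [hzt, mul_smul, mul_smul, inv_smul_smul, hS_apt_zero]
    have f1 := hfix (g • t • ainf F m) (by rw [mul_smul, mul_smul, inv_smul_smul, hzc])
    have f2 := hfix (g • t • apt m 0 0) (by rw [mul_smul, mul_smul, inv_smul_smul, hzd])
    rw [mem_Npair]
    rcases f1 with f1 | f1 <;> rcases f2 with f2 | f2
    · exfalso
      exact hne (smul_left_cancel g (f1.trans f2.symm))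
    · left
      exact ⟨f1, f2⟩
    · right
      exact ⟨f1, f2⟩
    · exfalso
      exact hne (smul_left_cancel g (f1.trans f2.symm))

/-- a non-identity element whose order is large, odd and divides `q^2+1` is fixed-point-free -/
theorem fpf_of_order (hm : 1 ≤ m) (hF : Fintype.card F = 2 ^ (2 * m + 1)) {z : Cfsg.Sz F m}
    {n : ℕ} (hn : orderOf z ∣ n) (h1 : z ≠ 1) (hodd : ¬ 2 ∣ n)
    (hdvd : n ∣ (2 ^ (2 * m + 1)) ^ 2 + 1) : Fpf z := by
  intro a ha
  have ho1 : orderOf z ≠ 1 := fun h => h1 (orderOf_eq_one_iff.mp h)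
  have hoo : ¬ 2 ∣ orderOf z := fun h => hodd (h.trans hn)
  obtain ⟨t, hta, hcase⟩ := conj_cases hm hF h1 a ha
  rcases hcase with ⟨c, d, hcd, e⟩ | ⟨k, hk, e⟩
  · have h4 : z ^ 4 = 1 := by
      have h5 : (t⁻¹ * z * t) ^ 4 = 1 := by
        rw [e]
        exact uS_pow_four hF c d
      exact pow_eq_one_of_conj h5
    have h6 := orderOf_dvd_of_pow_eq_one h4
    have h7 : orderOf z ∈ Nat.divisors 4 := Nat.mem_divisors.mpr ⟨h6, by norm_num⟩
    have hdiv : Nat.divisors 4 = {1, 2, 4} := by decide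
    rw [hdiv] at h7
    simp only [Finset.mem_insert, Finset.mem_singleton] at h7
    rcases h7 with h | h | h
    · exact ho1 h
    · exact hoo (h ▸ dvd_refl _)
    · exact hoo (by rw [h]; norm_num)
  · have hq : z ^ (2 ^ (2 * m + 1) - 1) = 1 := by
      have h5 : (t⁻¹ * z * t) ^ (2 ^ (2 * m + 1) - 1) = 1 := by
        rw [e]
        exact hS_pow_card hF k
      exact pow_eq_one_of_conj h5
    have h6 := orderOf_dvd_of_pow_eq_one hq
    have h7 : orderOf z ∣ 2 :=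
      dvd_two_of_dvd (q := 2 ^ (2 * m + 1)) (by have := q_ge_eight hm; omega) h6
        (hn.trans hdvd)
    rcases (Nat.dvd_prime Nat.prime_two).mp h7 with h | h
    · exact ho1 h
    · exact hoo (h ▸ dvd_refl _)

/-- the normaliser of a cyclic subgroup of torus order normalises a torus -/
theorem torus_of_cyclic (hm : 1 ≤ m) (hF : Fintype.card F = 2 ^ (2 * m + 1))
    (U : Subgroup (Cfsg.Sz F m)) (hc : IsCyclic U) (h5 : 5 ≤ Nat.card U)
    (hodd : ¬ 2 ∣ Nat.card U) (hdvd : Nat.card U ∣ (2 ^ (2 * m + 1)) ^ 2 + 1) :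
    ∃ T : Subgroup (Cfsg.Sz F m), IsT T ∧
      Subgroup.normalizer (U : Set (Cfsg.Sz F m)) ≤
        Subgroup.normalizer (T : Set (Cfsg.Sz F m)) := by
  obtain ⟨⟨z, hzU⟩, hz⟩ := hc.exists_generator
  have hord : orderOf z = Nat.card U := by
    rw [← orderOf_eq_card_of_forall_mem_zpowers hz]
    exact (Subgroup.orderOf_mk z hzU).symm
  have hz1 : z ≠ 1 := by
    intro h
    rw [h, orderOf_one] at hord
    omega
  have hf : Fpf z := fpf_of_order hm hF (hord ▸ dvd_refl _) hz1 hodd hdvd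
  refine ⟨Subgroup.centralizer {z}, IsT.of_fpf hf, ?_⟩
  intro g hg
  rw [Subgroup.mem_normalizer_iff] at hg ⊢
  have h1 : g * z * g⁻¹ ∈ U := (hg z).mp hzU
  have hUT : ∀ u ∈ U, u ∈ Subgroup.centralizer ({z} : Set (Cfsg.Sz F m)) := by
    intro u hu
    rw [mem_centralizer_single]
    exact congrArg Subtype.val (comm_of_cyclic (⟨z, hzU⟩ : U) ⟨u, hu⟩)
  have h2 := (IsT.fpf hm hF (IsT.of_fpf hf) (hUT _ h1) (conj_ne hz1)).2
  intro h
  have e : g * h * g⁻¹ ∈ Subgroup.centralizer ({z} : Set (Cfsg.Sz F m)) ↔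
      g * h * g⁻¹ ∈ Subgroup.centralizer ({g * z * g⁻¹} : Set (Cfsg.Sz F m)) := by rw [h2]
  have e2 : g⁻¹ * (g * h * g⁻¹) * g = h := by group
  rw [e, mem_centralizer_conj, e2]

/-- characterisation of the solubilizer when `2m+1` is prime -/
theorem sol_iff (hm : 1 ≤ m) (hp : (2 * m + 1).Prime) (hF : Fintype.card F = 2 ^ (2 * m + 1))
    (x y : Cfsg.Sz F m) :
    y ∈ Sol x ↔ (∃ c : Cfsg.suzukiOvoid F m, x • c = c ∧ y • c = c) ∨
      (∃ c d : Cfsg.suzukiOvoid F m, c ≠ d ∧ x ∈ Npair c d ∧ y ∈ Npair c d) ∨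
      (∃ T : Subgroup (Cfsg.Sz F m), IsT T ∧
        x ∈ Subgroup.normalizer (T : Set (Cfsg.Sz F m)) ∧
        y ∈ Subgroup.normalizer (T : Set (Cfsg.Sz F m))) := by
  constructor
  · intro h
    have hx : x ∈ Subgroup.closure ({x, y} : Set (Cfsg.Sz F m)) :=
      Subgroup.subset_closure (by simp)
    have hy : y ∈ Subgroup.closure ({x, y} : Set (Cfsg.Sz F m)) :=
      Subgroup.subset_closure (by simp)
    have hne : Subgroup.closure ({x, y} : Set (Cfsg.Sz F m)) ≠ ⊤ := by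
      intro htop
      apply not_solvable hm hF
      have h' : Group.IsSolvable (Subgroup.closure ({x, y} : Set (Cfsg.Sz F m))) := h
      rw [htop] at h'
      exact Group.isSolvable_of_surjective
        (f := (Subgroup.topEquiv : (⊤ : Subgroup (Cfsg.Sz F m)) ≃* Cfsg.Sz F m).toMonoidHom)
        (MulEquiv.surjective _)
    obtain ⟨A, B, hA, hB, cA, cB, -, -, -⟩ := tori hm hF
    have tor : ∀ U : Subgroup (Cfsg.Sz F m), IsCyclic U →
        Subgroup.closure ({x, y} : Set (Cfsg.Sz F m)) ≤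
          Subgroup.normalizer (U : Set (Cfsg.Sz F m)) →
        ∀ A : Subgroup (Cfsg.Sz F m), IsT A → Nat.card U = Nat.card A →
        ∃ T : Subgroup (Cfsg.Sz F m), IsT T ∧
        x ∈ Subgroup.normalizer (T : Set (Cfsg.Sz F m)) ∧
        y ∈ Subgroup.normalizer (T : Set (Cfsg.Sz F m)) := by
      intro U hc hle A hA hUA
      obtain ⟨T, hT, hN⟩ := torus_of_cyclic hm hF U hc (hUA ▸ (hA.card_ge hm hF).1)
        (hUA ▸ (hA.card_ge hm hF).2) (hUA ▸ hA.card_dvd hm hF)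
      exact ⟨T, hT, hN (hle hx), hN (hle hy)⟩
    rcases subgroups hm hF _ hne with ⟨P, hle⟩ | ⟨U, hc, hcard, hle⟩ |
      ⟨K, _, _, k, hk1, hkm, hK, hdvd, _⟩
    · obtain ⟨c, hc⟩ := fix_of_sylow hm hF P
      exact Or.inl ⟨c, hc x (hle hx), hc y (hle hy)⟩
    · simp only [Set.mem_insert_iff, Set.mem_singleton_iff] at hcard
      rcases hcard with h1 | h1 | h1
      · obtain ⟨c, d, hcd, hN⟩ := pair_of_cyclic hm hF U hc h1
        exact Or.inr (Or.inl ⟨c, d, hcd, hN (hle hx), hN (hle hy)⟩)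
      · exact Or.inr (Or.inr (tor U hc hle A hA (h1.trans cA.symm)))
      · exact Or.inr (Or.inr (tor U hc hle B hB (h1.trans cB.symm)))
    · exfalso
      rcases (Nat.dvd_prime hp).mp hdvd with h1 | h1 <;> omega
  · rintro (⟨c, hx, hy⟩ | ⟨c, d, hcd, hx, hy⟩ | ⟨T, hT, hx, hy⟩)
    · exact solvable_of_le (closure_pair_le (M := MulAction.stabilizer (Cfsg.Sz F m) c) hx hy)
        (sol_stab hm hF c)
    · exact solvable_of_le (closure_pair_le hx hy) (sol_Npair hm hF hcd)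
    · exact solvable_of_le (closure_pair_le hx hy) (sol_normT hm hF hT)

end Cfsg.Agent.Lib.Helper6.SzT3
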