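import Mathlib
import Cfsg.Prelude.Def_LieExceptional
import Cfsg.Agent.Lib.Helper6.SzT3

/-!
# Solubilizers in the Suzuki groups: elements of odd order
-/

set_option autoImplicit false
set_option linter.unusedSimpArgs false
set_option linter.unusedVariables false
set_option linter.unusedSectionVars false

namespace Cfsg.Agent.Lib.Helper6.SzT4

open Cfsg Cfsg.Agent.Lib.Helper6.Sz0 Cfsg.Agent.Lib.Helper6.Sz1 Cfsg.Agent.Lib.Helper6.Sz2
  Cfsg.Agent.Lib.Helper6.Sz3 Cfsg.Agent.Lib.Helper6.Sz4 Cfsg.Agent.Lib.Helper6.Sz5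
  Cfsg.Agent.Lib.Helper6.Sz6 Cfsg.Agent.Lib.Helper6.Sz7 Cfsg.Agent.Lib.Helper6.Sz8
  Cfsg.Agent.Lib.Helper6.Sz9 Cfsg.Agent.Lib.Helper6.Sz10 Cfsg.Agent.Lib.Helper6.Sz11
  Cfsg.Agent.Lib.Helper6.Sz12 Cfsg.Agent.Lib.Helper6.Sz13 Cfsg.Agent.Lib.Helper6.Sz14
  Cfsg.Agent.Lib.Helper6.Sz15 Cfsg.Agent.Lib.Helper6.Sz16 Cfsg.Agent.Lib.Helper6.Sz17
  Cfsg.Agent.Lib.Helper6.Sz18 Cfsg.Agent.Lib.Helper6.Sz19 Cfsg.Agent.Lib.Helper6.SzS1
  Cfsg.Agent.Lib.Helper6.SzS2 Cfsg.Agent.Lib.Helper6.SzS3 Cfsg.Agent.Lib.Helper6.SzS4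
  Cfsg.Agent.Lib.Helper6.SzS5 Cfsg.Agent.Lib.Helper6.SzS6 Cfsg.Agent.Lib.Helper6.SzS7
  Cfsg.Agent.Lib.Helper6.SzS8 Cfsg.Agent.Lib.Helper6.SzT1 Cfsg.Agent.Lib.Helper6.SzT2
  Cfsg.Agent.Lib.Helper6.SzT3 Matrix
open scoped Pointwise

variable {F : Type*} [Field F] [Fintype F] {m : ℕ}

/-- all point stabilisers have order `q²(q-1)` -/
theorem card_stab_pt (hm : 1 ≤ m) (hF : Fintype.card F = 2 ^ (2 * m + 1))
    (c : Cfsg.suzukiOvoid F m) :
    Nat.card (MulAction.stabilizer (Cfsg.Sz F m) c) =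
      (2 ^ (2 * m + 1)) ^ 2 * (2 ^ (2 * m + 1) - 1) := by
  have := pretransitive hF (m := m)
  have h1 := Subgroup.card_mul_index (MulAction.stabilizer (Cfsg.Sz F m) c)
  rw [MulAction.index_stabilizer_of_transitive, card_ovoid, card_Sz hm hF, hF] at h1
  have hpos : 0 < (2 ^ (2 * m + 1)) ^ 2 + 1 := by positivity
  apply Nat.eq_of_mul_eq_mul_right hpos
  rw [h1]
  ring

theorem ncard_stab (hm : 1 ≤ m) (hF : Fintype.card F = 2 ^ (2 * m + 1))
    (c : Cfsg.suzukiOvoid F m) :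
    {y : Cfsg.Sz F m | y • c = c}.ncard = (2 ^ (2 * m + 1)) ^ 2 * (2 ^ (2 * m + 1) - 1) := by
  rw [← Nat.card_coe_set_eq]
  exact card_stab_pt hm hF c

omit [Fintype F] in
theorem ncard_Sol_conj (g x : Cfsg.Sz F m) : (Sol (g * x * g⁻¹)).ncard = (Sol x).ncard := by
  rw [← Nat.card_coe_set_eq, ← Nat.card_coe_set_eq]
  exact (card_sol_map (MulAut.conj g) x).symm

theorem ncard_torus_set (hm : 1 ≤ m) (hF : Fintype.card F = 2 ^ (2 * m + 1)) :
    {y : Cfsg.Sz F m | y • ainf F m = ainf F m ∧ y • apt m (0 : F) 0 = apt m 0 0}.ncard =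
      2 ^ (2 * m + 1) - 1 := by
  have h : {y : Cfsg.Sz F m | y • ainf F m = ainf F m ∧ y • apt m (0 : F) 0 = apt m 0 0} =
      ((torusHom hF).range : Set (Cfsg.Sz F m)) := by
    ext y
    constructor
    · rintro ⟨h1, h2⟩
      exact mem_torus_of_fix hm hF h1 h2
    · rintro ⟨k, rfl⟩
      exact ⟨hS_ainf hF k, hS_apt_zero hF k⟩
  rw [h, ← Nat.card_coe_set_eq]
  exact card_torus hF

theorem ncard_swap_set (hm : 1 ≤ m) (hF : Fintype.card F = 2 ^ (2 * m + 1)) :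
    {y : Cfsg.Sz F m | y • ainf F m = apt m (0 : F) 0 ∧ y • apt m (0 : F) 0 = ainf F m}.ncard =
      2 ^ (2 * m + 1) - 1 := by
  have h : {y : Cfsg.Sz F m | y • ainf F m = apt m (0 : F) 0 ∧ y • apt m (0 : F) 0 = ainf F m} =
      (fun h => wS hF * h) ''
        {y : Cfsg.Sz F m | y • ainf F m = ainf F m ∧ y • apt m (0 : F) 0 = apt m 0 0} := by
    ext y
    constructor
    · rintro ⟨h1, h2⟩
      refine ⟨wS hF * y, ⟨?_, ?_⟩, ?_⟩
      · rw [mul_smul, h1, wS_apt_zero]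
      · rw [mul_smul, h2, wS_ainf]
      · show wS hF * (wS hF * y) = y
        rw [← mul_assoc, wS_mul_self, one_mul]
    · rintro ⟨h, ⟨h1, h2⟩, rfl⟩
      exact ⟨by rw [mul_smul, h1, wS_ainf], by rw [mul_smul, h2, wS_apt_zero]⟩
  rw [h, Set.ncard_image_of_injective _ (mul_right_injective _), ncard_torus_set hm hF]

/-- the solubilizer of a non-identity torus element -/
theorem sol_hS (hm : 1 ≤ m) (hp : (2 * m + 1).Prime) (hF : Fintype.card F = 2 ^ (2 * m + 1))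
    {k : Fˣ} (hk : k ≠ 1) (y : Cfsg.Sz F m) :
    y ∈ Sol (hS hF k) ↔ y • ainf F m = ainf F m ∨ y • apt m (0 : F) 0 = apt m 0 0 ∨
      (y • ainf F m = apt m (0 : F) 0 ∧ y • apt m (0 : F) 0 = ainf F m) := by
  rw [sol_iff hm hp hF]
  constructor
  · rintro (⟨c, hx, hy⟩ | ⟨c, d, hcd, hx, hy⟩ | ⟨T, hT, hx, hy⟩)
    · rcases hS_fix hF hk hx with rfl | rfl
      · exact Or.inl hy
      · exact Or.inr (Or.inl hy)
    · rw [mem_Npair] at hx hy
      rcases hx with ⟨x1, x2⟩ | ⟨x1, x2⟩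
      · rcases hS_fix hF hk x1 with rfl | rfl <;> rcases hS_fix hF hk x2 with rfl | rfl
        · exact absurd rfl hcd
        · rcases hy with ⟨y1, y2⟩ | ⟨y1, y2⟩
          · exact Or.inl y1
          · exact Or.inr (Or.inr ⟨y1, y2⟩)
        · rcases hy with ⟨y1, y2⟩ | ⟨y1, y2⟩
          · exact Or.inl y2
          · exact Or.inr (Or.inr ⟨y2, y1⟩)
        · exact absurd rfl hcd
      · exfalso
        have h1 := swap_sq hm hF hcd x1 x2
        rw [hS_mul] at h1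
        have h2 := hS_inj hF (h1.trans (hS_one hF).symm)
        exact hk (unit_sq_eq_one hF h2)
    · exfalso
      have h4 := pow_four_mem T (isT_card_norm hm hF hT) hx
      rw [hS_pow] at h4
      have hk4 : k ^ 4 ≠ 1 := by
        intro h
        have h2 : (k ^ 2) * (k ^ 2) = 1 := by
          rw [← pow_add]
          exact h
        have h3 := unit_sq_eq_one hF h2
        rw [pow_two] at h3
        exact hk (unit_sq_eq_one hF h3)
      exact (IsT.fpf hm hF hT h4 (hS_ne_one hF hk4)).1 (ainf F m) (hS_ainf hF _)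
  · rintro (h | h | ⟨h1, h2⟩)
    · exact Or.inl ⟨ainf F m, hS_ainf hF k, h⟩
    · exact Or.inl ⟨apt m 0 0, hS_apt_zero hF k, h⟩
    · refine Or.inr (Or.inl ⟨ainf F m, apt m 0 0, (apt_ne_ainf m 0 0).symm, ?_, ?_⟩)
      · rw [mem_Npair]
        exact Or.inl ⟨hS_ainf hF k, hS_apt_zero hF k⟩
      · rw [mem_Npair]
        exact Or.inr ⟨h1, h2⟩

theorem ncard_sol_hS (hm : 1 ≤ m) (hp : (2 * m + 1).Prime)
    (hF : Fintype.card F = 2 ^ (2 * m + 1)) {k : Fˣ} (hk : k ≠ 1) :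
    (Sol (hS hF k)).ncard = 2 * (2 ^ (2 * m + 1)) ^ 2 * (2 ^ (2 * m + 1) - 1) := by
  have hS : Sol (hS hF k) = ({y : Cfsg.Sz F m | y • ainf F m = ainf F m} ∪
      {y : Cfsg.Sz F m | y • apt m (0 : F) 0 = apt m 0 0}) ∪
      {y : Cfsg.Sz F m | y • ainf F m = apt m (0 : F) 0 ∧ y • apt m (0 : F) 0 = ainf F m} := by
    ext y
    rw [sol_hS hm hp hF hk]
    simp only [Set.mem_union, Set.mem_ofPred_eq, or_assoc]
  have hA := ncard_stab hm hF (ainf F m)
  have hB := ncard_stab hm hF (apt m (0 : F) 0)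
  have hAB : ({y : Cfsg.Sz F m | y • ainf F m = ainf F m} ∩
      {y : Cfsg.Sz F m | y • apt m (0 : F) 0 = apt m 0 0}).ncard = 2 ^ (2 * m + 1) - 1 :=
    ncard_torus_set hm hF
  have hW := ncard_swap_set hm hF
  have hdisj : Disjoint ({y : Cfsg.Sz F m | y • ainf F m = ainf F m} ∪
      {y : Cfsg.Sz F m | y • apt m (0 : F) 0 = apt m 0 0})
      {y : Cfsg.Sz F m | y • ainf F m = apt m (0 : F) 0 ∧ y • apt m (0 : F) 0 = ainf F m} := by
    rw [Set.disjoint_left]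
    rintro y (h | h) ⟨h1, h2⟩
    · exact (apt_ne_ainf m 0 0) (h1.symm.trans h)
    · exact (apt_ne_ainf m 0 0) (h.symm.trans h2)
  rw [hS, Set.ncard_union_eq hdisj, hW]
  have h3 := Set.ncard_union_add_ncard_inter {y : Cfsg.Sz F m | y • ainf F m = ainf F m}
      {y : Cfsg.Sz F m | y • apt m (0 : F) 0 = apt m 0 0}
  rw [hA, hB, hAB] at h3
  rw [mul_assoc]
  omega

/-- the solubilizer of a fixed-point-free element -/
theorem sol_fpf (hm : 1 ≤ m) (hp : (2 * m + 1).Prime) (hF : Fintype.card F = 2 ^ (2 * m + 1))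
    {x : Cfsg.Sz F m} (hx : Fpf x) (y : Cfsg.Sz F m) :
    y ∈ Sol x ↔ y ∈ Subgroup.normalizer
      ((Subgroup.centralizer ({x} : Set (Cfsg.Sz F m)) : Subgroup (Cfsg.Sz F m)) :
        Set (Cfsg.Sz F m)) := by
  rw [sol_iff hm hp hF]
  constructor
  · rintro (⟨c, hxc, hy⟩ | ⟨c, d, hcd, hxN, hy⟩ | ⟨T, hT, hxT, hy⟩)
    · exact absurd hxc (hx c)
    · rw [mem_Npair] at hxN
      rcases hxN with ⟨x1, x2⟩ | ⟨x1, x2⟩
      · exact absurd x1 (hx c)
      · exact absurd hx (not_fpf_of_sq hF (swap_sq hm hF hcd x1 x2))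
    · have hodd : Odd (orderOf x) := by
        rw [← Nat.not_even_iff_odd, even_iff_two_dvd]
        exact hx.odd_order hm hF
      have hxT' : x ∈ T := odd_mem T (isT_card_norm hm hF hT) hxT hodd
      have h2 := (IsT.fpf hm hF hT hxT' hx.ne_one).2
      rw [h2]
      exact hy
  · intro hy
    exact Or.inr (Or.inr ⟨_, IsT.of_fpf hx, Subgroup.le_normalizer (self_mem_centralizer x), hy⟩)

theorem coprime_tori (m : ℕ) :
    Nat.Coprime (2 ^ (2 * m + 1) + 2 ^ (m + 1) + 1) (2 ^ (2 * m + 1) - 2 ^ (m + 1) + 1) := by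
  have hr : 2 ^ (m + 1) ≤ 2 ^ (2 * m + 1) := Nat.pow_le_pow_right (by norm_num) (by omega)
  have e : 2 ^ (2 * m + 1) + 2 ^ (m + 1) + 1 =
      (2 ^ (2 * m + 1) - 2 ^ (m + 1) + 1) + 2 ^ (m + 2) := by
    rw [pow_succ 2 (m + 1)]
    omega
  rw [Nat.Coprime, e, Nat.gcd_self_add_left]
  apply Nat.Coprime.pow_left
  rw [Nat.coprime_two_left]
  have h1 : 2 ∣ 2 ^ (2 * m + 1) := dvd_pow_self 2 (by omega)
  have h2 : 2 ∣ 2 ^ (m + 1) := dvd_pow_self 2 (by omega)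
  rw [Nat.odd_iff]
  omega

theorem ncard_sol_fpf (hm : 1 ≤ m) (hp : (2 * m + 1).Prime)
    (hF : Fintype.card F = 2 ^ (2 * m + 1)) {x : Cfsg.Sz F m} (hx1 : x ≠ 1) {n : ℕ}
    (hn : n = 2 ^ (2 * m + 1) + 2 ^ (m + 1) + 1 ∨ n = 2 ^ (2 * m + 1) - 2 ^ (m + 1) + 1)
    (hord : orderOf x ∣ n) : (Sol x).ncard = 4 * n := by
  obtain ⟨A, B, hA, hB, cA, cB, -, -, hconj⟩ := tori hm hF
  have hAodd := (hA.card_ge hm hF).2
  have hBodd := (hB.card_ge hm hF).2
  have hAd := hA.card_dvd hm hF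
  have hBd := hB.card_dvd hm hF
  rw [cA] at hAodd hAd
  rw [cB] at hBodd hBd
  have hx : Fpf x := by
    rcases hn with rfl | rfl
    · exact fpf_of_order hm hF hord hx1 hAodd hAd
    · exact fpf_of_order hm hF hord hx1 hBodd hBd
  have hT := IsT.of_fpf hx
  have hS : Sol x = ((Subgroup.normalizer
      ((Subgroup.centralizer ({x} : Set (Cfsg.Sz F m)) : Subgroup (Cfsg.Sz F m)) :
        Set (Cfsg.Sz F m)) : Subgroup (Cfsg.Sz F m)) : Set (Cfsg.Sz F m)) := by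
    ext y
    exact sol_fpf hm hp hF hx y
  have hN := isT_card_norm hm hF hT
  rw [hS, ← Nat.card_coe_set_eq]
  refine hN.trans ?_
  congr 1
  have hcop := coprime_tori m
  have hdx : orderOf x ∣ Nat.card (Subgroup.centralizer ({x} : Set (Cfsg.Sz F m))) :=
    Subgroup.orderOf_dvd_natCard _ (self_mem_centralizer x)
  have ho1 : orderOf x ≠ 1 := fun h => hx1 (orderOf_eq_one_iff.mp h)
  have hcard : Nat.card (Subgroup.centralizer ({x} : Set (Cfsg.Sz F m))) = Nat.card A ∨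
      Nat.card (Subgroup.centralizer ({x} : Set (Cfsg.Sz F m))) = Nat.card B := by
    rcases hconj _ hT with h | h
    · left
      exact h.card_eq
    · right
      exact h.card_eq
  rw [cA, cB] at hcard
  rcases hn with rfl | rfl <;> rcases hcard with h | h
  · exact h
  · exfalso
    rw [h] at hdx
    exact ho1 (Nat.eq_one_of_dvd_coprimes hcop hord hdx)
  · exfalso
    rw [h] at hdx
    exact ho1 (Nat.eq_one_of_dvd_coprimes hcop hdx hord)
  · exact h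

/-- a non-identity element of order dividing `q - 1` is conjugate to a torus element -/
theorem conj_hS_of_order (hm : 1 ≤ m) (hF : Fintype.card F = 2 ^ (2 * m + 1))
    {x : Cfsg.Sz F m} (hx1 : x ≠ 1) (hord : orderOf x ∣ 2 ^ (2 * m + 1) - 1) :
    ∃ (t : Cfsg.Sz F m) (k : Fˣ), k ≠ 1 ∧ x = t * hS hF k * t⁻¹ := by
  have hq := q_ge_eight hm
  have ho1 : orderOf x ≠ 1 := fun h => hx1 (orderOf_eq_one_iff.mp h)
  have hqodd : ¬ 2 ∣ 2 ^ (2 * m + 1) - 1 := by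
    have h1 : 2 ∣ 2 ^ (2 * m + 1) := dvd_pow_self 2 (by omega)
    omega
  have hoo : ¬ 2 ∣ orderOf x := fun h => hqodd (h.trans hord)
  have hnf : ¬ Fpf x := by
    intro hf
    have h1 := hf.card_dvd hm hF
    have h2 : orderOf x ∣ Nat.card (Subgroup.centralizer ({x} : Set (Cfsg.Sz F m))) :=
      Subgroup.orderOf_dvd_natCard _ (self_mem_centralizer x)
    have h3 : orderOf x ∣ 2 :=
      dvd_two_of_dvd (q := 2 ^ (2 * m + 1)) (by omega) hord (h2.trans h1)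
    rcases (Nat.dvd_prime Nat.prime_two).mp h3 with h | h
    · exact ho1 h
    · exact hoo (h ▸ dvd_refl _)
  obtain ⟨a, ha⟩ := (fpf_or_fix x).resolve_left hnf
  obtain ⟨t, hta, hcase⟩ := conj_cases hm hF hx1 a ha
  rcases hcase with ⟨c, d, hcd, e⟩ | ⟨k, hk, e⟩
  · exfalso
    have h5 : (t⁻¹ * x * t) ^ 4 = 1 := by
      rw [e]
      exact uS_pow_four hF c d
    have h6 := orderOf_dvd_of_pow_eq_one (pow_eq_one_of_conj h5)
    have h7 : orderOf x ∈ Nat.divisors 4 := Nat.mem_divisors.mpr ⟨h6, by norm_num⟩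
    have hdiv : Nat.divisors 4 = {1, 2, 4} := by decide
    rw [hdiv] at h7
    simp only [Finset.mem_insert, Finset.mem_singleton] at h7
    rcases h7 with h | h | h
    · exact ho1 h
    · exact hoo (h ▸ dvd_refl _)
    · exact hoo (by rw [h]; norm_num)
  · refine ⟨t, k, hk, ?_⟩
    rw [← e]
    group

theorem ncard_sol_split (hm : 1 ≤ m) (hp : (2 * m + 1).Prime)
    (hF : Fintype.card F = 2 ^ (2 * m + 1)) {x : Cfsg.Sz F m} (hx1 : x ≠ 1)
    (hord : orderOf x ∣ 2 ^ (2 * m + 1) - 1) :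
    (Sol x).ncard = 2 * (2 ^ (2 * m + 1)) ^ 2 * (2 ^ (2 * m + 1) - 1) := by
  obtain ⟨t, k, hk, rfl⟩ := conj_hS_of_order hm hF hx1 hord
  rw [ncard_Sol_conj]
  exact ncard_sol_hS hm hp hF hk

end Cfsg.Agent.Lib.Helper6.SzT4
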