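import Mathlib
import Cfsg.Prelude.Def_LieExceptional
import Cfsg.Agent.Lib.Helper6.SzT4

/-!
# Solubilizers in the Suzuki groups: the solubilizer of an involution as a disjoint union
-/

set_option autoImplicit false
set_option linter.unusedSimpArgs false
set_option linter.unusedVariables false
set_option linter.unusedSectionVars false

namespace Cfsg.Agent.Lib.Helper6.SzT5

open Cfsg Cfsg.Agent.Lib.Helper6.Sz0 Cfsg.Agent.Lib.Helper6.Sz1 Cfsg.Agent.Lib.Helper6.Sz2
  Cfsg.Agent.Lib.Helper6.Sz3 Cfsg.Agent.Lib.Helper6.Sz4 Cfsg.Agent.Lib.Helper6.Sz5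
  Cfsg.Agent.Lib.Helper6.Sz6 Cfsg.Agent.Lib.Helper6.Sz7 Cfsg.Agent.Lib.Helper6.Sz8
  Cfsg.Agent.Lib.Helper6.Sz9 Cfsg.Agent.Lib.Helper6.Sz10 Cfsg.Agent.Lib.Helper6.Sz11
  Cfsg.Agent.Lib.Helper6.Sz12 Cfsg.Agent.Lib.Helper6.Sz13 Cfsg.Agent.Lib.Helper6.Sz14
  Cfsg.Agent.Lib.Helper6.Sz15 Cfsg.Agent.Lib.Helper6.Sz16 Cfsg.Agent.Lib.Helper6.Sz17
  Cfsg.Agent.Lib.Helper6.Sz18 Cfsg.Agent.Lib.Helper6.Sz19 Cfsg.Agent.Lib.Helper6.SzS1
  Cfsg.Agent.Lib.Helper6.SzS2 Cfsg.Agent.Lib.Helper6.SzS3 Cfsg.Agent.Lib.Helper6.SzS4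
  Cfsg.Agent.Lib.Helper6.SzS5 Cfsg.Agent.Lib.Helper6.SzS6 Cfsg.Agent.Lib.Helper6.SzS7
  Cfsg.Agent.Lib.Helper6.SzS8 Cfsg.Agent.Lib.Helper6.SzT1 Cfsg.Agent.Lib.Helper6.SzT2
  Cfsg.Agent.Lib.Helper6.SzT3 Cfsg.Agent.Lib.Helper6.SzT4 Matrix
open scoped Pointwise

variable {F : Type*} [Field F] [Fintype F] {m : ℕ}

theorem pow_four_eq {G : Type*} [Monoid G] (g : G) : g ^ 4 = (g * g) * (g * g) := by
  rw [show (4 : ℕ) = 2 + 2 from rfl, pow_add, pow_two]

theorem pow_three_eq {G : Type*} [Monoid G] (g : G) : g ^ 3 = g * (g * g) := by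
  rw [show (3 : ℕ) = 1 + 2 from rfl, pow_add, pow_one, pow_two]

omit [Fintype F] in
theorem cent_inv (h : Cfsg.Sz F m) :
    Subgroup.centralizer ({h⁻¹} : Set (Cfsg.Sz F m)) =
      Subgroup.centralizer ({h} : Set (Cfsg.Sz F m)) := by
  ext u
  rw [mem_centralizer_single, mem_centralizer_single]
  constructor
  · intro e
    calc h * u = h * (u * h⁻¹) * h := by group
      _ = h * (h⁻¹ * u) * h := by rw [e]
      _ = u * h := by group
  · intro e
    calc h⁻¹ * u = h⁻¹ * (u * h) * h⁻¹ := by group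
      _ = h⁻¹ * (h * u) * h⁻¹ := by rw [e]
      _ = u * h⁻¹ := by group

omit [Fintype F] in
/-- conjugating an element to its inverse normalises its centraliser -/
theorem norm_of_inv {g h : Cfsg.Sz F m} (hg : g * h * g⁻¹ = h⁻¹) :
    g ∈ Subgroup.normalizer ((Subgroup.centralizer ({h} : Set (Cfsg.Sz F m)) :
      Subgroup (Cfsg.Sz F m)) : Set (Cfsg.Sz F m)) := by
  rw [Subgroup.mem_normalizer_iff]
  intro u
  have e1 := mem_centralizer_conj g h (g * u * g⁻¹)
  rw [hg, cent_inv] at e1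
  have e2 : g⁻¹ * (g * u * g⁻¹) * g = u := by group
  rw [e2] at e1
  exact e1.symm

/-- a non-identity element of odd order with a fixed point has exactly two fixed points -/
theorem two_fix_of_odd (hm : 1 ≤ m) (hF : Fintype.card F = 2 ^ (2 * m + 1)) {h : Cfsg.Sz F m}
    (h1 : h ≠ 1) (hodd : Odd (orderOf h)) {c : Cfsg.suzukiOvoid F m} (hc : h • c = c) :
    ∃ d : Cfsg.suzukiOvoid F m, d ≠ c ∧ h • d = d ∧ ∀ p, h • p = p → p = c ∨ p = d := by
  obtain ⟨t, hta, hcase⟩ := conj_cases hm hF h1 c hc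
  rcases hcase with ⟨u, v, huv, e⟩ | ⟨k, hk, e⟩
  · exfalso
    have h5 : (t⁻¹ * h * t) ^ 4 = 1 := by
      rw [e]
      exact uS_pow_four hF u v
    have h6 := orderOf_dvd_of_pow_eq_one (pow_eq_one_of_conj h5)
    have hcop : Nat.Coprime (orderOf h) (2 ^ 2) :=
      Nat.Coprime.pow_right 2 (Nat.coprime_two_right.mpr hodd)
    have h7 := Nat.Coprime.eq_one_of_dvd hcop h6
    exact h1 (orderOf_eq_one_iff.mp h7)
  · have hh : h = t * hS hF k * t⁻¹ := by
      rw [← e]
      group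
    refine ⟨t • apt m 0 0, ?_, ?_, ?_⟩
    · rw [← hta]
      intro e'
      exact apt_ne_ainf m 0 0 (smul_left_cancel t e')
    · rw [hh, mul_smul, mul_smul, inv_smul_smul, hS_apt_zero]
    · intro p hp
      rw [hh, mul_smul, mul_smul, smul_eq_iff_eq_inv_smul] at hp
      rcases hS_fix hF hk hp with e' | e'
      · left
        rw [← hta, ← e', smul_inv_smul]
      · right
        rw [← e', smul_inv_smul]

omit [Fintype F] in
/-- an element inverting an element with exactly two fixed points stabilises the pair -/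
theorem mem_Npair_of_inv {h g : Cfsg.Sz F m} {c d : Cfsg.suzukiOvoid F m} (hne : c ≠ d)
    (hc : h • c = c) (hd : h • d = d)
    (hfix : ∀ p : Cfsg.suzukiOvoid F m, h • p = p → p = c ∨ p = d)
    (hg : g * h * g⁻¹ = h⁻¹) : g ∈ Npair c d := by
  have key : ∀ p : Cfsg.suzukiOvoid F m, h • p = p → h • (g • p) = g • p := by
    intro p hp
    have h3 : h⁻¹ • (g • p) = g • p := by
      rw [← hg, mul_smul, mul_smul, inv_smul_smul, hp]
    rw [inv_smul_eq_iff] at h3
    exact h3.symm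
  have f1 := hfix _ (key c hc)
  have f2 := hfix _ (key d hd)
  rw [mem_Npair]
  rcases f1 with f1 | f1 <;> rcases f2 with f2 | f2
  · exact absurd (smul_left_cancel g (f1.trans f2.symm)) hne
  · left
    exact ⟨f1, f2⟩
  · right
    exact ⟨f1, f2⟩
  · exact absurd (smul_left_cancel g (f1.trans f2.symm)) hne

/-- square roots of an involution in the normaliser of a torus -/
theorem sq_fiber (hm : 1 ≤ m) (hF : Fintype.card F = 2 ^ (2 * m + 1))
    {T : Subgroup (Cfsg.Sz F m)} (hT : IsT T) {t : Cfsg.Sz F m}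
    (ht : t ∈ Subgroup.normalizer (T : Set (Cfsg.Sz F m))) (h1 : t ≠ 1) (h2 : t * t = 1) :
    ∃ y₁ : Cfsg.Sz F m, y₁ ∈ Subgroup.normalizer (T : Set (Cfsg.Sz F m)) ∧ y₁ * y₁ = t ∧
      ∀ y : Cfsg.Sz F m, y ∈ Subgroup.normalizer (T : Set (Cfsg.Sz F m)) → y * y = t →
        y = y₁ ∨ y = y₁ * t := by
  have hcard := isT_card_norm hm hF hT
  have htT : t ∉ T := fun h => not_fpf_of_sq hF h2 (IsT.fpf hm hF hT h h1).1
  -- involutions of the normaliser commuting with `t`
  have claimA : ∀ s : Cfsg.Sz F m, s ∈ Subgroup.normalizer (T : Set (Cfsg.Sz F m)) → s ≠ 1 →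
      s * s = 1 → t * s = s * t → s = t := by
    intro s hs hs1 hs2 hcomm
    have hts := invol_prod_mem hm hF hT ht h1 h2 hs hs1 hs2
    have hsq : (t * s) * (t * s) = 1 := by
      calc (t * s) * (t * s) = t * (s * t) * s := by group
        _ = t * (t * s) * s := by rw [hcomm]
        _ = (t * t) * (s * s) := by group
        _ = 1 := by rw [h2, hs2, one_mul]
    by_cases h : t * s = 1
    · have h3 : s = t⁻¹ := eq_inv_of_mul_eq_one_right h
      rw [h3]
      exact inv_eq_of_mul_eq_one_right h2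
    · exact absurd (IsT.fpf hm hF hT hts h).1 (not_fpf_of_sq hF hsq)
  obtain ⟨Q, hQN, htQ, hQc⟩ := exists_four T hcard (isT_card_odd hm hF hT) ht h2
  have : Fact (Nat.Prime 2) := ⟨Nat.prime_two⟩
  have hQcomm := isMulCommutative_iff.mp
    (IsPGroup.isMulCommutative_of_card_eq_prime_sq (G := Q) (p := 2) (by rw [hQc]; norm_num))
  obtain ⟨g, hgQ, hg1, hgt⟩ : ∃ g ∈ Q, g ≠ 1 ∧ g ≠ t := by
    by_contra hcon
    push Not at hcon
    have hsub : (Q : Set (Cfsg.Sz F m)) ⊆ {1, t} := by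
      intro g hg
      by_cases hg1 : g = 1
      · left
        exact hg1
      · right
        exact hcon g hg hg1
    have h3 := Set.ncard_le_ncard hsub (Set.toFinite _)
    have h4 : (Q : Set (Cfsg.Sz F m)).ncard = 4 := by
      rw [← Nat.card_coe_set_eq]
      exact hQc
    have h5 := Set.ncard_insert_le (1 : Cfsg.Sz F m) {t}
    rw [Set.ncard_singleton] at h5
    omega
  have hgN := hQN hgQ
  have hgcomm : t * g = g * t := congrArg Subtype.val (hQcomm ⟨t, htQ⟩ ⟨g, hgQ⟩)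
  have hg4 : g ^ 4 = 1 := by
    have h3 : (⟨g, hgQ⟩ : Q) ^ Nat.card Q = 1 := pow_card_eq_one'
    rw [hQc] at h3
    exact congrArg Subtype.val h3
  have hgg : g * g = t := by
    have hggN : g * g ∈ Subgroup.normalizer (T : Set (Cfsg.Sz F m)) := mul_mem hgN hgN
    have hgg1 : g * g ≠ 1 := fun h => hgt (claimA g hgN hg1 h hgcomm)
    have hgg2 : (g * g) * (g * g) = 1 := by
      rw [← hg4, pow_four_eq]
    have hggc : t * (g * g) = (g * g) * t := by
      rw [← mul_assoc, hgcomm, mul_assoc, hgcomm, mul_assoc]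
    exact claimA (g * g) hggN hgg1 hgg2 hggc
  refine ⟨g, hgN, hgg, ?_⟩
  intro y hy hyy
  have hg2T : g ^ 2 ∉ T := by
    rw [pow_two, hgg]
    exact htT
  obtain ⟨i, τ, hτ, hyi⟩ := exists_pow_mul T hcard hgN hy hg2T
  -- reduce the exponent modulo 4
  have hred : g ^ i = g ^ (i % 4) := by
    conv_lhs => rw [← Nat.div_add_mod i 4]
    rw [pow_add, pow_mul, hg4, one_pow, one_mul]
  rw [hred] at hyi
  -- `τ` commutes with `t`
  have hyt : y * t = t * y := by
    rw [← hyy, mul_assoc]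
  have hgit : g ^ (i % 4) * t = t * g ^ (i % 4) := by
    rw [← hgg, ← pow_two, ← pow_add, ← pow_add, add_comm]
  have hτt : t * τ = τ * t := by
    have e : τ = (g ^ (i % 4))⁻¹ * y := by
      rw [hyi]
      group
    rw [e]
    calc t * ((g ^ (i % 4))⁻¹ * y)
        = (g ^ (i % 4))⁻¹ * (g ^ (i % 4) * t) * (g ^ (i % 4))⁻¹ * y := by group
      _ = (g ^ (i % 4))⁻¹ * (t * g ^ (i % 4)) * (g ^ (i % 4))⁻¹ * y := by rw [hgit]
      _ = (g ^ (i % 4))⁻¹ * (t * y) := by group
      _ = (g ^ (i % 4))⁻¹ * (y * t) := by rw [hyt]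
      _ = _ := by group
  have hinv := invol_inverts hm hF hT ht h1 h2 hτ
  have hτ1 : τ = 1 := by
    by_contra hne
    have hsq : τ * τ = 1 := by
      have e : τ⁻¹ = τ := by
        rw [← hinv, hτt]
        group
      calc τ * τ = τ * τ⁻¹ := by rw [e]
        _ = 1 := mul_inv_cancel τ
    exact not_fpf_of_sq hF hsq (IsT.fpf hm hF hT hτ hne).1
  rw [hτ1, mul_one] at hyi
  have hlt : i % 4 < 4 := Nat.mod_lt _ (by norm_num)
  interval_cases (i % 4)
  · exfalso
    rw [pow_zero] at hyi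
    rw [hyi, one_mul] at hyy
    exact h1 hyy.symm
  · left
    rw [hyi, pow_one]
  · exfalso
    rw [pow_two, hgg] at hyi
    rw [hyi, h2] at hyy
    exact h1 hyy.symm
  · right
    rw [hyi, ← hgg, pow_three_eq]

/-- fixed-point-free elements whose centraliser is normalised by `v` -/
def ZN (v : Cfsg.Sz F m) : Set (Cfsg.Sz F m) :=
  {τ | Fpf τ ∧ v ∈ Subgroup.normalizer ((Subgroup.centralizer ({τ} : Set (Cfsg.Sz F m)) :
    Subgroup (Cfsg.Sz F m)) : Set (Cfsg.Sz F m))}

/-- involutions not fixing `a` -/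
def Inv' (a : Cfsg.suzukiOvoid F m) : Set (Cfsg.Sz F m) := {y | y * y = 1 ∧ y • a ≠ a}

/-- non-identity elements fixing a pair of points swapped by `x` -/
def Hx (x : Cfsg.Sz F m) (a : Cfsg.suzukiOvoid F m) : Set (Cfsg.Sz F m) :=
  {y | y ≠ 1 ∧ ∃ c : Cfsg.suzukiOvoid F m, c ≠ a ∧ y • c = c ∧ y • (x • c) = x • c}

/-- elements of order four in the normaliser of a torus normalised by `x` -/
def Qx (x : Cfsg.Sz F m) : Set (Cfsg.Sz F m) :=
  {y | x * (y * y) ∈ ZN x ∧ y ∈ Subgroup.normalizer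
    ((Subgroup.centralizer ({x * (y * y)} : Set (Cfsg.Sz F m)) :
    Subgroup (Cfsg.Sz F m)) : Set (Cfsg.Sz F m))}

/-- the solubilizer of an involution -/
theorem sol_invol (hm : 1 ≤ m) (hp : (2 * m + 1).Prime) (hF : Fintype.card F = 2 ^ (2 * m + 1))
    {x : Cfsg.Sz F m} (hx1 : x ≠ 1) (hx2 : x * x = 1) {a : Cfsg.suzukiOvoid F m}
    (hxa : x • a = a) (y : Cfsg.Sz F m) :
    y ∈ Sol x ↔ y • a = a ∨ y ∈ Inv' a ∨ y ∈ Hx x a ∨ y ∈ ZN x ∨ y ∈ Qx x := by
  have hxi : x⁻¹ = x := inv_eq_of_mul_eq_one_right hx2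
  have huniq : ∀ p, x • p = p → p = a := fun p h =>
    unique_fix_of_sq hm hF hx1 (by rw [pow_two]; exact hx2) hxa h
  constructor
  · intro hsol
    by_cases hya : y • a = a
    · exact Or.inl hya
    right
    rcases (sol_iff hm hp hF x y).mp hsol with ⟨c, hxc, hyc⟩ | ⟨c, d, hcd, hxN, hyN⟩ |
      ⟨T, hT, hxT, hyT⟩
    · exact absurd (huniq c hxc ▸ hyc) hya
    · rw [mem_Npair] at hxN hyN
      rcases hxN with ⟨x1, x2⟩ | ⟨x1, x2⟩
      · exact absurd ((huniq c x1).trans (huniq d x2).symm) hcd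
      · have hca : c ≠ a := by
          rintro rfl
          exact hcd (hxa.symm.trans x1)
        rcases hyN with ⟨y1, y2⟩ | ⟨y1, y2⟩
        · right; left
          refine ⟨?_, c, hca, y1, ?_⟩
          · rintro rfl
            exact hya (one_smul _ _)
          · rw [x1]
            exact y2
        · left
          exact ⟨swap_sq hm hF hcd y1 y2, hya⟩
    · have hcard := isT_card_norm hm hF hT
      rcases fpf_or_fix y with hf | ⟨c, hyc⟩
      · right; right; left
        have hodd : Odd (orderOf y) := by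
          rw [← Nat.not_even_iff_odd, even_iff_two_dvd]
          exact hf.odd_order hm hF
        have hyT' : y ∈ T := odd_mem T hcard hyT hodd
        have h2 := (IsT.fpf hm hF hT hyT' hf.ne_one).2
        exact ⟨hf, by rw [h2]; exact hxT⟩
      · have h4 : y ^ 4 = 1 := by
          by_contra hne
          exact (IsT.fpf hm hF hT (pow_four_mem T hcard hyT) hne).1 c (pow_fix hyc 4)
        by_cases hy2 : y * y = 1
        · left
          exact ⟨hy2, hya⟩
        · right; right; right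
          have ht2 : (y * y) * (y * y) = 1 := by
            rw [← h4, pow_four_eq]
          have htN : y * y ∈ Subgroup.normalizer (T : Set (Cfsg.Sz F m)) := mul_mem hyT hyT
          have hτT : x * (y * y) ∈ T := invol_prod_mem hm hF hT hxT hx1 hx2 htN hy2 ht2
          have hτ1 : x * (y * y) ≠ 1 := by
            intro h
            have hyy : y * y = x := by
              rw [← hxi]
              exact eq_inv_of_mul_eq_one_right h
            apply hya
            apply huniq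
            calc x • (y • a) = (y * y) • (y • a) := by rw [hyy]
              _ = y • ((y * y) • a) := by rw [← mul_smul, ← mul_smul, mul_assoc]
              _ = y • a := by rw [hyy, hxa]
          obtain ⟨hf, hcent⟩ := IsT.fpf hm hF hT hτT hτ1
          exact ⟨⟨hf, by rw [hcent]; exact hxT⟩, by rw [hcent]; exact hyT⟩
  · rintro (h | ⟨hy2, hya⟩ | ⟨hy1, c, hca, hyc, hyxc⟩ | ⟨hf, hN⟩ | ⟨⟨hf, hxN⟩, hyN⟩)
    · exact (sol_iff hm hp hF x y).mpr (Or.inl ⟨a, hxa, h⟩)
    · rw [sol_iff hm hp hF]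
      have hy1 : y ≠ 1 := by
        rintro rfl
        exact hya (one_smul _ _)
      have hyi : y⁻¹ = y := inv_eq_of_mul_eq_one_right hy2
      have hxh : x * (x * y) * x⁻¹ = (x * y)⁻¹ := by
        rw [_root_.mul_inv_rev, hxi, hyi, ← mul_assoc, hx2, one_mul]
      have hyh : y * (x * y) * y⁻¹ = (x * y)⁻¹ := by
        rw [_root_.mul_inv_rev, hxi, hyi, mul_assoc, mul_assoc, hy2, mul_one]
      rcases fpf_or_fix (x * y) with hf | ⟨c, hc⟩
      · exact Or.inr (Or.inr ⟨_, IsT.of_fpf hf, norm_of_inv hxh, norm_of_inv hyh⟩)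
      · have hh1 : x * y ≠ 1 := by
          intro h
          apply hya
          have e : y = x := by
            rw [← hxi]
            exact eq_inv_of_mul_eq_one_right h
          rw [e]
          exact hxa
        obtain ⟨a', ha'⟩ := exists_fix_of_two_pow hF (y := y) (j := 1)
          (by rw [pow_one, pow_two, hy2])
        have hne : a ≠ a' := by
          rintro rfl
          exact hya ha'
        have hodd := odd_mul_invol hm hF hx1 hx2 hy1 hy2 hxa ha' hne
        obtain ⟨d, hdc, hd, hfix⟩ := two_fix_of_odd hm hF hh1 hodd hc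
        exact Or.inr (Or.inl ⟨c, d, hdc.symm, mem_Npair_of_inv hdc.symm hc hd hfix hxh,
          mem_Npair_of_inv hdc.symm hc hd hfix hyh⟩)
    · rw [sol_iff hm hp hF]
      have hne : c ≠ x • c := fun h => hca (huniq c h.symm)
      refine Or.inr (Or.inl ⟨c, x • c, hne, ?_, ?_⟩)
      · rw [mem_Npair]
        right
        exact ⟨rfl, by rw [← mul_smul, hx2, one_smul]⟩
      · rw [mem_Npair]
        left
        exact ⟨hyc, hyxc⟩
    · rw [sol_iff hm hp hF]
      exact Or.inr (Or.inr ⟨_, IsT.of_fpf hf, hN,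
        Subgroup.le_normalizer (self_mem_centralizer y)⟩)
    · rw [sol_iff hm hp hF]
      exact Or.inr (Or.inr ⟨_, IsT.of_fpf hf, hxN, hyN⟩)

end Cfsg.Agent.Lib.Helper6.SzT5
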