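import Mathlib
import Cfsg.Prelude.Def_LieExceptional
import Cfsg.Agent.Lib.Helper6.SzT5

/-!
# Solubilizers in the Suzuki groups: counting the solubilizer of an involution
-/

set_option autoImplicit false
set_option linter.unusedSimpArgs false
set_option linter.unusedVariables false
set_option linter.unusedSectionVars false

namespace Cfsg.Agent.Lib.Helper6.SzT6

open Cfsg Cfsg.Agent.Lib.Helper6.Sz0 Cfsg.Agent.Lib.Helper6.Sz1 Cfsg.Agent.Lib.Helper6.Sz2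
  Cfsg.Agent.Lib.Helper6.Sz3 Cfsg.Agent.Lib.Helper6.Sz4 Cfsg.Agent.Lib.Helper6.Sz5
  Cfsg.Agent.Lib.Helper6.Sz6 Cfsg.Agent.Lib.Helper6.Sz7 Cfsg.Agent.Lib.Helper6.Sz8
  Cfsg.Agent.Lib.Helper6.Sz9 Cfsg.Agent.Lib.Helper6.Sz10 Cfsg.Agent.Lib.Helper6.Sz11
  Cfsg.Agent.Lib.Helper6.Sz12 Cfsg.Agent.Lib.Helper6.Sz13 Cfsg.Agent.Lib.Helper6.Sz14
  Cfsg.Agent.Lib.Helper6.Sz15 Cfsg.Agent.Lib.Helper6.Sz16 Cfsg.Agent.Lib.Helper6.Sz17
  Cfsg.Agent.Lib.Helper6.Sz18 Cfsg.Agent.Lib.Helper6.Sz19 Cfsg.Agent.Lib.Helper6.SzS1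
  Cfsg.Agent.Lib.Helper6.SzS2 Cfsg.Agent.Lib.Helper6.SzS3 Cfsg.Agent.Lib.Helper6.SzS4
  Cfsg.Agent.Lib.Helper6.SzS5 Cfsg.Agent.Lib.Helper6.SzS6 Cfsg.Agent.Lib.Helper6.SzS7
  Cfsg.Agent.Lib.Helper6.SzS8 Cfsg.Agent.Lib.Helper6.SzT1 Cfsg.Agent.Lib.Helper6.SzT2
  Cfsg.Agent.Lib.Helper6.SzT3 Cfsg.Agent.Lib.Helper6.SzT4 Cfsg.Agent.Lib.Helper6.SzT5 Matrix
open scoped Pointwise

variable {F : Type*} [Field F] [Fintype F] {m : ℕ}

theorem card_eq_two_of_image {α β : Type*} (ι : α → β) (hι : Function.Injective ι) (u v : β)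
    (huv : u ≠ v) (h : ∀ b, (∃ a, ι a = b) ↔ b = u ∨ b = v) : Nat.card α = 2 := by
  have hr : Set.range ι = {u, v} := by
    ext b
    rw [Set.mem_range, h b]
    simp
  rw [← Set.ncard_range_of_injective hι, hr, Set.ncard_pair huv]

theorem conj_injective {G : Type*} [Group G] (g : G) :
    Function.Injective (fun h : G => g * h * g⁻¹) := by
  intro a b e
  exact mul_left_cancel (mul_right_cancel e)

/-- the number of involutions not fixing the point at infinity -/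
theorem ncard_Inv' (hm : 1 ≤ m) (hF : Fintype.card F = 2 ^ (2 * m + 1)) :
    (Inv' (ainf F m) : Set (Cfsg.Sz F m)).ncard =
      (2 ^ (2 * m + 1)) ^ 2 * (2 ^ (2 * m + 1) - 1) := by
  let φ : F × F × Fˣ → Cfsg.Sz F m := fun p =>
    (uS hF p.1 p.2.1 * wS hF) * uS hF 0 (p.2.2 : F) * (uS hF p.1 p.2.1 * wS hF)⁻¹
  have hφ : ∀ p : F × F × Fˣ, φ p =
    (uS hF p.1 p.2.1 * wS hF) * uS hF 0 (p.2.2 : F) * (uS hF p.1 p.2.1 * wS hF)⁻¹ := fun p => rfl
  have hfix : ∀ p : F × F × Fˣ, φ p • apt m p.1 p.2.1 = apt m p.1 p.2.1 := by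
    intro p
    have e : apt m p.1 p.2.1 = (uS hF p.1 p.2.1 * wS hF) • ainf F m := by
      rw [mul_smul, wS_ainf, uS_apt_zero]
    rw [hφ, e, mul_smul, mul_smul, inv_smul_smul, uS_ainf]
  have hne1 : ∀ p, φ p ≠ 1 := fun p => conj_ne (uS_zero_ne_one hF p.2.2.ne_zero)
  have hsq : ∀ p, φ p * φ p = 1 := fun p => conj_sq (uS_zero_sq hF _)
  have hinj : Function.Injective φ := by
    rintro ⟨u, v, k⟩ ⟨u', v', k'⟩ h
    have h1 := hfix (u, v, k)
    have h2 := hfix (u', v', k')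
    rw [← h] at h2
    have h3 := unique_fix_of_sq hm hF (hne1 (u, v, k)) (by rw [pow_two]; exact hsq _) h1 h2
    obtain ⟨rfl, rfl⟩ := apt_inj h3
    have h4 : uS hF 0 (k : F) = uS hF 0 (k' : F) := by
      rw [hφ, hφ] at h
      exact mul_left_cancel (mul_right_cancel h)
    have h5 : k = k' := Units.ext (uS_inj hF h4).2
    rw [h5]
  have hrange : Set.range φ = Inv' (ainf F m) := by
    ext y
    constructor
    · rintro ⟨p, rfl⟩
      refine ⟨hsq p, ?_⟩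
      intro h
      have h3 := unique_fix_of_sq hm hF (hne1 p) (by rw [pow_two]; exact hsq _) (hfix p) h
      exact apt_ne_ainf m _ _ h3.symm
    · rintro ⟨hy2, hya⟩
      have hy1 : y ≠ 1 := by
        rintro rfl
        exact hya (one_smul _ _)
      obtain ⟨c, hc⟩ := exists_fix_of_two_pow hF (y := y) (j := 1)
        (by rw [pow_one, pow_two, hy2])
      rcases ovoid_cases c with rfl | ⟨u, v, rfl⟩
      · exact absurd hc hya
      · have e : apt m u v = (uS hF u v * wS hF) • ainf F m := by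
          rw [mul_smul, wS_ainf, uS_apt_zero]
        have h1 : ((uS hF u v * wS hF)⁻¹ * y * (uS hF u v * wS hF)) • ainf F m = ainf F m := by
          rw [mul_smul, mul_smul, ← e, hc, e, inv_smul_smul]
        have h2 : ((uS hF u v * wS hF)⁻¹ * y * (uS hF u v * wS hF)) *
            ((uS hF u v * wS hF)⁻¹ * y * (uS hF u v * wS hF)) = 1 := by
          calc _ = (uS hF u v * wS hF)⁻¹ * (y * y) * (uS hF u v * wS hF) := by group
            _ = 1 := by rw [hy2]; group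
        have h3 : (uS hF u v * wS hF)⁻¹ * y * (uS hF u v * wS hF) ≠ 1 := conj_ne_one hy1
        obtain ⟨b, hb, hyb⟩ := invol_ainf hm hF h3 h2 h1
        refine ⟨(u, v, Units.mk0 b hb), ?_⟩
        rw [hφ]
        show (uS hF u v * wS hF) * uS hF 0 b * (uS hF u v * wS hF)⁻¹ = y
        rw [← hyb]
        group
  rw [← hrange, Set.ncard_range_of_injective hinj, Nat.card_prod, Nat.card_prod,
    Nat.card_units, Nat.card_eq_fintype_card, hF]
  ring

/-- the pointwise stabiliser of two points has `q - 1` elements -/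
theorem ncard_two_stab (hm : 1 ≤ m) (hF : Fintype.card F = 2 ^ (2 * m + 1))
    {c d : Cfsg.suzukiOvoid F m} (hcd : c ≠ d) :
    {y : Cfsg.Sz F m | y • c = c ∧ y • d = d}.ncard = 2 ^ (2 * m + 1) - 1 := by
  obtain ⟨g, hg, hg'⟩ := exists_std hF hcd
  have h : {y : Cfsg.Sz F m | y • c = c ∧ y • d = d} = (fun h => g * h * g⁻¹) ''
      {y : Cfsg.Sz F m | y • ainf F m = ainf F m ∧ y • apt m (0 : F) 0 = apt m 0 0} := by
    ext y
    constructor
    · rintro ⟨h1, h2⟩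
      refine ⟨g⁻¹ * y * g, ⟨?_, ?_⟩, ?_⟩
      · rw [mul_smul, mul_smul, hg, h1, ← hg, inv_smul_smul]
      · rw [mul_smul, mul_smul, hg', h2, ← hg', inv_smul_smul]
      · show g * (g⁻¹ * y * g) * g⁻¹ = y
        group
    · rintro ⟨h, ⟨h1, h2⟩, rfl⟩
      refine ⟨?_, ?_⟩
      · show (g * h * g⁻¹) • c = c
        rw [← hg, mul_smul, mul_smul, inv_smul_smul, h1]
      · show (g * h * g⁻¹) • d = d
        rw [← hg', mul_smul, mul_smul, inv_smul_smul, h2]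
  rw [h, Set.ncard_image_of_injective _ (conj_injective g), ncard_torus_set hm hF]

theorem ncard_two_stab' (hm : 1 ≤ m) (hF : Fintype.card F = 2 ^ (2 * m + 1))
    {c d : Cfsg.suzukiOvoid F m} (hcd : c ≠ d) :
    {y : Cfsg.Sz F m | y ≠ 1 ∧ y • c = c ∧ y • d = d}.ncard = 2 ^ (2 * m + 1) - 2 := by
  have h : {y : Cfsg.Sz F m | y ≠ 1 ∧ y • c = c ∧ y • d = d} =
      {y : Cfsg.Sz F m | y • c = c ∧ y • d = d} \ {1} := by
    ext y
    constructor
    · rintro ⟨h1, h2⟩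
      exact ⟨h2, h1⟩
    · rintro ⟨h2, h1⟩
      exact ⟨h1, h2⟩
  rw [h, Set.ncard_sdiff_singleton_of_mem (by exact ⟨one_smul _ _, one_smul _ _⟩),
    ncard_two_stab hm hF hcd]
  omega

/-- counting the elements fixing a pair of points swapped by the involution `x` -/
theorem two_mul_ncard_Hx (hm : 1 ≤ m) (hF : Fintype.card F = 2 ^ (2 * m + 1))
    {x : Cfsg.Sz F m} (hx1 : x ≠ 1) (hx2 : x * x = 1) {a : Cfsg.suzukiOvoid F m}
    (hxa : x • a = a) :
    (Hx x a).ncard * 2 = (2 ^ (2 * m + 1)) ^ 2 * (2 ^ (2 * m + 1) - 2) := by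
  classical
  have hfin : Finite (Cfsg.suzukiOvoid F m) := (ovoid_finite m).to_subtype
  have huniq : ∀ p : Cfsg.suzukiOvoid F m, x • p = p → p = a := fun p h =>
    unique_fix_of_sq hm hF hx1 (by rw [pow_two]; exact hx2) hxa h
  have c1 : Nat.card {p : Cfsg.suzukiOvoid F m × Cfsg.Sz F m //
      p.1 ≠ a ∧ p.2 ≠ 1 ∧ p.2 • p.1 = p.1 ∧ p.2 • (x • p.1) = x • p.1} = (Hx x a).ncard * 2 := by
    have hr : Set.range (fun p : {p : Cfsg.suzukiOvoid F m × Cfsg.Sz F m //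
      p.1 ≠ a ∧ p.2 ≠ 1 ∧ p.2 • p.1 = p.1 ∧ p.2 • (x • p.1) = x • p.1} => p.1.2) = Hx x a := by
      ext y
      constructor
      · rintro ⟨⟨⟨c, y'⟩, hc, hy1, h1, h2⟩, rfl⟩
        exact ⟨hy1, c, hc, h1, h2⟩
      · rintro ⟨hy1, c, hc, h1, h2⟩
        exact ⟨⟨(c, y), hc, hy1, h1, h2⟩, rfl⟩
    rw [← hr]
    apply card_eq_mul_of_fibers
    rintro ⟨⟨c, y⟩, hc, hy1, h1, h2⟩
    have hcx : c ≠ x • c := fun h => hc (huniq c h.symm)
    have hxc : x • c ≠ a := by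
      intro h
      apply hc
      have h3 : x • (x • c) = x • a := by rw [h]
      rw [← mul_smul, hx2, one_smul, hxa] at h3
      exact h3
    apply card_eq_two_of_image (fun p' : {p' : {p : Cfsg.suzukiOvoid F m × Cfsg.Sz F m //
      p.1 ≠ a ∧ p.2 ≠ 1 ∧ p.2 • p.1 = p.1 ∧ p.2 • (x • p.1) = x • p.1} // p'.1.2 = y} =>
        p'.1.1.1) ?_ c (x • c) hcx
    · intro c'
      constructor
      · rintro ⟨⟨⟨⟨c'', y'⟩, hc'', hy1', h1', h2'⟩, hy'⟩, rfl⟩
        have hy'' : y' = y := hy'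
        subst hy''
        rcases three_fix hm hF hy1 h1 h2 h1' with e | e | e
        · exact absurd e hcx
        · right
          exact e.symm
        · left
          exact e.symm
      · rintro (rfl | rfl)
        · exact ⟨⟨⟨(c', y), hc, hy1, h1, h2⟩, rfl⟩, rfl⟩
        · have h3 : y • (x • (x • c)) = x • (x • c) := by
            rw [← mul_smul x x, hx2, one_smul]
            exact h1
          exact ⟨⟨⟨(x • c, y), hxc, hy1, h2, h3⟩, rfl⟩, rfl⟩
    · rintro ⟨⟨⟨c1, y1⟩, hp1⟩, e1⟩ ⟨⟨⟨c2, y2⟩, hp2⟩, e2⟩ h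
      have e1' : y1 = y := e1
      have e2' : y2 = y := e2
      have h' : c1 = c2 := h
      subst e1' e2' h'
      rfl
  have c2 : Nat.card {p : Cfsg.suzukiOvoid F m × Cfsg.Sz F m //
      p.1 ≠ a ∧ p.2 ≠ 1 ∧ p.2 • p.1 = p.1 ∧ p.2 • (x • p.1) = x • p.1} =
      (2 ^ (2 * m + 1)) ^ 2 * (2 ^ (2 * m + 1) - 2) := by
    let e : {p : Cfsg.suzukiOvoid F m × Cfsg.Sz F m //
        p.1 ≠ a ∧ p.2 ≠ 1 ∧ p.2 • p.1 = p.1 ∧ p.2 • (x • p.1) = x • p.1} ≃
        Σ c : {c : Cfsg.suzukiOvoid F m // c ≠ a},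
          {y : Cfsg.Sz F m // y ≠ 1 ∧ y • c.1 = c.1 ∧ y • (x • c.1) = x • c.1} :=
      { toFun := fun p => ⟨⟨p.1.1, p.2.1⟩, ⟨p.1.2, p.2.2⟩⟩
        invFun := fun s => ⟨(s.1.1, s.2.1), s.1.2, s.2.2⟩
        left_inv := fun p => rfl
        right_inv := fun s => rfl }
    have : Fintype {c : Cfsg.suzukiOvoid F m // c ≠ a} := Fintype.ofFinite _
    rw [Nat.card_congr e, Nat.card_sigma]
    have hf : ∀ c : {c : Cfsg.suzukiOvoid F m // c ≠ a},
        Nat.card {y : Cfsg.Sz F m // y ≠ 1 ∧ y • c.1 = c.1 ∧ y • (x • c.1) = x • c.1} =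
          2 ^ (2 * m + 1) - 2 := by
      intro c
      have hcx : c.1 ≠ x • c.1 := fun h => c.2 (huniq c.1 h.symm)
      rw [← ncard_two_stab' hm hF hcx, ← Nat.card_coe_set_eq]
      rfl
    simp only [hf, Finset.sum_const, Finset.card_univ, smul_eq_mul]
    rw [← Nat.card_eq_fintype_card]
    have hc : Nat.card {c : Cfsg.suzukiOvoid F m // c ≠ a} = (2 ^ (2 * m + 1)) ^ 2 := by
      have h1 : ({c : Cfsg.suzukiOvoid F m | c ≠ a}) = Set.univ \ {a} := by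
        ext c
        simp
      have h2 : Nat.card {c : Cfsg.suzukiOvoid F m // c ≠ a} =
          ({c : Cfsg.suzukiOvoid F m | c ≠ a}).ncard := by
        rw [← Nat.card_coe_set_eq]
        rfl
      rw [h2, h1, Set.ncard_sdiff_singleton_of_mem (Set.mem_univ a), Set.ncard_univ, card_ovoid,
        hF]
      omega
    rw [hc]
  rw [← c1, c2]

end Cfsg.Agent.Lib.Helper6.SzT6
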