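import Mathlib
import Cfsg.Prelude.Def_LieExceptional
import Cfsg.Agent.Lib.Helper6.SzT6

/-!
# Solubilizers in the Suzuki groups: the solubilizer of an involution
-/

set_option autoImplicit false
set_option linter.unusedSimpArgs false
set_option linter.unusedVariables false
set_option linter.unusedSectionVars false

namespace Cfsg.Agent.Lib.Helper6.SzT7

open Cfsg Cfsg.Agent.Lib.Helper6.Sz0 Cfsg.Agent.Lib.Helper6.Sz1 Cfsg.Agent.Lib.Helper6.Sz2
  Cfsg.Agent.Lib.Helper6.Sz3 Cfsg.Agent.Lib.Helper6.Sz4 Cfsg.Agent.Lib.Helper6.Sz5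
  Cfsg.Agent.Lib.Helper6.Sz6 Cfsg.Agent.Lib.Helper6.Sz7 Cfsg.Agent.Lib.Helper6.Sz8
  Cfsg.Agent.Lib.Helper6.Sz9 Cfsg.Agent.Lib.Helper6.Sz10 Cfsg.Agent.Lib.Helper6.Sz11
  Cfsg.Agent.Lib.Helper6.Sz12 Cfsg.Agent.Lib.Helper6.Sz13 Cfsg.Agent.Lib.Helper6.Sz14
  Cfsg.Agent.Lib.Helper6.Sz15 Cfsg.Agent.Lib.Helper6.Sz16 Cfsg.Agent.Lib.Helper6.Sz17
  Cfsg.Agent.Lib.Helper6.Sz18 Cfsg.Agent.Lib.Helper6.Sz19 Cfsg.Agent.Lib.Helper6.SzS1
  Cfsg.Agent.Lib.Helper6.SzS2 Cfsg.Agent.Lib.Helper6.SzS3 Cfsg.Agent.Lib.Helper6.SzS4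
  Cfsg.Agent.Lib.Helper6.SzS5 Cfsg.Agent.Lib.Helper6.SzS6 Cfsg.Agent.Lib.Helper6.SzS7
  Cfsg.Agent.Lib.Helper6.SzS8 Cfsg.Agent.Lib.Helper6.SzT1 Cfsg.Agent.Lib.Helper6.SzT2
  Cfsg.Agent.Lib.Helper6.SzT3 Cfsg.Agent.Lib.Helper6.SzT4 Cfsg.Agent.Lib.Helper6.SzT5
  Cfsg.Agent.Lib.Helper6.SzT6 Matrix
open scoped Pointwise

variable {F : Type*} [Field F] [Fintype F] {m : ℕ}

/-- multiplying the involutions not fixing `a` by `x` -/
theorem image_Inv' (hm : 1 ≤ m) (hF : Fintype.card F = 2 ^ (2 * m + 1))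
    {x : Cfsg.Sz F m} (hx1 : x ≠ 1) (hx2 : x * x = 1) {a : Cfsg.suzukiOvoid F m}
    (hxa : x • a = a) : (fun y => x * y) '' (Inv' a) = ZN x ∪ Hx x a := by
  have hxi : x⁻¹ = x := inv_eq_of_mul_eq_one_right hx2
  have huniq : ∀ p : Cfsg.suzukiOvoid F m, x • p = p → p = a := fun p h =>
    unique_fix_of_sq hm hF hx1 (by rw [pow_two]; exact hx2) hxa h
  ext h
  constructor
  · rintro ⟨y, ⟨hy2, hya⟩, rfl⟩
    show x * y ∈ _
    have hy1 : y ≠ 1 := by
      rintro rfl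
      exact hya (one_smul _ _)
    have hyi : y⁻¹ = y := inv_eq_of_mul_eq_one_right hy2
    have hxh : x * (x * y) * x⁻¹ = (x * y)⁻¹ := by
      rw [_root_.mul_inv_rev, hxi, hyi, ← mul_assoc, hx2, one_mul]
    rcases fpf_or_fix (x * y) with hf | ⟨c, hc⟩
    · left
      exact ⟨hf, norm_of_inv hxh⟩
    · right
      have hh1 : x * y ≠ 1 := by
        intro h
        apply hya
        have e : y = x := by
          rw [← hxi]
          exact eq_inv_of_mul_eq_one_right h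
        rw [e]
        exact hxa
      obtain ⟨a', ha'⟩ := exists_fix_of_two_pow hF (y := y) (j := 1)
        (by rw [pow_one, pow_two, hy2])
      have hne : a ≠ a' := by
        rintro rfl
        exact hya ha'
      have hodd := odd_mul_invol hm hF hx1 hx2 hy1 hy2 hxa ha' hne
      obtain ⟨d, hdc, hd, hfix⟩ := two_fix_of_odd hm hF hh1 hodd hc
      have hxN := mem_Npair_of_inv hdc.symm hc hd hfix hxh
      rw [mem_Npair] at hxN
      rcases hxN with ⟨x1, x2⟩ | ⟨x1, x2⟩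
      · exact absurd ((huniq d x2).trans (huniq c x1).symm) hdc
      · have hca : c ≠ a := by
          rintro rfl
          exact hdc (x1.symm.trans hxa)
        exact ⟨hh1, c, hca, hc, by rw [x1]; exact hd⟩
  · rintro (⟨hf, hN⟩ | ⟨hh1, c, hca, hc, hxc⟩)
    · have hinv := invol_inverts hm hF (IsT.of_fpf hf) hN hx1 hx2 (self_mem_centralizer h)
      refine ⟨x * h, ⟨?_, ?_⟩, ?_⟩
      · calc (x * h) * (x * h) = (x * h * x⁻¹) * h := by rw [hxi]; simp only [mul_assoc]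
          _ = 1 := by rw [hinv, inv_mul_cancel]
      · intro e
        rw [mul_smul] at e
        have h3 : x • (x • (h • a)) = x • a := by rw [e]
        rw [← mul_smul, hx2, one_smul, hxa] at h3
        exact hf a h3
      · show x * (x * h) = h
        rw [← mul_assoc, hx2, one_mul]
    · have hne : c ≠ x • c := fun e => hca (huniq c e.symm)
      have hxxc : x • (x • c) = c := by rw [← mul_smul, hx2, one_smul]
      have hinv := swap_inv hm hF hne (x := x) rfl hxxc hc hxc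
      refine ⟨x * h, ⟨?_, ?_⟩, ?_⟩
      · calc (x * h) * (x * h) = (x * h * x⁻¹) * h := by rw [hxi]; simp only [mul_assoc]
          _ = 1 := by rw [hinv, inv_mul_cancel]
      · intro e
        rw [mul_smul] at e
        have hha : x • (x • (h • a)) = x • a := by rw [e]
        rw [← mul_smul, hx2, one_smul, hxa] at hha
        rcases three_fix hm hF hh1 hha hc hxc with e' | e' | e'
        · exact hca e'.symm
        · exact hne e'
        · apply hca
          have h3 : x • a = x • (x • c) := by rw [← e']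
          rw [hxxc, hxa] at h3
          exact h3.symm
      · show x * (x * h) = h
        rw [← mul_assoc, hx2, one_mul]

theorem ncard_Inv'_eq (hm : 1 ≤ m) (hF : Fintype.card F = 2 ^ (2 * m + 1))
    {x : Cfsg.Sz F m} (hx1 : x ≠ 1) (hx2 : x * x = 1) {a : Cfsg.suzukiOvoid F m}
    (hxa : x • a = a) : (Inv' a).ncard = (ZN x).ncard + (Hx x a).ncard := by
  have hd : Disjoint (ZN x) (Hx x a) := by
    rw [Set.disjoint_left]
    rintro y ⟨hf, _⟩ ⟨_, c, _, hc, _⟩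
    exact hf c hc
  rw [← Set.ncard_union_eq hd, ← image_Inv' hm hF hx1 hx2 hxa,
    Set.ncard_image_of_injective _ (mul_right_injective x)]

/-- the elements of order four over the fixed-point-free elements inverted by `x` -/
theorem ncard_Qx (hm : 1 ≤ m) (hF : Fintype.card F = 2 ^ (2 * m + 1))
    {x : Cfsg.Sz F m} (hx1 : x ≠ 1) (hx2 : x * x = 1) {a : Cfsg.suzukiOvoid F m}
    (hxa : x • a = a) : (Qx x).ncard = (ZN x).ncard * 2 := by
  have hxi : x⁻¹ = x := inv_eq_of_mul_eq_one_right hx2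
  have key : ∀ τ ∈ ZN x, ∃ y₁ : Cfsg.Sz F m, y₁ ∈ Qx x ∧ x * (y₁ * y₁) = τ ∧
      y₁ * (x * τ) ∈ Qx x ∧ x * ((y₁ * (x * τ)) * (y₁ * (x * τ))) = τ ∧ y₁ ≠ y₁ * (x * τ) ∧
      ∀ y ∈ Qx x, x * (y * y) = τ → y = y₁ ∨ y = y₁ * (x * τ) := by
    rintro τ ⟨hf, hN⟩
    have hT := IsT.of_fpf hf
    have hτT := self_mem_centralizer τ
    have hinv := invol_inverts hm hF hT hN hx1 hx2 hτT
    have ht2 : (x * τ) * (x * τ) = 1 := by
      calc (x * τ) * (x * τ) = (x * τ * x⁻¹) * τ := by rw [hxi]; simp only [mul_assoc]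
        _ = 1 := by rw [hinv, inv_mul_cancel]
    have ht1 : x * τ ≠ 1 := by
      intro e
      have e' : τ = x := by
        rw [← hxi]
        exact eq_inv_of_mul_eq_one_right e
      rw [e'] at hf
      exact hf a hxa
    have htN : x * τ ∈ Subgroup.normalizer
        ((Subgroup.centralizer ({τ} : Set (Cfsg.Sz F m)) : Subgroup (Cfsg.Sz F m)) :
          Set (Cfsg.Sz F m)) := mul_mem hN (Subgroup.le_normalizer hτT)
    obtain ⟨y₁, hy₁N, hy₁, huniq⟩ := sq_fiber hm hF hT htN ht1 ht2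
    have e1 : x * (y₁ * y₁) = τ := by rw [hy₁, ← mul_assoc, hx2, one_mul]
    have hcomm : y₁ * (x * τ) = (x * τ) * y₁ := by rw [← hy₁, mul_assoc]
    have hsq2 : (y₁ * (x * τ)) * (y₁ * (x * τ)) = x * τ := by
      calc (y₁ * (x * τ)) * (y₁ * (x * τ)) = y₁ * ((x * τ) * y₁) * (x * τ) := by
            simp only [mul_assoc]
        _ = y₁ * (y₁ * (x * τ)) * (x * τ) := by rw [hcomm]
        _ = (y₁ * y₁) * ((x * τ) * (x * τ)) := by simp only [mul_assoc]
        _ = x * τ := by rw [ht2, mul_one, hy₁]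
    have e2 : x * ((y₁ * (x * τ)) * (y₁ * (x * τ))) = τ := by
      rw [hsq2, ← mul_assoc, hx2, one_mul]
    refine ⟨y₁, ⟨?_, ?_⟩, e1, ⟨?_, ?_⟩, e2, ?_, ?_⟩
    · rw [e1]
      exact ⟨hf, hN⟩
    · rw [e1]
      exact hy₁N
    · rw [e2]
      exact ⟨hf, hN⟩
    · rw [e2]
      exact mul_mem hy₁N htN
    · intro e
      exact ht1 (mul_left_cancel (a := y₁) (by rw [mul_one]; exact e.symm))
    · rintro y ⟨_, hyN⟩ hy
      rw [hy] at hyN
      apply huniq y hyN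
      rw [← hy, ← mul_assoc, hx2, one_mul]
  rw [← Nat.card_coe_set_eq]
  have hr : Set.range (fun y : Qx x => x * (y.1 * y.1)) = ZN x := by
    ext τ
    constructor
    · rintro ⟨⟨y, hy⟩, rfl⟩
      exact hy.1
    · intro hτ
      obtain ⟨y₁, hy₁Q, e1, -⟩ := key τ hτ
      exact ⟨⟨y₁, hy₁Q⟩, e1⟩
  rw [← hr]
  apply card_eq_mul_of_fibers
  rintro ⟨y₀, hy₀⟩
  obtain ⟨y₁, hy₁Q, e1, hy₂Q, e2, hne, huniq⟩ := key _ hy₀.1
  apply card_eq_two_of_image
    (fun p : {a' : Qx x // x * (a'.1 * a'.1) = x * (y₀ * y₀)} => p.1.1) ?_ y₁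
    (y₁ * (x * (x * (y₀ * y₀)))) hne
  · intro g
    constructor
    · rintro ⟨⟨⟨y, hyQ⟩, hy⟩, rfl⟩
      exact huniq y hyQ hy
    · rintro (rfl | rfl)
      · exact ⟨⟨⟨_, hy₁Q⟩, e1⟩, rfl⟩
      · exact ⟨⟨⟨_, hy₂Q⟩, e2⟩, rfl⟩
  · rintro ⟨⟨y, _⟩, _⟩ ⟨⟨y', _⟩, _⟩ h
    have h' : y = y' := h
    subst h'
    rfl

/-- the solubilizer of an involution as a disjoint union -/
theorem ncard_sol_invol_aux (hm : 1 ≤ m) (hp : (2 * m + 1).Prime)
    (hF : Fintype.card F = 2 ^ (2 * m + 1)) {x : Cfsg.Sz F m} (hx1 : x ≠ 1) (hx2 : x * x = 1)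
    {a : Cfsg.suzukiOvoid F m} (hxa : x • a = a) :
    (Sol x).ncard = {y : Cfsg.Sz F m | y • a = a}.ncard +
      ((Inv' a).ncard + ((Hx x a).ncard + ((ZN x).ncard + (Qx x).ncard))) := by
  have hxi : x⁻¹ = x := inv_eq_of_mul_eq_one_right hx2
  have huniq : ∀ p : Cfsg.suzukiOvoid F m, x • p = p → p = a := fun p h =>
    unique_fix_of_sq hm hF hx1 (by rw [pow_two]; exact hx2) hxa h
  have hS : Sol x = {y : Cfsg.Sz F m | y • a = a} ∪ (Inv' a ∪ (Hx x a ∪ (ZN x ∪ Qx x))) := by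
    ext y
    rw [sol_invol hm hp hF hx1 hx2 hxa]
    rfl
  have xnf : ¬ Fpf x := fun h => h a hxa
  have d4 : Disjoint (ZN x) (Qx x) := by
    rw [Set.disjoint_left]
    rintro y ⟨hf, _⟩ ⟨⟨hf', hxN⟩, hyN⟩
    have hT := IsT.of_fpf hf'
    have hodd : Odd (orderOf y) := by
      rw [← Nat.not_even_iff_odd, even_iff_two_dvd]
      exact hf.odd_order hm hF
    have hyT := odd_mem _ (isT_card_norm hm hF hT) hyN hodd
    have hτT := self_mem_centralizer (x * (y * y))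
    have hxT : x ∈ Subgroup.centralizer ({x * (y * y)} : Set (Cfsg.Sz F m)) := by
      have h6 := mul_mem hτT (inv_mem (mul_mem hyT hyT))
      have e : (x * (y * y)) * (y * y)⁻¹ = x := by group
      rw [e] at h6
      exact h6
    exact xnf (IsT.fpf hm hF hT hxT hx1).1
  have d3 : Disjoint (Hx x a) (ZN x ∪ Qx x) := by
    rw [Set.disjoint_left]
    rintro y ⟨hy1, c, hca, hc, hxc⟩ (⟨hf, _⟩ | ⟨⟨hf', hxN⟩, hyN⟩)
    · exact hf c hc
    · have hT := IsT.of_fpf hf'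
      have hne : c ≠ x • c := fun e => hca (huniq c e.symm)
      have h4 : y ^ 4 = 1 := by
        by_contra hne4
        exact (IsT.fpf hm hF hT (pow_four_mem _ (isT_card_norm hm hF hT) hyN) hne4).1 c
          (pow_fix hc 4)
      have hyy1 : y * y ≠ 1 := by
        intro e
        rw [e, mul_one] at hf'
        exact xnf hf'
      have hyy2 : (y * y) ^ 2 = 1 := by rw [pow_two, ← pow_four_eq, h4]
      have f1 : (y * y) • c = c := by rw [mul_smul, hc, hc]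
      have f2 : (y * y) • (x • c) = x • c := by rw [mul_smul, hxc, hxc]
      exact hne (unique_fix_of_sq hm hF hyy1 hyy2 f2 f1)
  have d2 : Disjoint (Inv' a) (Hx x a ∪ (ZN x ∪ Qx x)) := by
    rw [Set.disjoint_left]
    rintro y ⟨hy2, hya⟩ (⟨hy1, c, hca, hc, hxc⟩ | ⟨hf, _⟩ | ⟨⟨hf', hxN⟩, hyN⟩)
    · have hne : c ≠ x • c := fun e => hca (huniq c e.symm)
      exact hne (unique_fix_of_sq hm hF hy1 (by rw [pow_two]; exact hy2) hxc hc)
    · exact not_fpf_of_sq hF hy2 hf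
    · rw [hy2, mul_one] at hf'
      exact xnf hf'
  have d1 : Disjoint {y : Cfsg.Sz F m | y • a = a} (Inv' a ∪ (Hx x a ∪ (ZN x ∪ Qx x))) := by
    rw [Set.disjoint_left]
    rintro y hya (⟨hy2, hya'⟩ | ⟨hy1, c, hca, hc, hxc⟩ | ⟨hf, _⟩ | ⟨⟨hf', hxN⟩, hyN⟩)
    · exact hya' hya
    · have hne : c ≠ x • c := fun e => hca (huniq c e.symm)
      rcases three_fix hm hF hy1 hya hc hxc with e | e | e
      · exact hca e.symm
      · exact hne e
      · apply hca
        have h3 : x • a = x • (x • c) := by rw [← e]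
        rw [← mul_smul, hx2, one_smul, hxa] at h3
        exact h3.symm
    · exact hf a hya
    · apply hf' a
      have hya' : y • a = a := hya
      rw [mul_smul, mul_smul, hya', hya', hxa]
  rw [hS, Set.ncard_union_eq d1, Set.ncard_union_eq d2, Set.ncard_union_eq d3,
    Set.ncard_union_eq d4]

/-- the number of fixed-point-free elements inverted by a central involution -/
theorem ncard_ZN_invol (hm : 1 ≤ m) (hF : Fintype.card F = 2 ^ (2 * m + 1)) {b : F}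
    (hb : b ≠ 0) : 2 * (ZN (uS hF 0 b)).ncard = (2 ^ (2 * m + 1)) ^ 3 := by
  have hx1 := uS_zero_ne_one (m := m) hF hb
  have hx2 := uS_zero_sq (m := m) hF b
  have hxa := uS_ainf (m := m) hF 0 b
  have h1 := ncard_Inv' hm hF
  have h2 := two_mul_ncard_Hx hm hF hx1 hx2 hxa
  have h3 := ncard_Inv'_eq hm hF hx1 hx2 hxa
  have hq := q_ge_eight hm
  obtain ⟨k, hk⟩ : ∃ k, 2 ^ (2 * m + 1) = k + 2 := ⟨2 ^ (2 * m + 1) - 2, by omega⟩
  rw [hk] at h1 h2 ⊢
  have e1 : k + 2 - 1 = k + 1 := by omega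
  have e2 : k + 2 - 2 = k := by omega
  rw [e1] at h1
  rw [e2] at h2
  rw [h3] at h1
  nlinarith

/-- the solubilizer of a central involution -/
theorem ncard_sol_uS0 (hm : 1 ≤ m) (hp : (2 * m + 1).Prime)
    (hF : Fintype.card F = 2 ^ (2 * m + 1)) {b : F} (hb : b ≠ 0) :
    (Sol (uS hF 0 b)).ncard = (2 ^ (2 * m + 1)) ^ 2 * (4 * 2 ^ (2 * m + 1) - 3) := by
  have hx1 := uS_zero_ne_one (m := m) hF hb
  have hx2 := uS_zero_sq (m := m) hF b
  have hxa := uS_ainf (m := m) hF 0 b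
  have h0 := ncard_sol_invol_aux hm hp hF hx1 hx2 hxa
  have hA := ncard_stab hm hF (ainf F m)
  have h1 := ncard_Inv' hm hF
  have h3 := ncard_Inv'_eq hm hF hx1 hx2 hxa
  have h4 := ncard_Qx hm hF hx1 hx2 hxa
  have h5 := ncard_ZN_invol hm hF hb
  have hq := q_ge_eight hm
  obtain ⟨k, hk⟩ : ∃ k, 2 ^ (2 * m + 1) = k + 2 := ⟨2 ^ (2 * m + 1) - 2, by omega⟩
  rw [h0, hA, h4]
  rw [hk] at h1 h5 ⊢
  have e1 : k + 2 - 1 = k + 1 := by omega
  have e3 : 4 * (k + 2) - 3 = 4 * k + 5 := by omega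
  rw [e1] at h1 ⊢
  rw [e3]
  rw [h1]
  rw [h3] at h1
  nlinarith

end Cfsg.Agent.Lib.Helper6.SzT7
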