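import Mathlib
import Cfsg.Prelude.Def_LieExceptional
import Cfsg.Agent.Lib.Helper6.SzT7

/-!
# Solubilizers in the Suzuki groups: tori normalised by an element of order four
-/

set_option autoImplicit false
set_option linter.unusedSimpArgs false
set_option linter.unusedVariables false
set_option linter.unusedSectionVars false

namespace Cfsg.Agent.Lib.Helper6.SzT8

open Cfsg Cfsg.Agent.Lib.Helper6.Sz0 Cfsg.Agent.Lib.Helper6.Sz1 Cfsg.Agent.Lib.Helper6.Sz2
  Cfsg.Agent.Lib.Helper6.Sz3 Cfsg.Agent.Lib.Helper6.Sz4 Cfsg.Agent.Lib.Helper6.Sz5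
  Cfsg.Agent.Lib.Helper6.Sz6 Cfsg.Agent.Lib.Helper6.Sz7 Cfsg.Agent.Lib.Helper6.Sz8
  Cfsg.Agent.Lib.Helper6.Sz9 Cfsg.Agent.Lib.Helper6.Sz10 Cfsg.Agent.Lib.Helper6.Sz11
  Cfsg.Agent.Lib.Helper6.Sz12 Cfsg.Agent.Lib.Helper6.Sz13 Cfsg.Agent.Lib.Helper6.Sz14
  Cfsg.Agent.Lib.Helper6.Sz15 Cfsg.Agent.Lib.Helper6.Sz16 Cfsg.Agent.Lib.Helper6.Sz17
  Cfsg.Agent.Lib.Helper6.Sz18 Cfsg.Agent.Lib.Helper6.Sz19 Cfsg.Agent.Lib.Helper6.SzS1
  Cfsg.Agent.Lib.Helper6.SzS2 Cfsg.Agent.Lib.Helper6.SzS3 Cfsg.Agent.Lib.Helper6.SzS4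
  Cfsg.Agent.Lib.Helper6.SzS5 Cfsg.Agent.Lib.Helper6.SzS6 Cfsg.Agent.Lib.Helper6.SzS7
  Cfsg.Agent.Lib.Helper6.SzS8 Cfsg.Agent.Lib.Helper6.SzT1 Cfsg.Agent.Lib.Helper6.SzT2
  Cfsg.Agent.Lib.Helper6.SzT3 Cfsg.Agent.Lib.Helper6.SzT4 Cfsg.Agent.Lib.Helper6.SzT5
  Cfsg.Agent.Lib.Helper6.SzT6 Cfsg.Agent.Lib.Helper6.SzT7 Matrix
open scoped Pointwise

variable {F : Type*} [Field F] [Fintype F] {m : ℕ}

/-- fixed points of the twisted Frobenius map -/
theorem sg_fix (hF : Fintype.card F = 2 ^ (2 * m + 1)) {t : F} (h : sg m t = t) :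
    t = 0 ∨ t = 1 := by
  have h1 := sg_sg hF t
  rw [h, h] at h1
  have h2 : t * (t - 1) = 0 := by
    rw [mul_sub, mul_one, ← pow_two, ← h1, sub_self]
  rcases mul_eq_zero.mp h2 with h3 | h3
  · exact Or.inl h3
  · exact Or.inr (sub_eq_zero.mp h3)

/-- the commutator map of a unipotent element with non-zero first coordinate -/
noncomputable def phiC (hF : Fintype.card F = 2 ^ (2 * m + 1)) (c : F) : F →+ F :=
  AddMonoidHom.mk' (fun u => sg m u * c + sg m c * u) (by
    intro u v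
    rw [sg_add hF]
    ring)

theorem phiC_apply (hF : Fintype.card F = 2 ^ (2 * m + 1)) (c u : F) :
    phiC (m := m) hF c u = sg m u * c + sg m c * u := rfl

theorem phiC_scale (hF : Fintype.card F = 2 ^ (2 * m + 1)) (c t : F) :
    phiC (m := m) hF c (c * t) = sg m c * c * (sg m t + t) := by
  rw [phiC_apply, sg_mul]
  ring

theorem phiC_ker (hF : Fintype.card F = 2 ^ (2 * m + 1)) {c : F} (hc : c ≠ 0) (u : F) :
    phiC (m := m) hF c u = 0 ↔ u = 0 ∨ u = c := by
  have hw : sg m c * c ≠ 0 := mul_ne_zero (fun h => hc (sg_eq_zero.mp h)) hc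
  constructor
  · intro h
    have hu : u = c * (u / c) := by field_simp
    rw [hu, phiC_scale] at h
    rcases mul_eq_zero.mp h with h1 | h1
    · exact absurd h1 hw
    · have h2 : sg m (u / c) = u / c := eq_of_add_eq_zero hF h1
      rcases sg_fix hF h2 with h3 | h3
      · left
        rw [hu, h3, mul_zero]
      · right
        rw [hu, h3, mul_one]
  · rintro (rfl | rfl)
    · exact map_zero _
    · rw [phiC_apply]
      exact add_self hF _

theorem phiC_not_mem (hF : Fintype.card F = 2 ^ (2 * m + 1)) {c : F} (hc : c ≠ 0) :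
    sg m c * c ∉ (phiC (m := m) hF c).range := by
  have hw : sg m c * c ≠ 0 := mul_ne_zero (fun h => hc (sg_eq_zero.mp h)) hc
  rintro ⟨u, hu⟩
  have hu' : u = c * (u / c) := by field_simp
  rw [hu', phiC_scale] at hu
  have h1 : sg m (u / c) + u / c = 1 := by
    have h2 : sg m c * c * (sg m (u / c) + u / c) = sg m c * c * 1 := by rw [hu, mul_one]
    exact mul_left_cancel₀ hw h2
  have two := two_eq_zero hF
  have h3 : sg m (u / c) = u / c + 1 := by
    have h4 : sg m (u / c) = 1 - u / c := by rw [← h1]; ring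
    rw [h4, sub_eq hF, add_comm]
  have h5 := sg_sg hF (u / c)
  rw [h3, sg_add hF, h3, sg_one] at h5
  have h6 : u / c = (u / c) ^ 2 := by
    rw [← h5]
    linear_combination (-1 : F) * two
  have h7 : sg m (u / c) = u / c := by
    have h8 : (u / c) * (u / c - 1) = 0 := by
      rw [mul_sub, mul_one, ← pow_two, ← h6, sub_self]
    rcases mul_eq_zero.mp h8 with h9 | h9
    · rw [h9, sg_zero]
    · rw [sub_eq_zero.mp h9, sg_one]
  rw [h7, add_self hF] at h1
  exact zero_ne_one h1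

/-- the image of the commutator map together with one translate covers the field -/
theorem phiC_cover (hF : Fintype.card F = 2 ^ (2 * m + 1)) {c : F} (hc : c ≠ 0) (δ : F) :
    ∃ u : F, sg m u * c + sg m c * u = δ ∨ sg m u * c + sg m c * u = δ + sg m c * c := by
  have hker : Nat.card (phiC (m := m) hF c).ker = 2 := by
    have h1 : ((phiC (m := m) hF c).ker : Set F) = {0, c} := by
      ext u
      rw [SetLike.mem_coe, AddMonoidHom.mem_ker, phiC_ker hF hc]
      simp
    have h3 : ({0, c} : Set F).ncard = 2 := Set.ncard_pair (fun h => hc h.symm)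
    have h2 : Nat.card ((phiC (m := m) hF c).ker : Set F) = 2 := by
      rw [h1, Nat.card_coe_set_eq, h3]
    exact h2
  have h1 := AddSubgroup.card_mul_index (phiC (m := m) hF c).ker
  rw [AddSubgroup.index_ker, hker] at h1
  have h2 := AddSubgroup.card_mul_index (phiC (m := m) hF c).range
  have hpos : 0 < Nat.card (phiC (m := m) hF c).range := Nat.card_pos
  have hidx : (phiC (m := m) hF c).range.index = 2 := by
    rw [← h1] at h2
    have h3 : Nat.card (phiC (m := m) hF c).range * (phiC (m := m) hF c).range.index =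
        Nat.card (phiC (m := m) hF c).range * 2 := by
      rw [h2, mul_comm]
    exact Nat.eq_of_mul_eq_mul_left hpos h3
  have hw := phiC_not_mem (m := m) hF hc
  by_cases hδ : δ ∈ (phiC (m := m) hF c).range
  · obtain ⟨u, hu⟩ := hδ
    exact ⟨u, Or.inl hu⟩
  · have h3 := (AddSubgroup.add_mem_iff_of_index_two hidx (a := δ) (b := sg m c * c)).mpr
      (by simp [hδ, hw])
    obtain ⟨u, hu⟩ := h3
    exact ⟨u, Or.inr hu⟩

/-- conjugating a unipotent element by a unipotent element -/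
theorem uS_conj_uS (hF : Fintype.card F = 2 ^ (2 * m + 1)) (u v c e : F) :
    uS hF u v * uS hF c e * (uS hF u v)⁻¹ = uS hF c (e + (sg m u * c + sg m c * u)) := by
  have h := uS_comm hF u v c e
  have h2 : uS hF u v * uS hF c e * (uS hF u v)⁻¹ =
      uS hF 0 (sg m u * c + sg m c * u) * uS hF c e := by
    rw [← h]
    group
  rw [h2, uS_mul, sg_zero, zero_mul, add_zero, zero_add, add_comm]

/-- unipotent elements with the same non-zero first coordinate are conjugate up to inversion -/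
theorem uS_trans (hF : Fintype.card F = 2 ^ (2 * m + 1)) {c : F} (hc : c ≠ 0) (e e' : F) :
    ∃ g : Cfsg.Sz F m, g * uS hF c e * g⁻¹ = uS hF c e' ∨
      g * uS hF c e * g⁻¹ = (uS hF c e')⁻¹ := by
  obtain ⟨u, hu⟩ := phiC_cover hF hc (e + e')
  refine ⟨uS hF u 0, ?_⟩
  rw [uS_conj_uS, uS_inv]
  have two := two_eq_zero hF
  rcases hu with hu | hu
  · left
    rw [hu]
    congr 1
    linear_combination e * two
  · right
    rw [hu]
    congr 1
    linear_combination e * two

end Cfsg.Agent.Lib.Helper6.SzT8
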