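import Mathlib
import Cfsg.Prelude.Def_LieExceptional
import Cfsg.Agent.Lib.Helper6.SzT8

/-!
# Solubilizers in the Suzuki groups: elements of order four, and the final counts
-/

set_option autoImplicit false
set_option linter.unusedSimpArgs false
set_option linter.unusedVariables false
set_option linter.unusedSectionVars false

namespace Cfsg.Agent.Lib.Helper6.SzT9

open Cfsg Cfsg.Agent.Lib.Helper6.Sz0 Cfsg.Agent.Lib.Helper6.Sz1 Cfsg.Agent.Lib.Helper6.Sz2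
  Cfsg.Agent.Lib.Helper6.Sz3 Cfsg.Agent.Lib.Helper6.Sz4 Cfsg.Agent.Lib.Helper6.Sz5
  Cfsg.Agent.Lib.Helper6.Sz6 Cfsg.Agent.Lib.Helper6.Sz7 Cfsg.Agent.Lib.Helper6.Sz8
  Cfsg.Agent.Lib.Helper6.Sz9 Cfsg.Agent.Lib.Helper6.Sz10 Cfsg.Agent.Lib.Helper6.Sz11
  Cfsg.Agent.Lib.Helper6.Sz12 Cfsg.Agent.Lib.Helper6.Sz13 Cfsg.Agent.Lib.Helper6.Sz14
  Cfsg.Agent.Lib.Helper6.Sz15 Cfsg.Agent.Lib.Helper6.Sz16 Cfsg.Agent.Lib.Helper6.Sz17
  Cfsg.Agent.Lib.Helper6.Sz18 Cfsg.Agent.Lib.Helper6.Sz19 Cfsg.Agent.Lib.Helper6.SzS1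
  Cfsg.Agent.Lib.Helper6.SzS2 Cfsg.Agent.Lib.Helper6.SzS3 Cfsg.Agent.Lib.Helper6.SzS4
  Cfsg.Agent.Lib.Helper6.SzS5 Cfsg.Agent.Lib.Helper6.SzS6 Cfsg.Agent.Lib.Helper6.SzS7
  Cfsg.Agent.Lib.Helper6.SzS8 Cfsg.Agent.Lib.Helper6.SzT1 Cfsg.Agent.Lib.Helper6.SzT2
  Cfsg.Agent.Lib.Helper6.SzT3 Cfsg.Agent.Lib.Helper6.SzT4 Cfsg.Agent.Lib.Helper6.SzT5
  Cfsg.Agent.Lib.Helper6.SzT6 Cfsg.Agent.Lib.Helper6.SzT7 Cfsg.Agent.Lib.Helper6.SzT8 Matrix
open scoped Pointwise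

variable {F : Type*} [Field F] [Fintype F] {m : ℕ}

/-- normalising the centraliser of a fixed-point-free element, in terms of commutation -/
theorem mem_norm_cent_iff (hm : 1 ≤ m) (hF : Fintype.card F = 2 ^ (2 * m + 1))
    {τ v : Cfsg.Sz F m} (hτ : Fpf τ) :
    v ∈ Subgroup.normalizer ((Subgroup.centralizer ({τ} : Set (Cfsg.Sz F m)) :
      Subgroup (Cfsg.Sz F m)) : Set (Cfsg.Sz F m)) ↔
      τ * (v * τ * v⁻¹) = (v * τ * v⁻¹) * τ := by
  constructor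
  · intro hv
    have h1 := (Subgroup.mem_normalizer_iff.mp hv τ).mp (self_mem_centralizer τ)
    exact mem_centralizer_single.mp h1
  · intro h
    have hT := IsT.of_fpf hτ
    have h1 : v * τ * v⁻¹ ∈ Subgroup.centralizer ({τ} : Set (Cfsg.Sz F m)) :=
      mem_centralizer_single.mpr h
    have h2 := (IsT.fpf hm hF hT h1 (conj_ne hτ.ne_one)).2
    rw [Subgroup.mem_normalizer_iff]
    intro u
    have e : v * u * v⁻¹ ∈ Subgroup.centralizer ({τ} : Set (Cfsg.Sz F m)) ↔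
        v * u * v⁻¹ ∈ Subgroup.centralizer ({v * τ * v⁻¹} : Set (Cfsg.Sz F m)) := by rw [h2]
    have e2 : v⁻¹ * (v * u * v⁻¹) * v = u := by group
    rw [e, mem_centralizer_conj, e2]

theorem ZN_conj_mem (hm : 1 ≤ m) (hF : Fintype.card F = 2 ^ (2 * m + 1)) (g : Cfsg.Sz F m)
    {v τ : Cfsg.Sz F m} (h : τ ∈ ZN v) : g * τ * g⁻¹ ∈ ZN (g * v * g⁻¹) := by
  obtain ⟨hf, hN⟩ := h
  refine ⟨hf.conj g, ?_⟩
  rw [mem_norm_cent_iff hm hF (hf.conj g)]
  have h1 := (mem_norm_cent_iff hm hF hf).mp hN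
  calc g * τ * g⁻¹ * (g * v * g⁻¹ * (g * τ * g⁻¹) * (g * v * g⁻¹)⁻¹)
      = g * (τ * (v * τ * v⁻¹)) * g⁻¹ := by group
    _ = g * ((v * τ * v⁻¹) * τ) * g⁻¹ := by rw [h1]
    _ = _ := by group

theorem ncard_ZN_conj (hm : 1 ≤ m) (hF : Fintype.card F = 2 ^ (2 * m + 1))
    (g v : Cfsg.Sz F m) : (ZN (g * v * g⁻¹)).ncard = (ZN v).ncard := by
  have h : ZN (g * v * g⁻¹) = (fun τ => g * τ * g⁻¹) '' ZN v := by
    ext τ
    constructor
    · intro hτ
      have h1 := ZN_conj_mem hm hF g⁻¹ hτ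
      have e : g⁻¹ * (g * v * g⁻¹) * g⁻¹⁻¹ = v := by group
      rw [e] at h1
      refine ⟨_, h1, ?_⟩
      show g * (g⁻¹ * τ * g⁻¹⁻¹) * g⁻¹ = τ
      group
    · rintro ⟨τ', hτ', rfl⟩
      exact ZN_conj_mem hm hF g hτ'
  rw [h, Set.ncard_image_of_injective _ (conj_injective g)]

omit [Fintype F] in
theorem ZN_inv (v : Cfsg.Sz F m) : ZN v⁻¹ = ZN v := by
  ext τ
  constructor
  · rintro ⟨hf, hN⟩
    exact ⟨hf, by simpa using inv_mem hN⟩
  · rintro ⟨hf, hN⟩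
    exact ⟨hf, inv_mem hN⟩

theorem ncard_ZN_uS (hm : 1 ≤ m) (hF : Fintype.card F = 2 ^ (2 * m + 1)) {c : F}
    (hc : c ≠ 0) (e e' : F) : (ZN (uS hF c e')).ncard = (ZN (uS hF c e)).ncard := by
  obtain ⟨g, hg | hg⟩ := uS_trans hF hc e e'
  · rw [← hg, ncard_ZN_conj hm hF]
  · rw [← ZN_inv (uS hF c e'), ← hg, ncard_ZN_conj hm hF]

/-- the square roots of a central involution in the normaliser of a torus -/
theorem root_set (hm : 1 ≤ m) (hF : Fintype.card F = 2 ^ (2 * m + 1)) {c : F} (hc : c ≠ 0)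
    {τ : Cfsg.Sz F m} (hτ : τ ∈ ZN (uS hF 0 (sg m c * c))) :
    ∃ e₁ : F, ∀ e' : F, uS hF c e' ∈ Subgroup.normalizer
      ((Subgroup.centralizer ({τ} : Set (Cfsg.Sz F m)) : Subgroup (Cfsg.Sz F m)) :
        Set (Cfsg.Sz F m)) ↔ (e' = e₁ ∨ e' = e₁ + sg m c * c) := by
  obtain ⟨hf, hN⟩ := hτ
  have hb : sg m c * c ≠ 0 := mul_ne_zero (fun h => hc (sg_eq_zero.mp h)) hc
  have hT := IsT.of_fpf hf
  obtain ⟨y₁, hy₁N, hy₁, huniq⟩ := sq_fiber hm hF hT hN (uS_zero_ne_one hF hb)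
    (uS_zero_sq hF _)
  have hcomm : y₁ * uS hF 0 (sg m c * c) = uS hF 0 (sg m c * c) * y₁ := by
    rw [← hy₁, mul_assoc]
  obtain ⟨c', e₁, hy₁e⟩ := cent_center hm hF hb hcomm
  rw [hy₁e] at hy₁ hy₁N
  rw [uS_sq] at hy₁
  have h1 := (uS_inj hF hy₁).2
  have hc' : c' ≠ 0 := by
    intro h0
    rw [h0, mul_zero] at h1
    exact hb h1.symm
  have hcc : c' = c := sg_mul_self_inj' hF hc' hc h1
  rw [hcc] at hy₁N
  refine ⟨e₁, fun e' => ?_⟩
  constructor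
  · intro h
    rcases huniq _ h (uS_sq hF c e') with h2 | h2
    · left
      rw [hy₁e, hcc] at h2
      exact (uS_inj hF h2).2
    · right
      rw [hy₁e, hcc, uS_mul] at h2
      have h3 := (uS_inj hF h2).2
      rw [h3, mul_zero, add_zero]
  · rintro (rfl | rfl)
    · exact hy₁N
    · have e2 : uS hF c (e₁ + sg m c * c) = uS hF c e₁ * uS hF 0 (sg m c * c) := by
        rw [uS_mul, mul_zero, add_zero, add_zero]
      rw [e2]
      exact mul_mem hy₁N hN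

/-- the number of fixed-point-free elements whose centraliser is normalised by a given
element of order four -/
theorem ncard_ZN_four (hm : 1 ≤ m) (hF : Fintype.card F = 2 ^ (2 * m + 1)) {c : F}
    (hc : c ≠ 0) (e : F) : (ZN (uS hF c e)).ncard = (2 ^ (2 * m + 1)) ^ 2 := by
  classical
  have hb : sg m c * c ≠ 0 := mul_ne_zero (fun h => hc (sg_eq_zero.mp h)) hc
  have hz := ncard_ZN_invol hm hF hb
  have hsq : ∀ (τ : Cfsg.Sz F m) (e' : F), τ ∈ ZN (uS hF c e') →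
      τ ∈ ZN (uS hF 0 (sg m c * c)) := by
    rintro τ e' ⟨hf, hN⟩
    refine ⟨hf, ?_⟩
    have h3 := mul_mem hN hN
    rw [uS_sq] at h3
    exact h3
  have c1 : Nat.card {p : Cfsg.Sz F m × F // p.1 ∈ ZN (uS hF c p.2)} =
      (ZN (uS hF 0 (sg m c * c))).ncard * 2 := by
    have hr : Set.range (fun p : {p : Cfsg.Sz F m × F // p.1 ∈ ZN (uS hF c p.2)} => p.1.1) =
        ZN (uS hF 0 (sg m c * c)) := by
      ext τ
      constructor
      · rintro ⟨⟨⟨τ', e'⟩, hp⟩, rfl⟩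
        exact hsq τ' e' hp
      · intro hτ
        obtain ⟨e₁, he₁⟩ := root_set hm hF hc hτ
        exact ⟨⟨(τ, e₁), hτ.1, (he₁ e₁).mpr (Or.inl rfl)⟩, rfl⟩
    rw [← hr]
    apply card_eq_mul_of_fibers
    rintro ⟨⟨τ, e₀⟩, hp⟩
    have hτz := hsq τ e₀ hp
    obtain ⟨e₁, he₁⟩ := root_set hm hF hc hτz
    have hne : e₁ ≠ e₁ + sg m c * c := by
      intro h
      apply hb
      have h4 : e₁ + sg m c * c = e₁ + 0 := by rw [add_zero]; exact h.symm
      exact add_left_cancel h4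
    apply card_eq_two_of_image (fun p' : {p' : {p : Cfsg.Sz F m × F //
      p.1 ∈ ZN (uS hF c p.2)} // p'.1.1 = τ} => p'.1.1.2) ?_ e₁ (e₁ + sg m c * c) hne
    · intro e'
      constructor
      · rintro ⟨⟨⟨⟨τ', e''⟩, hp'⟩, hτ'⟩, rfl⟩
        have hτ'' : τ' = τ := hτ'
        subst hτ''
        exact (he₁ e'').mp hp'.2
      · intro h
        exact ⟨⟨⟨(τ, e'), hp.1, (he₁ e').mpr h⟩, rfl⟩, rfl⟩
    · rintro ⟨⟨⟨τ1, e1⟩, hp1⟩, h1⟩ ⟨⟨⟨τ2, e2⟩, hp2⟩, h2⟩ h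
      have h1' : τ1 = τ := h1
      have h2' : τ2 = τ := h2
      have h' : e1 = e2 := h
      subst h1' h2' h'
      rfl
  have c2 : Nat.card {p : Cfsg.Sz F m × F // p.1 ∈ ZN (uS hF c p.2)} =
      2 ^ (2 * m + 1) * (ZN (uS hF c e)).ncard := by
    let eq : {p : Cfsg.Sz F m × F // p.1 ∈ ZN (uS hF c p.2)} ≃
        Σ e' : F, {τ : Cfsg.Sz F m // τ ∈ ZN (uS hF c e')} :=
      { toFun := fun p => ⟨p.1.2, ⟨p.1.1, p.2⟩⟩
        invFun := fun s => ⟨(s.2.1, s.1), s.2.2⟩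
        left_inv := fun p => rfl
        right_inv := fun s => rfl }
    rw [Nat.card_congr eq, Nat.card_sigma]
    have hf : ∀ e' : F, Nat.card {τ : Cfsg.Sz F m // τ ∈ ZN (uS hF c e')} =
        (ZN (uS hF c e)).ncard := by
      intro e'
      rw [← ncard_ZN_uS hm hF hc e e', ← Nat.card_coe_set_eq]
    simp only [hf, Finset.sum_const, Finset.card_univ, smul_eq_mul]
    rw [hF]
  have hq : 0 < 2 ^ (2 * m + 1) := by positivity
  have h5 : 2 ^ (2 * m + 1) * (ZN (uS hF c e)).ncard =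
      2 ^ (2 * m + 1) * (2 ^ (2 * m + 1)) ^ 2 := by
    rw [← c2, c1, mul_comm, hz]
    ring
  exact Nat.eq_of_mul_eq_mul_left hq h5

/-- the solubilizer of an element of order four -/
theorem sol_four (hm : 1 ≤ m) (hp : (2 * m + 1).Prime) (hF : Fintype.card F = 2 ^ (2 * m + 1))
    {c : F} (hc : c ≠ 0) (e : F) (y : Cfsg.Sz F m) :
    y ∈ Sol (uS hF c e) ↔ y • ainf F m = ainf F m ∨
      y ∈ Set.range (fun p : Fin 4 × ZN (uS hF c e) => (uS hF c e) ^ (p.1 : ℕ) * p.2.1) := by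
  have hx4 : uS hF c e ^ 4 = 1 := uS_pow_four hF c e
  have hxx : uS hF c e * uS hF c e = uS hF 0 (sg m c * c) := uS_sq hF c e
  have hb : sg m c * c ≠ 0 := mul_ne_zero (fun h => hc (sg_eq_zero.mp h)) hc
  have hz1 : uS hF c e * uS hF c e ≠ 1 := by
    rw [hxx]
    exact uS_zero_ne_one hF hb
  have hxa : uS hF c e • ainf F m = ainf F m := uS_ainf hF c e
  have huniq : ∀ p : Cfsg.suzukiOvoid F m, uS hF c e • p = p → p = ainf F m :=
    fun p h => fix_uS hF (fun h => hc h.1) h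
  have hxxa : (uS hF c e * uS hF c e) • ainf F m = ainf F m := by
    rw [mul_smul, hxa, hxa]
  constructor
  · intro hsol
    by_cases hya : y • ainf F m = ainf F m
    · left
      exact hya
    right
    rcases (sol_iff hm hp hF _ y).mp hsol with ⟨c', hxc, hyc⟩ | ⟨c', d', hcd, hxN, hyN⟩ |
      ⟨T, hT, hxT, hyT⟩
    · exact absurd (huniq c' hxc ▸ hyc) hya
    · exfalso
      rw [mem_Npair] at hxN
      rcases hxN with ⟨x1, x2⟩ | ⟨x1, x2⟩
      · exact hcd ((huniq c' x1).trans (huniq d' x2).symm)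
      · exact hz1 (swap_sq hm hF hcd x1 x2)
    · have hcard := isT_card_norm hm hF hT
      have hx2T : uS hF c e ^ 2 ∉ T := by
        rw [pow_two]
        intro h
        exact (IsT.fpf hm hF hT h hz1).1 (ainf F m) hxxa
      obtain ⟨i, τ, hτ, hyi⟩ := exists_pow_mul T hcard hxT hyT hx2T
      have hred : uS hF c e ^ i = uS hF c e ^ (i % 4) := by
        conv_lhs => rw [← Nat.div_add_mod i 4]
        rw [pow_add, pow_mul, hx4, one_pow, one_mul]
      have hτ1 : τ ≠ 1 := by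
        rintro rfl
        apply hya
        rw [hyi, mul_one]
        exact pow_fix hxa i
      obtain ⟨hf, hcent⟩ := IsT.fpf hm hF hT hτ hτ1
      refine ⟨(⟨i % 4, Nat.mod_lt _ (by norm_num)⟩, ⟨τ, hf, by rw [hcent]; exact hxT⟩), ?_⟩
      show uS hF c e ^ (i % 4) * τ = y
      rw [← hred, hyi]
  · rintro (h | ⟨⟨i, ⟨τ, hf, hN⟩⟩, rfl⟩)
    · exact (sol_iff hm hp hF _ y).mpr (Or.inl ⟨ainf F m, hxa, h⟩)
    · rw [sol_iff hm hp hF]
      refine Or.inr (Or.inr ⟨_, IsT.of_fpf hf, hN, ?_⟩)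
      exact mul_mem (pow_mem hN _) (Subgroup.le_normalizer (self_mem_centralizer τ))

theorem ncard_sol_four (hm : 1 ≤ m) (hp : (2 * m + 1).Prime)
    (hF : Fintype.card F = 2 ^ (2 * m + 1)) {c : F} (hc : c ≠ 0) (e : F) :
    (Sol (uS hF c e)).ncard = (2 ^ (2 * m + 1)) ^ 2 * (2 ^ (2 * m + 1) + 3) := by
  have hx4 : uS hF c e ^ 4 = 1 := uS_pow_four hF c e
  have hxx : uS hF c e * uS hF c e = uS hF 0 (sg m c * c) := uS_sq hF c e
  have hb : sg m c * c ≠ 0 := mul_ne_zero (fun h => hc (sg_eq_zero.mp h)) hc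
  have hz1 : uS hF c e * uS hF c e ≠ 1 := by
    rw [hxx]
    exact uS_zero_ne_one hF hb
  have hxa : uS hF c e • ainf F m = ainf F m := uS_ainf hF c e
  have hS : Sol (uS hF c e) = {y : Cfsg.Sz F m | y • ainf F m = ainf F m} ∪
      Set.range (fun p : Fin 4 × ZN (uS hF c e) => (uS hF c e) ^ (p.1 : ℕ) * p.2.1) := by
    ext y
    rw [sol_four hm hp hF hc e]
    rfl
  have hd : Disjoint {y : Cfsg.Sz F m | y • ainf F m = ainf F m}
      (Set.range (fun p : Fin 4 × ZN (uS hF c e) => (uS hF c e) ^ (p.1 : ℕ) * p.2.1)) := by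
    rw [Set.disjoint_left]
    rintro y hya ⟨⟨i, ⟨τ, hf, hN⟩⟩, rfl⟩
    apply hf (ainf F m)
    have h1 : (uS hF c e ^ (i : ℕ) * τ) • ainf F m = ainf F m := hya
    rw [mul_smul] at h1
    have h2 := pow_fix hxa (i : ℕ)
    exact smul_left_cancel (uS hF c e ^ (i : ℕ)) (h1.trans h2.symm)
  have hord : orderOf (uS hF c e) = 4 := by
    rw [orderOf_eq_iff (by norm_num)]
    refine ⟨hx4, fun k hk hk0 => ?_⟩
    interval_cases k
    · rw [pow_one]
      intro h1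
      rw [h1] at hz1
      exact hz1 (mul_one 1)
    · rw [pow_two]
      exact hz1
    · intro h3
      have h1 : uS hF c e = 1 := by
        calc uS hF c e = uS hF c e ^ 4 * (uS hF c e ^ 3)⁻¹ := by group
          _ = 1 := by rw [hx4, h3]; group
      rw [h1] at hz1
      exact hz1 (mul_one 1)
  have hinj : Function.Injective
      (fun p : Fin 4 × ZN (uS hF c e) => (uS hF c e) ^ (p.1 : ℕ) * p.2.1) := by
    rintro ⟨i, ⟨τ, hf, hN⟩⟩ ⟨j, ⟨τ', hf', hN'⟩⟩ h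
    have h' : uS hF c e ^ (i : ℕ) * τ = uS hF c e ^ (j : ℕ) * τ' := h
    have hT := IsT.of_fpf hf
    have hcard := isT_card_norm hm hF hT
    have e1 : τ' = (uS hF c e ^ (j : ℕ))⁻¹ * (uS hF c e ^ (i : ℕ) * τ) := by
      rw [h']
      group
    have hτ'N : τ' ∈ Subgroup.normalizer ((Subgroup.centralizer ({τ} : Set (Cfsg.Sz F m)) :
        Subgroup (Cfsg.Sz F m)) : Set (Cfsg.Sz F m)) := by
      rw [e1]
      exact mul_mem (inv_mem (pow_mem hN _))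
        (mul_mem (pow_mem hN _) (Subgroup.le_normalizer (self_mem_centralizer τ)))
    have hodd : Odd (orderOf τ') := by
      rw [← Nat.not_even_iff_odd, even_iff_two_dvd]
      exact hf'.odd_order hm hF
    have hτ'T := odd_mem _ hcard hτ'N hodd
    have hu : (uS hF c e ^ (j : ℕ))⁻¹ * uS hF c e ^ (i : ℕ) ∈
        Subgroup.centralizer ({τ} : Set (Cfsg.Sz F m)) := by
      have e2 : (uS hF c e ^ (j : ℕ))⁻¹ * uS hF c e ^ (i : ℕ) = τ' * τ⁻¹ := by
        rw [e1]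
        group
      rw [e2]
      exact mul_mem hτ'T (inv_mem (self_mem_centralizer τ))
    have hu1 : (uS hF c e ^ (j : ℕ))⁻¹ * uS hF c e ^ (i : ℕ) = 1 := by
      by_contra hne
      apply (IsT.fpf hm hF hT hu hne).1 (ainf F m)
      rw [mul_smul, pow_fix hxa, inv_smul_eq_iff, pow_fix hxa]
    have hpow : uS hF c e ^ (i : ℕ) = uS hF c e ^ (j : ℕ) := by
      calc uS hF c e ^ (i : ℕ)
          = uS hF c e ^ (j : ℕ) * ((uS hF c e ^ (j : ℕ))⁻¹ * uS hF c e ^ (i : ℕ)) := by group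
        _ = uS hF c e ^ (j : ℕ) := by rw [hu1, mul_one]
    have hij : (i : ℕ) = j :=
      pow_injOn_Iio_orderOf (by rw [hord]; exact i.2) (by rw [hord]; exact j.2) hpow
    have hij' : i = j := Fin.ext hij
    subst hij'
    have hττ : τ = τ' := mul_left_cancel h'
    subst hττ
    rfl
  rw [hS, Set.ncard_union_eq hd, ncard_stab hm hF, Set.ncard_range_of_injective hinj,
    Nat.card_prod, Nat.card_fin, Nat.card_coe_set_eq, ncard_ZN_four hm hF hc e]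
  have hq := q_ge_eight hm
  obtain ⟨k, hk⟩ : ∃ k, 2 ^ (2 * m + 1) = k + 1 := ⟨2 ^ (2 * m + 1) - 1, by omega⟩
  rw [hk]
  have e1 : k + 1 - 1 = k := by omega
  rw [e1]
  ring

/-- the solubilizer of an involution -/
theorem ncard_sol_two (hm : 1 ≤ m) (hp : (2 * m + 1).Prime)
    (hF : Fintype.card F = 2 ^ (2 * m + 1)) {x : Cfsg.Sz F m} (hx : orderOf x = 2) :
    (Sol x).ncard = (2 ^ (2 * m + 1)) ^ 2 * (4 * 2 ^ (2 * m + 1) - 3) := by
  have hx2 : x * x = 1 := by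
    rw [← pow_two, ← hx]
    exact pow_orderOf_eq_one x
  have hx1 : x ≠ 1 := by
    intro h
    rw [h, orderOf_one] at hx
    omega
  obtain ⟨a, ha⟩ := exists_fix_of_two_pow hF (y := x) (j := 1) (by rw [pow_one, pow_two, hx2])
  have := pretransitive hF (m := m)
  obtain ⟨t, ht⟩ := MulAction.exists_smul_eq (Cfsg.Sz F m) (ainf F m) a
  have h1 : (t⁻¹ * x * t) • ainf F m = ainf F m := by
    rw [mul_smul, mul_smul, ht, ha, ← ht, inv_smul_smul]
  have h2 : (t⁻¹ * x * t) * (t⁻¹ * x * t) = 1 := by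
    calc _ = t⁻¹ * (x * x) * t := by group
      _ = 1 := by rw [hx2]; group
  obtain ⟨b, hb, hxb⟩ := invol_ainf hm hF (conj_ne_one hx1) h2 h1
  have e : x = t * uS hF 0 b * t⁻¹ := by
    rw [← hxb]
    group
  rw [e, ncard_Sol_conj]
  exact ncard_sol_uS0 hm hp hF hb

/-- the solubilizer of an element of order four -/
theorem ncard_sol_order_four (hm : 1 ≤ m) (hp : (2 * m + 1).Prime)
    (hF : Fintype.card F = 2 ^ (2 * m + 1)) {x : Cfsg.Sz F m} (hx : orderOf x = 4) :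
    (Sol x).ncard = (2 ^ (2 * m + 1)) ^ 2 * (2 ^ (2 * m + 1) + 3) := by
  have hx4 : x ^ 4 = 1 := by
    have h0 := pow_orderOf_eq_one x
    rw [hx] at h0
    exact h0
  have hx2 : x * x ≠ 1 := by
    intro h
    have h1 : orderOf x ∣ 2 := orderOf_dvd_of_pow_eq_one (by rw [pow_two]; exact h)
    rw [hx] at h1
    omega
  obtain ⟨a, ha⟩ := exists_fix_of_two_pow hF (y := x) (j := 2) (by norm_num; exact hx4)
  have := pretransitive hF (m := m)
  obtain ⟨t, ht⟩ := MulAction.exists_smul_eq (Cfsg.Sz F m) (ainf F m) a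
  have h1 : (t⁻¹ * x * t) • ainf F m = ainf F m := by
    rw [mul_smul, mul_smul, ht, ha, ← ht, inv_smul_smul]
  have h2 : (t⁻¹ * x * t) ^ (2 ^ 2) = 1 := by
    have e4 : (2 : ℕ) ^ 2 = 4 := by norm_num
    rw [e4]
    have e5 : t⁻¹ * x * t = t⁻¹ * x * t⁻¹⁻¹ := by rw [inv_inv]
    rw [e5, conj_pow, hx4]
    group
  obtain ⟨c, e', hxc⟩ := two_pow_mem_U hm hF h1 h2
  have hc : c ≠ 0 := by
    rintro rfl
    apply hx2
    have h3 : (t⁻¹ * x * t) * (t⁻¹ * x * t) = 1 := by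
      rw [hxc, uS_sq, sg_zero, zero_mul, uS_zero]
    calc x * x = t * ((t⁻¹ * x * t) * (t⁻¹ * x * t)) * t⁻¹ := by group
      _ = 1 := by rw [h3]; group
  have e : x = t * uS hF c e' * t⁻¹ := by
    rw [← hxc]
    group
  rw [e, ncard_Sol_conj]
  exact ncard_sol_four hm hp hF hc e'

end Cfsg.Agent.Lib.Helper6.SzT9
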